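import Cfsg.Statements.S0977
import Mathlib
import Cfsg.Agent.Lib.Defect1.Rational

set_option autoImplicit false
open Cfsg

namespace Cfsg.Agent.S0977

open Cfsg.Lib Subgroup


/-- No finite simple group has order 4320 = 2^5 * 3^3 * 5. -/
theorem result {G : Type*} [Group G] [Finite G] [IsSimpleGroup G] : Nat.card G ≠ 4320 := by
  intro h
  have := Fintype.ofFinite G
  have hG := sm_not_comm_of_not_prime (G := G) (by rw [h]; norm_num)
  obtain ⟨_, x, hx, hi, D, L, hL, h2⟩ := sv_exists_data (p := 5) (v1 := true) hG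
    (by rw [h]; decide +kernel) (by rw [h]; decide +kernel)
  rw [h, show svSols 4320 5 true = [(216, 4, 1, [36, -24, -9], 4), (216, 4, 1, [36, -24, -4], 9),
    (216, 4, 1, [36, -9, -4], 24), (216, 4, 1, [-24, -9, -4], -36)] by decide +kernel] at h2
  obtain ⟨χ, -, h3, h4⟩ := D.exists_rational hi hL (a := 4) (by
    rw [← D.natAbs_θ]
    simp only [List.mem_cons, Prod.mk.injEq, List.not_mem_nil, or_false] at h2
    rcases h2 with h2 | h2 | h2 | h2 <;> rw [h2.2.1, h2.2.2.2.1, h2.2.2.2.2] <;> decide)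
  have h1 : χ ≠ ⟨1, isIrrCharacter_one⟩ := by rintro rfl; simp [irrDeg_one] at h3
  have : Fact (Nat.Prime 3) := ⟨by norm_num⟩
  obtain ⟨P⟩ : Nonempty (Sylow 3 G) := inferInstance
  have h5 := blichfeldt χ.2.isGen P {1, -2} (n := 4) (fun g hg hg1 => by
    obtain ⟨a, ha⟩ := h4 g
    obtain ⟨k, hk⟩ := P.isPGroup' ⟨g, hg⟩
    have h6 := char_int_modEq (p := 3) χ.2.isCharacter (u := g) (w := 1) (k := k)
      (congrArg Subtype.val hk) (Commute.one_right g) (a := a) (b := 4) (by rwa [mul_one])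
      (by rw [coe_irrDeg, h3]; simp)
    have h7 := irr_int_abs_lt hG h1 hg1 ha
    rw [h3, abs_lt] at h7
    exact ⟨a, by simp only [Finset.mem_insert, Finset.mem_singleton]; omega, ha⟩)
    (by rw [coe_irrDeg, h3]; simp)
  rw [sm_card_sylow_eq P (k := 3) (m := 160) h (by norm_num)] at h5
  exact absurd h5 (by decide)

end Cfsg.Agent.S0977
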