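import Cfsg.Statements.S0982
import Mathlib
import Cfsg.Agent.Lib.Small.RecPSL2

set_option autoImplicit false
open Cfsg

namespace Cfsg.Agent.S0982

open Cfsg.Lib Subgroup


/-- A simple group of order 6072 is isomorphic to the projective special linear group of dimension 2 over the field with 23 elements. -/
theorem result {G : Type*} [Group G] [Finite G] [IsSimpleGroup G] (h : Nat.card G = 6072) {F : Type*} [Field F] [Fintype F] (hF : Fintype.card F = 23) : Nonempty (G ≃* Matrix.ProjectiveSpecialLinearGroup (Fin 2) F) := by
  have := Fintype.ofFinite G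
  have hG := sm_not_comm_of_not_prime (G := G) (by rw [h]; norm_num)
  obtain ⟨_, x, hx, hi, D, L, -, h2⟩ := sv_exists_data (p := 23) (v1 := false) hG
    (by rw [h]; decide +kernel) (by simp)
  have h3 := of_decide_eq_true (List.all_eq_true.mp (show (svSols 6072 23 false).all
    (fun o => decide (o.1 = 23 + 1 ∧ o.2.2.1 = 1)) = true by decide +kernel) _ (h ▸ h2))
  exact sm_psl_of_prime (sm_commutator_eq_top hG) hx (d1_centralizer_eq_of_card_V hx hi h3.2) h3.1
    (by rw [h]) hF

end Cfsg.Agent.S0982
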