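import Cfsg.Statements.S0983
import Mathlib
import Cfsg.Agent.Lib.Defect1.Rational
import Cfsg.Agent.S0977

set_option autoImplicit false
open Cfsg

namespace Cfsg.Agent.S0983

open Cfsg.Lib Subgroup

theorem index_ge {G : Type*} [Group G] [Finite G] [IsSimpleGroup G] (hG : ¬ IsMulCommutative G)
    {k : ℕ} (h : ¬ 2 * Nat.card G ∣ k.factorial) {H : Subgroup G} (hH : H ≠ ⊤) : k < H.index := by
  by_contra hlt
  exact h ((sm_two_mul_card_dvd_factorial hG hH).trans (Nat.factorial_dvd_factorial (not_lt.mp hlt)))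

theorem sylow_index {G : Type*} [Group G] [Finite G] {p k m : ℕ} [hp : Fact p.Prime] (P : Sylow p G)
    (h : Nat.card G = p ^ k * m) (hm : ¬ p ∣ m) : (P : Subgroup G).index = m := by
  have := (P : Subgroup G).card_mul_index
  rw [sm_card_sylow_eq P h hm, h] at this
  exact Nat.eq_of_mul_eq_mul_left (pow_pos hp.out.pos k) this

theorem ne4500 {G : Type*} [Group G] [Finite G] [IsSimpleGroup G] (hG : ¬ IsMulCommutative G) :
    Nat.card G ≠ 4500 := fun h => by
  have : Fact (Nat.Prime 5) := ⟨by norm_num⟩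
  obtain ⟨P⟩ : Nonempty (Sylow 5 G) := inferInstance
  have h1 := mem_svN (p := 5) hG (by rw [h]; norm_num)
  rw [h, show svN 4500 5 = [36] by decide +kernel, List.mem_singleton] at h1
  obtain ⟨H, h2, h3⟩ := sm_exists_index_le hG (by rw [h]; norm_num) (by rw [h1]; decide) P
  have h4 := index_ge hG (k := 6) (by rw [h]; decide) h2
  rw [sylow_index P (k := 3) (m := 36) h (by norm_num)] at h3
  omega

theorem ne5292 {G : Type*} [Group G] [Finite G] [IsSimpleGroup G] (hG : ¬ IsMulCommutative G) :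
    Nat.card G ≠ 5292 := fun h => by
  have : Fact (Nat.Prime 7) := ⟨by norm_num⟩
  obtain ⟨P⟩ : Nonempty (Sylow 7 G) := inferInstance
  have h1 := mem_svN (p := 7) hG (by rw [h]; norm_num)
  rw [h, show svN 5292 7 = [36] by decide +kernel, List.mem_singleton] at h1
  obtain ⟨H, h2, h3⟩ := sm_exists_index_le hG (by rw [h]; norm_num) (by rw [h1]; decide) P
  have h4 := index_ge hG (k := 13) (by rw [h]; decide) h2
  rw [sylow_index P (k := 2) (m := 108) h (by norm_num)] at h3
  omega

theorem ne5400 {G : Type*} [Group G] [Finite G] [IsSimpleGroup G] (hG : ¬ IsMulCommutative G) :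
    Nat.card G ≠ 5400 := fun h => by
  classical
  have : Fact (Nat.Prime 5) := ⟨by norm_num⟩
  have : Fact (Nat.Prime 3) := ⟨by norm_num⟩
  obtain ⟨P⟩ : Nonempty (Sylow 5 G) := inferInstance
  have hc : ∀ Q : Sylow 5 G, Nat.card (Q : Subgroup G) = 5 ^ 2 := fun Q =>
    sm_card_sylow_eq Q (m := 216) h (by norm_num)
  have hcm : ∀ Q : Sylow 5 G, IsMulCommutative (Q : Subgroup G) := fun Q =>
    IsPGroup.isMulCommutative_of_card_eq_prime_sq (hc Q)
  have := hcm P
  have h1 := mem_svN (p := 5) hG (by rw [h]; norm_num)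
  have h2 := sm_card_eq_sylow_mul P
  have h3 := sm_relIndex_centralizer_ne_one hG (by rw [h]; norm_num) P
  have h4 : 5 ^ 2 ∣ Nat.card (centralizer ((P : Subgroup G) : Set G)) :=
    hc P ▸ card_dvd_of_le (P : Subgroup G).le_centralizer
  rw [h, show svN 5400 5 = [36, 216] by decide +kernel] at h1
  have hn : Nat.card (Sylow 5 G) = 36 := by
    refine (List.mem_cons.mp h1).resolve_right fun e => h3 ?_
    obtain ⟨c, hc⟩ := h4
    rw [h, List.mem_singleton.mp e, hc] at h2
    exact Nat.eq_one_of_mul_eq_one_right (n := c) (by linarith)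
  have hN : Nat.card (normalizer ((P : Subgroup G) : Set G)) = 150 := by
    have := (normalizer ((P : Subgroup G) : Set G)).index_mul_card
    rw [P.coe_coe, ← P.card_eq_index_normalizer, hn, h] at this
    rw [P.coe_coe]; omega
  obtain ⟨y, hy, hy3⟩ := sm_exists_mem_orderOf_eq Nat.prime_three _ (hN ▸ (by norm_num : 3 ∣ 150))
  have hyP : ∀ u ∈ zpowers y, u • P = P := fun u hu =>
    Sylow.smul_eq_iff_mem_normalizer.mpr (zpowers_le_of_mem hy hu)
  have hinv : ∀ u : G, u • P = P → ∀ Q : Sylow 5 G, (P : Subgroup G) ⊓ Q = ⊥ →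
      (P : Subgroup G) ⊓ (u • Q : Sylow 5 G) = ⊥ := fun u hu Q hQ => by
    rw [← hu, sm_coe_sylow_smul, sm_coe_sylow_smul, ← map_inf _ _ _ (MulAut.conj u).injective, hQ,
      Subgroup.map_bot]
  have hP1 : (P : Subgroup G) ≠ ⊥ := P.ne_bot_of_dvd_card (by rw [h]; norm_num)
  have hT := sm_dvd_card_of_orbits (H := (P : Subgroup G)) {Q : Sylow 5 G | (P : Subgroup G) ⊓ Q = ⊥}
    (fun u Q hQ => hinv u (Sylow.smul_eq_iff_mem_normalizer.mpr (le_normalizer u.2)) Q hQ) (d := 25)
    fun Q hQ => by
      have := pg_card_eq_relIndex_mul_card_inf (Q : Subgroup G) P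
      rw [hQ, card_bot, mul_one, hc] at this
      rw [sm_card_orbit_sylow P.isPGroup', ← this]; rfl
  obtain ⟨Q, ⟨hQP, hQ⟩, hyQ⟩ : ∃ Q ∈ {Q : Sylow 5 G | Q ≠ P ∧ (P : Subgroup G) ⊓ Q ≠ ⊥}, y • Q = Q := by
    by_contra hne
    push Not at hne
    have hS := sm_dvd_card_of_orbits (H := zpowers y) {Q : Sylow 5 G | Q ≠ P ∧ (P : Subgroup G) ⊓ Q ≠ ⊥}
      (fun u Q hQ => ⟨fun e => hQ.1 (MulAction.injective (u : G) (e.trans (hyP u u.2).symm)),
        fun e => hQ.2 (by simpa [smul_def] using hinv _ (hyP _ (inv_mem u.2)) _ e)⟩) (d := 3) fun Q hQ => by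
      have h5 : Nat.card (MulAction.orbit (zpowers y) Q) ∣ 3 := by
        rw [Nat.card_congr (MulAction.orbitEquivQuotientStabilizer _ Q), ← index, ← hy3,
          ← Nat.card_zpowers]
        exact index_dvd_card _
      rcases (Nat.dvd_prime Nat.prime_three).mp h5 with e | e
      · have := (Nat.card_eq_one_iff_unique.mp e).1
        exact absurd (congrArg Subtype.val (Subsingleton.elim (α := MulAction.orbit (zpowers y) Q)
          ⟨_, MulAction.mem_orbit Q ⟨y, mem_zpowers y⟩⟩ ⟨Q, MulAction.mem_orbit_self Q⟩)) (hne Q hQ)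
      · rw [e]
    have h5 := Set.ncard_add_ncard_compl {Q : Sylow 5 G | (P : Subgroup G) ⊓ Q = ⊥}
    have h6 : {Q : Sylow 5 G | (P : Subgroup G) ⊓ Q = ⊥}ᶜ =
        insert P {Q : Sylow 5 G | Q ≠ P ∧ (P : Subgroup G) ⊓ Q ≠ ⊥} := by
      ext Q
      by_cases e : Q = P <;> simp [e, hP1]
    rw [h6, Set.ncard_insert_of_notMem (by simp), hn] at h5
    rw [Nat.card_coe_set_eq] at hS hT
    omega
  set D := (P : Subgroup G) ⊓ Q with hD
  have hyp : IsPGroup 3 (zpowers y) := IsPGroup.of_card (n := 1) (by rw [Nat.card_zpowers, hy3]; rfl)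
  have hdiv : ∀ U : Subgroup G, U ≤ P → Nat.card U = 1 ∨ Nat.card U = 5 ∨ Nat.card U = 25 := by
    intro U hU
    obtain ⟨k, hk, e⟩ := (Nat.dvd_prime_pow (by norm_num)).mp (hc P ▸ card_dvd_of_le hU)
    rw [e]
    interval_cases k <;> simp
  have hD5 : Nat.card D = 5 := by
    rcases hdiv D inf_le_left with e | e | e
    · exact absurd (card_eq_one.mp e) hQ
    · exact e
    · exact absurd (Sylow.ext (eq_of_le_of_card_ge (inf_eq_left.mp (eq_of_le_of_card_ge inf_le_left
        (by rw [hc, e]; rfl))) (by rw [hc, hc])).symm) hQP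
  have h5 := sm_card_modEq_card_inf_centralizer hyp (T := D) (pg_le_normalizer_inf
    (zpowers_le_of_mem hy) (zpowers_le_of_mem (Sylow.smul_eq_iff_mem_normalizer.mp hyQ)))
  have h6 := sm_card_modEq_card_inf_centralizer hyp (T := P) (zpowers_le_of_mem hy)
  have h7 : Nat.card ↥(D ⊓ centralizer (zpowers y : Set G)) ≤
      Nat.card ↥((P : Subgroup G) ⊓ centralizer (zpowers y : Set G)) :=
    card_le_of_le (inf_le_inf_right _ inf_le_left)
  have h8 : (P : Subgroup G) ≤ centralizer (zpowers y : Set G) := by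
    refine inf_eq_left.mp (eq_of_le_of_card_ge inf_le_left ?_)
    have h9 := hdiv (D ⊓ centralizer (zpowers y : Set G)) (inf_le_left.trans inf_le_left)
    have h10 := hdiv ((P : Subgroup G) ⊓ centralizer (zpowers y : Set G)) inf_le_left
    rw [hc] at h6 ⊢
    rw [hD5] at h5
    unfold Nat.ModEq at h5 h6
    omega
  have h9 : 3 ∣ Nat.card (centralizer ((P : Subgroup G) : Set G)) :=
    hy3 ▸ orderOf_dvd_natCard _ (le_centralizer_iff.mp h8 (mem_zpowers y))
  have h10 : (centralizer ((P : Subgroup G) : Set G)).relIndex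
      (normalizer ((P : Subgroup G) : Set G)) = 2 := by
    obtain ⟨c, hc⟩ := (by norm_num : Nat.Coprime (5 ^ 2) 3).mul_dvd_of_dvd_of_dvd h4 h9
    rw [h, hn, hc] at h2
    exact ((Nat.dvd_prime Nat.prime_two).mp (Dvd.intro c (by linarith))).resolve_left h3
  have h11 : normalizer ((P : Subgroup G) : Set G) ≤ normalizer (D : Set G) := fun t ht => by
    by_cases htC : t ∈ centralizer ((P : Subgroup G) : Set G)
    · exact centralizer_le_normalizer _ (centralizer_le (show D ≤ P from inf_le_left) htC)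
    refine pg_mem_normalizer_of_conj_mem fun d hd => ?_
    have hd' := pg_conj_mem_of_mem_normalizer ht hd.1
    have hcomm : ∀ c ∈ centralizer ((P : Subgroup G) : Set G), ∀ u ∈ (P : Subgroup G), c * u = u * c :=
      fun c hc u hu => (hc u hu).symm
    have h12 := eq_one_of_central_in_normalizer (sm_pResidual_eq_top hG) P (mul_mem hd.1 hd')
      fun n hn => by
        by_cases hnC : n ∈ centralizer ((P : Subgroup G) : Set G)
        · exact hcomm n hnC _ (mul_mem hd.1 hd')
        have h13 := (mul_mem_iff_of_index_two h10 (a := ⟨n, hn⟩) (b := ⟨t, ht⟩)).mpr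
          (iff_of_false hnC htC)
        have h14 := (mul_mem_iff_of_index_two h10 (a := ⟨t, ht⟩⁻¹) (b := ⟨n, hn⟩)).mpr
          (iff_of_false (by simpa [mem_subgroupOf] using htC) hnC)
        have h15 : n * t * d = d * (n * t) := hcomm _ h13 d hd.1
        have h16 : t⁻¹ * n * d = d * (t⁻¹ * n) := hcomm _ h14 d hd.1
        have h17 := hcomm _ ((P : Subgroup G).le_centralizer hd.1) _ hd'
        calc n * (d * (t * d * t⁻¹)) = (n * t * d) * t⁻¹ * d := by rw [h17]; group
          _ = d * t * (t⁻¹ * n * d) := by rw [h15]; group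
          _ = _ := by rw [h16]; group
    rw [eq_inv_of_mul_eq_one_right h12]
    exact inv_mem hd
  have h12 : (Q : Subgroup G) ≤ normalizer (D : Set G) := by
    have := hcm Q
    exact ((Q : Subgroup G).le_centralizer.trans (centralizer_le (show D ≤ Q from inf_le_right))).trans
      (centralizer_le_normalizer _)
  have h13 := sm_le_card_sylow_of_ne (le_normalizer.trans h11) h12 hQP
  have h14 := index_ge hG (k := 6) (by rw [h]; decide)
    (sm_normalizer_pgroup_ne_top hG P.isPGroup'.to_inf_left hQ)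
  have h15 := relIndex_mul_index h11
  rw [(P.subtype (le_normalizer.trans h11)).card_eq_index_normalizer, ← Sylow.coe_coe,
    Sylow.coe_subtype, ← subgroupOf_normalizer_eq (le_normalizer.trans h11), ← relIndex] at h13
  rw [P.card_eq_index_normalizer, ← P.coe_coe, ← h15] at hn
  have := Nat.mul_le_mul h13 (show 7 ≤ (normalizer (D : Set G)).index from h14)
  omega

/-- A non-abelian finite simple group of order greater than 3640 and at most 6232 has order 4080, 5616, 6048 or 6072. -/
theorem result {G : Type*} [Group G] [Finite G] [IsSimpleGroup G] (hG : ¬ IsMulCommutative G) (h1 : 3640 < Nat.card G) (h2 : Nat.card G ≤ 6232) : Nat.card G = 4080 ∨ Nat.card G = 5616 ∨ Nat.card G = 6048 ∨ Nat.card G = 6072 := by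
  have key : (List.range' 3641 2592).all (fun n => svCheck n ||
      decide (n ∈ [4080, 4320, 4500, 5292, 5400, 5616, 6048, 6072])) = true := by decide +kernel
  have h3 := List.all_eq_true.mp key (Nat.card G) (List.mem_range'_1.mpr ⟨by omega, by omega⟩)
  rw [svCheck_sound hG, Bool.false_or, decide_eq_true_iff] at h3
  have h4 := ne4500 hG
  have h5 := ne5292 hG
  have h6 := ne5400 hG
  have h7 := Cfsg.Agent.S0977.result (G := G)
  simp only [List.mem_cons, List.not_mem_nil, or_false] at h3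
  omega

end Cfsg.Agent.S0983
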