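import Cfsg.Statements.S1011
import Mathlib
import Cfsg.Agent.Lib.Small.RecPSL2Even
import Cfsg.Agent.Lib.Defect1.Sieve

set_option autoImplicit false
open Cfsg

namespace Cfsg.Agent.S1011

open Cfsg.Lib Subgroup


/-- A simple group of order 504 is isomorphic to the projective special linear group of dimension 2 over the field with 8 elements. -/
theorem result {G : Type*} [Group G] [Finite G] [IsSimpleGroup G] (h : Nat.card G = 504) {F : Type*} [Field F] [Fintype F] (hF : Fintype.card F = 8) : Nonempty (G ≃* Matrix.ProjectiveSpecialLinearGroup (Fin 2) F) := by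
  have := Fintype.ofFinite G
  have hG := sm_not_comm_of_not_prime (G := G) (by rw [h]; norm_num)
  obtain ⟨_, x, hx, hi, D, L, hL, h2⟩ := sv_exists_data (p := 7) (v1 := true) hG
    (by rw [h]; decide +kernel) (by rw [h]; decide +kernel)
  rw [h, show svSols 504 7 true = [(36, 2, 1, [8], 9)] by decide +kernel] at h2
  simp only [List.mem_cons, Prod.mk.injEq, List.not_mem_nil, or_false] at h2
  obtain ⟨-, he, hV, rfl, -⟩ := h2
  obtain ⟨χ, h1, h2, h3⟩ := D.mem_sgn.mp (hL ▸ (by simp : (8 : ℤ) ∈ (([8] : List ℤ) : Multiset ℤ)))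
  have h4 := D.natAbs_X h1
  rw [h3] at h4
  refine (D.psl_even hG hi hV he h1 h2 h4.symm ?_ h).2 F hF
  rw [← h4] at h3
  rcases D.ε_eq χ h1 with e | e <;> rw [e] at h3 ⊢ <;> simp at h3 ⊢

end Cfsg.Agent.S1011
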