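import Cfsg.Statements.S1291
import Cfsg.Agent.Lib.TGC.Main

set_option autoImplicit false
open Cfsg

namespace Cfsg.Agent.S1291

/-- Let G be a balanced finite group with O(G) = 1 and 2-rank at least 3, such that the commuting graph of Klein four-subgroups of G, or of a Sylow 2-subgroup of G, is connected. Then O(C_G(t)) = 1 for every involution t. -/
theorem result {G : Type*} [Group G] [Finite G] (hbal : Cfsg.IsBalanced G) (hO : Cfsg.oddCore G = ⊥) (hrank : ¬ Cfsg.PRankLE 2 2 G) (hconn : Cfsg.IsFourConnected G ∨ ∃ S : Sylow 2 G, Cfsg.IsFourConnected ↥(S : Subgroup G)) (t : G) (ht : orderOf t = 2) : Cfsg.centralizerPPrimeCore 2 t = ⊥ := by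
  exact (Lib.TGC.fun_cpc fun a b ha hb c =>
    (hbal a b ha.orderOf_eq hb.orderOf_eq c).le.trans inf_le_left).eq_bot hO hrank hconn
      (Lib.Bender.isInv_iff_orderOf.2 ht)

end Cfsg.Agent.S1291
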