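import Cfsg.Statements.S1307
import Mathlib
import Cfsg.Agent.Lib.Core.Quasi
import Cfsg.Agent.Lib.Core.Cores
import Cfsg.Agent.Lib.ZStar.Main
import Cfsg.Agent.Lib.Small.Order24
import Cfsg.Agent.Lib.PGroup.DihedralQuaternion

set_option autoImplicit false
open Cfsg

namespace Cfsg.Agent.S1307
open Cfsg.Lib

open Subgroup

theorem uniqInv_of_pRankLE {X : Type*} [Group X] (h : PRankLE 2 1 X) : UniqInv X := by
  intro x y hx hy hx1 hy1 hxy
  by_contra hne
  have hK := isKleinFour_kleinOf (hz := hx) (hw := hy) (h := hxy) hx1 hy1 hne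
  have := h (kleinOf x y hx hy hxy) ⟨⟨fun a b => Subtype.ext (sm_klein_comm hK a.2 b.2)⟩⟩
    (fun a ha => sm_klein_sq hK ha)
  rw [hK.card_four] at this
  omega

theorem quasi_rank_one {X : Type*} [Group X] [Finite X] (hq : IsQuasisimple X)
    (heven : Even (Nat.card X)) (hrk : PRankLE 2 1 X) :
    (∃ t : X, orderOf t = 2 ∧ t ∈ center X) ∧
      ∃ S : Sylow 2 X, ∃ n : ℕ, Nonempty (↥(S : Subgroup X) ≃* QuaternionGroup (2 ^ (n + 1))) := by
  have hU := uniqInv_of_pRankLE hrk
  have h2 : 2 ∣ Nat.card X := heven.two_dvd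
  obtain ⟨t, ht⟩ := exists_prime_orderOf_dvd_card' (G := X) 2 h2
  have ht2 : t ^ 2 = 1 := ht ▸ pow_orderOf_eq_one t
  have hO : pPrimeCore 2 X ≤ center X := by
    rcases hq.eq_top_or_le_center (pPrimeCore 2 X) with h | h
    · exfalso
      apply not_dvd_card_pPrimeCore (p := 2) (G := X)
      rw [h, Subgroup.card_top]; exact h2
    · exact h
  have htc : t ∈ center X := by
    have hz := zstar ht2 (hU.isIsolated ht2)
    -- `g ↦ [g,t]` is a homomorphism to an abelian group
    have key : ⁅(⊤ : Subgroup X), zpowers t⁆ ≤ center X := by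
      rw [Subgroup.commutator_le]
      intro g _ s hs
      obtain ⟨k, rfl⟩ := mem_zpowers_iff.1 hs
      have hq' : ∀ g : X, Commute (QuotientGroup.mk' (center X) g) (QuotientGroup.mk' (center X) t) := by
        intro g
        rw [← commutatorElement_eq_one_iff_commute, ← map_commutatorElement, QuotientGroup.mk'_apply,
          QuotientGroup.eq_one_iff]
        exact hO (hz g)
      have := (hq' g).zpow_right k
      rw [← map_zpow, ← commutatorElement_eq_one_iff_commute, ← map_commutatorElement,
        QuotientGroup.mk'_apply, QuotientGroup.eq_one_iff] at this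
      exact this
    have h3 : ⁅⁅(⊤ : Subgroup X), (⊤ : Subgroup X)⁆, zpowers t⁆ = ⊥ := by
      apply Subgroup.commutator_commutator_eq_bot_of_rotate
      · rw [Subgroup.commutator_eq_bot_iff_le_centralizer]
        refine key.trans ?_
        intro z hz
        rw [mem_centralizer_iff]
        intro h _
        exact mem_center_iff.1 hz h
      · rw [Subgroup.commutator_comm (zpowers t), Subgroup.commutator_eq_bot_iff_le_centralizer]
        refine key.trans ?_
        intro z hz
        rw [mem_centralizer_iff]
        intro h _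
        exact mem_center_iff.1 hz h
    rw [hq.commutator_top, Subgroup.commutator_eq_bot_iff_le_centralizer] at h3
    rw [mem_center_iff]
    intro g
    exact (mem_centralizer_iff.1 (h3 (mem_top g)) t (mem_zpowers t)).symm
  refine ⟨⟨t, ht, htc⟩, ?_⟩
  obtain ⟨S⟩ : Nonempty (Sylow 2 X) := inferInstance
  refine ⟨S, ?_⟩
  have huniq : ∀ x : X, orderOf x = 2 → x = t := by
    intro x hx
    refine hU x t (hx ▸ pow_orderOf_eq_one x) ht2 ?_ ?_ (mem_center_iff.1 htc x)
    · rintro rfl; simp at hx
    · rintro rfl; simp at ht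
  rcases pg_isCyclic_or_quaternion_of_unique_involution S.isPGroup' (fun x y hx hy => by
    apply Subtype.ext
    rw [huniq x (by simpa using hx), huniq y (by simpa using hy)]) with h | h
  · exfalso
    have hn := hasNormalPComplement_of_isCyclic S h ((Nat.minFac_eq_two_iff _).2 h2)
    have hne := hn.pResidual_ne_top h2
    rcases hq.eq_top_or_le_center (pResidual 2 X) with h' | h'
    · exact hne h'
    · apply hq.not_isSolvable
      have : Group.IsSolvable (pResidual 2 X) := by
        have : IsMulCommutative (pResidual 2 X) :=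
          ⟨⟨fun a b => Subtype.ext (mem_center_iff.1 (h' b.2) a)⟩⟩
        exact Group.isSolvable_of_comm (fun a b => this.is_comm.comm a b)
      have hpg : IsPGroup 2 (X ⧸ pResidual 2 X) := isPGroup_quotient_pResidual
      have : Group.IsSolvable (X ⧸ pResidual 2 X) := by
        have := hpg.isNilpotent
        infer_instance
      exact Group.isSolvable_of_ker_le_range (pResidual 2 X).subtype (QuotientGroup.mk' (pResidual 2 X)) (by simp)
  · exact h

/-- Let G be finite, x an involution and L ≤ C_G(x) a component of C_G(x) of even order and 2-rank 1, such that L is a component of C_G(y) for every involution y ∈ C_G(L). Then some involution of L is a classical involution of G. -/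
theorem result {G : Type*} [Group G] [Finite G] (x : G) (hx : orderOf x = 2) (L : Subgroup G) (hLx : L ≤ Subgroup.centralizer ({x} : Set G)) (hL : Cfsg.IsComponent (L.subgroupOf (Subgroup.centralizer ({x} : Set G)))) (heven : Even (Nat.card ↥L)) (hrk : Cfsg.PRankLE 2 1 ↥L) (hne : ∀ y : G, orderOf y = 2 → y ∈ Subgroup.centralizer (L : Set G) → L ≤ Subgroup.centralizer ({y} : Set G) ∧ Cfsg.IsComponent (L.subgroupOf (Subgroup.centralizer ({y} : Set G)))) : ∃ t ∈ L, Cfsg.IsClassicalInvolution t := by
  have hq : IsQuasisimple L := hL.2.of_equiv (Subgroup.subgroupOfEquivOfLe hLx)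
  obtain ⟨⟨t, ht, htc⟩, hS⟩ := quasi_rank_one hq heven hrk
  have ht' : orderOf (t : G) = 2 := by simpa using ht
  have hc : (t : G) ∈ centralizer (L : Set G) := by
    rw [mem_centralizer_iff]
    intro l hl
    exact congrArg Subtype.val (mem_center_iff.1 htc ⟨l, hl⟩)
  obtain ⟨h1, h2⟩ := hne t ht' hc
  exact ⟨t, t.2, ht', L, h1, t.2, h2.1, hS⟩

end Cfsg.Agent.S1307
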