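import Cfsg.Statements.S1312
import Mathlib
import Cfsg.Agent.Lib.Core.Balance

set_option autoImplicit false
open Cfsg

namespace Cfsg.Agent.S1312
open Cfsg.Lib

open Subgroup

variable {G : Type*} [Group G] [Finite G]

theorem normalizer_eq [IsSimpleGroup G] {M X : Subgroup G} (hM : IsCoatom M) (hX : X ≤ M)
    (hne : X ≠ ⊥) (hn : M ≤ normalizer (X : Set G)) : normalizer (X : Set G) = M := by
  rcases hn.eq_or_lt with h | h
  · exact h.symm
  · rcases (normal_of_top_le_normalizer (hM.2 _ h).ge).eq_bot_or_eq_top with h1 | h1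
    · exact absurd h1 hne
    · exact absurd (top_le_iff.mp (h1 ▸ hX)) hM.1

theorem le_pCoreOf_of_le_fittingOf {p : ℕ} [Fact p.Prime] {M X : Subgroup G} (hX : IsPGroup p X)
    (h : X ≤ (fittingSubgroup M).map M.subtype) : X ≤ (pCore p M).map M.subtype := by
  rw [← map_subgroupOf_eq_of_le (h.trans (map_subtype_le _))]
  refine map_mono (le_pCore_of_le_fitting hX.comap_subtype ?_)
  rw [← subgroupOf_map_subtype_eq (fittingSubgroup M)]
  exact comap_mono h

theorem fittingOf_eq (p : ℕ) [Fact p.Prime] (M : Subgroup G) :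
    (fittingSubgroup M).map M.subtype = (pCore p M).map M.subtype ⊔
      ((fittingSubgroup M).map M.subtype ⊓ (pPrimeCore p M).map M.subtype) := by
  conv_lhs => rw [fitting_eq_pCore_sup p]
  rw [Subgroup.map_sup, map_inf _ _ _ M.subtype_injective]

theorem layer_le {M N : Subgroup G} (h1 : (generalizedFittingSubgroup M).map M.subtype ≤ N)
    (h2 : (generalizedFittingSubgroup N).map N.subtype ≤ M) :
    (layer M).map M.subtype ≤ (layer N).map N.subtype := by
  refine layerOf_le fun K hKM hK => ?_
  have hKN : K ≤ N := (le_layerOf hKM hK).trans ((map_mono layer_le_fstar).trans h1)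
  refine (le_or_commutator_eq_bot_of_isComponent_subgroupOf hKM hK
    ((map_mono layer_le_fstar).trans h2) (hKN.trans (le_normalizer_layerOf N))).resolve_right
    fun h => ?_
  have h3 := commutator_eq_bot_of_isComponent_subgroupOf_of_isSolvable hKM hK
    ((map_mono fitting_le_fstar).trans h2) (hKN.trans (le_normalizer_fittingOf N))
    (by have := isNilpotent_fittingOf N; infer_instance)
  refine ((isComponent_subgroupOf_iff hKM).mp hK).2.not_le_of_isSolvable
    (H := (fittingSubgroup N).map N.subtype) (by have := isNilpotent_fittingOf N; infer_instance)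
    (le_trans (le_inf hKN ?_) (inf_centralizer_fstarOf_le N))
  rw [fstarOf_eq]
  exact le_centralizer_of_commutator_eq_bot (commutator_sup_eq_bot_right h h3)

theorem comm_bot (p : ℕ) [Fact p.Prime] {M N : Subgroup G}
    (h1 : (fittingSubgroup M).map M.subtype ≤ N) (h2 : (fittingSubgroup N).map N.subtype ≤ M) :
    ⁅(pCore p N).map N.subtype,
      (fittingSubgroup M).map M.subtype ⊓ (pPrimeCore p M).map M.subtype⁆ = ⊥ :=
  commutator_eq_bot_of_inf_eq_bot
    (((map_mono (pCore_le_fitting p)).trans h2).trans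
      (le_normalizer_inf (le_normalizer_fittingOf M) (le_normalizer_pPrimeCoreOf M)))
    ((inf_le_left.trans h1).trans (le_normalizer_pCoreOf N))
    (inf_eq_bot_of_isPGroup_of_coprime (isPGroup_pCoreOf N)
      (coprime_card_of_le inf_le_right (coprime_card_pPrimeCoreOf M)))

theorem pCore_eq_bot (p : ℕ) [Fact p.Prime] {M N : Subgroup G}
    (hM : M ⊓ centralizer ((fittingSubgroup M).map M.subtype : Set G) ≤
      (fittingSubgroup M).map M.subtype)
    (h1 : (fittingSubgroup M).map M.subtype ≤ N) (h2 : (fittingSubgroup N).map N.subtype ≤ M)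
    (h : pCore p M = ⊥) : pCore p N = ⊥ := by
  rw [← map_subtype_eq_bot_iff, eq_bot_iff, ← Subgroup.map_bot M.subtype, ← h]
  refine le_pCoreOf_of_le_fittingOf (isPGroup_pCoreOf N)
    (le_trans (le_inf ((map_mono (pCore_le_fitting p)).trans h2) ?_) hM)
  rw [fittingOf_eq p M, h, Subgroup.map_bot, bot_sup_eq]
  exact le_centralizer_of_commutator_eq_bot (comm_bot p h1 h2)

theorem pCore_le [IsSimpleGroup G] {p q : ℕ} [hp : Fact p.Prime] [hq : Fact q.Prime] (hpq : p ≠ q)
    {M N : Subgroup G} (hN : IsCoatom N)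
    (hM : M ⊓ centralizer ((fittingSubgroup M).map M.subtype : Set G) ≤
      (fittingSubgroup M).map M.subtype)
    (h1 : (fittingSubgroup M).map M.subtype ≤ N) (h2 : (fittingSubgroup N).map N.subtype ≤ M)
    (h : pCore p N ≠ ⊥) : (pCore q N).map N.subtype ≤ (pCore q M).map M.subtype := by
  set F := (fittingSubgroup M).map M.subtype with hF
  set Fq := F ⊓ (pPrimeCore q M).map M.subtype with hFq
  set Fp := F ⊓ (pPrimeCore p M).map M.subtype with hFp
  set P := (pCore p N).map N.subtype with hP
  set O := (pCore p M).map M.subtype with hO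
  set C := M ⊓ centralizer (Fq : Set G) with hC
  have hMF : M ≤ normalizer (F : Set G) := le_normalizer_fittingOf M
  have hMFq : M ≤ normalizer (Fq : Set G) := le_normalizer_inf hMF (le_normalizer_pPrimeCoreOf M)
  have hMFp : M ≤ normalizer (Fp : Set G) := le_normalizer_inf hMF (le_normalizer_pPrimeCoreOf M)
  have hMC : M ≤ normalizer (C : Set G) :=
    le_normalizer_inf le_normalizer (le_normalizer_centralizer hMFq)
  have hMD : M ≤ normalizer (pGen q C : Set G) := hMC.trans (normalizer_le_normalizer_pGen C)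
  have hDM : pGen q C ≤ M := (pGen_le C).trans inf_le_left
  have hPM : P ≤ M := (map_mono (pCore_le_fitting p)).trans h2
  have hOF : O ≤ F := map_mono (pCore_le_fitting p)
  have hOFq : O ≤ Fq := le_inf hOF (map_mono (pCore_le_pPrimeCore_of_ne hpq))
  have hFM : F ≤ M := map_subtype_le _
  have hPFp : ⁅P, Fp⁆ = ⊥ := comm_bot p h1 h2
  have e1 : ⁅P, pGen q C⁆ ≤ F := by
    refine le_trans (le_inf ((commutator_mono hPM hDM).trans (commutator_le_self M)) ?_) hM
    rw [hF, fittingOf_eq p M, centralizer_sup]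
    refine le_inf ?_ ?_
    · exact (le_normalizer_iff_commutator_le_right.mp (hPM.trans hMD)).trans
        ((pGen_le C).trans (inf_le_right.trans (centralizer_antitone hOFq)))
    · exact (commutator_mono (le_centralizer_of_commutator_eq_bot hPFp) le_rfl).trans
        (le_normalizer_iff_commutator_le_left.mp (hDM.trans (le_normalizer_centralizer hMFp)))
  have e2 : ⁅P ⊔ F, pGen q C⁆ ≤ F := commutator_sup_le_left (hPM.trans hMF) le_normalizer e1
    (le_normalizer_iff_commutator_le_left.mp (hDM.trans hMF))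
  have hR : IsPGroup p (P ⊔ O : Subgroup G) := (isPGroup_pCoreOf N).to_sup_of_normal_right'
    (isPGroup_pCoreOf M) (hPM.trans (le_normalizer_pCoreOf M))
  have e3 : pGen p (P ⊔ F) = P ⊔ O := by
    refine le_antisymm (pGen_le_of_le_sup (O := Fp) ?_
      (coprime_card_of_le inf_le_right (coprime_card_pPrimeCoreOf M)) ?_)
      (le_pGen_of_isPGroup hR (sup_le_sup_left hOF _))
    · exact le_normalizer_sup (le_normalizer_of_commutator_eq_bot' hPFp)
        ((inf_le_left.trans hFM).trans (le_normalizer_pCoreOf M))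
    · rw [sup_assoc]
      exact sup_le_sup_left (fittingOf_eq p M).le _
  have e4 : pGen q C ≤ normalizer ((P ⊔ O : Subgroup G) : Set G) := by
    rw [← e3]
    exact (le_normalizer_iff_commutator_le_left.mpr (e2.trans le_sup_right)).trans
      (normalizer_le_normalizer_pGen _)
  have e5 : ⁅P ⊔ O, pGen q C⁆ ≤ O := le_pCoreOf_of_le_fittingOf
    (hR.to_le (le_normalizer_iff_commutator_le_left.mp e4))
    ((commutator_mono (sup_le_sup_left hOF _) le_rfl).trans e2)
  have e6 : pGen q C ≤ centralizer ((P ⊔ O : Subgroup G) : Set G) := by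
    rw [pGen_le_iff]
    intro x hx k hk
    have hA : zpowers x ≤ pGen q C := zpowers_le.mpr (mem_pGen hx hk)
    have hact := CoprimeAct.of_isPGroup (isPGroup_zpowers_of_pow_eq_one hk) (K := P ⊔ O) (by
      obtain ⟨n, hn⟩ := hR.exists_card_eq
      rw [hn]
      exact fun hd => hpq ((Nat.prime_dvd_prime_iff_eq hq.out hp.out).mp
        (hq.out.dvd_of_dvd_pow hd)).symm) (hA.trans e4)
    have := hact.le_centralizer_of_commutator_le_centralizer
      (((commutator_mono le_rfl hA).trans e5).trans (hOFq.trans (le_centralizer_iff.mp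
        ((zpowers_le.mpr hx).trans inf_le_right))))
    exact le_centralizer_iff.mp this (mem_zpowers x)
  have e7 : pGen q C ≤ N := by
    rw [← normalizer_eq hN (X := P) (map_subtype_le _) (by rwa [Ne, map_subtype_eq_bot_iff])
      (le_normalizer_pCoreOf N)]
    exact e6.trans ((centralizer_antitone le_sup_left).trans (centralizer_le_normalizer _))
  have e8 : (pCore q N).map N.subtype ≤ pGen q C := le_pGen_of_isPGroup (isPGroup_pCoreOf N)
    (le_inf ((map_mono (pCore_le_fitting q)).trans h2)
      (le_centralizer_of_commutator_eq_bot (comm_bot q h1 h2)))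
  exact (le_pCoreOf e8 (e7.trans (le_normalizer_pCoreOf N)) (isPGroup_pCoreOf N)).trans
    (pCoreOf_le_pCoreOf_of_le_normalizer hDM hMD)

theorem isPGroup_fitting {X : Type*} [Group X] [Finite X] {p : ℕ} [Fact p.Prime]
    (h : ∀ q : ℕ, q.Prime → q ≠ p → pCore q X = ⊥) : IsPGroup p (fittingSubgroup X) := by
  refine isPGroup_pCore.to_le ?_
  rw [fitting_eq_iSup_pCore]
  refine iSup_le fun q => ?_
  rcases eq_or_ne (q : ℕ) p with e | e
  · rw [e]
  · rw [h q q.2 e]; exact bot_le

end Cfsg.Agent.S1312

namespace Cfsg.Agent.S1312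
open Cfsg.Lib Subgroup


/-- Let G be a non-abelian finite simple group and M ≠ N maximal subgroups of G with F*(M) ≤ N and F*(N) ≤ M. Then there is a prime p such that F*(M) and F*(N) are both p-groups. -/
theorem result {G : Type*} [Group G] [Finite G] [IsSimpleGroup G] (hna : ¬ IsMulCommutative G) (M N : Subgroup G) (hM : IsCoatom M) (hN : IsCoatom N) (hMN : M ≠ N) (h1 : (Cfsg.generalizedFittingSubgroup ↥M).map M.subtype ≤ N) (h2 : (Cfsg.generalizedFittingSubgroup ↥N).map N.subtype ≤ M) : ∃ p : ℕ, p.Prime ∧ IsPGroup p ↥(Cfsg.generalizedFittingSubgroup ↥M) ∧ IsPGroup p ↥(Cfsg.generalizedFittingSubgroup ↥N) := by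
  have hE : (layer M).map M.subtype = (layer N).map N.subtype :=
    le_antisymm (layer_le h1 h2) (layer_le h2 h1)
  have hEM : (layer M).map M.subtype = ⊥ := by
    by_contra hne
    apply hMN
    rw [← normalizer_eq hM (map_subtype_le _) hne (le_normalizer_layerOf M), hE,
      normalizer_eq hN (map_subtype_le _) (hE ▸ hne) (le_normalizer_layerOf N)]
  have hFM := fstar_eq_fitting_of_layer_eq_bot (map_subtype_eq_bot_iff.mp hEM)
  have hFN := fstar_eq_fitting_of_layer_eq_bot (map_subtype_eq_bot_iff.mp (hE ▸ hEM))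
  have hCM := inf_centralizer_fstarOf_le M
  have hCN := inf_centralizer_fstarOf_le N
  rw [hFM] at h1 hCM ⊢
  rw [hFN] at h2 hCN ⊢
  have hM1 : M ≠ ⊥ := by
    rintro rfl
    exact hN.1 (hM.2 N (lt_of_le_of_ne bot_le hMN))
  have : Nontrivial M := (nontrivial_iff_ne_bot M).mpr hM1
  have h3 := fstar_ne_bot (G := M)
  rw [hFM, Ne, fitting_eq_bot_iff_pCore] at h3
  push Not at h3
  obtain ⟨p, hp, hpM⟩ := h3
  have := Fact.mk hp
  have hpN : pCore p N ≠ ⊥ := fun e => hpM (pCore_eq_bot p hCN h2 h1 e)
  have key : ∀ q : ℕ, q.Prime → q ≠ p → pCore q M = ⊥ := by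
    intro q hq hne
    have := Fact.mk hq
    by_contra hqM
    have e : (pCore q M).map M.subtype = (pCore q N).map N.subtype :=
      le_antisymm (pCore_le hne.symm hM hCN h2 h1 hpM) (pCore_le hne.symm hN hCM h1 h2 hpN)
    have hne' : (pCore q M).map M.subtype ≠ ⊥ := by rwa [Ne, map_subtype_eq_bot_iff]
    apply hMN
    rw [← normalizer_eq hM (map_subtype_le _) hne' (le_normalizer_pCoreOf M), e,
      normalizer_eq hN (map_subtype_le _) (e ▸ hne') (le_normalizer_pCoreOf N)]
  exact ⟨p, hp, isPGroup_fitting key, isPGroup_fitting fun q hq hne =>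
    have := Fact.mk hq
    pCore_eq_bot q hCM h1 h2 (key q hq hne)⟩

end Cfsg.Agent.S1312
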