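import Cfsg.Statements.S1313
import Mathlib
import Cfsg.Agent.Lib.Core.FStar

set_option autoImplicit false
open Cfsg

namespace Cfsg.Agent.S1313
open Cfsg.Lib

/-- For a finite group H, |H| ≤ |F*(H)|!. -/
theorem result {H : Type*} [Group H] [Finite H] : Nat.card H ≤ Nat.factorial (Nat.card ↥(Cfsg.generalizedFittingSubgroup H)) := by
  classical
  set F := generalizedFittingSubgroup H with hF
  let φ : H →* MulAut F := MulAut.conjNormal
  have hker : φ.ker ≤ F := by
    refine le_trans (fun x hx => ?_) (centralizer_fstar_le (G := H))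
    intro y hy
    have := congrArg (fun a : MulAut F => ((a ⟨y, hy⟩ : F) : H)) (MonoidHom.mem_ker.mp hx)
    simp only [φ, MulAut.conjNormal_apply, MulAut.one_apply] at this
    exact (mul_inv_eq_iff_eq_mul.mp this).symm
  have h1 : Nat.card H ≤ Nat.card F * Nat.card (MulAut F) := by
    rw [← φ.ker.card_mul_index, Subgroup.index_ker]
    exact Nat.mul_le_mul (Subgroup.card_le_of_le hker) (Subgroup.card_le_card_group _)
  refine h1.trans ?_
  rw [← Nat.card_prod, ← Nat.card_perm]
  refine Nat.card_le_card_of_injective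
    (fun z : F × MulAut F => (z.2.toEquiv.trans (Equiv.mulLeft z.1) : Equiv.Perm F)) ?_
  rintro ⟨a, α⟩ ⟨b, β⟩ hab
  have h2 : ∀ x, a * α x = b * β x := fun x => congrArg (fun e : Equiv.Perm F => e x) hab
  have h3 : a = b := by simpa using h2 1
  subst h3
  refine Prod.ext rfl (MulEquiv.ext fun x => mul_left_cancel (h2 x))

end Cfsg.Agent.S1313
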