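import Cfsg.Statements.S1349
import Mathlib
import Cfsg.Agent.Lib.Solv.Dihedral

set_option autoImplicit false
open Cfsg

namespace Cfsg.Agent.S1349

open Subgroup Cfsg.Lib

/-- Let G be finite, L ≤ G solvable of odd order, and A an elementary abelian 2-subgroup of order 2^d (d ≥ 1) normalizing L with C_A(L) = 1. Then there are subgroups A_1, …, A_d of A of order 2 generating A and subgroups L_1, …, L_d of L such that each A_i ⊔ L_i is dihedral of order 2 n_i with n_i odd and at least 3, and A_i ⊔ L_i commutes elementwise with A_j ⊔ L_j for i ≠ j. -/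
theorem result {G : Type*} [Group G] [Finite G] (L A : Subgroup G) (hLs : Group.IsSolvable ↥L) (hLodd : Odd (Nat.card ↥L)) (hA : Cfsg.IsElementaryAbelian 2 A) (d : ℕ) (hd : 1 ≤ d) (hAd : Nat.card ↥A = 2 ^ d) (hAL : A ≤ Subgroup.normalizer (L : Set G)) (hfaith : A ⊓ Subgroup.centralizer (L : Set G) = ⊥) : ∃ (Ai : Fin d → Subgroup G) (Li : Fin d → Subgroup G) (n : Fin d → ℕ), (∀ i, Ai i ≤ A ∧ Nat.card ↥(Ai i) = 2 ∧ Li i ≤ L ∧ Odd (n i) ∧ 3 ≤ n i ∧ Nonempty (↥(Ai i ⊔ Li i) ≃* DihedralGroup (n i))) ∧ (⨆ i, Ai i) = A ∧ ∀ i j, i ≠ j → ∀ x ∈ Ai i ⊔ Li i, ∀ y ∈ Ai j ⊔ Li j, x * y = y * x := by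
  have hA2 : IsPGroup 2 A := .of_card hAd
  have h : CoprimeAct A L := ⟨hAL, by
    rw [hAd]; exact Nat.Coprime.pow_left _ (Nat.coprime_two_left.mpr hLodd), Or.inr hLs⟩
  set P := (fittingSubgroup L).map L.subtype with hP
  have hPL : P ≤ L := map_subtype_le _
  have hAP : A ≤ normalizer (P : Set G) := hAL.trans (normalizer_le_normalizer_fittingOf L)
  have h1 : CoprimeAct A P := h.mono_right hPL hAP
  obtain ⟨M, m1, m2, m3, m4, m5⟩ := h1.exists_selfCentralizing_of_two hA (isNilpotent_fittingOf L)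
  have hf : A ⊓ centralizer (M : Set G) = ⊥ := by
    rw [eq_bot_iff, ← hfaith]
    refine le_inf inf_le_left (le_centralizer_iff.mp ?_)
    refine (h.mono_left inf_le_left).le_centralizer_of_self_centralizing
      (le_normalizer_fittingOf L) (inf_centralizer_fittingOf_le hLs) ?_
    exact (h1.mono_left inf_le_left).le_centralizer_of_self_centralizing m3 m5
      (le_centralizer_iff.mp inf_le_right)
  obtain ⟨b, x, g1, g2, g3⟩ := (h1.mono_right m1 m4).exists_dual_eigen hA hf d A le_rfl hAd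
  have hb2 : ∀ i, orderOf (b i) = 2 := fun i =>
    orderOf_eq_prime (hA.2 _ (g1 i).1) fun e => (g1 i).2.2.1 (by simp [e])
  have hxL : ∀ i, x i ∈ L := fun i => hPL (m1 (g1 i).2.1)
  have hodd : ∀ i, Odd (orderOf (x i)) := fun i =>
    hLodd.of_dvd_nat (Subgroup.orderOf_dvd_natCard L (hxL i))
  refine ⟨fun i => zpowers (b i), fun i => zpowers (x i), fun i => orderOf (x i), fun i =>
    ⟨zpowers_le.mpr (g1 i).1, by rw [Nat.card_zpowers, hb2], zpowers_le.mpr (hxL i), hodd i, ?_,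
      nonempty_mulEquiv_dihedral_sup (hb2 i) (hodd i)
        (((g1 i).2.2.2 _ (g1 i).1).resolve_left (g1 i).2.2.1)⟩, g3, fun i j hij => ?_⟩
  · have h1 : orderOf (x i) ≠ 1 := fun e => (g1 i).2.2.1 (by simp [orderOf_eq_one_iff.mp e])
    obtain ⟨k, hk⟩ := hodd i
    show 3 ≤ orderOf (x i)
    omega
  · have : zpowers (b j) ⊔ zpowers (x j) ≤
        centralizer ((zpowers (b i) ⊔ zpowers (x i) : Subgroup G) : Set G) := by
      have hz : ∀ u v : G, u * v = v * u → zpowers v ≤ centralizer (zpowers u : Set G) := by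
        intro u v huv
        rw [zpowers_le]
        rintro _ ⟨k, rfl⟩
        exact ((Commute.zpow_left huv k))
      rw [centralizer_sup]
      refine sup_le (le_inf (hz _ _ ?_) (hz _ _ ?_)) (le_inf (hz _ _ ?_) (hz _ _ ?_))
      · exact Quad.ea_le_centralizer hA (g1 j).1 _ (g1 i).1
      · exact (mul_inv_eq_iff_eq_mul.mp (g2 j i hij.symm)).symm
      · exact mul_inv_eq_iff_eq_mul.mp (g2 i j hij)
      · exact le_centralizer M (g1 j).2.1 _ (g1 i).2.1
    exact fun u hu v hv => this hv u hu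

end Cfsg.Agent.S1349
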