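import Cfsg.Statements.S1741
import Cfsg.Agent.Lib.InvChar.M12Syl
import Cfsg.Agent.Lib.OrderChar.M12
-- import your own Cfsg.Agent.* helpers here

set_option autoImplicit false
open Cfsg

namespace Cfsg.Agent.S1741

/-- Let G be a finite simple group whose Sylow 2-subgroups are isomorphic to a Sylow 2-subgroup of the Mathieu group of degree 12, and suppose G has two involutions that are not conjugate. Then G is isomorphic to the Mathieu group of degree 12. -/
theorem result {G : Type*} [Group G] [Finite G] [IsSimpleGroup G]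
    (S : Sylow 2 G) (P : Sylow 2 ↥Cfsg.Spor.M12) (hS : Nonempty (↥(S : Subgroup G) ≃* ↥(P : Subgroup ↥Cfsg.Spor.M12)))
    (h2 : ∃ x y : G, orderOf x = 2 ∧ orderOf y = 2 ∧ ¬ IsConj x y) : Cfsg.Spor.IsoM12 G := by
  revert P
  rw [Spor.IsoM12, Lib.Golay.M12_eq]
  rintro P ⟨e⟩
  obtain ⟨ψ, h1, h3⟩ := Lib.IC.exists_hom_M12
  obtain ⟨T, hT⟩ := (⟨h1, h3⟩ : Lib.IC.Hyp12 ψ).exists_sylow
  have h4 : (ψ.comp Lib.IC.S64.ι).range = T := by
    rw [hT]
    ext x
    exact ⟨fun ⟨p, hp⟩ => ⟨_, Lib.IC.S64.ι_mem p, hp⟩,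
      fun ⟨p, hp, h⟩ => ⟨_, (congrArg ψ (Lib.IC.S64.ι_sp p hp)).trans h⟩⟩
  let e2 := ((MonoidHom.ofInjective (f := ψ.comp Lib.IC.S64.ι) (h1.comp Lib.IC.S64.ι_inj)).trans
    (MulEquiv.subgroupCongr h4)).trans ((T.equiv P).trans e.symm)
  refine Lib.OC.M12.equiv (Lib.IC.Syl64.card_eq (φ := (S : Subgroup G).subtype.comp e2.toMonoidHom)
    ⟨Subtype.val_injective.comp e2.injective, ?_⟩ h2)
  rw [MonoidHom.range_comp, MonoidHom.range_eq_top.mpr e2.surjective, ← MonoidHom.range_eq_map,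
    Subgroup.range_subtype]
  exact Lib.IsSylowIn.of_sylow_top S

end Cfsg.Agent.S1741
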