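import Cfsg.Statements.S1744
import Mathlib
import Cfsg.Agent.Lib.G2.Main

set_option autoImplicit false
open Cfsg

namespace Cfsg.Agent.S1744
open Cfsg.Lib

/-- Let G be a finite simple group whose Sylow 2-subgroups are isomorphic to a Sylow 2-subgroup of the Chevalley group of type G₂ over a finite field of odd order, in which all involutions are conjugate. Let S be a Sylow 2-subgroup, t an involution in the centre of S, C its centralizer and Q the quotient of C by its largest normal subgroup of odd order. Then Q has normal subgroups L₁ and L₂, isomorphic to special linear groups of dimension 2 over fields of odd orders, which commute elementwise and whose product is the commutator subgroup of Q. -/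
theorem result {G : Type*} [Group G] [Finite G] [IsSimpleGroup G]
    {F : Type*} [Field F] [Fintype F] (hF : Odd (Fintype.card F)) (S : Sylow 2 G) (P : Sylow 2 ↥(Cfsg.Lie.chevG2.group F))
    (hS : Nonempty (↥(S : Subgroup G) ≃* ↥(P : Subgroup ↥(Cfsg.Lie.chevG2.group F))))
    (h1 : ∀ x y : G, orderOf x = 2 → orderOf y = 2 → IsConj x y) (t : G) (ht : orderOf t = 2) (htS : t ∈ (S : Subgroup G))
    (htZ : ∀ s ∈ (S : Subgroup G), s * t = t * s) :
    ∃ L₁ L₂ : Subgroup (↥(Subgroup.centralizer ({t} : Set G)) ⧸ Cfsg.oddCore ↥(Subgroup.centralizer ({t} : Set G))),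
      L₁.Normal ∧ L₂.Normal ∧
      (∃ (F₁ : Type) (_ : Field F₁) (_ : Fintype F₁), Odd (Fintype.card F₁) ∧ Nonempty (↥L₁ ≃* Matrix.SpecialLinearGroup (Fin 2) F₁)) ∧
      (∃ (F₂ : Type) (_ : Field F₂) (_ : Fintype F₂), Odd (Fintype.card F₂) ∧ Nonempty (↥L₂ ≃* Matrix.SpecialLinearGroup (Fin 2) F₂)) ∧
      ⁅L₁, L₂⁆ = ⊥ ∧ L₁ ⊔ L₂ = commutator _ := by
  obtain ⟨n, ⟨e⟩⟩ := G2.exists_tw hF P
  obtain ⟨e'⟩ := hS
  obtain ⟨f, h, hr⟩ := G2.exists_syl S (e'.trans e)
  obtain ⟨s, rfl⟩ := hr.ge htS
  obtain rfl | rfl := G2.Tw.central (s := s) fun g => h.inj (by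
    rw [map_mul, map_mul]; exact htZ _ (hr.le ⟨g, rfl⟩))
  · simp at ht
  obtain ⟨f', h'⟩ := h.loc h1
  exact (h'.map (QuotientGroup.mk'_surjective _) (by
    rw [QuotientGroup.ker_mk']; exact Nat.coprime_two_right.1 coprime_card_pPrimeCore)).main
    pPrimeCore_quotient_pPrimeCore

end Cfsg.Agent.S1744
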