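import Cfsg.Statements.S3112
import Cfsg.Agent.Lib.TGC.Scn
import Cfsg.Agent.Lib.TGC.Main

set_option autoImplicit false
open Cfsg

namespace Cfsg.Agent.S3112

/-- Let G be a finite group with no nontrivial normal subgroup of odd order, some Sylow 2-subgroup of which has a self-centralizing abelian normal subgroup of 2-rank at least 3. Let θ assign to each element a of G a subgroup θ(a), equivariantly (θ(g a g⁻¹) is the conjugate of θ(a) by g, for all g and a), in such a way that for every abelian 2-subgroup A of G of 2-rank at least 3 the restriction of θ to A is an A-signalizer functor (for the prime 2). Then θ(a) = 1 for every involution a lying in some abelian 2-subgroup of 2-rank at least 3. -/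
theorem result {G : Type*} [Group G] [Finite G] (hO : Cfsg.oddCore G = ⊥)
    (S : Sylow 2 G) (A : Subgroup ↥(S : Subgroup G)) (hAn : A.Normal) (hAab : IsMulCommutative ↥A)
    (hAC : Subgroup.centralizer (A : Set ↥(S : Subgroup G)) = A) (hA3 : ¬ Cfsg.PRankLE 2 2 ↥A)
    (θ : G → Subgroup G) (heq : ∀ (g a : G), θ (g * a * g⁻¹) = (θ a).map (MulAut.conj g).toMonoidHom)
    (hθ : ∀ B : Subgroup G, IsMulCommutative ↥B → IsPGroup 2 ↥B → ¬ Cfsg.PRankLE 2 2 ↥B → Cfsg.IsSignalizerFunctor 2 B θ) :
    ∀ B : Subgroup G, IsMulCommutative ↥B → IsPGroup 2 ↥B → ¬ Cfsg.PRankLE 2 2 ↥B → ∀ a ∈ B, orderOf a = 2 → θ a = ⊥ := by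
  have h : Cfsg.Lib.TGC.Scn G := Cfsg.Lib.FT.exists_normal_e8_of_sylow S A hAn hAab hA3
  exact fun _ _ _ _ a _ ha => (h.fun heq hθ).eq_bot hO h.rank h.conn (Cfsg.Lib.Bender.isInv_iff_orderOf.2 ha)

end Cfsg.Agent.S3112
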