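import Cfsg.Statements.S3153
import Mathlib
import Cfsg.Agent.Lib.Core.Pump
import Cfsg.Agent.S1307

set_option autoImplicit false
open Cfsg

namespace Cfsg.Agent.S3153
open Cfsg.Lib

open Subgroup
open scoped commutatorElement


/-- Let X be a finite group and P a standard subgroup of X whose centralizer has 2-rank at most 1 and whose centre has odd order. Let S be a Sylow 2-subgroup of N_X(P) and t an involution of S centralizing P. Suppose some element g of X normalizes S, does not lie in S, has its square in S, and conjugates t into P·C_X(P). Then P commutes elementwise with the largest normal odd-order subgroup O(X) of X; consequently every t-invariant 2-component of X containing P is quasisimple. -/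
theorem result {X : Type*} [Group X] [Finite X] (P : Subgroup X) (hP : Cfsg.IsStandardSubgroup P)
    (hr : Cfsg.PRankLE 2 1 ↥(Subgroup.centralizer (P : Set X))) (hZ : Odd (Nat.card ↥(Subgroup.center ↥P)))
    (S : Sylow 2 ↥(Subgroup.normalizer (P : Set X))) (t : X) (ht : orderOf t = 2) (htS : t ∈ (S : Subgroup ↥(Subgroup.normalizer (P : Set X))).map (Subgroup.normalizer (P : Set X)).subtype)
    (htP : t ∈ Subgroup.centralizer (P : Set X))
    (g : X) (hgN : ∀ s ∈ (S : Subgroup ↥(Subgroup.normalizer (P : Set X))).map (Subgroup.normalizer (P : Set X)).subtype, g * s * g⁻¹ ∈ (S : Subgroup ↥(Subgroup.normalizer (P : Set X))).map (Subgroup.normalizer (P : Set X)).subtype)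
    (hgS : g ∉ (S : Subgroup ↥(Subgroup.normalizer (P : Set X))).map (Subgroup.normalizer (P : Set X)).subtype) (hg2 : g ^ 2 ∈ (S : Subgroup ↥(Subgroup.normalizer (P : Set X))).map (Subgroup.normalizer (P : Set X)).subtype)
    (hgt : g * t * g⁻¹ ∈ P ⊔ Subgroup.centralizer (P : Set X)) :
    ⁅P, Cfsg.oddCore X⁆ = ⊥ ∧
      ∀ L : Subgroup X, Cfsg.IsPComponent 2 L → P ≤ L → (∀ l ∈ L, t * l * t⁻¹ ∈ L) → Cfsg.IsQuasisimple ↥L := by
  let N := normalizer (P : Set X)
  set S' := (S : Subgroup (normalizer (P : Set X))).map (normalizer (P : Set X)).subtype with hS'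
  have hS2 : IsPGroup 2 S' := S.isPGroup'.map _
  have ht2 : t ^ 2 = 1 := ht ▸ pow_orderOf_eq_one t
  have ht1 : t ≠ 1 := by rintro rfl; simp at ht
  have htt : t * t = 1 := by rw [← pow_two, ht2]
  have hU := Cfsg.Agent.S1307.uniqInv_of_pRankLE hr
  have uniq : ∀ x ∈ centralizer (P : Set X), ∀ y ∈ centralizer (P : Set X), x ^ 2 = 1 → y ^ 2 = 1 →
      x ≠ 1 → y ≠ 1 → Commute x y → x = y := fun x hx y hy a b c d e =>
    congrArg Subtype.val (hU ⟨x, hx⟩ ⟨y, hy⟩ (Subtype.ext a) (Subtype.ext b)
      (fun h => c (congrArg Subtype.val h)) (fun h => d (congrArg Subtype.val h)) (Subtype.ext e))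
  have hgP : g ∉ N := by
    intro hg
    apply hgS
    have h1 : (⟨g, hg⟩ : N) ∈ normalizer ((S : Subgroup N) : Set N) := by
      refine mem_normalizer_fintype fun s hs => ?_
      obtain ⟨s', hs', e⟩ := hgN s ⟨s, hs, rfl⟩
      have : s' = ⟨g, hg⟩ * s * ⟨g, hg⟩⁻¹ := Subtype.ext e
      exact this ▸ hs'
    obtain ⟨k, hk⟩ := hS2 ⟨_, hg2⟩
    have hk' : (⟨g, hg⟩ : N) ^ 2 ^ (k + 1) = 1 := by
      apply Subtype.ext
      have := congrArg Subtype.val hk
      simp only [SubmonoidClass.mk_pow, OneMemClass.coe_one] at this ⊢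
      rw [pow_succ', pow_mul]; exact this
    have h2 := IsPGroup.to_sup_of_normal_left' S.isPGroup' (isPGroup_zpowers_of_pow_eq_one hk')
      ((zpowers_le).2 h1)
    have h3 := S.is_maximal' h2 le_sup_left
    exact ⟨⟨g, hg⟩, h3 ▸ mem_sup_right (mem_zpowers _), rfl⟩
  set u := g * t * g⁻¹ with hu
  have hou : orderOf u = 2 := by rw [← ht]; exact (MulAut.conj g).orderOf_eq t
  have hu2 : u ^ 2 = 1 := hou ▸ pow_orderOf_eq_one u
  have huC : u ∉ centralizer (P : Set X) := fun h => hgP (hP.mem_normalizer_of_conj_mem ht htP h)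
  have htZ : ∀ s ∈ S', s * t * s⁻¹ = t := by
    obtain ⟨z, hz, hz2, hzc⟩ := exists_orderOf_eq_mem_inf_centralizer
      (T := S' ⊓ centralizer (P : Set X)) (hS2.to_le inf_le_left)
      (fun h => ht1 (by rw [← mem_bot, ← h]; exact ⟨htS, htP⟩))
    have e : t = z := uniq t htP z hz.2 ht2 (hz2 ▸ pow_orderOf_eq_one z) ht1
      (by rintro rfl; simp at hz2) (mem_centralizer_singleton_iff.1 (hzc ⟨htS, htP⟩))
    intro s hs
    have h1 : s * t * s⁻¹ ∈ S' ⊓ centralizer (P : Set X) :=
      ⟨S'.mul_mem (mul_mem hs htS) (inv_mem hs), conj_mem_of_mem_normalizer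
        (normalizer_le_normalizer_centralizer P (map_subtype_le _ hs)) htP⟩
    exact uniq _ h1.2 t htP (by rw [conj_pow, ht2]; simp) ht2 (by simpa using ht1) ht1
      (by have := mem_centralizer_singleton_iff.1 (hzc h1); rwa [← e] at this)
  have htu : Commute t u := (mul_inv_eq_iff_eq_mul.1 (htZ u (hgN t htS))).symm
  have hgu : g * u * g⁻¹ = t := by
    rw [← htZ _ hg2, hu, pow_two]; group
  have hPC : ⁅P, centralizer (P : Set X)⁆ = ⊥ :=
    commutator_eq_bot_symm (commutator_eq_bot_iff_le_centralizer.2 le_rfl)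
  obtain ⟨p, hp, c, hc, hp2, hc2, e⟩ : ∃ p ∈ P, ∃ c ∈ centralizer (P : Set X),
      p ^ 2 = 1 ∧ c ^ 2 = 1 ∧ p * c = u := by
    obtain ⟨p, hp, c, hc, e⟩ := (mem_sup_of_commutator_eq_bot hPC).1 hgt
    have hpc : Commute p c := hc p hp
    have h1 : p ^ 2 * c ^ 2 = 1 := by rw [← hpc.mul_pow, e, hu2]
    have h2 : p ^ 2 ∈ P ⊓ centralizer (P : Set X) :=
      ⟨pow_mem hp 2, by rw [eq_inv_of_mul_eq_one_left h1]; exact (centralizer _).inv_mem (pow_mem hc 2)⟩
    rw [← card_map_subtype, map_subtype_center] at hZ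
    set m := Nat.card (P ⊓ centralizer (P : Set X) : Subgroup X) with hm
    have h3 : (p ^ 2) ^ m = 1 :=
      orderOf_dvd_iff_pow_eq_one.1 (Subgroup.orderOf_dvd_natCard _ h2)
    have h4 : (p ^ m) ^ 2 = 1 := by rw [← pow_mul, mul_comm, pow_mul, h3]
    have h5 : p ^ m * c ^ m = u := by
      obtain ⟨k, hk⟩ := hZ
      rw [← hpc.mul_pow, e, hk, pow_succ, pow_mul, hu2, one_pow, one_mul]
    refine ⟨p ^ m, pow_mem hp m, c ^ m, pow_mem hc m, h4, ?_, h5⟩
    have := ((hpc.pow_pow m m).mul_pow 2)
    rw [h5, hu2, h4, one_mul] at this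
    exact this.symm
  have hp1 : p ≠ 1 := by rintro rfl; exact huC (by rw [← e, one_mul]; exact hc)
  have h2P : 2 ∣ Nat.card P := orderOf_eq_prime hp2 hp1 ▸ Subgroup.orderOf_dvd_natCard P hp
  have hpt : Commute p t := htP p hp
  have hct : c = 1 ∨ c = t := by
    by_cases h : c = 1
    · exact Or.inl h
    refine Or.inr (uniq c hc t htP hc2 ht2 h ht1 ?_)
    have : c = p⁻¹ * u := by rw [← e]; group
    rw [this]
    exact hpt.inv_left.mul_left htu.symm
  have hO : (Nat.card (pPrimeCore 2 X)).Coprime 2 := coprime_card_pPrimeCore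
  have hnO : normalizer ((pPrimeCore 2 X : Subgroup X) : Set X) = ⊤ := normalizer_eq_top _
  have hOt := hP.inf_centralizer_le ht htP h2P hO (by rw [hnO]; exact le_top)
  have hOtu : ∀ x ∈ pPrimeCore 2 X ⊓ centralizer ({t} : Set X), Commute x u := by
    intro x hx
    have h1 : Commute x p := (hOt hx p hp).symm
    have h2 : Commute x t := mem_centralizer_singleton_iff.1 hx.2
    rw [← e]
    rcases hct with rfl | rfl
    · simpa using h1
    · exact h1.mul_right h2
  have hOw : pPrimeCore 2 X ≤ centralizer ({t * u} : Set X) := by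
    refine le_of_klein_centralizers hO ht hou htu (fun h => huC (h ▸ htP)) (by simp [hnO])
      (by simp [hnO]) ?_ ?_ inf_le_right
    · exact fun x hx => mem_centralizer_singleton_iff.2
        (Commute.mul_right (mem_centralizer_singleton_iff.1 hx.2) (hOtu x hx))
    · intro x hx
      have hxu : Commute x u := mem_centralizer_singleton_iff.1 hx.2
      have h1 : g⁻¹ * x * g ∈ pPrimeCore 2 X ⊓ centralizer ({t} : Set X) := by
        refine ⟨conj_mem_of_mem_normalizer' (by simp [hnO]) hx.1, mem_centralizer_singleton_iff.2 ?_⟩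
        calc g⁻¹ * x * g * t = g⁻¹ * (x * u) * g := by rw [hu]; group
          _ = _ := by rw [hxu.eq, hu]; group
      have h2 := (hOtu _ h1).eq
      have h3 : Commute x t := by
        rw [← hgu]
        calc x * (g * u * g⁻¹) = g * (g⁻¹ * x * g * u) * g⁻¹ := by group
          _ = _ := by rw [h2]; group
      exact mem_centralizer_singleton_iff.2 (h3.mul_right hxu)
  have hw : t * u ∈ centralizer ((pPrimeCore 2 X : Subgroup X) : Set X) := fun x hx =>
    mem_centralizer_singleton_iff.1 (hOw hx)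
  have hPO : P ≤ centralizer ((pPrimeCore 2 X : Subgroup X) : Set X) := by
    rcases hP.1.eq_or_commutator_eq_bot (N := P ⊓ centralizer ((pPrimeCore 2 X : Subgroup X) : Set X))
      inf_le_left (le_normalizer_inf le_normalizer (le_normalizer_centralizer (by simp [hnO]))) with h | h
    · exact h.ge.trans inf_le_right
    exfalso
    apply huC
    rw [← e]
    refine mul_mem (IsQuasisimple.mem_centralizer_of_commutator_mem hP.1.commutator_self h
      (le_normalizer_inf le_normalizer (le_normalizer_centralizer (by simp [hnO])) hp) fun k hk => ?_) hc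
    refine ⟨P.mul_mem (mul_mem (mul_mem hp hk) (inv_mem hp)) (inv_mem hk), ?_⟩
    have h1 : ⁅p, k⁆ = (t * u) * (k * (t * u)⁻¹ * k⁻¹) := by
      have a1 : t * u = p * (t * c) := by rw [← e, ← mul_assoc, ← hpt.eq, mul_assoc]
      have a2 : k * (t * c) = (t * c) * k := mul_mem htP hc k hk
      rw [a1, commutatorElement_def]
      calc p * k * p⁻¹ * k⁻¹ = p * (k * (t * c)) * (t * c)⁻¹ * p⁻¹ * k⁻¹ := by group
        _ = _ := by rw [a2]; group
    rw [h1]
    exact (centralizer _).mul_mem hw (Subgroup.Normal.conj_mem inferInstance _ (inv_mem hw) k)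
  refine ⟨commutator_eq_bot_iff_le_centralizer.2 hPO, fun L hL hPL _ => ?_⟩
  rcases hL.le_or_commutator_le (H := centralizer ((pPrimeCore 2 X : Subgroup X) : Set X))
    (Subgroup.Normal.isSubnormal inferInstance) with h | h
  · exact (hL.isComponent_iff.2 (commutator_eq_bot_iff_le_centralizer.2 h)).isQuasisimple
  · exfalso
    have : P ≤ pPrimeCore 2 X := by
      rw [← hP.1.commutator_self]
      exact (commutator_mono hPL hPO).trans h
    exact (Nat.prime_two.coprime_iff_not_dvd.1 (coprime_card_of_le this hO).symm) h2P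

end Cfsg.Agent.S3153
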