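import Cfsg.Statements.S3155
import Mathlib

set_option autoImplicit false
open Cfsg

namespace Cfsg.Agent.S3155


/-- Let B be the direct product of three cyclic groups of order 4. Then the automorphism of B inverting every element is not the square of any automorphism of B. -/
theorem result {B : Type*} [CommGroup B] [Finite B] (hB : Nonempty (B ≃* Multiplicative (ZMod 4 × ZMod 4 × ZMod 4)))
    (τ : B ≃* B) : τ.trans τ ≠ MulEquiv.inv B := by
  obtain ⟨e⟩ := hB
  intro h
  let σ : Multiplicative (ZMod 4 × ZMod 4 × ZMod 4) ≃* Multiplicative (ZMod 4 × ZMod 4 × ZMod 4) :=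
    (e.symm.trans τ).trans e
  have hσ : ∀ x, σ (σ x) = x⁻¹ := by
    intro x
    have := DFunLike.congr_fun h (e.symm x)
    simp only [MulEquiv.trans_apply, MulEquiv.inv_apply] at this
    simp [σ, this]
  let f : (ZMod 4 × ZMod 4 × ZMod 4) →+ (ZMod 4 × ZMod 4 × ZMod 4) :=
    MonoidHom.toAdditiveRight (σ.toMonoidHom) |>.comp (MonoidHom.toAdditiveLeft (MonoidHom.id _))
  have hf : ∀ x, f (f x) = -x := by
    intro x
    exact hσ (Multiplicative.ofAdd x)
  let g : (ZMod 4 × ZMod 4 × ZMod 4) →ₗ[ZMod 4] (ZMod 4 × ZMod 4 × ZMod 4) := f.toZModLinearMap 4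
  have hg : g * g = (-1 : ZMod 4) • (1 : Module.End (ZMod 4) (ZMod 4 × ZMod 4 × ZMod 4)) := by
    apply LinearMap.ext
    intro x
    have : g (g x) = -x := hf x
    simpa using this
  have h1 := congrArg LinearMap.det hg
  rw [map_mul, LinearMap.det_smul, map_one] at h1
  have h2 : Module.finrank (ZMod 4) (ZMod 4 × ZMod 4 × ZMod 4) = 3 := by
    have : Nontrivial (ZMod 4) := ⟨⟨0, 1, by decide⟩⟩
    rw [Module.finrank_prod, Module.finrank_prod, Module.finrank_self]
  rw [h2] at h1
  revert h1
  generalize LinearMap.det g = d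
  revert d
  decide

end Cfsg.Agent.S3155
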