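import Cfsg.Statements.S3156
import Mathlib
import Cfsg.Agent.Lib.Misc.U3Syl

set_option autoImplicit false
open Cfsg

namespace Cfsg.Agent.S3156

open Cfsg.Lib


/-- If a finite group T is isomorphic to a Sylow 2-subgroup of the projective special unitary group of dimension 3 with parameter 4 (realised over the field with 16 elements), then no subgroup of the automorphism group of T is isomorphic to the symmetric group of degree 3. -/
theorem result {T : Type*} [Group T] [Finite T] (hT : (∃ (F : Type) (_ : Field F) (_ : Fintype F), Fintype.card F = 16 ∧ ∃ S : Sylow 2 (Cfsg.PSU 3 F 4), Nonempty (T ≃* ↥(S : Subgroup (Cfsg.PSU 3 F 4))))) (H : Subgroup (MulAut T)) : ¬ Nonempty (↥H ≃* Equiv.Perm (Fin 3)) := by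
  obtain ⟨F, _, _, hF, S, ⟨e1⟩⟩ := hT
  obtain ⟨h2, τ, hq, hτ, hω, hσ⟩ := h9_u3_field (n := 2) hF
  obtain ⟨g1, -, g3, -⟩ := h9_char_two_field (m := 4) hF
  haveI : Fact (Function.Involutive τ) := ⟨hτ⟩
  obtain ⟨e2⟩ := h9_u3_sylow_psu_equiv (q := 4) h2 hq hω S
  rintro ⟨f⟩
  let φ : Equiv.Perm (Fin 3) →* MulAut (U3S τ) :=
    (MulAut.congr (e1.trans e2)).toMonoidHom.comp (H.subtype.comp f.symm.toMonoidHom)
  have hφ : Function.Injective φ :=
    (MulAut.congr (e1.trans e2)).injective.comp (H.subtype_injective.comp f.symm.injective)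
  obtain ⟨ρ, t, hρ, ht, hρ1, hρt⟩ : ∃ ρ t : MulAut (U3S τ), ρ * ρ * ρ = 1 ∧ t * t = 1 ∧ ρ ≠ 1 ∧ ρ * t * ρ = t :=
    ⟨φ (finRotate 3), φ (Equiv.swap 0 1), by rw [← map_mul, ← map_mul, ← map_one φ]; congr 1; decide,
      by rw [← map_mul, ← map_one φ]; congr 1; decide, by rw [Ne, map_eq_one_iff _ hφ]; decide,
      by rw [← map_mul, ← map_mul]; congr 1; decide⟩
  obtain ⟨l, hl, σ, h3, h4⟩ := U3S.aut_struct hω h2 ρ
  obtain ⟨m, hm, υ, h5, h6⟩ := U3S.aut_struct hω h2 t
  have a1 : ∀ a, l * σ l * σ (σ l) * σ (σ (σ a)) = a := by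
    intro a
    obtain ⟨x, rfl⟩ := U3S.exists_a hω h2 a
    have := congrArg (fun θ : MulAut (U3S τ) => (θ x).a) hρ
    simp only [MulAut.mul_apply, h4, map_mul, MulAut.one_apply] at this
    linear_combination this
  have a2 : l * σ l * σ (σ l) = 1 := by simpa using a1 1
  have a3 : ∀ a, σ a = a := by
    obtain ⟨i, hi⟩ := g1 σ
    have : 4 ∣ 3 * i := (g3 _).1 fun x => by
      have := a1 x
      rw [a2, one_mul, hi, hi, hi, ← pow_mul, ← pow_mul, ← pow_add, ← pow_add] at this
      rwa [show 3 * i = i + (i + i) by ring]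
    intro a
    rw [hi, (g3 i).2 (by omega)]
  simp only [a3] at a2 h4
  have b1 : ∀ a, m * υ m * υ (υ a) = a := by
    intro a
    obtain ⟨x, rfl⟩ := U3S.exists_a hω h2 a
    have := congrArg (fun θ : MulAut (U3S τ) => (θ x).a) ht
    simp only [MulAut.mul_apply, h6, map_mul, MulAut.one_apply] at this
    linear_combination this
  have b2 : m * υ m = 1 := by simpa using b1 1
  have b3 : υ l = l := by
    rcases hσ υ (fun a => by simpa [b2] using b1 a) with h | h
    · exact h l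
    · rw [h, hq]; linear_combination l * a2
  obtain ⟨x, hx⟩ := U3S.exists_a hω h2 1
  have c1 := congrArg (fun θ : MulAut (U3S τ) => (θ x).a) hρt
  simp only [MulAut.mul_apply, h4, h6, hx, map_mul, map_one, b3, mul_one] at c1
  have c2 : l = 1 := by
    have : l * l = 1 := mul_left_cancel₀ hm (by linear_combination c1)
    rwa [this, one_mul] at a2
  simp only [c2, one_mul] at h4
  have d1 : ∀ x : U3S τ, x.a = 0 → ρ x = x := fun x hx => U3S.ext (h4 x) (by
    rw [U3S.aut_center h2 hω (l := 1) (σ := RingEquiv.refl F) (by simpa using h4) (fun _ => rfl) hx]; simp)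
  apply hρ1
  ext1 x
  have d2 : (x⁻¹ * ρ x).a = 0 := by simp [h4]
  have d3 := d1 _ d2
  have d4 : (x⁻¹ * ρ x) * (x⁻¹ * ρ x) = 1 := U3S.ext (U3S.sq_a h2 _) (by rw [U3S.sq_b h2, d2]; simp)
  have d5 := DFunLike.congr_fun hρ x
  simp only [MulAut.mul_apply, MulAut.one_apply] at d5 ⊢
  generalize hw : x⁻¹ * ρ x = w at d3 d4
  have d6 : ρ x = x * w := by rw [← hw]; group
  rw [d6, map_mul, d6, d3, mul_assoc, d4, mul_one] at d5
  exact d5

end Cfsg.Agent.S3156
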