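import Cfsg.Statements.S3157
import Cfsg.Agent.Lib.Misc.Heis
import Cfsg.Agent.Lib.Golay.ProjPerm
import Cfsg.Agent.Lib.PGroup.CoprimeAut
import Cfsg.Agent.Lib.PGroup.DihedralQuaternion

set_option autoImplicit false
open Cfsg

namespace Cfsg.Agent.S3157

open Subgroup Cfsg.Lib Cfsg.Lib.PC
open scoped commutatorElement

structure Fp {T : Type*} [Group T] (ρ : MulAut T) : Prop where
  card : Nat.card T = 64
  na : ¬ IsMulCommutative T
  cube : ρ ^ 3 = 1
  fp : ∀ y : T, ρ y = y → y = 1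

namespace Fp

variable {T : Type*} [Group T] [Finite T] {ρ : MulAut T} (h : Fp ρ)
include h

omit [Finite T] in
theorem r3 (y : T) : ρ (ρ (ρ y)) = y := by
  have := DFunLike.congr_fun h.cube y
  simpa [pow_succ] using this

theorem f1 (y : T) : y * ρ y * ρ (ρ y) = 1 := by
  have hi : Function.Injective fun w : T => w⁻¹ * ρ w := fun u v e => by
    have e' : u⁻¹ * ρ u = v⁻¹ * ρ v := e
    have : ρ (v * u⁻¹) = v * u⁻¹ := by
      rw [map_mul, map_inv]
      calc ρ v * (ρ u)⁻¹ = v * (v⁻¹ * ρ v) * (ρ u)⁻¹ := by group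
        _ = _ := by rw [← e']; group
    exact (mul_inv_eq_one.1 (h.fp _ this)).symm
  obtain ⟨w, rfl⟩ := Finite.surjective_of_injective hi y
  simp [h.r3]

theorem f2 (y : T) : y * ρ y = ρ y * y := by
  have h1 := h.f1 y
  have h2 := h.f1 y⁻¹
  rw [map_inv, map_inv, ← mul_inv_rev, ← mul_inv_rev, inv_eq_one] at h2
  rw [eq_inv_of_mul_eq_one_left h1, eq_inv_of_mul_eq_one_right h2]

omit [Finite T] in
theorem pg : IsPGroup 2 T := IsPGroup.of_card (n := 6) h.card

theorem cases {K : Subgroup T} (hK : ∀ k ∈ K, ρ k ∈ K) :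
    Nat.card K = 1 ∨ Nat.card K = 4 ∨ Nat.card K = 16 ∨ Nat.card K = 64 := by
  haveI : Fact (Nat.Prime 3) := ⟨Nat.prime_three⟩
  have h1 := pg_card_modEq_card_fixed h.cube hK
  rw [show K ⊓ ρ.toMonoidHom.eqLocus (MonoidHom.id T) = ⊥ from
    (eq_bot_iff_forall _).2 fun x hx => h.fp x hx.2, card_bot] at h1
  obtain ⟨i, hi, e⟩ := (Nat.dvd_prime_pow Nat.prime_two).1
    (show Nat.card K ∣ 2 ^ 6 from (card_subgroup_dvd_card K).trans (by rw [h.card]; norm_num))
  rw [e] at h1 ⊢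
  interval_cases i <;> simp_all [Nat.ModEq]

theorem inv_sup {K : Subgroup T} (hK : ∀ k ∈ K, ρ k ∈ K) (y : T) :
    ∀ k ∈ K ⊔ closure {y, ρ y}, ρ k ∈ K ⊔ closure {y, ρ y} := by
  have hy : y ∈ K ⊔ closure {y, ρ y} := mem_sup_right (subset_closure (by simp))
  have hy' : ρ y ∈ K ⊔ closure {y, ρ y} := mem_sup_right (subset_closure (by simp))
  refine (show K ⊔ closure {y, ρ y} ≤ (K ⊔ closure {y, ρ y}).comap ρ.toMonoidHom from
    sup_le (fun k hk => mem_sup_left (hK k hk)) ((closure_le _).2 ?_))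
  rintro _ (rfl | rfl)
  · exact hy'
  · change ρ (ρ y) ∈ K ⊔ closure {y, ρ y}
    rw [eq_inv_of_mul_eq_one_right (h.f1 y)]
    exact inv_mem (mul_mem hy hy')

omit h in
theorem card_lt {K L : Subgroup T} (hl : K ≤ L) {y : T} (hy : y ∈ L) (hy' : y ∉ K) :
    Nat.card K < Nat.card L :=
  lt_of_le_of_ne (card_le_of_le hl) fun e => hy' (eq_of_le_of_card_ge hl e.ge ▸ hy)

theorem top {K M : Subgroup T} (hK : ∀ k ∈ K, ρ k ∈ K) (hc : 4 < Nat.card K) {y : T} (hy : y ∉ K)
    (h1 : K ≤ M) (h2 : y ∈ M) (h3 : ρ y ∈ M) (g : T) : g ∈ M := by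
  have := card_lt (le_sup_left : K ≤ K ⊔ closure {y, ρ y}) (mem_sup_right (subset_closure (by simp))) hy
  have e : K ⊔ closure {y, ρ y} = ⊤ := eq_top_of_card_eq _ (by
    have := h.cases hK; have := h.cases (h.inv_sup hK y); rw [h.card]; omega)
  refine (show ⊤ ≤ M from e ▸ sup_le h1 ((closure_le _).2 ?_)) trivial
  rintro _ (rfl | rfl) <;> assumption

omit [Finite T] h in
theorem rZ : ∀ k ∈ center T, ρ k ∈ center T := fun _ hk =>
  characteristic_iff_le_comap.1 inferInstance ρ hk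

omit [Finite T] in
theorem Z_ne : center T ≠ ⊤ := fun e =>
  h.na ⟨⟨fun a b => mem_center_iff.1 (e ▸ mem_top b : b ∈ center T) a⟩⟩

theorem card_Z : Nat.card (center T) = 4 := by
  haveI : Fact (Nat.Prime 2) := ⟨Nat.prime_two⟩
  haveI : Nontrivial T := Finite.one_lt_card_iff_nontrivial.1 (by rw [h.card]; norm_num)
  haveI := h.pg.center_nontrivial
  have h1 : 1 < Nat.card (center T) := Finite.one_lt_card
  obtain ⟨y, -, hy⟩ := SetLike.exists_of_lt h.Z_ne.lt_top
  have : ¬ 4 < Nat.card (center T) := fun hc => hy (mem_center_iff.2 fun g =>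
    (mem_centralizer_singleton_iff.1 (h.top (M := centralizer {y}) rZ hc hy
      (center_le_centralizer _) (mem_centralizer_singleton_iff.2 rfl)
      (mem_centralizer_singleton_iff.2 (h.f2 y).symm) g)))
  have := h.cases rZ
  omega

theorem cz (u v : T) : ⁅u, v⁆ ∈ center T := by
  haveI : Fact (Nat.Prime 2) := ⟨Nat.prime_two⟩
  by_contra hne
  have hu : u ∉ (center T).upperCentralSeriesStep := fun e => hne (e v)
  obtain ⟨w, -, hw, -, hw'⟩ := pg_exists_fixed_mod (H := ⊤) (A := ⊤) (K := center T)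
    (h.pg.to_subgroup _) (h.pg.to_subgroup _) (normalizer_eq_top _).ge h.Z_ne.lt_top
    (normalizer_eq_top _).ge (normalizer_eq_top _).ge
  have hle : center T ≤ (center T).upperCentralSeriesStep := fun z hz g => by
    rw [commutatorElement_eq_one_iff_mul_comm.2 (mem_center_iff.1 hz g).symm]; exact one_mem _
  have h4 := card_lt hle (fun g => hw' g trivial) hw
  rw [h.card_Z] at h4
  have key : ∀ g, g ∈ (centralizer {QuotientGroup.mk' (center T) u}).comap (QuotientGroup.mk' (center T)) ↔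
      ⁅g, u⁆ ∈ center T := fun g => by
    rw [mem_comap, mem_centralizer_singleton_iff, ← commutatorElement_eq_one_iff_mul_comm,
      ← map_commutatorElement, QuotientGroup.mk'_apply, QuotientGroup.eq_one_iff]
  have := (key v).1 (h.top (K := (center T).upperCentralSeriesStep)
    (fun k hk => characteristic_iff_le_comap.1 inferInstance ρ hk) h4 hu
    (fun g hg => (key g).2 (hg u)) ((key u).2 (by simp))
    ((key _).2 (by rw [commutatorElement_eq_one_iff_mul_comm.2 (h.f2 u).symm]; exact one_mem _)) v)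
  exact hne (by rw [← commutatorElement_inv]; exact inv_mem this)

theorem cml (u v w : T) : ⁅u * v, w⁆ = ⁅u, w⁆ * ⁅v, w⁆ := by
  calc ⁅u * v, w⁆ = u * ⁅v, w⁆ * u⁻¹ * ⁅u, w⁆ := by simp only [commutatorElement_def]; group
    _ = _ := by rw [mem_center_iff.1 (h.cz v w) u, ← mem_center_iff.1 (h.cz u w)]; group

theorem cmr (u v w : T) : ⁅u, v * w⁆ = ⁅u, v⁆ * ⁅u, w⁆ := by
  calc ⁅u, v * w⁆ = ⁅u, v⁆ * (v * ⁅u, w⁆ * v⁻¹) := by simp only [commutatorElement_def]; group
    _ = _ := by rw [mem_center_iff.1 (h.cz u w) v]; group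

theorem mem_Z {z w : T} (hz : z ∈ center T) (h1 : z ≠ 1) (hw : w ∈ center T) :
    w = 1 ∨ w = z ∨ w = ρ z ∨ w = ρ (ρ z) := by
  classical
  have a1 : ρ z ≠ 1 := by simpa using h1
  have a2 : ρ (ρ z) ≠ 1 := by simpa using h1
  have a3 : z ≠ ρ z := fun e => h1 (h.fp _ e.symm)
  have a4 : ρ z ≠ ρ (ρ z) := by simpa using a3
  have a5 : z ≠ ρ (ρ z) := fun e => a3 (by
    have := congrArg ρ e
    rw [h.r3] at this
    exact this.symm)
  have : ({1, z, ρ z, ρ (ρ z)} : Set T) = center T := by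
    refine Set.eq_of_subset_of_ncard_le ?_ ?_ (Set.toFinite _)
    · rintro _ (rfl | rfl | rfl | rfl)
      exacts [one_mem _, hz, rZ _ hz, rZ _ (rZ _ hz)]
    · rw [Set.ncard_insert_of_notMem (by simp [h1.symm, a1.symm, a2.symm]),
        Set.ncard_insert_of_notMem (by simp [a3, a5]), Set.ncard_pair a4]
      exact h.card_Z.le
  exact (this ▸ hw : w ∈ ({1, z, ρ z, ρ (ρ z)} : Set T))

theorem sqZ {w : T} (hw : w ∈ center T) : w * w = 1 := by
  haveI : Fact (Nat.Prime 2) := ⟨Nat.prime_two⟩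
  obtain ⟨z, hz⟩ := exists_prime_orderOf_dvd_card' (G := center T) 2 (by rw [h.card_Z]; norm_num)
  rw [← orderOf_coe, h9_orderOf_eq_two_iff] at hz
  rcases h.mem_Z z.2 hz.1 hw with rfl | rfl | rfl | rfl <;> simp [← map_mul, hz.2]

theorem sq_mem (u : T) : u * u ∈ center T := mem_center_iff.2 fun g => by
  rw [← commutatorElement_eq_one_iff_mul_comm, h.cmr, h.sqZ (h.cz _ _)]

theorem symm (u v : T) : ⁅v, u⁆ = ⁅u, v⁆ := by
  rw [← commutatorElement_inv, inv_eq_iff_mul_eq_one, h.sqZ (h.cz _ _)]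

theorem bal (u v : T) : ⁅ρ u, v⁆ = ⁅u, ρ v⁆ := by
  have e : ∀ y, ⁅y, ρ y⁆ = 1 := fun y => commutatorElement_eq_one_iff_mul_comm.2 (h.f2 y)
  have := e (u * v)
  rw [map_mul, h.cml, h.cmr, h.cmr, e, e, one_mul, mul_one, h.symm (ρ u) v] at this
  rw [← inv_eq_of_mul_eq_one_right this, commutatorElement_inv, h.symm]

theorem cr (u v : T) : ⁅u, ρ v⁆ = ρ (ρ ⁅u, v⁆) := by
  rw [map_commutatorElement, map_commutatorElement, h.bal, h.bal, h.r3]

theorem sq_mul (u v : T) : u * v * (u * v) = u * u * (v * v) * ⁅u, v⁆ := by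
  calc u * v * (u * v) = u * ⁅v, u⁆ * (u * (v * v)) := by simp only [commutatorElement_def]; group
    _ = _ := by rw [mul_assoc, ← mem_center_iff.1 (h.cz v u), h.symm]; group

theorem r_mul {z : T} (hz : z ∈ center T) : z * ρ (ρ z) = ρ z := by
  have := h.f1 z
  rw [← mem_center_iff.1 hz, mul_assoc] at this
  rw [eq_inv_of_mul_eq_one_right this, inv_eq_iff_mul_eq_one, h.sqZ (rZ _ hz)]

theorem big {a : T} (ha : a ∉ center T) : 4 < Nat.card ↥(center T ⊔ closure {a, ρ a}) :=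
  h.card_Z ▸ card_lt le_sup_left (mem_sup_right (subset_closure (by simp))) ha

theorem le_c {a g : T} (ha : g * a = a * g) : center T ⊔ closure {a, ρ a} ≤ centralizer {g} := by
  refine sup_le (center_le_centralizer _) ((closure_le _).2 ?_)
  rintro _ (rfl | rfl)
  · exact mem_centralizer_singleton_iff.2 ha.symm
  · refine mem_centralizer_singleton_iff.2 (Eq.symm ?_)
    rw [← commutatorElement_eq_one_iff_mul_comm, h.cr, commutatorElement_eq_one_iff_mul_comm.2 ha]
    simp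

theorem gen {a b g : T} (hab : ⁅a, b⁆ ≠ 1) (ha : ⁅g, a⁆ = 1) (hb : ⁅g, b⁆ = 1) : g ∈ center T := by
  rw [Ne, commutatorElement_eq_one_iff_mul_comm] at *
  refine mem_center_iff.2 fun y => mem_centralizer_singleton_iff.1 (h.top (h.inv_sup rZ a)
    (h.big fun e => hab (mem_center_iff.1 e b).symm) (y := b)
    (fun e => hab (mem_centralizer_singleton_iff.1 (h.le_c rfl e)).symm) (h.le_c ha)
    (h.le_c hb (mem_sup_right (subset_closure (by simp))))
    (h.le_c hb (mem_sup_right (subset_closure (by simp)))) y)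

omit [Finite T] h in
theorem pw {a : T} (ha : a * a = 1) (i j : ZMod 2) : a ^ (i + j).val = a ^ i.val * a ^ j.val := by
  have : ∀ i : ZMod 2, i = 0 ∨ i = 1 := by decide
  rcases this i with rfl | rfl <;> rcases this j with rfl | rfl <;>
    simp [show (1 + 1 : ZMod 2) = 0 from rfl, ZMod.val_one, ha]

omit [Finite T] h in
theorem add2 {a b : T} (ha : a * a = 1) (hb : b * b = 1) (hab : a * b = b * a) (s t : F4) :
    a ^ (s + t).re.val * b ^ (s + t).im.val = a ^ s.re.val * b ^ s.im.val * (a ^ t.re.val * b ^ t.im.val) := by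
  rw [QuadraticAlgebra.re_add, QuadraticAlgebra.im_add, pw ha, pw hb]
  exact Commute.mul_mul_mul_comm (Commute.pow_pow hab _ _) _ _

theorem heis {a b : T} (ha : a * a = 1) (hb : b * b = 1) (hab : ⁅a, b⁆ ≠ 1) :
    Nonempty (Heis3 F4 ≃* T) := by
  obtain ⟨z, hz⟩ : ∃ z, z = ⁅a, b⁆ := ⟨_, rfl⟩
  have zZ : z ∈ center T := hz ▸ h.cz a b
  have yZ := rZ (ρ := ρ) _ (rZ (ρ := ρ) _ zZ)
  have c2 : ⁅a, ρ b⁆ = ρ (ρ z) := by rw [h.cr, hz]
  have c3 : ⁅ρ a, b⁆ = ρ (ρ z) := by rw [h.bal, c2]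
  have c4 : ⁅ρ a, ρ b⁆ = z * ρ (ρ z) := by rw [h.r_mul zZ, hz, map_commutatorElement]
  have n3 : z ≠ 1 := hz ▸ hab
  have n1 : ρ (ρ z) ≠ 1 := by simpa using n3
  have n2 : z * ρ (ρ z) ≠ 1 := by rw [h.r_mul zZ]; simpa using n3
  generalize ρ (ρ z) = y at *
  have zz := h.sqZ zZ
  have yy := h.sqZ yZ
  have yz : y * z = z * y := mem_center_iff.1 zZ y
  have e1 : ∀ x, z * (z * x) = x := fun x => by rw [← mul_assoc, zz, one_mul]
  have e2 : ∀ x, y * (y * x) = x := fun x => by rw [← mul_assoc, yy, one_mul]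
  have e3 : ∀ x, y * (z * x) = z * (y * x) := fun x => by rw [← mul_assoc, yz, mul_assoc]
  have two : ∀ i : ZMod 2, i = 0 ∨ i = 1 := by decide
  refine Heis3.iso (fun s => a ^ s.re.val * ρ a ^ s.im.val) (fun s => b ^ s.re.val * ρ b ^ s.im.val)
    (fun s => z ^ s.re.val * y ^ s.im.val) (add2 ha (by rw [← map_mul, ha, map_one]) (h.f2 a))
    (add2 hb (by rw [← map_mul, hb, map_one]) (h.f2 b)) (add2 zz yy yz.symm)
    (fun u g => (mem_center_iff.1 (mul_mem (pow_mem zZ _) (pow_mem yZ _)) g).symm)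
    (fun s t => ?_) (fun u => ?_) (by rw [h.card, card_F4]; rfl)
  · have : ∀ u v : T, u * v = ⁅u, v⁆ * (v * u) := fun u v => by rw [commutatorElement_def]; group
    rw [this]
    congr 1
    obtain ⟨s0, s1⟩ := s
    obtain ⟨t0, t1⟩ := t
    rcases two s0 with rfl | rfl <;> rcases two s1 with rfl | rfl <;> rcases two t0 with rfl | rfl <;>
      rcases two t1 with rfl | rfl <;>
      simp [show (1 + 1 : ZMod 2) = 0 from rfl, ZMod.val_one, h.cml, h.cmr, ← hz, c2, c3, c4, mul_assoc,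
        e1, e2, e3, zz, yy, yz]
  · obtain ⟨s0, s1⟩ := u
    rcases two s0 with rfl | rfl <;> rcases two s1 with rfl | rfl <;>
      simp [ZMod.val_one, n1, n2, n3]
    rfl

end Fp

/-- Let T be a non-abelian group of order 64 admitting automorphisms ρ of order 3 and x of order 2 with x ρ x⁻¹ = ρ⁻¹ (so they generate a symmetric group of degree 3), where ρ fixes only the identity. Then T is isomorphic to a Sylow 2-subgroup of the projective special linear group of dimension 3 over the field with 4 elements, and the subgroup of fixed points of x is dihedral of order 8 or quaternion of order 8. -/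
theorem result {T : Type*} [Group T] [Finite T] (hT : Nat.card T = 64) (hna : ¬ IsMulCommutative T) (ρ x : MulAut T) (hρ : orderOf ρ = 3) (hx : orderOf x = 2)
    (hxr : x * ρ * x⁻¹ = ρ⁻¹) (hfp : ∀ y : T, ρ y = y → y = 1) (C : Subgroup T) (hC : ∀ y : T, y ∈ C ↔ x y = y) :
    (∃ (F : Type) (_ : Field F) (_ : Fintype F), Fintype.card F = 4 ∧
        ∃ S : Sylow 2 (Matrix.ProjectiveSpecialLinearGroup (Fin 3) F), Nonempty (T ≃* ↥(S : Subgroup (Matrix.ProjectiveSpecialLinearGroup (Fin 3) F)))) ∧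
      (Nonempty (↥C ≃* DihedralGroup 4) ∨ Nonempty (↥C ≃* QuaternionGroup 2)) := by
  have h : Fp ρ := ⟨hT, hna, hρ ▸ pow_orderOf_eq_one ρ, hfp⟩
  have x2 : ∀ y, x (x y) = y := fun y => by
    have := DFunLike.congr_fun (hx ▸ pow_orderOf_eq_one x : x ^ 2 = 1) y
    simpa [pow_succ] using this
  have xr : ∀ y, x (ρ y) = ρ (ρ (x y)) := fun y => by
    have := DFunLike.congr_fun hxr (x y)
    simp only [MulAut.mul_apply, MulAut.inv_apply, MulEquiv.symm_apply_apply] at this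
    rw [this, MulEquiv.symm_apply_eq, h.r3]
  have xZ : ∀ k ∈ center T, x k ∈ center T := Fp.rZ
  obtain ⟨z, zZ, z1, xz⟩ : ∃ z ∈ center T, z ≠ 1 ∧ x z = z := by
    haveI : Nontrivial (center T) := Finite.one_lt_card_iff_nontrivial.1 (by rw [h.card_Z]; norm_num)
    obtain ⟨⟨z, hz⟩, z1⟩ := exists_ne (1 : center T)
    have z1 : z ≠ 1 := fun e => z1 (Subtype.ext e)
    rcases h.mem_Z hz z1 (xZ z hz) with e | e | e | e
    · exact absurd (by simpa using e) z1
    · exact ⟨z, hz, z1, e⟩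
    · exact ⟨_, Fp.rZ _ (Fp.rZ _ hz), by simpa using z1, by rw [xr, xr, e, h.r3]⟩
    · exact ⟨_, Fp.rZ _ hz, by simpa using z1, by rw [xr, e, h.r3]⟩
  have zz := h.sqZ zZ
  have fz : ∀ w ∈ center T, x w = w → w = 1 ∨ w = z := fun w hw e => by
    rcases h.mem_Z zZ z1 hw with e' | e' | rfl | rfl
    · exact .inl e'
    · exact .inr e'
    · rw [xr, xz] at e; exact absurd (hfp _ (ρ.injective e)) z1
    · rw [xr, xr, xz, h.r3] at e; exact absurd (hfp _ (ρ.injective e).symm) z1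
  have lift : ∀ u, ∃ w ∈ center T, x (u * x u * w) = u * x u * w := fun u => by
    have e : x u * u = u * x u * ⁅u, x u⁆ := by
      rw [mem_center_iff.1 (h.cz _ _), ← h.symm, commutatorElement_def]; group
    rcases fz _ (h.cz u (x u)) (by rw [map_commutatorElement, x2, h.symm]) with e' | e'
    · exact ⟨1, one_mem _, by rw [mul_one, map_mul, x2, e, e', mul_one]⟩
    · exact ⟨ρ z, Fp.rZ _ zZ, by rw [map_mul, map_mul, x2, e, e', xr, xz, mul_assoc, h.r_mul zZ]⟩
  have ex : ∀ K : Subgroup T, (∀ k ∈ K, ρ k ∈ K) → center T ≤ K → ∀ u ∉ K, ∃ g ∉ K, x g = g := by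
    intro K hK hZ u hu
    by_contra hne
    push Not at hne
    have k : ∀ u, u * x u ∈ K := fun u => by
      obtain ⟨w, hw, e⟩ := lift u
      by_contra hn
      exact hne _ (fun e' => hn ((K.mul_mem_cancel_right (hZ hw)).1 e')) e
    have k1 := k (ρ u)
    have k2 := hK _ (hK _ (k u))
    rw [xr] at k1
    rw [map_mul, map_mul] at k2
    have k3 : ρ u * (ρ (ρ u))⁻¹ ∈ K := by
      simpa [mul_assoc] using K.mul_mem k1 (K.inv_mem k2)
    have k4 := hK _ (hK _ k3)
    simp only [map_mul, map_inv, h.r3] at k4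
    have k5 := K.inv_mem (K.mul_mem (K.mul_mem k4 (hZ (h.sq_mem (ρ u)))) (K.inv_mem k3))
    rw [show (u * (ρ u)⁻¹ * (ρ u * ρ u) * (ρ u * (ρ (ρ u))⁻¹)⁻¹)⁻¹ =
      ρ u * (u * ρ u * ρ (ρ u))⁻¹ by group, h.f1, inv_one, mul_one] at k5
    exact hu (h.r3 u ▸ hK _ (hK _ k5))
  have fc : ∀ {u v}, x u = u → x v = v → ⁅u, v⁆ = 1 ∨ ⁅u, v⁆ = z := fun hu hv =>
    fz _ (h.cz _ _) (by rw [map_commutatorElement, hu, hv])
  have fs : ∀ {u}, x u = u → u * u = 1 ∨ u * u = z := fun hu =>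
    fz _ (h.sq_mem _) (by rw [map_mul, hu])
  obtain ⟨a, b, xa, xb, hab⟩ : ∃ a b, x a = a ∧ x b = b ∧ ⁅a, b⁆ = z := by
    obtain ⟨u, -, hu⟩ := SetLike.exists_of_lt h.Z_ne.lt_top
    obtain ⟨a, ha, xa⟩ := ex _ Fp.rZ le_rfl u hu
    obtain ⟨v, hv⟩ : ∃ v, ¬ v * a = a * v := by simpa [mem_center_iff] using ha
    obtain ⟨b, hb, xb⟩ := ex _ (h.inv_sup Fp.rZ a) le_sup_left v
      fun e => hv (mem_centralizer_singleton_iff.1 (h.le_c rfl e))
    refine ⟨a, b, xa, xb, (fc xa xb).resolve_left fun e => hv ?_⟩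
    rw [commutatorElement_eq_one_iff_mul_comm] at e
    exact mem_centralizer_singleton_iff.1 (h.top (h.inv_sup Fp.rZ a) (h.big ha) hb (h.le_c rfl)
      (h.le_c e (mem_sup_right (subset_closure (by simp))))
      (h.le_c e (mem_sup_right (subset_closure (by simp)))) v)
  have cs : ∀ u : T, ⁅u, u⁆ = 1 := fun u => by simp
  have d8 : ∀ a b, x a = a → x b = b → ⁅a, b⁆ = z → a * a = z →
      Nonempty (C ≃* DihedralGroup 4) ∨ Nonempty (C ≃* QuaternionGroup 2) := by
    intro a b xa xb hab ha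
    obtain ⟨A, hA⟩ : ∃ A : C, A = a := ⟨⟨a, (hC a).2 xa⟩, rfl⟩
    obtain ⟨B, hB⟩ : ∃ B : C, B = b := ⟨⟨b, (hC b).2 xb⟩, rfl⟩
    have o4 : orderOf A = 4 := by
      haveI : Fact (Nat.Prime 2) := ⟨Nat.prime_two⟩
      rw [← orderOf_coe, hA]
      exact orderOf_eq_prime_pow (p := 2) (n := 1) (by rw [pow_one, sq, ha]; exact z1)
        (by rw [show a ^ 2 ^ (1 + 1) = a * a * (a * a) by simp [pow_succ, mul_assoc], ha, zz])
    have m1 : ∀ g : C, g ∈ zpowers A ↔ ⁅(g : T), a⁆ = 1 := fun g => by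
      constructor
      · rintro ⟨n, rfl⟩
        rw [commutatorElement_eq_one_iff_mul_comm, ← hA]
        exact_mod_cast ((Commute.refl A).zpow_left n).eq
      · have k : ∀ g : C, ⁅(g : T), a⁆ = 1 → ⁅(g : T), b⁆ = 1 → g ∈ zpowers A := fun g h1 h2 => by
          rcases fz _ (h.gen (hab ▸ z1) h1 h2) ((hC _).1 g.2) with e | e
          · rw [show g = 1 from Subtype.ext e]; exact one_mem _
          · rw [show g = A * A from Subtype.ext (by rw [e, coe_mul, hA, ha])]
            exact mul_mem (mem_zpowers A) (mem_zpowers A)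
        intro h1
        rcases fc ((hC _).1 g.2) xb with e | e
        · exact k g h1 e
        · exact ((zpowers A).mul_mem_cancel_right (mem_zpowers A)).1 (k (g * A)
            (by rw [coe_mul, hA, h.cml, h1, cs, one_mul]) (by rw [coe_mul, hA, h.cml, e, hab, zz]))
    have hi : (zpowers A).index = 2 := index_eq_two_iff.2 ⟨B, fun g => by
      rw [m1, m1, coe_mul, hB, h.cml, h.symm a b, hab]
      rcases fc ((hC _).1 g.2) xa with e | e <;> simp [e, z1, zz]⟩
    have c8 : Nat.card C = 8 := by rw [← (zpowers A).index_mul_card, hi, Nat.card_zpowers, o4]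
    have nb : B ∉ zpowers A := by rw [m1, hB, h.symm, hab]; exact z1
    have inv : B * A * B⁻¹ = A⁻¹ := Subtype.ext (by
      rw [coe_mul, coe_mul, coe_inv, coe_inv, hA, hB, eq_inv_iff_mul_eq_one,
        show b * a * b⁻¹ * a = ⁅b, a⁆ * (a * a) by rw [commutatorElement_def]; group, h.symm, hab, ha, zz])
    rcases fs xb with e | e
    · exact .inl (pg_nonempty_mulEquiv_dihedral o4 c8 nb (Subtype.ext (by simp [sq, hB, e])) inv)
    · exact .inr (pg_nonempty_mulEquiv_quaternion (n := 2) o4 c8 nb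
        (Subtype.ext (by simp [sq, hA, hB, e, ha])) inv)
  have xab : x (a * b) = a * b := by rw [map_mul, xa, xb]
  have c1 : ⁅a * b, b⁆ = z := by rw [h.cml, hab, cs, mul_one]
  have c2 : ⁅a, a * b⁆ = z := by rw [h.cmr, hab, cs, one_mul]
  have fin : ∀ u v : T, u * u = 1 → v * v = 1 → ⁅u, v⁆ = z → ∃ (F : Type) (_ : Field F) (_ : Fintype F),
      Fintype.card F = 4 ∧ ∃ S : Sylow 2 (Matrix.ProjectiveSpecialLinearGroup (Fin 3) F),
        Nonempty (T ≃* ↥(S : Subgroup (Matrix.ProjectiveSpecialLinearGroup (Fin 3) F))) :=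
    fun u v h1 h2 h3 => ⟨F4, inferInstance, inferInstance, card_F4,
      Heis3.iso_sylow (by decide) (h.heis h1 h2 (h3 ▸ z1)).some⟩
  rcases fs xa with e | e <;> rcases fs xb with e' | e'
  · exact ⟨fin a b e e' hab, d8 _ b xab xb c1 (by rw [h.sq_mul, e, e', hab]; simp)⟩
  · exact ⟨fin a _ e (by rw [h.sq_mul, e, e', hab]; simp [zz]) c2, d8 b a xb xa (by rw [h.symm, hab]) e'⟩
  · exact ⟨fin _ b (by rw [h.sq_mul, e, e', hab]; simp [zz]) e' c1, d8 a b xa xb hab e⟩
  · refine ⟨fin (a * ρ b) (a * ρ (ρ b)) ?_ ?_ ?_, d8 a b xa xb hab e⟩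
    · rw [h.sq_mul, ← map_mul, e, e', h.cr, hab, h.f1]
    · rw [h.sq_mul, ← map_mul, ← map_mul, e, e', h.cr, h.cr, hab, h.r3, h.r_mul zZ,
        h.sqZ (Fp.rZ _ zZ)]
    · rw [h.cml, h.cmr, h.cmr, cs, h.cr, h.cr, h.r3, h.symm a, h.cr, h.cr, cs, hab, map_one, map_one,
        mul_one, one_mul]
      exact (congrArg (· * ρ (ρ z)) (h.r_mul zZ).symm).trans
        (by rw [mul_assoc, h.sqZ (Fp.rZ _ (Fp.rZ _ zZ)), mul_one])

end Cfsg.Agent.S3157
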