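import Cfsg.Statements.S3161
import Cfsg.Agent.Lib.Misc.InvAut
import Cfsg.Agent.Lib.Suzuki.Field

set_option autoImplicit false
open Cfsg

namespace Cfsg.Agent.S3161

open Subgroup Cfsg.Lib Cfsg.Lib.InvAut
open scoped commutatorElement

section

variable {Q : Type*} [Group Q] [Finite Q] {F : Type} [Field F] [Fintype F] {α : Q →* Q}
  {k : F → Q →* Q} {a : F → Q} {s : F →+* F} (h : St α k a) (p : Sp F α) (hs : ∀ x, s x * s x = x)
include h p hs

theorem add1 {e : Q} {n : F} (he : e * e = a n) (x y : F) :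
    k x e * k y e = k (x + y) e * a (s x * s y * n) :=
  h.add_of hs he (fun x y => commutatorElement_eq_one_iff_mul_comm.1 (by
    rw [h.sp_cm hs p (b := 0) (by simp [h.a0]), mul_zero, h.a0])) (fun x y => h.sp_add hs p x y e) x y

omit p hs in
theorem sq_mul {u v : Q} {x y z : F} (hu : u * u = a x) (hv : v * v = a y) (huv : ⁅u, v⁆ = a z) :
    u * v * (u * v) = a (x + y + z) := by
  calc u * v * (u * v) = u * ⁅u, v⁆⁻¹ * (u * (v * v)) := by simp only [commutatorElement_def]; group
    _ = _ := by rw [huv, h.a_inv, mul_assoc, h.ac, h.a_add, h.a_add, ← hu, ← hv]; group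

theorem hyp {e f : Q} (he : e * e = 1) (hef : ⁅e, f⁆ = a 1) : Nonempty (Heis3 F ≃* Q) := by
  obtain ⟨n, hn⟩ := (h.fix _).1 (p.sq f)
  have c1 := h.sp_cm hs p hef (n * n) 1
  rw [map_mul s, hs, map_one, mul_one, mul_one, h.k1] at c1
  have hf : k (n * n) e * f * (k (n * n) e * f) = a 0 := by
    rw [sq_mul h (x := 0) (by rw [← map_mul, he, map_one, h.a0]) hn.symm c1, zero_add, h.add_self]
  have c2 : ⁅e, k (n * n) e * f⁆ = a 1 := by
    have := h.sp_cm hs p (g := e) (l := e) (b := 0) (by simp [h.a0]) 1 (n * n)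
    rw [h.k1, mul_zero, h.a0] at this
    rw [cmr _ (h.le_cen (p.cm _ _)), this, one_mul, hef]
  generalize k (n * n) e * f = g at hf c2
  refine Heis3.iso (fun x => k x e) (fun x => k x g) (fun x => a (s x))
    (fun x y => by rw [add1 h p hs (he.trans h.a0.symm), mul_zero, h.a0, mul_one])
    (fun x y => by rw [add1 h p hs hf, mul_zero, h.a0, mul_one])
    (fun x y => by rw [map_add, h.a_add]) (fun x => h.ac _) (fun x y => ?_)
    (fun x hx => by simpa [h.a_eq_one] using hx) p.card
  rw [map_mul, ← mul_one (s x * s y), ← h.sp_cm hs p c2, commutatorElement_def]; group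

theorem aniso {e f : Q} {n : F} (he : e * e = a 1) (hf : f * f = a n) (hef : ⁅e, f⁆ = a 1)
    [Fact (∀ r : F, r ^ 2 ≠ n * n + 1 * r)] :
    haveI : Fact (Function.Involutive ((starRingAut : RingAut (QuadraticAlgebra F (n * n) 1)) :
      QuadraticAlgebra F (n * n) 1 ≃+* QuadraticAlgebra F (n * n) 1)) := ⟨star_star⟩
    Nonempty (U3S (F := QuadraticAlgebra F (n * n) 1) starRingAut ≃* Q) := by
  haveI : Fact (Function.Involutive ((starRingAut : RingAut (QuadraticAlgebra F (n * n) 1)) :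
      QuadraticAlgebra F (n * n) 1 ≃+* QuadraticAlgebra F (n * n) 1)) := ⟨star_star⟩
  have c := h.sp_cm hs p hef
  let φ : U3S (F := QuadraticAlgebra F (n * n) 1) starRingAut →* Q :=
    MonoidHom.mk' (fun u => k u.a.re e * k u.a.im f * a (s u.b.re)) fun u v => by
      have e1 : s (u * v).b.re = s u.a.re * s v.a.re * 1 + s u.a.im * s v.a.im * n +
          s v.a.re * s u.a.im * 1 + s u.b.re + s v.b.re := by
        have : (u * v).b.re = u.a.re * v.a.re + u.a.im * v.a.im * (n * n) +
          v.a.re * u.a.im + u.b.re + v.b.re := by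
          simp
          linear_combination (-(n * n * u.a.im * v.a.im)) * h.two
        rw [this]
        simp only [map_add, map_mul, hs, mul_one]
      rw [e1, U3S.mul_a, QuadraticAlgebra.re_add, QuadraticAlgebra.im_add]
      have sw : k u.a.im f * k v.a.re e = k v.a.re e * k u.a.im f * a (s v.a.re * s u.a.im * 1) := by
        rw [← h.ac, ← h.a_inv, ← c, commutatorElement_def]; group
      symm
      calc _ = k u.a.re e * (k u.a.im f * k v.a.re e) * k v.a.im f * (a (s v.b.re) * a (s u.b.re)) := by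
            rw [mul_assoc _ (a _), h.ac]; simp only [mul_assoc]
        _ = k u.a.re e * k v.a.re e * (k u.a.im f * k v.a.im f) *
            (a (s v.a.re * s u.a.im * 1) * (a (s v.b.re) * a (s u.b.re))) := by
            rw [sw, ← mul_assoc (k _ e), mul_assoc _ (a _), h.ac _ (k _ f)]; simp only [mul_assoc]
        _ = _ := by
            rw [add1 h p hs he, add1 h p hs hf, mul_assoc _ (a _), h.ac]
            simp only [mul_assoc, ← h.a_add]
            congr 3; ring
  have hφ : Function.Injective φ := by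
    rw [injective_iff_map_eq_one]
    intro u hu
    have hu' : k u.a.re e * k u.a.im f * a (s u.b.re) = 1 := hu
    have z : ∀ g x, ⁅k x g, g⁆ = 1 := fun g x => by
      have := h.sp_cm hs p (g := g) (l := g) (b := 0) (by simp [h.a0]) x 1
      rwa [h.k1, mul_zero, h.a0] at this
    have h1 : u.a.re = 0 := by
      have := congrArg (fun g => ⁅g, f⁆) hu'
      have c' := c u.a.re 1
      rw [h.k1] at c'
      simpa [(cm_cen _ _ (h.cen _)).1, cml _ (h.le_cen (p.cm _ _)), z, c', h.a_eq_one] using this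
    have h2 : u.a.im = 0 := by
      have := congrArg (fun g => ⁅e, g⁆) hu'
      have c' := c 1 u.a.im
      rw [h.k1] at c'
      simpa [(cm_cen _ _ (h.cen _)).2, h1, h.k0, c', h.a_eq_one] using this
    have h3 : u.b.re = 0 := by simpa [h1, h2, h.k0, h.a_eq_one] using hu'
    have h4 := congrArg QuadraticAlgebra.re u.h
    simp [h1, h2, h3] at h4
    exact U3S.ext (QuadraticAlgebra.ext h1 h2) (QuadraticAlgebra.ext h3 h4)
  haveI : Finite (QuadraticAlgebra F (n * n) 1) := Finite.of_equiv _ (QuadraticAlgebra.equivProd _ _).symm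
  refine ⟨MulEquiv.ofBijective φ (hφ.bijective_of_nat_card_le ?_)⟩
  rw [p.card, ← Heis3.card]
  refine Nat.card_le_card_of_injective (fun u : Heis3 F => (⟨⟨u.a, u.b⟩,
    ⟨u.c, u.a * u.a + u.a * u.b + n * n * (u.b * u.b)⟩, ?_⟩ :
      U3S (F := QuadraticAlgebra F (n * n) 1) starRingAut)) fun u v e => ?_
  · ext <;> simp
    · linear_combination (u.c + n * n * (u.b * u.b)) * h.two
    · ring
  · simp only [U3S.mk.injEq, QuadraticAlgebra.mk.injEq] at e
    exact Heis3.ext e.1.1 e.1.2 e.2.1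

end

/-- Let Q be a non-abelian finite 2-group admitting commuting automorphisms α of order 2 and ρ of order 2^n − 1, where n ≥ 2, such that the fixed points of α form an elementary abelian subgroup of order 2^n on whose nonidentity elements the group generated by ρ acts transitively. Then Q is isomorphic to a Sylow 2-subgroup of the projective special unitary group of dimension 3 with parameter 2^n (realised over the field with 4^n elements) or of the projective special linear group of dimension 3 over the field with 2^n elements. -/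
theorem result {Q : Type*} [Group Q] [Finite Q] (hQ : IsPGroup 2 Q) (hna : ¬ IsMulCommutative Q) (n : ℕ) (hn : 2 ≤ n)
    (α ρ : MulAut Q) (hα : orderOf α = 2) (hρ : orderOf ρ = 2 ^ n - 1) (hc : Commute α ρ)
    (C : Subgroup Q) (hC : ∀ x : Q, x ∈ C ↔ α x = x) (hCE : Cfsg.IsElementaryAbelian 2 C ∧ Nat.card ↥C = 2 ^ n)
    (htr : ∀ x y : Q, x ∈ C → y ∈ C → x ≠ 1 → y ≠ 1 → ∃ k : ℕ, (ρ ^ k) x = y) :
    (∃ (F : Type) (_ : Field F) (_ : Fintype F), Fintype.card F = 4 ^ n ∧
        ∃ S : Sylow 2 (Cfsg.PSU 3 F (2 ^ n)), Nonempty (Q ≃* ↥(S : Subgroup (Cfsg.PSU 3 F (2 ^ n))))) ∨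
      (∃ (F : Type) (_ : Field F) (_ : Fintype F), Fintype.card F = 2 ^ n ∧
        ∃ S : Sylow 2 (Matrix.ProjectiveSpecialLinearGroup (Fin 3) F), Nonempty (Q ≃* ↥(S : Subgroup (Matrix.ProjectiveSpecialLinearGroup (Fin 3) F)))) := by
  obtain ⟨F, _, _, k, a, hF, h⟩ : ∃ (F : Type) (_ : Field F) (_ : Fintype F) (k : F → Q →* Q) (a : F → Q),
      Fintype.card F = 2 ^ n ∧ St α.toMonoidHom k a := by
    classical
    let G := Q ⋊[MonoidHom.id (MulAut Q)] MulAut Q
    haveI : Finite G := Finite.of_equiv _ SemidirectProduct.equivProd.symm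
    let ι : Q →* G := SemidirectProduct.inl
    let j : MulAut Q →* G := SemidirectProduct.inr
    have hι : Function.Injective ι := SemidirectProduct.inl_injective
    have hj : ∀ (g : MulAut Q) (x : Q), j g * ι x * (j g)⁻¹ = ι (g x) := fun g x => by
      ext <;> simp [ι, j, G]
    have cm : ∀ g ∈ zpowers ρ, ∀ x, α (g x) = g (α x) := by
      rintro _ ⟨i, rfl⟩ x
      exact DFunLike.congr_fun (hc.zpow_right i).eq x
    have inC : ∀ g ∈ zpowers ρ, ∀ x ∈ C, g x ∈ C := fun g hg x hx => by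
      rw [hC, cm g hg, (hC x).1 hx]
    have c4 : 4 ≤ 2 ^ n := le_trans (by norm_num) (Nat.pow_le_pow_right two_pos hn)
    haveI : Nontrivial C := Finite.one_lt_card_iff_nontrivial.1 (by rw [hCE.2]; omega)
    obtain ⟨⟨z, hz⟩, z1⟩ := exists_ne (1 : C)
    have z1 : z ≠ 1 := fun e => z1 (Subtype.ext e)
    have fpf : ∀ g ∈ zpowers ρ, g z = z → g = 1 := fun g hg e => by
      have orb : MulAction.orbit (zpowers ρ) z = (C : Set Q) \ {1} := by
        ext y
        constructor
        · rintro ⟨g, rfl⟩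
          exact ⟨inC _ g.2 z hz, fun e => z1 (g.1.injective (e.trans (map_one _).symm))⟩
        · rintro ⟨h1, h2⟩
          obtain ⟨i, rfl⟩ := htr z y hz h1 z1 h2
          exact ⟨⟨ρ ^ i, npow_mem_zpowers ρ i⟩, rfl⟩
      have c1 := (MulAction.stabilizer (zpowers ρ) z).index_mul_card
      rw [MulAction.index_stabilizer, orb, Set.ncard_sdiff_singleton_of_mem C.one_mem, Nat.card_zpowers, hρ,
        show (C : Set Q).ncard = 2 ^ n from hCE.2] at c1
      have c2 : MulAction.stabilizer (zpowers ρ) z = ⊥ :=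
        card_eq_one.1 (Nat.eq_of_mul_eq_mul_left (by omega) (c1.trans (mul_one _).symm))
      exact congrArg Subtype.val ((eq_bot_iff_forall _).1 c2 ⟨g, hg⟩ e)
    obtain ⟨m, F, _, _, a, κ, -, -, c⟩ := Suz.exists_FC (E := C.map ι) (K := (zpowers ρ).map j) (s := ι z)
      (by
        rintro _ ⟨x, hx, rfl⟩
        rw [← map_mul, ← sq, hCE.1.2 x hx, map_one])
      (by
        rintro _ ⟨g, hg, rfl⟩
        refine h9_mem_normalizer_of_conj_mem ?_
        rintro _ ⟨x, hx, rfl⟩
        exact ⟨_, inC g hg x hx, (hj g x).symm⟩)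
      (by
        rintro _ ⟨_, ⟨i, rfl⟩, rfl⟩ _ ⟨_, ⟨l, rfl⟩, rfl⟩
        rw [← map_mul, ← map_mul, zpow_mul_comm])
      ⟨z, hz, rfl⟩ (by simpa [hι.ne_iff' (map_one ι)] using z1)
      (by
        rintro _ ⟨x, hx, rfl⟩ h1
        obtain ⟨i, rfl⟩ := htr z x hz hx z1 (fun e => h1 (by rw [e, map_one]))
        exact ⟨_, ⟨(ρ ^ i)⁻¹, inv_mem (npow_mem_zpowers ρ i), rfl⟩, by rw [← hj, map_inv, inv_inv]⟩)
      (by
        rintro _ ⟨g, hg, rfl⟩ e
        rw [fpf g hg (hι (by rw [← hj, e]; simp)), map_one])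
    choose a' ha ha' using fun y => c.mem_E y
    choose r hr hr' using fun u => c.mem_K u
    have rm : ∀ u v, r (u * v) = r u * r v := fun u v =>
      SemidirectProduct.inr_injective (show j _ = j _ by rw [map_mul j, hr', hr', hr', map_mul])
    have r1 : r 1 = 1 := by simpa using rm 1 1
    refine ⟨F, inferInstance, inferInstance,
      fun x => if hx : x = 0 then 1 else (r (Units.mk0 x hx)⁻¹).toMonoidHom, a', ?_, hQ, c.two,
      fun x => ?_, fun g => by simp, fun g => by simp [r1], fun x y g => ?_, fun x g => ?_,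
      fun x y => hι (by rw [map_mul, ha', ha', ha', c.a_add]),
      fun x y e => c.a_inj (by rw [← ha', ← ha', e]), fun x => ?_, fun x y => ?_⟩
    · rw [← Nat.card_eq_fintype_card, ← c.card_E, card_map_of_injective hι, hCE.2]
    · simpa [sq] using DFunLike.congr_fun (hα ▸ pow_orderOf_eq_one α : α ^ 2 = 1) x
    · by_cases hx : x = 0
      · simp [hx]
      by_cases hy : y = 0
      · simp [hy]
      simp only [hx, hy, mul_ne_zero hx hy, dite_false, Units.mk0_mul, mul_inv, rm]
      rfl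
    · by_cases hx : x = 0
      · simp [hx]
      simp only [hx, dite_false]
      exact cm _ (hr _) g
    · refine (hC x).symm.trans ⟨fun hx => ?_, ?_⟩
      · obtain ⟨y, hy⟩ := (c.a_mem _).1 ⟨x, hx, rfl⟩
        exact ⟨y, hι (by rw [ha', hy])⟩
      · rintro ⟨y, rfl⟩
        exact ha y
    · by_cases hx : x = 0
      · simp only [hx, dite_true, zero_mul]
        exact hι (by rw [ha', c.a_zero]; simp)
      simp only [hx, dite_false]
      refine hι ((hj _ _).symm.trans ?_)
      rw [hr', ha', ha', map_inv, inv_inv, c.act]; rfl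
  obtain ⟨s, hs⟩ := exists_sqrt h.two
  have hs' : ∃ x, s x ≠ x := by
    have : 2 < Fintype.card F := by
      rw [hF]; exact lt_of_lt_of_le (by norm_num) (Nat.pow_le_pow_right two_pos hn)
    obtain ⟨x, h0, h1⟩ : ∃ x : F, x ≠ 0 ∧ x ≠ 1 := by
      classical
      obtain ⟨x, -, hx⟩ := Finset.exists_mem_notMem_of_card_lt_card
        (lt_of_le_of_lt (Finset.card_le_two (a := (0 : F)) (b := 1)) this)
      exact ⟨x, by simpa using hx⟩
    exact ⟨x, fun e => h1 (mul_left_cancel₀ h0 (by simpa [e] using hs x))⟩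
  have p : Sp F α.toMonoidHom := InvAut.main hs hs' _ rfl h (by
    by_contra hne
    push Not at hne
    exact hna ⟨⟨fun u v => commutatorElement_eq_one_iff_mul_comm.1 (hne u v)⟩⟩)
  have fin : ∀ {e f : Q}, e * e = 1 → ⁅e, f⁆ = a 1 → ∃ (F : Type) (_ : Field F) (_ : Fintype F),
      Fintype.card F = 2 ^ n ∧ ∃ S : Sylow 2 (Matrix.ProjectiveSpecialLinearGroup (Fin 3) F),
        Nonempty (Q ≃* ↥(S : Subgroup (Matrix.ProjectiveSpecialLinearGroup (Fin 3) F))) :=
    fun h1 h2 => ⟨F, inferInstance, inferInstance, hF, Heis3.iso_sylow h.two (hyp h p hs h1 h2).some⟩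
  obtain ⟨u, v, huv⟩ := p.na
  obtain ⟨b, hb⟩ := (h.fix _).1 (p.cm u v)
  have b0 : b ≠ 0 := fun e => huv (hb.symm.trans (h.a_eq_one.2 e))
  obtain ⟨m, hm⟩ := (h.fix _).1 (p.sq u)
  have sq : ∀ x, s (x * x) = x := fun x => by rw [map_mul, hs]
  by_cases m0 : m = 0
  · refine .inr (fin (e := u) (f := k (b⁻¹ * b⁻¹) v) (by rw [← hm, m0, h.a0]) ?_)
    have := h.sp_cm hs p hb.symm 1 (b⁻¹ * b⁻¹)
    rwa [h.k1, sq, map_one, one_mul, inv_mul_cancel₀ b0] at this
  obtain ⟨e, f, he, hef⟩ : ∃ e f : Q, e * e = a 1 ∧ ⁅e, f⁆ = a 1 :=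
    ⟨k m⁻¹ u, k (m * (b⁻¹ * b⁻¹)) v, by rw [← map_mul, ← hm, h.act, inv_mul_cancel₀ m0], by
      rw [h.sp_cm hs p hb.symm, ← map_mul, inv_mul_cancel_left₀ m0, sq, inv_mul_cancel₀ b0]⟩
  obtain ⟨d, hd⟩ := (h.fix _).1 (p.sq f)
  by_cases H : ∀ r : F, r ^ 2 ≠ d * d + 1 * r
  · haveI := Fact.mk H
    left
    obtain ⟨φ⟩ := aniso h p hs he hd.symm hef
    haveI : Fintype (QuadraticAlgebra F (d * d) 1) :=
      Fintype.ofEquiv _ (QuadraticAlgebra.equivProd _ _).symm
    have c : Fintype.card (QuadraticAlgebra F (d * d) 1) = 4 ^ n := by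
      rw [Fintype.card_congr (QuadraticAlgebra.equivProd _ _), Fintype.card_prod, hF, ← mul_pow]; rfl
    obtain ⟨two, τ, hτ, -, -, hu⟩ := h9_u3_field c
    have hω : ∃ ω : QuadraticAlgebra F (d * d) 1,
        (starRingAut : RingAut (QuadraticAlgebra F (d * d) 1)) ω ≠ ω := ⟨⟨0, 1⟩, fun e => by
      simpa using congrArg QuadraticAlgebra.re e⟩
    haveI : Fact (Function.Involutive ((starRingAut : RingAut (QuadraticAlgebra F (d * d) 1)) :
      QuadraticAlgebra F (d * d) 1 ≃+* QuadraticAlgebra F (d * d) 1)) := ⟨star_star⟩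
    obtain ⟨P⟩ : Nonempty (Sylow 2 (PSU 3 (QuadraticAlgebra F (d * d) 1) (2 ^ n))) := inferInstance
    obtain ⟨ψ⟩ := h9_u3_sylow_psu_equiv two (fun x => ((hu starRingAut star_star).resolve_left
      (fun e => hω.elim fun ω h => h (e ω)) x).trans (hτ x)) hω P
    exact ⟨_, inferInstance, inferInstance, c, P, ⟨φ.symm.trans ψ.symm⟩⟩
  · push Not at H
    obtain ⟨r, hr⟩ := H
    have c1 := h.sp_cm hs p hef r 1
    rw [h.k1, map_one, mul_one, mul_one] at c1
    refine .inr (fin (e := k r e * f) (f := e) ?_ ?_)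
    · rw [sq_mul h (x := r) (by rw [← map_mul, he, h.act, mul_one]) hd.symm c1, h.a_eq_one]
      refine pow_eq_zero_iff two_ne_zero |>.1 ?_
      linear_combination hr + hs r + (d * d + r + r * d + r * s r + d * s r) * h.two
    · have := h.sp_cm hs p (g := e) (l := e) (b := 0) (by simp [h.a0]) r 1
      rw [h.k1, mul_zero, h.a0] at this
      rw [cml _ (h.le_cen (p.cm _ _)), this, one_mul, ← commutatorElement_inv, hef, h.a_inv]

end Cfsg.Agent.S3161
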