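import Cfsg.Statements.S3162
import Mathlib
import Cfsg.Agent.Lib.Misc.U3Syl
import Cfsg.Agent.Lib.Core.Cores

set_option autoImplicit false
open Cfsg

namespace Cfsg.Agent.S3162

open Cfsg.Lib

section
variable {F : Type*} [Field F] [Finite F] {τ : F ≃+* F} [hτ : Fact (Function.Involutive τ)]

noncomputable def lift (l : Fˣ) (σ : F ≃+* F) (h : ∀ x, τ (σ x) = σ (τ x)) : MulAut (U3S τ) :=
  MulEquiv.ofBijective (MonoidHom.mk' (fun x => (⟨l * σ x.a, l * τ l * σ x.b, by
    have := congrArg σ x.h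
    simp only [map_add, map_mul, ← h] at this
    simp only [map_mul, U3S.ττ]
    linear_combination l * τ l * this⟩ : U3S τ)) fun x y => by
    ext
    · simp; ring
    · simp [← h]; ring) (Finite.injective_iff_bijective.1 fun x y e => by
    have h1 := congrArg U3S.a e
    have h2 := congrArg U3S.b e
    simp at h1 h2
    exact U3S.ext h1 h2)

theorem lift_a (l : Fˣ) (σ : F ≃+* F) (h : ∀ x, τ (σ x) = σ (τ x)) (x : U3S τ) : (lift l σ h x).a = l * σ x.a := rfl

def K (τ : F ≃+* F) [Fact (Function.Involutive τ)] : Subgroup (MulAut (U3S τ)) where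
  carrier := {θ | ∀ x, (θ x).a = x.a}
  one_mem' := fun _ => rfl
  mul_mem' := fun {a b} ha hb x => by rw [MulAut.mul_apply, ha, hb]
  inv_mem' := fun {a} ha x => by rw [← ha]; simp

theorem K_fix (h2 : (2 : F) = 0) (hω : ∃ ω, τ ω ≠ ω) {θ : MulAut (U3S τ)} (h : θ ∈ K τ) {x : U3S τ}
    (hx : x.a = 0) : θ x = x := U3S.ext (h x) (by
  rw [U3S.aut_center h2 hω (l := 1) (σ := RingEquiv.refl F) (fun y => by simpa using h y) (fun _ => rfl) hx]; simp)

theorem K_b (h2 : (2 : F) = 0) (hω : ∃ ω, τ ω ≠ ω) {θ : MulAut (U3S τ)} (h : θ ∈ K τ) {x y : U3S τ}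
    (hx : x.a = y.a) : (θ x).b - x.b = (θ y).b - y.b := by
  have h1 := K_fix h2 hω h (x := x⁻¹ * y) (by simp [hx])
  have h3 : θ y = θ x * (x⁻¹ * y) := by rw [← h1, ← map_mul]; simp
  have h4 : y = x * (x⁻¹ * y) := by simp
  have h5 := congrArg U3S.b h3
  have h6 := congrArg U3S.b h4
  rw [U3S.mul_b] at h5 h6
  rw [h x] at h5
  linear_combination h6 - h5

theorem K_comm (h2 : (2 : F) = 0) (hω : ∃ ω, τ ω ≠ ω) {θ φ : MulAut (U3S τ)} (h : θ ∈ K τ) (h' : φ ∈ K τ)
    (x : U3S τ) : (θ (φ x)).b = (θ x).b + (φ x).b - x.b := by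
  linear_combination K_b h2 hω h (h' x)

theorem card_K (h2 : (2 : F) = 0) (hω : ∃ ω, τ ω ≠ ω) {n : ℕ} (hF : Nat.card F = 4 ^ n) :
    Nat.card (K τ) = 2 ^ (2 * n ^ 2) := by
  haveI : CharP F 2 := (CharP.charP_iff_prime_eq_zero Nat.prime_two).2 (by exact_mod_cast h2)
  letI := ZMod.algebra F 2
  have hr : Module.finrank (ZMod 2) F = 2 * n := by
    have := Module.natCard_eq_pow_finrank (K := ZMod 2) (V := F)
    rw [hF, Nat.card_zmod, show 4 = 2 ^ 2 from rfl, ← pow_mul] at this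
    exact (Nat.pow_right_injective le_rfl this).symm
  let T : F →ₗ[ZMod 2] F := (AddMonoidHom.id F + τ.toAddMonoidHom).toZModLinearMap 2
  have hT : ∀ x, T x = x + τ x := fun x => rfl
  have hZ : Module.finrank (ZMod 2) (LinearMap.ker T) = n := by
    have h1 := LinearMap.finrank_range_add_finrank_ker T
    have h3 : LinearMap.range T = LinearMap.ker T := by
      apply le_antisymm
      · rintro _ ⟨x, rfl⟩
        simp only [LinearMap.mem_ker, hT, map_add, U3S.ττ]
        linear_combination (x + τ x) * h2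
      · intro b hb
        obtain ⟨ω, hω⟩ := hω
        have ht : ω + τ ω ≠ 0 := fun h => hω (by linear_combination h - ω * h2)
        have hb' : τ b = b := by
          rw [LinearMap.mem_ker, hT] at hb
          linear_combination hb - b * h2
        refine ⟨ω * b / (ω + τ ω), ?_⟩
        simp only [hT, map_div₀, map_mul, map_add, U3S.ττ, hb']
        rw [add_comm (τ ω) ω]; field_simp
    rw [h3, hr] at h1
    omega
  choose s hs using U3S.exists_a hω h2
  let Ψ : (F →ₗ[ZMod 2] LinearMap.ker T) → K τ := fun f => ⟨MulEquiv.ofBijective (MonoidHom.mk'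
    (fun x => (⟨x.a, x.b + f x.a, by
      have := (f x.a).2
      rw [LinearMap.mem_ker, hT] at this
      rw [map_add]
      linear_combination x.h + this⟩ : U3S τ)) fun x y => by
      ext
      · simp
      · simp; ring) (Finite.injective_iff_bijective.1 fun x y e => by
      have h1 : x.a = y.a := by simpa using congrArg U3S.a e
      have h2 : x.b + f x.a = y.b + f y.a := congrArg U3S.b e
      rw [h1] at h2
      exact U3S.ext h1 (add_right_cancel h2)), fun _ => rfl⟩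
  have hΨ : ∀ f x, ((Ψ f).1 x).b = x.b + f x.a := fun _ _ => rfl
  rw [← Nat.card_eq_of_bijective Ψ ⟨fun f g e => ?_, fun θ => ?_⟩, Module.natCard_eq_pow_finrank (K := ZMod 2),
    Module.finrank_linearMap, hr, hZ, Nat.card_zmod]
  · congr 1; ring
  · ext a
    have := hΨ f (s a)
    rw [e, hΨ, hs] at this
    exact (add_left_cancel this).symm
  · refine ⟨(AddMonoidHom.mk' (fun a => (⟨(θ.1 (s a)).b - (s a).b, ?_⟩ : LinearMap.ker T))
      fun a c => Subtype.ext ?_).toZModLinearMap 2, Subtype.ext (MulEquiv.ext fun x => U3S.ext (θ.2 x).symm ?_)⟩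
    · rw [LinearMap.mem_ker, hT, map_sub]
      have := (θ.1 (s a)).h
      rw [θ.2] at this
      linear_combination this - (s a).h
    · show (θ.1 (s (a + c))).b - (s (a + c)).b = (θ.1 (s a)).b - (s a).b + ((θ.1 (s c)).b - (s c).b)
      rw [K_b h2 hω θ.2 (y := s a * s c) (by simp [hs]), map_mul, U3S.mul_b, U3S.mul_b, θ.2, θ.2]
      ring
    · rw [hΨ]
      show x.b + ((θ.1 (s x.a)).b - (s x.a).b) = _
      rw [K_b h2 hω θ.2 (hs x.a)]; ring

theorem pCore_eq (h2 : (2 : F) = 0) (hω : ∃ ω, τ ω ≠ ω) : pCore 2 (MulAut (U3S τ)) = K τ := by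
  haveI : CharP F 2 := (CharP.charP_iff_prime_eq_zero Nat.prime_two).2 (by exact_mod_cast h2)
  have hscal : ∀ θ ∈ pCore 2 (MulAut (U3S τ)), ∀ ν : F, (∀ x, (θ x).a = ν * x.a) → ν = 1 := by
    intro θ hθ ν h
    obtain ⟨k, hk⟩ := isPGroup_pCore ⟨θ, hθ⟩
    have h1 : ∀ (m : ℕ) x, ((θ ^ m) x).a = ν ^ m * x.a := by
      intro m
      induction m with
      | zero => simp
      | succ m ih => intro x; rw [pow_succ', MulAut.mul_apply, h, ih]; ring
    obtain ⟨x, hx⟩ := U3S.exists_a hω h2 1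
    have h3 := h1 (2 ^ k) x
    rw [show θ ^ 2 ^ k = 1 from congrArg Subtype.val hk, MulAut.one_apply, hx, mul_one] at h3
    have h4 : (ν - 1) ^ 2 ^ k = 0 := by rw [sub_pow_char_pow, ← h3]; simp
    exact sub_eq_zero.1 (eq_zero_of_pow_eq_zero h4)
  apply le_antisymm
  · intro θ hθ
    obtain ⟨l, hl, σ, h3, h4⟩ := U3S.aut_struct hω h2 θ
    have h5 : ∀ a, σ a = a := by
      intro a
      by_cases ha : a = 0
      · simp [ha]
      let m := lift (τ := τ) (Units.mk0 a ha) (RingEquiv.refl F) fun _ => rfl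
      have hm : ∀ x, (m x).a = a * x.a := fun _ => rfl
      have hm' : ∀ x, (m⁻¹ x).a = a⁻¹ * x.a := fun x => by
        rw [eq_inv_mul_iff_mul_eq₀ ha, ← hm]; simp
      have := hscal (θ * (m * θ⁻¹ * m⁻¹)) (mul_mem hθ (Subgroup.Normal.conj_mem inferInstance _ (inv_mem hθ) m))
        (σ a * a⁻¹) (fun x => by
          simp only [MulAut.mul_apply]
          rw [h4, hm, map_mul, mul_left_comm, ← h4]
          rw [MulAut.apply_inv_self, hm', mul_assoc])
      rwa [mul_inv_eq_one₀ ha] at this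
    simp only [h5] at h4
    intro x
    rw [h4, hscal θ hθ l h4, one_mul]
  · refine le_pCore ⟨fun θ hθ φ x => ?_⟩ fun θ => ⟨1, Subtype.ext (MulEquiv.ext fun x => ?_)⟩
    · obtain ⟨l, hl, σ, h3, h4⟩ := U3S.aut_struct hω h2 φ
      simp only [MulAut.mul_apply]
      rw [h4, hθ, ← h4]; simp
    · show θ.1 (θ.1 x) = x
      refine U3S.ext (by rw [θ.2, θ.2]) ?_
      rw [K_comm h2 hω θ.2 θ.2]
      linear_combination ((θ.1 x).b - x.b) * h2

theorem card_aut (h2 : (2 : F) = 0) (hω : ∃ ω, τ ω ≠ ω) (hc : ∀ (σ : F ≃+* F) x, τ (σ x) = σ (τ x)) :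
    Nat.card (MulAut (U3S τ)) = Nat.card (K τ) * (Nat.card (F ≃+* F) * Nat.card Fˣ) := by
  rw [← Nat.card_prod, ← Nat.card_prod]
  refine (Nat.card_eq_of_bijective (fun p => p.1.1 * lift p.2.2 p.2.1 (hc _)) ⟨?_, fun θ => ?_⟩).symm
  · rintro ⟨k, σ, l⟩ ⟨k', σ', l'⟩ e
    have h1 : ∀ a, l * σ a = l' * σ' a := by
      intro a
      obtain ⟨x, rfl⟩ := U3S.exists_a hω h2 a
      have := congrArg (fun θ : MulAut (U3S τ) => (θ x).a) e
      simp only [MulAut.mul_apply] at this
      rwa [k.2, k'.2] at this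
    obtain rfl : l = l' := Units.ext (by simpa using h1 1)
    obtain rfl : σ = σ' := RingEquiv.ext fun a => mul_left_cancel₀ l.ne_zero (h1 a)
    simp only [mul_left_inj] at e
    rw [Subtype.ext e]
  · obtain ⟨l, hl, σ, h3, h4⟩ := U3S.aut_struct hω h2 θ
    refine ⟨⟨⟨θ * (lift (Units.mk0 l hl) σ (hc _))⁻¹, fun x => ?_⟩, σ, Units.mk0 l hl⟩, by simp⟩
    rw [MulAut.mul_apply, h4]
    exact (lift_a (Units.mk0 l hl) σ (hc _) _).symm.trans (by simp)

end

/-- Let S be a Sylow 2-subgroup of the special unitary group of dimension 3 with parameter q = 2^n (n ≥ 2; realised over the field with q² elements). Then the largest normal 2-subgroup of the automorphism group of S is elementary abelian of order 2^(2n²), and the automorphism group has order 2^(2n²) · 2n(q² − 1). -/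
theorem result {S : Type*} [Group S] [Finite S] (n : ℕ) (hn : 2 ≤ n) {F : Type*} [Field F] [Fintype F] (hF : Fintype.card F = 4 ^ n)
    (P : Sylow 2 ↥(Cfsg.SU 3 F (2 ^ n))) (hS : Nonempty (S ≃* ↥(P : Subgroup ↥(Cfsg.SU 3 F (2 ^ n))))) :
    Cfsg.IsElementaryAbelian 2 (Cfsg.pCore 2 (MulAut S)) ∧ Nat.card ↥(Cfsg.pCore 2 (MulAut S)) = 2 ^ (2 * n ^ 2) ∧
      Nat.card (MulAut S) = 2 ^ (2 * n ^ 2) * (2 * n * ((2 ^ n) ^ 2 - 1)) := by
  obtain ⟨h2, τ, hq, hτ, hω, -⟩ := h9_u3_field hF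
  obtain ⟨g1, -, -, g4⟩ := h9_char_two_field (m := 2 * n) (hF.trans (by rw [pow_mul]; rfl))
  haveI : Fact (Function.Involutive τ) := ⟨hτ⟩
  obtain ⟨e1⟩ := hS
  obtain ⟨e2⟩ := h9_u3_sylow_equiv h2 hq hω P
  let e := MulAut.congr (e1.trans e2)
  have h1 : (pCore 2 (MulAut S)).map e.toMonoidHom = K τ := (map_pCore_equiv e).trans (pCore_eq h2 hω)
  have hmem : ∀ θ ∈ pCore 2 (MulAut S), e θ ∈ K τ := fun θ h => h1 ▸ ⟨θ, h, rfl⟩
  have hK := card_K h2 hω (Nat.card_eq_fintype_card.trans hF)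
  refine ⟨⟨⟨⟨fun a b => Subtype.ext (e.injective ?_)⟩⟩, fun a ha => e.injective ?_⟩, ?_, ?_⟩
  · have ha := hmem a a.2
    have hb := hmem b b.2
    simp only [Subgroup.coe_mul, map_mul]
    refine MulEquiv.ext fun x => U3S.ext ?_ ?_
    · simp only [MulAut.mul_apply]; rw [ha, hb, hb, ha]
    · simp only [MulAut.mul_apply]; rw [K_comm h2 hω ha hb, K_comm h2 hω hb ha]; ring
  · have ha := hmem a ha
    rw [map_pow, map_one, pow_two]
    refine MulEquiv.ext fun x => U3S.ext ?_ ?_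
    · simp only [MulAut.mul_apply]; rw [ha, ha]; rfl
    · simp only [MulAut.mul_apply, MulAut.one_apply]; rw [K_comm h2 hω ha ha]
      linear_combination ((e a x).b - x.b) * h2
  · rw [← hK, ← h1, Subgroup.card_map_of_injective e.injective]
  · rw [Nat.card_congr e.toEquiv, card_aut h2 hω (fun σ x => by rw [hq, hq, map_pow]), hK, g4, Nat.card_units,
      Nat.card_eq_fintype_card, hF, ← pow_mul 2 n 2, mul_comm n 2, pow_mul 2 2 n]
    rfl

end Cfsg.Agent.S3162
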