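import Cfsg.Statements.S3169
import Mathlib
import Cfsg.Agent.Lib.SC2.Build

set_option autoImplicit false
open Cfsg

namespace Cfsg.Agent.S3169

open Subgroup Cfsg.Lib

/-- Let P be a Sylow 2-subgroup of the Mathieu group of degree 24 and let G be a finite group with no nontrivial normal subgroup of odd order whose Sylow 2-subgroup S is isomorphic to the quotient of P by its centre. If A is an abelian subgroup of S of order 64 and is the only abelian subgroup of S of that order, then A is normal in G. -/
theorem result {G : Type*} [Group G] [Finite G]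
    (hO : Cfsg.oddCore G = ⊥) (S : Sylow 2 G) (P : Sylow 2 ↥Cfsg.M24)
    (hS : Nonempty (↥(S : Subgroup G) ≃* (↥(P : Subgroup ↥Cfsg.M24) ⧸ Subgroup.center ↥(P : Subgroup ↥Cfsg.M24))))
    (A : Subgroup G) (hA : A ≤ (S : Subgroup G)) (hAc : IsMulCommutative ↥A) (hA64 : Nat.card ↥A = 64)
    (huniq : ∀ B : Subgroup G, B ≤ (S : Subgroup G) → IsMulCommutative ↥B → Nat.card ↥B = 64 → B = A) :
    A.Normal := by
  obtain ⟨e⟩ := hS
  obtain ⟨e'⟩ := FT.VV.nonempty_equiv P
  have := FT.VV.normal_of_equiv (IsSylowIn.of_sylow_top S) (e'.trans e.symm) huniq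
  rwa [hO, sup_bot_eq] at this

end Cfsg.Agent.S3169
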