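import Cfsg.Statements.S3170
import Mathlib
import Cfsg.Agent.Lib.SC2.Build
import Cfsg.Agent.S3171

set_option autoImplicit false
open Cfsg

namespace Cfsg.Agent.S3170

open Subgroup Cfsg.Lib

open Cfsg.Lib.FT Cfsg.Lib.FT.VV Cfsg.Lib.Golay Cfsg.Lib.PC in
theorem card_center (P : Sylow 2 M24) : Nat.card (center ↥(P : Subgroup M24)) = 2 := by
  obtain ⟨l, z, h⟩ := exists_sylData
  obtain ⟨e⟩ := h.nonempty_equiv P
  have : (center (gen l) : Set (gen l)) = {1, ⟨z, gen_drop_le l 3 h.z_mem⟩} := by
    ext x
    simp only [SetLike.mem_coe, h.mem_center, Set.mem_insert_iff, Set.mem_singleton_iff, Subtype.ext_iff,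
      OneMemClass.coe_one]
  rw [← map_center_equiv e, card_map_of_injective e.injective, ← SetLike.coe_sort_coe, this,
    Nat.card_coe_set_eq, Set.ncard_pair fun e => h.z_ne (congrArg Subtype.val e).symm]

/-- Let H be a finite group with no nontrivial normal subgroup of odd order whose Sylow 2-subgroup T is isomorphic to a Sylow 2-subgroup of the Mathieu group of degree 24, and suppose that the centre of T lies in the centre of H. If E is a subgroup of T that is normal in T and extraspecial of order 2^7, and E is the only such subgroup of T, then E is normal in H. -/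
theorem result {H : Type*} [Group H] [Finite H]
    (hO : Cfsg.oddCore H = ⊥) (T : Sylow 2 H) (P : Sylow 2 ↥Cfsg.M24)
    (hT : Nonempty (↥(T : Subgroup H) ≃* ↥(P : Subgroup ↥Cfsg.M24)))
    (hZ : ∀ z ∈ (T : Subgroup H), (∀ t ∈ (T : Subgroup H), z * t = t * z) → z ∈ Subgroup.center H)
    (E : Subgroup H) (hE : E ≤ (T : Subgroup H)) (hEn : (E.subgroupOf (T : Subgroup H)).Normal)
    (hEx : Cfsg.IsExtraspecial 2 ↥E) (hE7 : Nat.card ↥E = 2 ^ 7)
    (huniq : ∀ E' : Subgroup H, E' ≤ (T : Subgroup H) → (E'.subgroupOf (T : Subgroup H)).Normal →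
      Cfsg.IsExtraspecial 2 ↥E' → Nat.card ↥E' = 2 ^ 7 → E' = E) :
    E.Normal := by
  open Cfsg.Lib.FT Cfsg.Lib.FT.VV in
  obtain ⟨e⟩ := hT
  obtain ⟨e'⟩ := nonempty_equiv P
  set Z := (center (T : Subgroup H)).map (T : Subgroup H).subtype with hZdef
  have hZc : Z ≤ center H := by
    rintro _ ⟨z, hz, rfl⟩
    exact hZ z z.2 fun t ht => congrArg Subtype.val (mem_center_iff.1 hz ⟨t, ht⟩).symm
  have hZn : Z.Normal := ⟨fun x hx g => by rwa [mem_center_iff.1 (hZc hx) g, mul_inv_cancel_right]⟩
  have hZ2 : Nat.card Z = 2 := by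
    have := card_center P
    rw [← map_center_equiv e, card_map_of_injective e.injective] at this
    rw [hZdef, card_map_of_injective (subtype_injective _), this]
  set Z' := (center E).map E.subtype with hZ'def
  have hZ'2 : Nat.card Z' = 2 := by rw [hZ'def, card_map_of_injective (subtype_injective _), hEx.2]
  have hTE : (T : Subgroup H) ≤ N[E] := (normal_subgroupOf_iff_le_normalizer hE).1 hEn
  have hZ'T : Z' ≤ T := (map_subtype_le _).trans hE
  have hZZ : Z' = Z := by
    have : (Z'.subgroupOf T).Normal := (normal_subgroupOf_iff_le_normalizer hZ'T).2 (by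
      rw [hZ'def, map_subtype_center]
      exact le_normalizer_inf hTE (hTE.trans (normalizer_le_normalizer_centralizer E)))
    have h1 := pg_le_center_of_card_eq (p := 2) T.isPGroup' (H := Z'.subgroupOf T) (by
      rw [← card_map_of_injective (subtype_injective _), map_subgroupOf_eq_of_le hZ'T, hZ'2])
    refine eq_of_le_of_card_ge ?_ (by omega)
    rw [← map_subgroupOf_eq_of_le hZ'T]
    exact map_mono h1
  have hZE : Z ≤ E := hZZ ▸ map_subtype_le _
  let π := QuotientGroup.mk' Z
  have hk : π.ker = Z := QuotientGroup.ker_mk' Z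
  have hs : Function.Surjective π := QuotientGroup.mk'_surjective Z
  have hS := (IsSylowIn.of_sylow_top T).map π
  rw [map_top_of_surjective _ hs] at hS
  let f : (T : Subgroup H) →* (T : Subgroup H).map π := π.subgroupMap T
  have hf : f.ker = center (T : Subgroup H) := by
    ext x
    rw [MonoidHom.mem_ker, Subtype.ext_iff]
    change π x = 1 ↔ _
    rw [← MonoidHom.mem_ker, hk, hZdef, ← mem_subgroupOf, subgroupOf, comap_map_eq_self_of_injective
      (subtype_injective _)]
  let ε : (T : Subgroup H).map π ≃* _ := (QuotientGroup.quotientKerEquivOfSurjective f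
    (π.subgroupMap_surjective T)).symm.trans (QuotientGroup.congr _ (center ↥(P : Subgroup M24)) e (by rw [hf]; exact map_center_equiv e))
  have hu : ∀ B ≤ (T : Subgroup H).map π, IsMulCommutative B → Nat.card B = 64 →
      ∀ B' ≤ (T : Subgroup H).map π, IsMulCommutative B' → Nat.card B' = 64 → B = B' := by
    intro B hB h1 h2 B' hB' h3 h4
    have hc : ∀ {B}, B ≤ (T : Subgroup H).map π →
        Nat.card ((B.subgroupOf _).map ε.toMonoidHom) = Nat.card B := fun hB => by
      rw [card_map_of_injective ε.injective, ← card_map_of_injective (subtype_injective _),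
        map_subgroupOf_eq_of_le hB]
    have := (S3171.result P).2.2 _ _ inferInstance ((hc hB).trans h2) inferInstance ((hc hB').trans h4)
    rw [← map_subgroupOf_eq_of_le hB, map_injective ε.injective this, map_subgroupOf_eq_of_le hB']
  have h1 := pg_card_map_mul_card_ker π E
  rw [hk, inf_eq_right.2 hZE, hZ2, hE7] at h1
  have h2 : IsMulCommutative (E.map π) := by
    rw [isMulCommutative_iff_le_centralizer, ← commutator_eq_bot_iff_le_centralizer, ← map_commutator,
      Subgroup.map_eq_bot_iff, hk, ← hZZ, hZ'def, ← hEx.1.2.2, map_subtype_commutator]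
  have h3 := (normal_of_equiv hS (e'.trans ε.symm) fun B hB h3 h4 =>
    hu B hB h3 h4 _ (map_mono hE) h2 (by omega)).comap π
  convert h3 using 1
  rw [← comap_sup_eq _ _ _ hs, comap_map_eq_self (hk.le.trans hZE)]
  refine (sup_eq_left.2 ((comap_pPrimeCore_of_central π (T.isPGroup'.to_le ((hk.le.trans hZE).trans hE))
    (hk.le.trans hZc)).trans (sup_le (hk.le.trans hZE) ?_))).symm
  exact hO.le.trans bot_le

end Cfsg.Agent.S3170
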