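import Cfsg.Statements.S3174
import Mathlib
import Cfsg.Agent.Lib.RuSyl.Two

set_option autoImplicit false
open Cfsg

namespace Cfsg.Agent.S3174

open Subgroup Cfsg.Lib

/-- Let T be a finite 2-group of order at least 2^14 in which the fourth term of the upper central series has order 16. Let W be the centralizer in T of the third term Z₃(T), and suppose the Frattini subgroup of W has order at most 8 and lies in every subgroup of W of index at most 16. Then T has order exactly 2^14; the derived subgroup of W and the Frattini subgroup of W both equal Z₃(T), which is elementary abelian of order 8; the centre of W has order 8; W is normal in T with quotient dihedral of order 8; and W modulo its derived subgroup is elementary abelian of order 2^8. -/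
theorem result {T : Type*} [Group T] [Finite T]
    (hT : IsPGroup 2 T) (ha : 2 ^ 14 ≤ Nat.card T) (hb : Nat.card ↥(Subgroup.upperCentralSeries T 4) = 16)
    (W : Subgroup T) (hW : W = Subgroup.centralizer ((Subgroup.upperCentralSeries T 3 : Subgroup T) : Set T))
    (hc : Nat.card ↥(frattini ↥W) ≤ 8) (hd : ∀ U : Subgroup ↥W, U.index ≤ 16 → frattini ↥W ≤ U) :
    Nat.card T = 2 ^ 14 ∧
      (commutator ↥W).map W.subtype = Subgroup.upperCentralSeries T 3 ∧
      (frattini ↥W).map W.subtype = Subgroup.upperCentralSeries T 3 ∧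
      Nat.card ↥(Subgroup.center ↥W) = 8 ∧
      Nat.card ↥(Subgroup.upperCentralSeries T 3) = 8 ∧ (∀ z ∈ Subgroup.upperCentralSeries T 3, z ^ 2 = 1) ∧
      (∃ (_ : W.Normal), Nonempty (T ⧸ W ≃* DihedralGroup 4)) ∧
      Nat.card (↥W ⧸ commutator ↥W) = 2 ^ 8 ∧ (∀ x : ↥W ⧸ commutator ↥W, x ^ 2 = 1) := by
  have h : RuSyl.Hyp W := ⟨hT, ha, hb, hW, hc, hd⟩
  have hn := h.normal
  have h3 : Nat.card (Subgroup.upperCentralSeries T 3) = 8 := h.card_ucs 3 (by omega)
  have e1 : (commutator ↥W).map W.subtype = Subgroup.upperCentralSeries T 3 := by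
    rw [map_subtype_commutator, h.commutator_eq]
  have c1 : Nat.card (commutator ↥W) = 8 := by
    rw [← card_map_of_injective W.subtype_injective, e1, h3]
  refine ⟨?_, e1, h.phi_eq, ?_, h3, fun z hz => by rw [pow_two, h.z_sq hz], ⟨hn, h.dihedral⟩, ?_, fun x => ?_⟩
  · rw [← card_mul_index W, h.card_W, h.index]; rfl
  · rw [← card_map_of_injective W.subtype_injective, ← h3, ← h.center_eq]
    congr 2
    ext x
    constructor
    · rintro ⟨y, hy, rfl⟩
      exact ⟨y.2, fun w hw => congrArg Subtype.val (mem_center_iff.1 hy ⟨w, hw⟩)⟩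
    · rintro ⟨hx, hx'⟩
      exact ⟨⟨x, hx⟩, mem_center_iff.2 fun w => Subtype.ext (hx' w w.2), rfl⟩
  · have := card_mul_index (commutator ↥W)
    rw [c1, h.card_W] at this
    show (commutator ↥W).index = _
    omega
  · induction x using QuotientGroup.induction_on with
    | H w =>
      rw [← QuotientGroup.mk_pow, QuotientGroup.eq_one_iff]
      obtain ⟨y, hy, e⟩ := e1.ge (h.sq w.2)
      rwa [show w ^ 2 = y from Subtype.ext (by rw [pow_two]; exact e.symm)]

end Cfsg.Agent.S3174
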