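import Cfsg.Statements.S3178
import Mathlib
import Cfsg.Agent.Lib.Misc.Invol
import Cfsg.Agent.Lib.PGroup.CyclicIndex
import Cfsg.Agent.Lib.Transfer.Thompson

set_option autoImplicit false
open Cfsg

namespace Cfsg.Agent.S3178

open Cfsg.Lib

open Subgroup

/-- Groups with a modular Sylow 2-subgroup have a normal 2-complement. Let S, of order 2^(n+1) with n ≥ 3, be a Sylow 2-subgroup of a finite group G, and suppose S contains an element a of order 2^n and an involution b with b a b⁻¹ = a^(2^(n-1) + 1); so S is the non-abelian 2-group with a cyclic subgroup of index 2 that is neither dihedral, semidihedral nor generalized quaternion. Then G has a normal 2-complement. -/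
theorem result {G : Type*} [Group G] [Finite G]
    (S : Sylow 2 G) (n : ℕ) (hn : 3 ≤ n) (hS : Nat.card ↥(S : Subgroup G) = 2 ^ (n + 1))
    (a b : G) (ha : a ∈ (S : Subgroup G)) (hb : b ∈ (S : Subgroup G))
    (hao : orderOf a = 2 ^ n) (hbo : orderOf b = 2) (hrel : b * a * b⁻¹ = a ^ (2 ^ (n - 1) + 1)) :
    Cfsg.HasNormalPComplement 2 G := by
  haveI : Fact (Nat.Prime 2) := ⟨Nat.prime_two⟩
  obtain ⟨m, rfl⟩ : ∃ m, n = m + 3 := ⟨n - 3, by omega⟩
  rw [show m + 3 - 1 = m + 2 from rfl, pow_succ'] at hrel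
  obtain ⟨hb1, hb2⟩ := h9_orderOf_eq_two_iff.1 hbo
  have hpow : ∀ k : ℕ, a ^ k = 1 ↔ 2 ^ (m + 3) ∣ k := fun k => by rw [← hao, orderOf_dvd_iff_pow_eq_one]
  set z := a ^ 2 ^ (m + 2) with hz
  have hz2 : z ^ 2 = 1 := by rw [hz, ← pow_mul, hpow]; exact ⟨1, by ring⟩
  have hz1 : z ≠ 1 := by
    rw [hz, Ne, hpow, Nat.pow_dvd_pow_iff_le_right (by norm_num)]; omega
  have haz : Commute a z := Commute.self_pow a _
  have hbi : ∀ i : ℕ, b * a ^ i * b⁻¹ = a ^ i * z ^ i := fun i => by rw [← conj_pow, hrel, haz.mul_pow]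
  have hb2i : ∀ i : ℕ, Commute b (a ^ (2 * i)) := fun i => by
    have := hbi (2 * i)
    rw [pow_mul z, hz2, one_pow, mul_one, mul_inv_eq_iff_eq_mul] at this
    exact this
  have hbA : b ∉ zpowers a := by
    rintro ⟨i, rfl⟩
    simp only at hrel
    rw [(Commute.zpow_self a i).eq, mul_inv_cancel_right, left_eq_mul] at hrel
    exact hz1 hrel
  have hle : zpowers a ≤ S := zpowers_le_of_mem ha
  have hidx : (zpowers a).relIndex S = 2 := by
    have := relIndex_mul_card hle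
    rw [Nat.card_zpowers, hao, hS, pow_succ' _ (m + 3)] at this
    exact Nat.eq_of_mul_eq_mul_right (by positivity) this
  have hform : ∀ x ∈ (S : Subgroup G), ∃ i : ℕ, x = a ^ i ∨ x = a ^ i * b := by
    intro x hx
    by_cases h : x ∈ zpowers a
    · obtain ⟨i, hi⟩ := mem_powers_iff_mem_zpowers.2 h
      exact ⟨i, Or.inl hi.symm⟩
    · have h1 : x * b ∈ zpowers a := (mul_mem_iff_of_index_two (H := (zpowers a).subgroupOf S) hidx
        (a := ⟨x, hx⟩) (b := ⟨b, hb⟩)).2 (iff_of_false h hbA)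
      obtain ⟨i, hi⟩ := mem_powers_iff_mem_zpowers.2 h1
      exact ⟨i, Or.inr (by rw [show a ^ i = x * b from hi, mul_assoc, hb2, mul_one])⟩
  have hsq : ∀ i : ℕ, (a ^ i * b) ^ 2 = a ^ (2 * i) * z ^ i := fun i => by
    calc (a ^ i * b) ^ 2 = a ^ i * (b * a ^ i * b⁻¹) * (b * b) := by rw [pow_two]; group
      _ = _ := by rw [hbi, hb2, two_mul, pow_add]; group
  have hfour : ∀ x ∈ (S : Subgroup G), x ^ 4 = 1 → ∃ i : ℕ, x = a ^ (2 * i) ∨ x = a ^ (2 * i) * b := by
    intro x hx h4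
    obtain ⟨i, hi⟩ := hform x hx
    have h1 : a ^ (4 * i) = 1 := by
      rcases hi with rfl | rfl
      · rwa [← pow_mul, mul_comm] at h4
      · rwa [show 4 = 2 * 2 from rfl, pow_mul, hsq, (haz.pow_pow _ _).mul_pow, ← pow_mul z, mul_comm i,
          pow_mul z, hz2, one_pow, mul_one, ← pow_mul, show 2 * i * 2 = 4 * i by ring] at h4
    rw [hpow] at h1
    have h2 : 8 ∣ 4 * i := Dvd.dvd.trans ⟨2 ^ m, by ring⟩ h1
    obtain ⟨j, rfl⟩ : ∃ j, i = 2 * j := ⟨i / 2, by omega⟩
    exact ⟨j, hi⟩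
  have hzS : ∀ x ∈ (S : Subgroup G), x * z = z * x := by
    intro x hx
    have hbz : Commute b z := by rw [hz, pow_succ' 2 (m + 1)]; exact hb2i _
    obtain ⟨i, rfl | rfl⟩ := hform x hx
    · exact haz.pow_left i
    · exact (haz.pow_left i).mul_left hbz
  have hinvol : ∀ x ∈ zpowers a, x ^ 2 = 1 → x = 1 ∨ x = z := fun x hx hx2 =>
    pg_mem_order_two_of_sq_eq_one hao hx hx2
  have hK : ∀ t ∈ (S : Subgroup G), t ∈ pResidual 2 G → t ^ 2 = 1 → t = 1 ∨ t = z := by
    intro t htS htK ht2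
    obtain ⟨g, hg⟩ := thompson_transfer S hidx ht2 htK
    rcases hinvol _ hg (by rw [conj_pow, ht2]; group) with h | h
    · left; rwa [mul_inv_eq_one, mul_eq_left] at h
    right
    have hta : Commute t (a ^ 2) := by
      obtain ⟨i, rfl | rfl⟩ := hfour t htS (by rw [show 4 = 2 * 2 from rfl, pow_mul, ht2, one_pow])
      · exact Commute.pow_pow_self a _ _
      · exact (Commute.pow_pow_self a _ _).mul_left (hb2i 1)
    obtain ⟨k, hk, hk'⟩ := (IsSylowIn.of_sylow_le S (K := centralizer ({z} : Set G))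
      (fun x hx => mem_centralizer_singleton_iff.2 (hzS x hx))).exists_conj_le
      (U := (zpowers (a ^ 2)).map (MulAut.conj g).toMonoidHom)
      ((S.isPGroup'.to_le (zpowers_le_of_mem (pow_mem ha 2))).map _) (by
        rw [MonoidHom.map_zpowers, zpowers_le, mem_centralizer_singleton_iff, ← h]
        exact (hta.symm.map (MulAut.conj g)))
    have h1 : k * (g * a ^ 2 * g⁻¹) * k⁻¹ ∈ (S : Subgroup G) :=
      hk' (h9_conj_mem_conj k (h9_conj_mem_conj g (mem_zpowers _)))
    have h2 : k * (g * z * g⁻¹) * k⁻¹ ∈ zpowers a := by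
      have e : k * (g * z * g⁻¹) * k⁻¹ = (k * (g * a ^ 2 * g⁻¹) * k⁻¹) ^ 2 ^ m *
          (k * (g * a ^ 2 * g⁻¹) * k⁻¹) ^ 2 ^ m := by
        rw [← pow_add, conj_pow, conj_pow, ← pow_mul, hz]
        congr 5; ring
      rw [e]
      exact mul_self_mem_of_index_two (H := (zpowers a).subgroupOf S) hidx ⟨_, pow_mem h1 _⟩
    rcases hinvol _ h2 (by rw [conj_pow, conj_pow, hz2]; group) with h3 | h3
    · rw [mul_inv_eq_one, mul_eq_left, mul_inv_eq_one, mul_eq_left] at h3
      exact absurd h3 hz1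
    · have h4 : k * z * k⁻¹ = z := mul_inv_eq_iff_eq_mul.2 (mem_centralizer_singleton_iff.1 hk)
      have h5 := h3.trans (h4.symm.trans (congrArg (fun u => k * u * k⁻¹) h.symm))
      simp only [mul_left_inj, mul_right_inj] at h5
      exact h5.symm
  rw [hasNormalPComplement_iff_not_dvd]
  intro hd
  obtain ⟨T, hT⟩ := ((IsSylowIn.of_sylow_top S).inf_of_le_normalizer (N := pResidual 2 G) le_top
    le_normalizer_of_normal).exists_sylow'
  have hmemT : ∀ x : (T : Subgroup (pResidual 2 G)), (x.1.1 : G) ∈ (S : Subgroup G) ∧ x.1.1 ∈ pResidual 2 G :=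
    fun x => hT.le x.2
  refine (hasNormalPComplement_two_of_isCyclic T ?_).pResidual_ne_top hd pResidual_pResidual
  rcases pg_two_group_unique_involution T.isPGroup' (fun x y hx hy => by
    obtain ⟨hx1, hx2⟩ := h9_orderOf_eq_two_iff.1 hx
    obtain ⟨hy1, hy2⟩ := h9_orderOf_eq_two_iff.1 hy
    have h1 := (hK _ (hmemT x).1 (hmemT x).2 (by rw [pow_two]; exact congrArg (fun u => u.1.1) hx2)).resolve_left
      (fun h => hx1 (Subtype.ext (Subtype.ext h)))
    have h2 := (hK _ (hmemT y).1 (hmemT y).2 (by rw [pow_two]; exact congrArg (fun u => u.1.1) hy2)).resolve_left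
      (fun h => hy1 (Subtype.ext (Subtype.ext h)))
    exact Subtype.ext (Subtype.ext (h1.trans h2.symm))) with h | ⟨l, u, v, hl, -, hu, -, -, hv, huv⟩
  · exact h
  · exfalso
    obtain ⟨l, rfl⟩ : ∃ l', l = l' + 1 := ⟨l - 1, by omega⟩
    have hu1 : u ^ 2 ^ (l + 1 + 1) = 1 := hu ▸ pow_orderOf_eq_one u
    obtain ⟨i, hi⟩ := hfour _ (hmemT (u ^ 2 ^ l)).1 (congrArg (fun u => u.1.1) (show (u ^ 2 ^ l) ^ 4 = 1 by
      rw [← pow_mul, ← hu1]; congr 1; ring))
    obtain ⟨j, hj⟩ := hfour _ (hmemT v).1 (congrArg (fun u => u.1.1) (show v ^ 4 = 1 by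
      rw [show 4 = 2 * 2 from rfl, pow_mul, hv, ← pow_mul, ← hu1]; congr 1))
    have h1 : v * u ^ 2 ^ l = u ^ 2 ^ l * v := by
      refine Subtype.ext (Subtype.ext ?_)
      show v.1.1 * (u ^ 2 ^ l).1.1 = (u ^ 2 ^ l).1.1 * v.1.1
      rcases hi with hi | hi <;> rcases hj with hj | hj <;> rw [hi, hj]
      · exact Commute.pow_pow_self a _ _
      · exact (Commute.pow_pow_self a _ _).mul_left (hb2i _)
      · exact (Commute.pow_pow_self a _ _).mul_right (hb2i _).symm
      · exact ((Commute.pow_pow_self a _ _).mul_right (hb2i _).symm).mul_left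
          ((hb2i _).mul_right (Commute.refl b))
    have h2 := h9_conj_pow_of_inv huv (2 ^ l)
    rw [h1, mul_inv_cancel_right, eq_inv_iff_mul_eq_one, ← pow_add, ← orderOf_dvd_iff_pow_eq_one, hu,
      ← two_mul, ← pow_succ', Nat.pow_dvd_pow_iff_le_right (by norm_num)] at h2
    omega

end Cfsg.Agent.S3178
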