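import Cfsg.Statements.S3179
import Cfsg.Agent.Lib.Suzuki.U3Fin
import Cfsg.Agent.Lib.Suzuki.U3Coord
import Cfsg.Agent.Lib.Suzuki.SzFin

set_option autoImplicit false
open Cfsg

namespace Cfsg.Agent.S3179

open Subgroup Cfsg.Lib Cfsg.Lib.Suz Matrix Cfsg.Lie
open scoped MatrixGroups

theorem succ_dvd {S n E ι : Type*} [Group S] [Fintype n] [DecidableEq n] [Field E] [Finite ι]
    (ρ : S →* Matrix n n E) (e : n → E) (v : ι → n → E) (i : n) (he : e i = 0) (he' : e ≠ 0)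
    (hv : ∀ j, v j i = 1) (hinj : Function.Injective v) (hB : ∀ j, ∃ B, e ᵥ* ρ B = v j)
    (hA : ∀ A, (∃ c : E, e ᵥ* ρ A = c • e) ∨ ∃ j, ∃ c : E, e ᵥ* ρ A = c • v j)
    (U : S) (hU : e ᵥ* ρ U = e) (hU' : ∀ j, v j ᵥ* ρ U ≠ v j) :
    Nat.card ι + 1 ∣ Nat.card (S ⧸ center S) := by
  have h0 : ∀ A w (c : E), e ᵥ* ρ A = c • w → c ≠ 0 ∧ w ᵥ* ρ A⁻¹ = c⁻¹ • e := fun A w c h => by
    have h1 : c • w ᵥ* ρ A⁻¹ = e := by rw [← smul_vecMul, ← h, vecMul_vecMul, ← map_mul]; simp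
    have h2 : c ≠ 0 := fun h2 => he' (by rw [← h1, h2, zero_smul])
    exact ⟨h2, by rw [← h1, smul_smul, inv_mul_cancel₀ h2, one_smul]⟩
  let H : Subgroup S :=
    { carrier := {A | ∃ c : E, e ᵥ* ρ A = c • e}
      one_mem' := ⟨1, by simp⟩
      mul_mem' := fun ⟨c, h⟩ ⟨d, h'⟩ =>
        ⟨c * d, by rw [map_mul, ← vecMul_vecMul, h, smul_vecMul, h', smul_smul]⟩
      inv_mem' := fun ⟨c, h⟩ => ⟨_, (h0 _ _ c h).2⟩ }
  refine (dvd_of_eq ?_).trans (index_dvd_of_le (show center S ≤ H from fun A hA' => ?_))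
  · choose B hB using hB
    have h1 : ∀ j, B j ∉ H := fun j ⟨c, h⟩ => by simpa [hv, he] using congrFun ((hB j).symm.trans h) i
    rw [← Finite.card_option]
    refine Nat.card_eq_of_bijective (fun o => o.elim (1 : S) fun j => ((B j)⁻¹ : S)) ⟨?_, fun g => ?_⟩
    · rintro (_ | j) (_ | k) h
      · rfl
      · exact absurd (by simpa using QuotientGroup.eq.1 h) (h1 k)
      · exact absurd (by simpa using QuotientGroup.eq.1 h) (h1 j)
      · obtain ⟨c, h2⟩ := QuotientGroup.eq.1 h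
        have h3 := congrArg (· ᵥ* ρ (B k)) h2
        simp only [vecMul_vecMul, ← map_mul, inv_inv, inv_mul_cancel_right, smul_vecMul, hB] at h3
        rw [show c = 1 by simpa [hv] using (congrFun h3 i).symm, one_smul] at h3
        rw [hinj h3]
    · obtain ⟨g, rfl⟩ := QuotientGroup.mk_surjective g
      rcases hA g⁻¹ with h | ⟨j, c, h⟩
      · exact ⟨none, QuotientGroup.eq.2 (by simpa using (inv_mem_iff (H := H)).1 h)⟩
      · exact ⟨some j, QuotientGroup.eq.2 ⟨c⁻¹, by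
          rw [inv_inv, map_mul, ← vecMul_vecMul, hB, ← (h0 _ _ c h).2, inv_inv]⟩⟩
  · refine (hA A).resolve_right fun ⟨j, c, h⟩ => hU' j (smul_right_injective _ (h0 _ _ c h).1 ?_)
    simp only
    rw [← smul_vecMul, ← h, vecMul_vecMul, ← map_mul, ← mem_center_iff.1 hA', map_mul,
      ← vecMul_vecMul, hU]

theorem psl_dvd {F : Type} [Field F] [Finite F] (h2 : (2 : F) = 0) :
    Nat.card F + 1 ∣ Nat.card PSL(2, F) := by
  refine succ_dvd (SpecialLinearGroup.coeMonoidHom : SL(2, F) →* _) ![0, 1] (fun y => ![1, y]) 0 rfl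
    (by simp) (fun _ => rfl) (fun y z h => congrFun h 1) (fun y => ⟨tm h2 * um y, ?_⟩) (fun A => ?_)
    (um 1) ?_ fun y h => ?_
  · show _ ᵥ* ((tm h2).1 * (um y).1) = _
    ext i; fin_cases i <;> simp [tm, um, vecMul, dotProduct, Matrix.mul_apply]
  · by_cases h : A.1 1 0 = 0
    · exact Or.inl ⟨A.1 1 1, by ext i; fin_cases i <;> simp [vecMul, dotProduct, h]⟩
    · exact Or.inr ⟨A.1 1 1 / A.1 1 0, A.1 1 0, by
        ext i; fin_cases i <;> simp [vecMul, dotProduct]; field_simp⟩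
  · show _ ᵥ* (um 1).1 = _
    ext i; fin_cases i <;> simp [um, vecMul, dotProduct]
  · change _ ᵥ* (um 1).1 = _ at h
    simpa [um, vecMul, dotProduct] using congrFun h 1

theorem sz_dvd {F : Type*} [Field F] [Fintype F] {m : ℕ} (hF : Fintype.card F = 2 ^ (2 * m + 1)) :
    Nat.card (F × F) + 1 ∣ Nat.card (Sz F (2 ^ (m + 1))) := by
  obtain ⟨-, h1, h3, -⟩ := h9_char_two_field hF
  have h2 := h9_two_eq_zero_of_card hF
  obtain ⟨σ, hσ⟩ := h1 (m + 1)
  have he : ∀ x, (σ : F →+* F) x = x ^ 2 ^ (m + 1) := hσ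
  generalize (σ : F →+* F) = θ at he
  have hθ : ∀ x, θ (θ x) = x ^ 2 := fun x => by
    rw [he, he, ← pow_mul, ← pow_add, show m + 1 + (m + 1) = 2 * m + 1 + 1 by ring, pow_succ, pow_mul,
      (h3 _).2 dvd_rfl]
  have hmk : ∀ g : Matrix (Fin 4) (Fin 4) F, InSz θ g → ∃ A : Sz F (2 ^ (m + 1)), A.1.1 = g :=
    fun g hg => by
      have h1 : (j4 F * gᵀ * j4 F) * g = 1 := by
        rw [mul_assoc, mul_assoc, ← mul_assoc gᵀ, hg.col, j4_sq]
      exact ⟨⟨⟨g, _, mul_eq_one_comm.1 h1, h1⟩, subset_closure ⟨(mem_Sp4_iff _).2 hg.col,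
        hg.st.trans (by ext; simp [he])⟩⟩, rfl⟩
  choose U hU using fun a b => hmk _ (inSz_u4 h2 hθ a b)
  obtain ⟨T, hT⟩ := hmk _ (inSz_j4 (θ := θ) h2)
  refine (succ_dvd ((Units.coeHom _).comp (Sz F _).subtype) ![0, 0, 0, 1]
    (fun p : F × F => ![1, p.1, p.2, ov θ p.1 p.2]) 0 rfl (by simp) (fun _ => rfl)
    (fun p q h => Prod.ext (congrFun h 1) (congrFun h 2)) (fun p => ⟨T * U p.1 p.2, ?_⟩) (fun A => ?_)
    (U 1 0) ((congrArg _ (hU _ _)).trans (e_u4 _ _)) fun p h => ?_).trans (card_quotient_dvd_card _)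
  · show _ ᵥ* (T.1.1 * (U p.1 p.2).1.1) = _
    rw [hT, hU, ← vecMul_vecMul, vec_j4]
    simpa [ov] using vec_u4 h2 hθ 0 0 p.1 p.2
  · have hA : InSz θ A.1.1 := by
      have hA := A.2
      generalize A.1 = A at hA
      rw [Sz, ← mem_toSubmonoid, closure_toSubmonoid_of_finite] at hA
      induction hA using Submonoid.closure_induction with
      | mem g hg => exact ⟨(mem_Sp4_iff _).1 hg.1, hg.2.trans (by ext; simp [he])⟩
      | one => simpa [j4_sq] using (inSz_j4 h2).mul h2 (inSz_j4 (θ := θ) h2)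
      | mul g k _ _ hg hk => exact hg.mul h2 hk
    have e : ![0, 0, 0, 1] ᵥ* A.1.1 = A.1.1 3 := by
      ext i; simp [vecMul, dotProduct, Fin.sum_univ_four]
    by_cases h : A.1.1 3 0 = 0
    · obtain ⟨-, x, y, e1⟩ := hA.eq_d4_mul h2 h
      refine Or.inl ⟨A.1.1 3 3, ?_⟩
      show _ ᵥ* A.1.1 = _
      nth_rewrite 1 [e1]
      rw [← vecMul_vecMul, ← e_u4 (θ := θ) x y, ← smul_vecMul, e_u4]
      congr 1
      ext i; fin_cases i <;> simp [d4, vecMul, dotProduct, Fin.sum_univ_four]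
    · obtain ⟨x, y, e1⟩ := hA.exists_vec h2 h
      exact Or.inr ⟨(x, y), _, e.trans e1⟩
  · have := ((congrArg _ (hU _ _)).trans (vec_u4 h2 hθ p.1 p.2 1 0)).symm.trans h
    simpa using congrFun this 1

theorem psu_dvd {F : Type*} [Field F] [Fintype F] {n : ℕ} (hF : Fintype.card F = 4 ^ n) :
    ∃ k, 2 * n ≤ k ∧ 2 ^ k + 1 ∣ Nat.card (PSU 3 F (2 ^ n)) := by
  obtain ⟨h2, τ, hq, hτ, hω, -⟩ := h9_u3_field hF
  have := Fact.mk hτ
  obtain ⟨cj, hcj, hr⟩ := exists_cj h2 hq hω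
  obtain ⟨k, hk⟩ := (U3S.isPGroup (τ := τ) h2).exists_card_eq
  refine ⟨k, (Nat.pow_le_pow_iff_right one_lt_two).1 ?_, ?_⟩
  · rw [pow_mul, ← hk]
    exact (hF.symm.trans Nat.card_eq_fintype_card.symm).le.trans
      (Nat.card_le_card_of_surjective U3S.a (U3S.exists_a hω h2))
  choose U hU using fun x : U3S τ => (hr _).2 (isUJ_uJ h2 x)
  obtain ⟨T, hT⟩ := (hr _).2 (isUJ_tJ h2)
  obtain ⟨y, hy⟩ := U3S.exists_a hω h2 1
  have hinj : Function.Injective (vJ (τ := τ)) := fun x z h =>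
    U3S.ext (τ.injective (congrFun h 1)) (congrFun h 2)
  refine hk ▸ succ_dvd (SpecialLinearGroup.coeMonoidHom.comp cj) ![0, 0, 1] vJ 0 rfl (by simp)
    (fun _ => rfl) hinj (fun x => ⟨T * U x, ?_⟩) (fun A => ?_) (U y) ?_ fun x h => ?_
  · show _ ᵥ* (cj (T * U x)).1 = _
    rw [map_mul, hT, hU]
    show _ ᵥ* ((tJ h2).1 * (uJ x).1) = _
    rw [← vecMul_vecMul, vec_tJ]
    simpa [vJ] using vJ_uJ 1 x
  · have hA := (hr _).1 ⟨A, rfl⟩
    have e : ![0, 0, 1] ᵥ* (cj A).1 = (cj A).1 2 := by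
      ext i; simp [vecMul, dotProduct, Fin.sum_univ_three]
    by_cases h : (cj A).1 2 0 = 0
    · obtain ⟨hc, x, e1⟩ := eq_dJ_mul h2 hA h
      refine Or.inl ⟨(cj A).1 2 2, ?_⟩
      show _ ᵥ* (cj A).1 = _
      nth_rewrite 1 [e1]
      show _ ᵥ* ((dJ τ _ hc).1 * (uJ x).1) = _
      rw [← vecMul_vecMul, ← e_uJ x, ← smul_vecMul, e_uJ]
      congr 1
      ext i; fin_cases i <;> simp [dJ, vecMul, dotProduct, Fin.sum_univ_three]
    · obtain ⟨x, e1⟩ := exists_vJ h2 hA h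
      exact Or.inr ⟨x, _, e.trans e1⟩
  · show _ ᵥ* (cj (U y)).1 = _
    rw [hU, e_uJ]
  · change _ ᵥ* (cj (U y)).1 = _ at h
    rw [hU, vJ_uJ] at h
    simpa [hy] using congrArg U3S.a (hinj h)

theorem le_three {X : Type*} [Group X] {H : Subgroup (GL (Fin 5) (ZMod 2))} {K : Subgroup H}
    [K.Normal] (e : H ⧸ K ≃* X) {k : ℕ} (h : 2 ^ k + 1 ∣ Nat.card X) : k ≤ 3 := by
  by_contra hk
  have h1 := (h.trans (Nat.card_congr e.toEquiv ▸ card_quotient_dvd_card K)).trans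
    (card_subgroup_dvd_card H)
  rw [Matrix.card_GL_field, show ∏ i : Fin 5, (Fintype.card (ZMod 2) ^ 5 - Fintype.card (ZMod 2) ^ (i : ℕ))
    = 2 ^ 10 * 9765 by decide] at h1
  have h2 := (Nat.Coprime.pow_right 10 (Nat.coprime_two_right.2
    (((Nat.even_pow' (by omega)).2 even_two).add_one))).dvd_of_dvd_mul_left h1
  have h3 : k < 14 := (Nat.pow_lt_pow_iff_right one_lt_two).1
    (by have := Nat.le_of_dvd (by norm_num) h2; omega)
  interval_cases k <;> omega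

theorem pow_three (g : GL (Fin 5) (ZMod 2)) (h : g ^ 9 = 1) : g ^ 3 = 1 := by
  by_contra hn
  have ho : orderOf g = 3 ^ 2 := orderOf_eq_prime_pow (p := 3) (n := 1) hn h
  let W : AddSubgroup (Fin 5 → ZMod 2) :=
    { carrier := {v | (g ^ 3) • v = v}
      zero_mem' := smul_zero _
      add_mem' := fun {a b} ha hb => (smul_add _ _ _).trans (congrArg₂ _ ha hb)
      neg_mem' := fun {a} ha => (smul_neg _ _).trans (congrArg _ ha) }
  have h1 := Steiner.card_dvd_ncard_of_free (zpowers g) (W : Set (Fin 5 → ZMod 2))ᶜ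
    (by
      rintro _ ⟨i, rfl⟩ v hv e
      refine hv (MulAction.injective (g ^ i) ?_)
      simp only
      rw [smul_smul, ((Commute.refl g).zpow_left i).pow_right 3, mul_smul]
      exact e)
    (fun a ha v hv e => by
      by_contra h1
      have h2 : g ^ 3 ∈ zpowers a := by
        obtain ⟨k, rfl⟩ := mem_powers_iff_mem_zpowers.2 ha
        have h3 : ¬ 9 ∣ k := fun h3 => h1 (orderOf_dvd_iff_pow_eq_one.1 (ho ▸ h3))
        obtain ⟨j, hj⟩ : ∃ j, k * j ≡ 3 [MOD 9] := by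
          have : ∀ r < 9, r ≠ 0 → ∃ j < 9, r * j % 9 = 3 := by decide
          obtain ⟨j, -, hj⟩ := this (k % 9) (Nat.mod_lt _ (by norm_num)) (by omega)
          exact ⟨j, by rw [Nat.ModEq, Nat.mul_mod, ← hj]; simp⟩
        exact ⟨j, by simp only [zpow_natCast]; rw [← pow_mul, pow_eq_pow_iff_modEq, ho]; exact hj⟩
      exact hv ((zpowers_le.2 (MulAction.mem_stabilizer_iff.2 e)) h2))
  have h2 := W.card_addSubgroup_dvd_card
  have h3 := Set.ncard_add_ncard_compl (W : Set (Fin 5 → ZMod 2))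
  have h4 : Nat.card (Fin 5 → ZMod 2) = 2 ^ 5 := by simp
  rw [Nat.card_zpowers, ho] at h1
  rw [h4] at h2 h3
  obtain ⟨k, hk, e⟩ := (Nat.dvd_prime_pow Nat.prime_two).1 h2
  rw [← Nat.card_coe_set_eq, show Nat.card (W : Set (Fin 5 → ZMod 2)) = 2 ^ k from e] at h3
  obtain rfl : k = 5 := by interval_cases k <;> omega
  have h5 := AddSubgroup.eq_top_of_card_eq W (e.trans h4.symm)
  exact hn (Units.ext (Matrix.ext_of_mulVec_single fun i =>
    (h5.ge (AddSubgroup.mem_top _)).trans (one_mulVec _).symm))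

theorem exists_nine {F : Type*} [Field F] [Fintype F] (hF : Fintype.card F = 2 ^ 3) :
    ∃ x : PSL(2, F), x ^ 9 = 1 ∧ x ^ 3 ≠ 1 := by
  have h2 := h9_two_eq_zero_of_card hF
  obtain ⟨c, hc⟩ : ∃ c : F, c ^ 3 + c + 1 = 0 := by
    obtain ⟨y, h0, h1⟩ : ∃ y : F, y ≠ 0 ∧ y ≠ 1 := by
      by_contra! h
      have := Fintype.card_le_of_surjective (fun b : Bool => if b then (0 : F) else 1) fun y => by
        by_cases hy : y = 0
        · exact ⟨true, hy.symm⟩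
        · exact ⟨false, (h y hy).symm⟩
      simp [hF] at this
    have h8 := FiniteField.pow_card y
    rw [hF] at h8
    have : y * (y - 1) * ((y ^ 3 + y + 1) * ((y + 1) ^ 3 + (y + 1) + 1)) = 0 := by grind
    exact (mul_eq_zero.1 ((mul_eq_zero.1 this).resolve_left
      (mul_ne_zero h0 (sub_ne_zero.2 h1)))).elim (⟨_, ·⟩) (⟨_, ·⟩)
  let M : SL(2, F) := ⟨!![0, 1; 1, c], by simp; linear_combination -h2⟩
  have h3 : (M ^ 3).1 = !![c, c ^ 2 + 1; c ^ 2 + 1, c + 1] := by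
    show M.1 ^ 3 = _
    ext i j; fin_cases i <;> fin_cases j <;> simp [M, pow_succ, Matrix.mul_apply] <;> grind
  refine ⟨M, ?_, fun e => ?_⟩
  · rw [← QuotientGroup.mk_pow, show M ^ 9 = 1 from Subtype.ext ?_, QuotientGroup.mk_one]
    rw [show M ^ 9 = M ^ 3 * M ^ 3 * M ^ 3 by group]
    show (M ^ 3).1 * (M ^ 3).1 * (M ^ 3).1 = 1
    rw [h3]
    ext i j; fin_cases i <;> fin_cases j <;> simp [Matrix.mul_apply] <;> grind
  · rw [← QuotientGroup.mk_pow, QuotientGroup.eq_one_iff, Matrix.SpecialLinearGroup.mem_center_iff] at e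
    obtain ⟨r, -, e⟩ := e
    have e1 := congrFun (congrFun (e.trans h3) 0) 0
    have e2 := congrFun (congrFun (e.trans h3) 1) 1
    simp at e1 e2
    grind

/-- Let X be a section of the general linear group GL(5, 2), that is, a quotient of a subgroup of it. If X is isomorphic to PSL(2, 2^n) for some n ≥ 2, to a Suzuki group over the field with 2^(2m+1) elements for some m ≥ 1, or to PSU(3, 2^n) for some n ≥ 2, then X is isomorphic to PSL(2, 4). -/
theorem result {H : Subgroup (GL (Fin 5) (ZMod 2))}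
    {K : Subgroup ↥H} [K.Normal]
    (hX : (∃ (n : ℕ) (F : Type) (_ : Field F) (_ : Fintype F), 2 ≤ n ∧ Fintype.card F = 2 ^ n ∧
        Nonempty (↥H ⧸ K ≃* Matrix.ProjectiveSpecialLinearGroup (Fin 2) F)) ∨
      (∃ (m : ℕ) (F : Type) (_ : Field F) (_ : Fintype F), 1 ≤ m ∧ Fintype.card F = 2 ^ (2 * m + 1) ∧
        Nonempty (↥H ⧸ K ≃* ↥(Cfsg.Lie.Sz F (2 ^ (m + 1))))) ∨
      (∃ (n : ℕ) (F : Type) (_ : Field F) (_ : Fintype F), 2 ≤ n ∧ Fintype.card F = 4 ^ n ∧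
        Nonempty (↥H ⧸ K ≃* Cfsg.PSU 3 F (2 ^ n)))) :
    ∃ (F : Type) (_ : Field F) (_ : Fintype F), Fintype.card F = 4 ∧
      Nonempty (↥H ⧸ K ≃* Matrix.ProjectiveSpecialLinearGroup (Fin 2) F) := by
  rcases hX with ⟨n, F, _, _, hn, hF, ⟨e⟩⟩ | ⟨m, F, _, _, hm, hF, ⟨e⟩⟩ | ⟨n, F, _, _, hn, hF, ⟨e⟩⟩
  · have := le_three e (k := n) (by
      rw [← hF, ← Nat.card_eq_fintype_card]; exact psl_dvd (h9_two_eq_zero_of_card hF))
    obtain rfl | rfl : n = 2 ∨ n = 3 := by omega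
    · exact ⟨F, _, _, hF, ⟨e⟩⟩
    obtain ⟨x, h1, h2⟩ := exists_nine hF
    obtain ⟨g, rfl⟩ := (e.surjective.comp (QuotientGroup.mk'_surjective K)) x
    have h3 : 9 ∣ orderOf (g : GL (Fin 5) (ZMod 2)) := by
      rw [orderOf_coe, ← show _ = 9 from orderOf_eq_prime_pow (p := 3) (n := 1) h2 h1]
      exact orderOf_map_dvd (e.toMonoidHom.comp (QuotientGroup.mk' K)) g
    have h4 := orderOf_pow_orderOf_div (orderOf_pos _).ne' h3
    have := orderOf_dvd_of_pow_eq_one (pow_three _ (h4 ▸ pow_orderOf_eq_one _))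
    rw [h4] at this
    omega
  · have := le_three e (k := 2 * m + 1 + (2 * m + 1)) (by
      rw [pow_add, ← hF, ← Nat.card_eq_fintype_card, ← Nat.card_prod]; exact sz_dvd hF)
    omega
  · obtain ⟨k, h1, h2⟩ := psu_dvd hF
    have := le_three e h2
    omega

end Cfsg.Agent.S3179
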