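import Cfsg.Statements.S3180
import Mathlib
import Cfsg.Agent.Lib.Misc.Basic
import Cfsg.Agent.Lib.Coprime.Sylow

set_option autoImplicit false
open Cfsg

namespace Cfsg.Agent.S3180

open Cfsg.Lib


/-- Let P be a Sylow p-subgroup of a finite group J and P₁ a subgroup of P that is weakly closed in P with respect to J. If J acts on a set and two points, each fixed by every element of P₁, lie in one J-orbit, then they lie in one orbit of the normalizer of P₁ in J. -/
theorem result {J : Type*} [Group J] [Finite J]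
    {p : ℕ} [Fact p.Prime] (P : Sylow p J) (P₁ : Subgroup J) (hW : Cfsg.IsWeaklyClosed P₁ (P : Subgroup J))
    {Ω : Type*} [MulAction J Ω] (x y : Ω) (hx : ∀ g ∈ P₁, g • x = x) (hy : ∀ g ∈ P₁, g • y = y)
    (hc : ∃ g : J, g • x = y) :
    ∃ g ∈ Subgroup.normalizer (P₁ : Set J), g • x = y := by
  obtain ⟨g, rfl⟩ := hc
  have hP₁ : IsPGroup p P₁ := P.2.to_le hW.1
  have h1 : P₁ ≤ MulAction.stabilizer J x := fun a ha => hx a ha
  have h2 : P₁.map (MulAut.conj g⁻¹).toMonoidHom ≤ MulAction.stabilizer J x := by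
    rintro _ ⟨a, ha, rfl⟩
    have := hy a ha
    show (g⁻¹ * a * g⁻¹⁻¹) • x = x
    rw [inv_inv, mul_smul, mul_smul, this, inv_smul_smul]
  obtain ⟨R, hR, hle⟩ := exists_isSylowIn_ge hP₁ h1
  obtain ⟨k, hk, hk2⟩ := hR.exists_conj_le (hP₁.map _) h2
  obtain ⟨h, -, hh⟩ := (IsSylowIn.of_sylow_top P).exists_conj_le hR.isPGroup le_top
  have e1 : P₁.map (MulAut.conj h).toMonoidHom = P₁ :=
    hW.2 h ((Subgroup.map_mono hle).trans hh)
  have e2 : P₁.map (MulAut.conj (h * (k * g⁻¹))).toMonoidHom = P₁ := by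
    apply hW.2
    rw [← h9_conj_conj, ← h9_conj_conj]
    exact (Subgroup.map_mono hk2).trans hh
  rw [h9_conj_eq_iff_mem_normalizer] at e1 e2
  refine ⟨(h * (k * g⁻¹))⁻¹ * h, Subgroup.mul_mem _ (Subgroup.inv_mem _ e2) e1, ?_⟩
  have : (h * (k * g⁻¹))⁻¹ * h = g * k⁻¹ := by group
  rw [this, mul_smul]
  congr 1
  exact (MulAction.stabilizer J x).inv_mem hk

end Cfsg.Agent.S3180
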