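import Cfsg.Statements.S3183
import Mathlib
import Cfsg.Agent.Lib.Misc.Basic
import Cfsg.Agent.Lib.Coprime.Sylow

set_option autoImplicit false
open Cfsg

namespace Cfsg.Agent.S3183

open Cfsg.Lib

theorem mem_center_map {G : Type*} [Group G] (S : Subgroup G) (x : G) :
    x ∈ (Subgroup.center S).map S.subtype ↔ x ∈ S ∧ ∀ y ∈ S, y * x = x * y := by
  constructor
  · rintro ⟨z, hz, rfl⟩
    exact ⟨z.2, fun y hy => congrArg Subtype.val (Subgroup.mem_center_iff.1 hz ⟨y, hy⟩)⟩
  · rintro ⟨h1, h2⟩
    exact ⟨⟨x, h1⟩, Subgroup.mem_center_iff.2 (fun y => Subtype.ext (h2 y y.2)), rfl⟩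

theorem card_center_eq {G : Type*} [Group G] [Finite G] (S U : Sylow 2 G) :
    Nat.card ((Subgroup.center (S : Subgroup G)).map (S : Subgroup G).subtype) =
      Nat.card ((Subgroup.center (U : Subgroup G)).map (U : Subgroup G).subtype) := by
  rw [Subgroup.card_map_of_injective (Subgroup.subtype_injective _),
    Subgroup.card_map_of_injective (Subgroup.subtype_injective _)]
  exact Nat.card_congr (Subgroup.centerCongr (Sylow.equiv S U)).toEquiv

theorem aux {G : Type*} [Group G] [Finite G]
    (hCI : ∀ S T : Sylow 2 G, S ≠ T → ∃ U : Sylow 2 G,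
      (S : Subgroup G) ⊓ (T : Subgroup G) ≤ (Subgroup.center ↥(U : Subgroup G)).map (U : Subgroup G).subtype)
    (S : Sylow 2 G) : ∀ x ∈ (S : Subgroup G), ∀ P : Subgroup G, IsPGroup 2 ↥P → P ≤ Subgroup.centralizer ({x} : Set G) →
        Nat.card ↥P ≤ Nat.card ↥((S : Subgroup G) ⊓ Subgroup.centralizer ({x} : Set G)) := by
  intro x hx P hP hPC
  obtain ⟨R, hR, hle⟩ := exists_isSylowIn_ge (K := Subgroup.centralizer ({x} : Set G))
    (S.2.to_inf_left (K := Subgroup.centralizer ({x} : Set G))) inf_le_right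
  have h1 : Nat.card P ≤ Nat.card R := Nat.le_of_dvd Nat.card_pos (hR.card_dvd hP hPC)
  obtain ⟨T, hT⟩ := hR.isPGroup.exists_le_sylow
  by_cases hST : S = T
  · subst hST
    exact h1.trans (Subgroup.card_le_of_le (le_inf hT hR.le))
  obtain ⟨U, hU⟩ := hCI S T hST
  have h2 : (Subgroup.center (S : Subgroup G)).map (S : Subgroup G).subtype ≤
      (S : Subgroup G) ⊓ Subgroup.centralizer ({x} : Set G) := by
    intro z hz
    rw [mem_center_map] at hz
    exact ⟨hz.1, Subgroup.mem_centralizer_singleton_iff.2 (hz.2 x hx).symm⟩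
  have h3 : (S : Subgroup G) ⊓ Subgroup.centralizer ({x} : Set G) ≤
      (Subgroup.center ↥(U : Subgroup G)).map (U : Subgroup G).subtype :=
    (le_inf inf_le_left (hle.trans hT)).trans hU
  have h4 := Subgroup.eq_of_le_of_card_ge (h2.trans h3) (card_center_eq S U).ge
  have h5 : x ∈ (Subgroup.center (S : Subgroup G)).map (S : Subgroup G).subtype := by
    rw [h4]
    exact h3 ⟨hx, Subgroup.mem_centralizer_singleton_iff.2 rfl⟩
  rw [mem_center_map] at h5
  have h6 : (S : Subgroup G) ≤ (S : Subgroup G) ⊓ Subgroup.centralizer ({x} : Set G) :=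
    le_inf le_rfl (fun y hy => Subgroup.mem_centralizer_singleton_iff.2 (h5.2 y hy))
  refine le_trans ?_ (Subgroup.card_le_of_le h6)
  exact Nat.le_of_dvd Nat.card_pos ((IsSylowIn.of_sylow_top S).card_dvd hP le_top)

theorem aux2 {G : Type*} [Group G] [Finite G]
    (hCI : ∀ S T : Sylow 2 G, S ≠ T → ∃ U : Sylow 2 G,
      (S : Subgroup G) ⊓ (T : Subgroup G) ≤ (Subgroup.center ↥(U : Subgroup G)).map (U : Subgroup G).subtype)
    (S T : Sylow 2 G) (hne : S ≠ T) : (S : Subgroup G) ⊓ (T : Subgroup G) ≤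
          (Subgroup.center ↥(S : Subgroup G)).map (S : Subgroup G).subtype := by
  obtain ⟨U, hU⟩ := hCI S T hne
  intro x hx
  have h1 := (mem_center_map _ _).1 (hU hx)
  have h2 := aux hCI S x hx.1 U U.2 (fun y hy => Subgroup.mem_centralizer_singleton_iff.2 (h1.2 y hy))
  have h3 : Nat.card (U : Subgroup G) = Nat.card (S : Subgroup G) :=
    Nat.card_congr (Sylow.equiv U S).toEquiv
  have h4 := Subgroup.eq_of_le_of_card_ge (inf_le_left : (S : Subgroup G) ⊓
    Subgroup.centralizer ({x} : Set G) ≤ S) (h3 ▸ h2)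
  rw [mem_center_map]
  refine ⟨hx.1, fun y hy => ?_⟩
  rw [← h4] at hy
  exact Subgroup.mem_centralizer_singleton_iff.1 hy.2


/-- Let G be a finite group in which the intersection of any two distinct Sylow 2-subgroups is contained in the centre of some Sylow 2-subgroup, and let S be a Sylow 2-subgroup. Then for every x in S the centralizer of x in S is a Sylow 2-subgroup of the centralizer of x in G (no 2-subgroup centralizing x is larger), and for every other Sylow 2-subgroup T the intersection S ∩ T lies in both the centre of S and the centre of T. -/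
theorem result {G : Type*} [Group G] [Finite G]
    (hCI : ∀ S T : Sylow 2 G, S ≠ T → ∃ U : Sylow 2 G,
      (S : Subgroup G) ⊓ (T : Subgroup G) ≤ (Subgroup.center ↥(U : Subgroup G)).map (U : Subgroup G).subtype)
    (S : Sylow 2 G) :
    (∀ x ∈ (S : Subgroup G), ∀ P : Subgroup G, IsPGroup 2 ↥P → P ≤ Subgroup.centralizer ({x} : Set G) →
        Nat.card ↥P ≤ Nat.card ↥((S : Subgroup G) ⊓ Subgroup.centralizer ({x} : Set G))) ∧
    (∀ T : Sylow 2 G, T ≠ S →
        (S : Subgroup G) ⊓ (T : Subgroup G) ≤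
          (Subgroup.center ↥(S : Subgroup G)).map (S : Subgroup G).subtype ⊓
            (Subgroup.center ↥(T : Subgroup G)).map (T : Subgroup G).subtype) := by
  refine ⟨aux hCI S, fun T hT => le_inf (aux2 hCI S T hT.symm) ?_⟩
  rw [inf_comm]
  exact aux2 hCI T S hT

end Cfsg.Agent.S3183
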