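import Cfsg.Statements.S3190
import Mathlib
import Cfsg.Agent.Lib.Coprime.Basic

set_option autoImplicit false
open Cfsg

namespace Cfsg.Agent.S3190

open Subgroup Cfsg.Lib

/-- Let p be an odd prime and, inside a finite group, let P be a p-subgroup normalized by a Klein four-group T. Let R be a subgroup of P, normal in P and normalized by T, such that P is the product of R with the centralizer of T in P. If T centralizes the centre of P, then T centralizes the centre of R. -/
theorem result {X : Type*} [Group X] [Finite X]
    {p : ℕ} (hp : p.Prime) (hodd : Odd p) (P T R : Subgroup X) (hP : IsPGroup p ↥P) (hT : IsKleinFour ↥T)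
    (hTP : T ≤ Subgroup.normalizer (P : Set X)) (hRP : R ≤ P) (hRn : (R.subgroupOf P).Normal)
    (hTR : T ≤ Subgroup.normalizer (R : Set X)) (hfac : R ⊔ (P ⊓ Subgroup.centralizer (T : Set X)) = P)
    (hZ : T ≤ Subgroup.centralizer (((Subgroup.center ↥P).map P.subtype : Subgroup X) : Set X)) :
    T ≤ Subgroup.centralizer (((Subgroup.center ↥R).map R.subtype : Subgroup X) : Set X) := by
  have : Fact p.Prime := ⟨hp⟩
  have hPR : P ≤ normalizer (R : Set X) := (normal_subgroupOf_iff_le_normalizer hRP).mp hRn
  rw [map_subtype_center] at hZ ⊢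
  rw [le_centralizer_iff]
  refine thompson_AxB (p := p) (A := P ⊓ centralizer (T : Set X)) hP.to_inf_left
    ((hP.to_le hRP).to_inf_left) ?_
    (inf_le_left.trans (le_normalizer_inf hPR (le_normalizer_centralizer hPR)))
    (le_normalizer_inf hTR (le_normalizer_centralizer hTR)) inf_le_right ?_
  · rw [hT.card_four]
    intro h
    have := (Nat.prime_dvd_prime_iff_eq hp Nat.prime_two).mp (hp.dvd_of_dvd_pow (n := 2) h)
    rw [this] at hodd
    exact absurd hodd (by decide)
  · refine le_trans ?_ (le_centralizer_iff.mp hZ)
    refine le_inf (inf_le_left.trans (inf_le_left.trans hRP)) ?_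
    conv_rhs => rw [← hfac, centralizer_sup]
    exact le_inf (inf_le_left.trans inf_le_right) inf_le_right

end Cfsg.Agent.S3190
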