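import Cfsg.Statements.S3195
import Mathlib
import Cfsg.Agent.Lib.Misc.Invol

set_option autoImplicit false
open Cfsg

namespace Cfsg.Agent.S3195

open Cfsg.Lib

theorem main {G : Type*} [Group G] {a c x y f : G} (ha : a * a = 1) (hc : c * c = 1)
    (hac : a * c = c * a) (hx : Odd (orderOf x)) (hy : Odd (orderOf y)) (hx1 : x ≠ 1) (hy1 : y ≠ 1)
    (hax : a * x * a⁻¹ = x⁻¹) (hcx : c * x = x * c) (hcy : c * y * c⁻¹ = y⁻¹) (hay : a * y = y * a)
    (hf : f = a ∨ f = c ∨ f = a * c)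
    (h : (y * x⁻¹) * (a * c) * (y * x⁻¹)⁻¹ * f = f * ((y * x⁻¹) * (a * c) * (y * x⁻¹)⁻¹)) : False := by
  have hu := h9_odd_orderOf_pow hx 2
  have hv := h9_odd_orderOf_pow hy 2
  have hu1 : x ^ 2 ≠ 1 := fun h => hx1 (h9_eq_one_of_odd_of_sq hx (by rw [← pow_two, h]))
  have hv1 : y ^ 2 ≠ 1 := fun h => hy1 (h9_eq_one_of_odd_of_sq hy (by rw [← pow_two, h]))
  have hdx : a * c * x * (a * c)⁻¹ = x⁻¹ := by
    rw [mul_assoc a c x, hcx, ← hax]; group
  have hdy : a * c * y * (a * c)⁻¹ = y⁻¹ := by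
    rw [hac, mul_assoc c a y, hay, ← hcy]; group
  have hd : a * c * (a * c) = 1 := by
    calc a * c * (a * c) = a * (c * a) * c := by group
      _ = (a * a) * (c * c) := by rw [← hac]; group
      _ = 1 := by rw [ha, hc, one_mul]
  have e1 : x⁻¹ * (a * c) * x = a * c * x ^ 2 := by
    rw [← hdx, pow_two]; group
  have e2 : y⁻¹ * (a * c) * y = a * c * y ^ 2 := by
    rw [← hdy, pow_two]; group
  have e3 : y⁻¹ * c * y = c * y ^ 2 := by
    rw [← hcy, pow_two]; group
  have e4 : y⁻¹ * a * y = a := by rw [mul_assoc, hay]; group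
  have h' : a * c * x ^ 2 * (y⁻¹ * f * y) = (y⁻¹ * f * y) * (a * c * x ^ 2) := by
    rw [← e1]
    calc x⁻¹ * (a * c) * x * (y⁻¹ * f * y)
        = y⁻¹ * ((y * x⁻¹) * (a * c) * (y * x⁻¹)⁻¹ * f) * y := by group
      _ = _ := by rw [h]; group
  have hau := h9_conj_pow_of_inv hax 2
  have hdu := h9_conj_pow_of_inv hdx 2
  have hdv := h9_conj_pow_of_inv hdy 2
  have hcu : c * x ^ 2 = x ^ 2 * c := (Commute.pow_right hcx 2).eq
  have hav : a * y ^ 2 = y ^ 2 * a := (Commute.pow_right hay 2).eq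
  have hdc : a * c * c = c * (a * c) := by rw [← mul_assoc, ← hac]
  have hda : a * c * a = a * (a * c) := by rw [mul_assoc, ← hac]
  generalize a * c = d at *
  generalize x ^ 2 = u at *
  generalize y ^ 2 = v at *
  rcases hf with rfl | rfl | rfl
  · rw [e4] at h'
    apply hu1
    apply h9_eq_one_of_odd_of_sq hu
    have : u * f = f * u := by
      apply mul_left_cancel (a := d)
      rw [← mul_assoc, h', ← mul_assoc d f, hda, mul_assoc]
    rw [← this, mul_inv_cancel_right] at hau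
    calc u * u = u * u⁻¹ := by rw [← hau]
      _ = 1 := mul_inv_cancel u
  · rw [e3] at h'
    apply hv1
    apply h9_eq_one_of_odd_of_sq hv
    apply h9_sq_eq_one_of_odd_inverts hu
    have h1 : d * u * v = v * (d * u) := by
      apply mul_left_cancel (a := f)
      calc f * (d * u * v) = (f * d) * u * v := by group
        _ = d * (f * u) * v := by rw [← hdc]; group
        _ = d * u * (f * v) := by rw [hcu]; group
        _ = _ := by rw [h']; group
    have h2 := h9_conj_inv_of_inv hdv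
    apply mul_left_cancel (a := d)
    calc d * (u * v * u⁻¹) = (d * u * v) * u⁻¹ := by group
      _ = v * d := by rw [h1]; group
      _ = (d * v⁻¹ * d⁻¹) * d := by rw [h2]
      _ = _ := by group
  · rw [e2] at h'
    have hfi : f⁻¹ = f := inv_eq_of_mul_eq_one_right hd
    rw [hfi] at hdu hdv
    have h1 : u⁻¹ * v = v⁻¹ * u := by
      rw [← hdu, ← hdv]
      calc f * u * f * v = f * u * (f * v) := by group
        _ = _ := by rw [h']; group
    have h2 : u * v = v⁻¹ * u⁻¹ := by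
      have h3 := h9_conj_inv_of_inv hau
      have h4 : a * v * a⁻¹ = v := by rw [hav]; group
      calc u * v = (a * u⁻¹ * a⁻¹) * (a * v * a⁻¹) := by rw [h3, h4]
        _ = a * (u⁻¹ * v) * a⁻¹ := by group
        _ = (a * v * a⁻¹)⁻¹ * (a * u * a⁻¹) := by rw [h1]; group
        _ = _ := by rw [h4, hau]
    have h5 : u * (v * v) * u⁻¹ = (v * v)⁻¹ := by
      have h6 : v * u⁻¹ = u * v⁻¹ := by
        calc v * u⁻¹ = v * (u⁻¹ * v) * v⁻¹ := by group
          _ = _ := by rw [h1]; group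
      calc u * (v * v) * u⁻¹ = (u * v) * (v * u⁻¹) := by group
        _ = _ := by rw [h2, h6]; group
    have h7 := h9_sq_eq_one_of_odd_inverts hu h5
    apply hv1
    apply h9_eq_one_of_odd_of_sq hv
    apply h9_eq_one_of_odd_of_sq _ h7
    rw [← pow_two]; exact h9_odd_orderOf_pow hv 2


/-- Let A be a Klein four-subgroup of a finite group G. If every G-conjugate of every involution of A commutes with some involution of A (its centralizer meets A nontrivially), then A meets the largest normal 2-subgroup O₂(G) nontrivially. -/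
theorem result {G : Type*} [Group G] [Finite G]
    (A : Subgroup G) (hA : IsKleinFour ↥A)
    (h : ∀ a ∈ A, a ≠ 1 → ∀ g : G, A ⊓ Subgroup.centralizer ({g * a * g⁻¹} : Set G) ≠ ⊥) :
    A ⊓ Cfsg.pCore 2 G ≠ ⊥ := by
  intro hbot
  have hsq : ∀ a ∈ A, a * a = 1 := fun a ha => congrArg Subtype.val (IsKleinFour.mul_self (⟨a, ha⟩ : A))
  have hcomm : ∀ a ∈ A, ∀ b ∈ A, a * b = b * a := fun a ha b hb =>
    h9_comm_of_sq (hsq a ha) (hsq b hb) (hsq _ (A.mul_mem ha hb))
  have hthree : ∀ a ∈ A, ∀ b ∈ A, ∀ f ∈ A, a ≠ 1 → b ≠ 1 → a ≠ b → f ≠ 1 → f = a ∨ f = b ∨ f = a * b := by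
    intro a ha b hb f hf h1 h2 h3 h4
    by_contra hcon
    push Not at hcon
    have := IsKleinFour.eq_mul_of_ne_all (G := A) (x := ⟨a, ha⟩) (y := ⟨b, hb⟩) (z := ⟨f, hf⟩)
      (fun h => h1 (congrArg Subtype.val h)) (fun h => h2 (congrArg Subtype.val h))
      (fun h => h3 (congrArg Subtype.val h)) (fun h => h4 (congrArg Subtype.val h))
      (fun h => hcon.1 (congrArg Subtype.val h)) (fun h => hcon.2.1 (congrArg Subtype.val h))
    exact hcon.2.2 (congrArg Subtype.val this)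
  have h' : ∀ a ∈ A, a ≠ 1 → ∀ g : G, ∃ f ∈ A, f ≠ 1 ∧ g * a * g⁻¹ * f = f * (g * a * g⁻¹) := by
    intro a ha ha1 g
    obtain ⟨f, hf, hf1⟩ := (Subgroup.nontrivial_iff_exists_ne_one _).1
      ((Subgroup.nontrivial_iff_ne_bot _).2 (h a ha ha1 g))
    exact ⟨f, hf.1, hf1, (Subgroup.mem_centralizer_singleton_iff.1 hf.2).symm⟩
  have hinv : ∀ a ∈ A, a ≠ 1 → ∃ x : G, x ≠ 1 ∧ Odd (orderOf x) ∧ a * x * a⁻¹ = x⁻¹ ∧
      ∃ c ∈ A, c ≠ 1 ∧ c ≠ a ∧ c * x = x * c := by
    intro a ha ha1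
    obtain ⟨x, hx1, hx, hax⟩ := h9_exists_inverted_odd (hsq a ha) (fun hm => ha1 (by
      have : a ∈ A ⊓ pCore 2 G := ⟨ha, hm⟩
      rwa [hbot, Subgroup.mem_bot] at this))
    obtain ⟨c, hc, hc1, hcc⟩ := h' a ha ha1 x⁻¹
    have e1 : x⁻¹ * a * x⁻¹⁻¹ = a * (x * x) := by
      rw [inv_inv, ← hax]; group
    rw [e1] at hcc
    have hcx : c * x = x * c := by
      have : Commute (x * x) c := by
        apply mul_left_cancel (a := a)
        rw [← mul_assoc, hcc, ← mul_assoc, ← mul_assoc, hcomm c hc a ha]; group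
      exact (h9_commute_of_odd_of_sq hx this).eq.symm
    refine ⟨x, hx1, hx, hax, c, hc, hc1, ?_, hcx⟩
    rintro rfl
    rw [hcx, mul_inv_cancel_right] at hax
    apply hx1
    apply h9_eq_one_of_odd_of_sq hx
    calc x * x = x * x⁻¹ := by rw [← hax]
      _ = 1 := mul_inv_cancel x
  have hne : A ≠ ⊥ := by
    intro h0
    have := hA.card_four
    rw [h0, Subgroup.card_bot] at this
    omega
  obtain ⟨a, ha, ha1⟩ := (Subgroup.nontrivial_iff_exists_ne_one _).1
      ((Subgroup.nontrivial_iff_ne_bot _).2 hne)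
  obtain ⟨x, hx1, hx, hax, c, hc, hc1, hca, hcx⟩ := hinv a ha ha1
  obtain ⟨y, hy1, hy, hcy, e, he, he1, hec, hey⟩ := hinv c hc hc1
  have hex : e * x * e⁻¹ = x⁻¹ := by
    rcases hthree a ha c hc e he ha1 hc1 hca.symm he1 with rfl | rfl | rfl
    · exact hax
    · exact absurd rfl hec
    · rw [mul_assoc a c x, hcx, ← hax]; group
  have hd1 : e * c ≠ 1 := by
    intro h0
    apply hec
    rw [← inv_eq_of_mul_eq_one_left h0, inv_eq_of_mul_eq_one_left (hsq c hc)]
  obtain ⟨f, hf, hf1, hff⟩ := h' (e * c) (A.mul_mem he hc) hd1 (y * x⁻¹)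
  exact main (hsq e he) (hsq c hc) (hcomm e he c hc) hx hy hx1 hy1 hex hcx hcy hey
    (hthree e he c hc f hf he1 hc1 hec hf1) hff

end Cfsg.Agent.S3195
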