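import Cfsg.Statements.S3196
import Mathlib
import Cfsg.Agent.Lib.Misc.Invol
import Cfsg.Agent.Lib.PGroup.CyclicIndex
import Cfsg.Agent.Lib.Core.Cores

set_option autoImplicit false
open Cfsg

namespace Cfsg.Agent.S3196

open Cfsg.Lib

/-- element-wise form of the hypotheses: `D` is the set of generators of members of `K`. -/
structure Hyp {G : Type*} [Group G] (p : ℕ) (D : Set G) : Prop where
  ord : ∀ x ∈ D, orderOf x = p
  conj : ∀ x ∈ D, ∀ g : G, g * x * g⁻¹ ∈ D
  line : ∀ x ∈ D, ∀ y ∈ D, Commute x y → ∀ z ∈ Subgroup.zpowers x ⊔ Subgroup.zpowers y, z ≠ 1 → z ∈ D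
  meet : ∀ x ∈ D, ∀ y ∈ D, Commute x y → y ∉ Subgroup.zpowers x → ∀ w ∈ D,
    ∃ z ∈ Subgroup.zpowers x ⊔ Subgroup.zpowers y, z ≠ 1 ∧ Commute z w

variable {G : Type*} [Group G] [Finite G] {p : ℕ} [Fact p.Prime] {D : Set G}

theorem mem_sup {x y z : G} (h : Commute x y) (hz : z ∈ Subgroup.zpowers x ⊔ Subgroup.zpowers y) :
    ∃ i j : ℤ, z = x ^ i * y ^ j := by
  have hn : Subgroup.zpowers y ≤ Subgroup.normalizer (Subgroup.zpowers x : Set G) := by
    rw [Subgroup.zpowers_le]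
    apply h9_mem_normalizer_of_conj_mem
    rintro _ ⟨n, rfl⟩
    simp only
    rw [(h.symm.zpow_right n).eq, mul_inv_cancel_right]
    exact ⟨n, rfl⟩
  obtain ⟨_, ⟨i, rfl⟩, _, ⟨j, rfl⟩, rfl⟩ := (pg_mem_sup_of_le_normalizer_left hn).1 hz
  exact ⟨i, j, rfl⟩

theorem comm_sup {x y z w : G} (h : Commute x y) (hz : z ∈ Subgroup.zpowers x ⊔ Subgroup.zpowers y)
    (h1 : Commute x w) (h2 : Commute y w) : Commute z w := by
  obtain ⟨i, j, rfl⟩ := mem_sup h hz
  exact (h1.zpow_left i).mul_left (h2.zpow_left j)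

theorem comm_of_mem_zpowers {x z w : G} (hx : orderOf x = p) (hz : z ∈ Subgroup.zpowers x) (hz1 : z ≠ 1)
    (h : Commute z w) : Commute x w := by
  have h1 := pg_zpowers_eq_of_orderOf_prime hx hz hz1
  obtain ⟨n, hn⟩ : x ∈ Subgroup.zpowers z := h1 ▸ Subgroup.mem_zpowers x
  rw [← hn]; exact h.zpow_left n

/-- two points determine the line -/
theorem comm_right {x y z w : G} (hy : orderOf y = p) (h : Commute x y)
    (hz : z ∈ Subgroup.zpowers x ⊔ Subgroup.zpowers y) (hzx : z ∉ Subgroup.zpowers x)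
    (h1 : Commute x w) (h2 : Commute z w) : Commute y w := by
  obtain ⟨i, j, rfl⟩ := mem_sup h hz
  refine comm_of_mem_zpowers (z := y ^ j) hy ⟨j, rfl⟩ ?_ ?_
  · intro h0; apply hzx; rw [h0, mul_one]; exact ⟨i, rfl⟩
  · have := (h1.zpow_left i).inv_left.mul_left h2
    simpa using this

theorem comm_two {x y z z' w : G} (hx : orderOf x = p) (hy : orderOf y = p) (h : Commute x y)
    (hz : z ∈ Subgroup.zpowers x ⊔ Subgroup.zpowers y) (hz1 : z ≠ 1)
    (hz' : z' ∈ Subgroup.zpowers x ⊔ Subgroup.zpowers y) (hzz : z' ∉ Subgroup.zpowers z)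
    (h1 : Commute z w) (h2 : Commute z' w) : Commute x w := by
  by_cases hzx : z ∈ Subgroup.zpowers x
  · exact comm_of_mem_zpowers hx hzx hz1 h1
  obtain ⟨i, j, rfl⟩ := mem_sup h hz
  obtain ⟨k, l, rfl⟩ := mem_sup h hz'
  have hj : y ^ j ≠ 1 := by
    intro h0; apply hzx; rw [h0, mul_one]; exact ⟨i, rfl⟩
  obtain ⟨n, hn⟩ : y ^ l ∈ Subgroup.zpowers (y ^ j) := by
    rw [pg_zpowers_eq_of_orderOf_prime hy ⟨j, rfl⟩ hj]; exact ⟨l, rfl⟩
  simp only at hn
  have e : (x ^ k * y ^ l) * ((x ^ i * y ^ j) ^ n)⁻¹ = x ^ (k - i * n) := by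
    rw [(h.zpow_zpow i j).mul_zpow, hn, zpow_sub, zpow_mul]; group
  refine comm_of_mem_zpowers (z := x ^ (k - i * n)) hx ⟨_, rfl⟩ ?_ ?_
  · intro h0
    rw [h0, mul_inv_eq_one] at e
    exact hzz ⟨n, e.symm⟩
  · rw [← e]; exact h2.mul_left (h1.zpow_left n).inv_left

theorem not_mem_of_not_comm {x z w : G} (h1 : Commute x w) (h2 : ¬ Commute z w) :
    z ∉ Subgroup.zpowers x := by
  rintro ⟨n, rfl⟩; exact h2 (h1.zpow_left n)

theorem Hyp.ne_one (H : Hyp p D) {x : G} (hx : x ∈ D) : x ≠ 1 := by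
  rintro rfl
  have := H.ord _ hx
  rw [orderOf_one] at this
  exact (Fact.out : p.Prime).one_lt.ne this

/-- Buekenhout--Shult lemma -/
theorem Hyp.bs (H : Hyp p D) (hnd : ∀ v ∈ D, ∃ w ∈ D, ¬ Commute v w) {a b : G} (ha : a ∈ D)
    (hb : b ∈ D) (h : ∀ w ∈ D, Commute a w → Commute b w) : b ∈ Subgroup.zpowers a := by
  by_contra hab
  have hc : Commute a b := (h a ha (Commute.refl a)).symm
  obtain ⟨c, hcD, hac⟩ := hnd a ha
  obtain ⟨d, hd, hd1, hdc⟩ := H.meet a ha b hb hc hab c hcD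
  have hdD := H.line a ha b hb hc d hd hd1
  have hperp : ∀ w ∈ D, Commute a w → Commute d w := fun w hw h1 => comm_sup hc hd h1 (h w hw h1)
  have had : Commute d a := hperp a ha (Commute.refl a)
  obtain ⟨s, hsD, hds⟩ := hnd d hdD
  have hcd : c ∉ Subgroup.zpowers d := not_mem_of_not_comm had (fun h => hac h.symm)
  obtain ⟨e, he, he1, hes⟩ := H.meet d hdD c hcD hdc hcd s hsD
  have heD := H.line d hdD c hcD hdc e he he1
  have hed : e ∉ Subgroup.zpowers d := fun h => hds (comm_of_mem_zpowers (H.ord d hdD) h he1 hes)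
  have hea : ¬ Commute e a := fun h => hac (comm_right (H.ord c hcD) hdc he hed had h).symm
  have hed' : Commute e d := comm_sup hdc he (Commute.refl d) hdc.symm
  have hse : s ∉ Subgroup.zpowers e := not_mem_of_not_comm hed' (fun h => hds h.symm)
  obtain ⟨g, hg, hg1, hga⟩ := H.meet e heD s hsD hes hse a ha
  have hgD := H.line e heD s hsD hes g hg hg1
  have hge : g ∉ Subgroup.zpowers e := fun h => hea (comm_of_mem_zpowers (H.ord e heD) h hg1 hga)
  exact hds (comm_right (H.ord s hsD) hes hg hge hed' (hperp g hgD hga.symm).symm).symm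

/-- If `a ⊥ b` and each point collinear with `a` and `w` is collinear with `b`, where `w` is not
collinear with `a`, then `a^⊥ ⊆ b^⊥`. -/
theorem Hyp.perp (H : Hyp p D) {a b w : G} (ha : a ∈ D) (hw : w ∈ D) (hab : Commute a b)
    (haw : ¬ Commute a w) (h : ∀ r ∈ D, Commute r a → Commute r w → Commute r b) :
    ∀ r ∈ D, Commute a r → Commute b r := by
  intro r hr har
  by_cases hra : r ∈ Subgroup.zpowers a
  · obtain ⟨n, rfl⟩ := hra
    exact hab.symm.zpow_right n
  obtain ⟨q, hq, hq1, hqw⟩ := H.meet a ha r hr har hra w hw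
  have hqD := H.line a ha r hr har q hq hq1
  have hqa : q ∉ Subgroup.zpowers a := fun h => haw (comm_of_mem_zpowers (H.ord a ha) h hq1 hqw)
  exact (comm_right (H.ord r hr) har hq hqa hab
    (h q hqD (comm_sup har hq (Commute.refl a) har.symm) hqw)).symm

theorem Hyp.main (H : Hyp p D) {x y : G} (hx : x ∈ D) (hy : y ∈ D) (hxy : Commute x y)
    (hyx : y ∉ Subgroup.zpowers x) : ∃ v ∈ D, ∀ w ∈ D, Commute v w := by
  by_contra hnd
  push Not at hnd
  have hz1 : x * y ≠ 1 := by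
    intro h; apply hyx; rw [← inv_eq_of_mul_eq_one_right h]; exact Subgroup.inv_mem _ (Subgroup.mem_zpowers x)
  have hz : x * y ∈ D := H.line x hx y hy hxy _
    (Subgroup.mul_mem_sup (Subgroup.mem_zpowers x) (Subgroup.mem_zpowers y)) hz1
  have hxz : x ∉ Subgroup.zpowers (x * y) := by
    intro h
    apply hyx
    rw [pg_zpowers_eq_of_orderOf_prime (H.ord _ hz) h (H.ne_one hx)]
    simpa using Subgroup.mul_mem _ (Subgroup.inv_mem _ h) (Subgroup.mem_zpowers (x * y))
  obtain ⟨w, hw, hzw, hxw⟩ : ∃ w ∈ D, Commute (x * y) w ∧ ¬ Commute x w := by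
    by_contra hcon
    push Not at hcon
    exact hxz (H.bs hnd hz hx hcon)
  have hyw : ¬ Commute y w := fun h => hxw (by simpa using hzw.mul_left h.inv_left)
  have hw' : x⁻¹ * w * x⁻¹⁻¹ ∈ D := H.conj w hw x⁻¹
  have e : x⁻¹ * w * x⁻¹⁻¹ = y * w * y⁻¹ := by
    calc x⁻¹ * w * x⁻¹⁻¹ = x⁻¹ * (w * (x * y)) * y⁻¹ := by group
      _ = _ := by rw [← hzw.eq]; group
  have hpx : ∀ r, Commute r x → Commute r w → Commute r (x⁻¹ * w * x⁻¹⁻¹) := fun r h1 h2 =>
    (h1.inv_right.mul_right h2).mul_right h1.inv_right.inv_right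
  have hpy : ∀ r, Commute r y → Commute r w → Commute r (x⁻¹ * w * x⁻¹⁻¹) := fun r h1 h2 => by
    rw [e]; exact (h1.mul_right h2).mul_right h1.inv_right
  obtain ⟨P, hP, hPx, hPw, hPy⟩ : ∃ r ∈ D, Commute r x ∧ Commute r w ∧ ¬ Commute r y := by
    by_contra hcon
    push Not at hcon
    exact hyx (H.bs hnd hx hy (H.perp hx hw hxy hxw hcon))
  have hPw' : P ∉ Subgroup.zpowers w := fun h =>
    hxw (comm_of_mem_zpowers (H.ord w hw) h (H.ne_one hP) hPx).symm
  obtain ⟨Q, hQ, hQ1, hQy⟩ := H.meet w hw P hP hPw.symm hPw' y hy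
  have hQw : Commute Q w := comm_sup hPw.symm hQ (Commute.refl w) hPw
  have hww : Commute w (x⁻¹ * w * x⁻¹⁻¹) :=
    comm_two (H.ord w hw) (H.ord P hP) hPw.symm hQ hQ1
      (Subgroup.mem_sup_right (Subgroup.mem_zpowers P)) (not_mem_of_not_comm hQy hPy)
      (hpy Q hQy hQw) (hpx P hPx hPw)
  have hmem : x⁻¹ * w * x⁻¹⁻¹ ∈ Subgroup.zpowers w := by
    refine H.bs hnd hw hw' (H.perp hw hx hww (fun h => hxw h.symm) ?_)
    intro r _ h1 h2
    exact hpx r h2 h1
  -- `x` normalizes `⟨w⟩`, hence centralizes it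
  have hN : Subgroup.zpowers x ≤ Subgroup.normalizer (Subgroup.zpowers w : Set G) := by
    rw [Subgroup.zpowers_le, ← Subgroup.inv_mem_iff]
    apply h9_mem_normalizer_of_conj_mem
    rintro _ ⟨n, rfl⟩
    simp only
    rw [← conj_zpow]
    exact Subgroup.zpow_mem _ hmem n
  have hp : ∀ u ∈ D, IsPGroup p (Subgroup.zpowers u) := fun u hu =>
    h9_isPGroup_zpowers (k := 1) (by rw [pow_one, ← H.ord u hu, pow_orderOf_eq_one])
  obtain ⟨u, hu, hu1, hu2⟩ := pg_exists_fixed_of_order_p (hp w hw) (hp x hx) hN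
    (by simpa using H.ne_one hw)
  refine hxw (comm_of_mem_zpowers (H.ord w hw) hu ?_ ?_).symm
  · rintro rfl
    rw [orderOf_one] at hu1
    exact (Fact.out : p.Prime).one_lt.ne hu1
  · exact (Subgroup.mem_centralizer_iff.1 hu2 x (Subgroup.mem_zpowers x)).symm


/-- Let p be a prime and K a set of subgroups of order p of a finite group G, closed under conjugation, such that at least two distinct members of K commute elementwise, and whenever two distinct members X, Y of K commute: every subgroup of order p of the group XY they generate belongs to K, and every member W of K has centralizer meeting XY nontrivially. Then some member V of K commutes elementwise with every member of K and lies in O_p(G); in particular G is not simple. -/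
theorem result {G : Type*} [Group G] [Finite G]
    {p : ℕ} (hp : p.Prime) (K : Set (Subgroup G)) (hK : ∀ X ∈ K, Nat.card ↥X = p)
    (hKc : ∀ X ∈ K, ∀ g : G, X.map (MulAut.conj g).toMonoidHom ∈ K)
    (hex : ∃ X ∈ K, ∃ Y ∈ K, X ≠ Y ∧ ∀ x ∈ X, ∀ y ∈ Y, x * y = y * x)
    (ha : ∀ X ∈ K, ∀ Y ∈ K, X ≠ Y → (∀ x ∈ X, ∀ y ∈ Y, x * y = y * x) →
      ∀ Z : Subgroup G, Z ≤ X ⊔ Y → Nat.card ↥Z = p → Z ∈ K)
    (hb : ∀ X ∈ K, ∀ Y ∈ K, X ≠ Y → (∀ x ∈ X, ∀ y ∈ Y, x * y = y * x) →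
      ∀ W ∈ K, (X ⊔ Y) ⊓ Subgroup.centralizer (W : Set G) ≠ ⊥) :
    (∃ V ∈ K, (∀ W ∈ K, ∀ v ∈ V, ∀ w ∈ W, v * w = w * v) ∧ V ≤ Cfsg.pCore p G) ∧ ¬ IsSimpleGroup G := by
  have := Fact.mk hp
  let D : Set G := {x | x ≠ 1 ∧ Subgroup.zpowers x ∈ K}
  have hgen : ∀ X ∈ K, ∀ x ∈ X, x ≠ 1 → Subgroup.zpowers x = X := by
    intro X hX x hx hx1
    apply Subgroup.eq_of_le_of_card_ge (by simpa using hx)
    have h1 : Nat.card (Subgroup.zpowers x) ∣ p := hK X hX ▸ Subgroup.card_dvd_of_le (by simpa using hx)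
    rcases (Nat.dvd_prime hp).1 h1 with h | h
    · exact absurd (by simpa using h) hx1
    · rw [h, hK X hX]
  have hex' : ∀ X ∈ K, ∃ x ∈ D, Subgroup.zpowers x = X := by
    intro X hX
    have hne : X ≠ ⊥ := by
      intro h0; have := hK X hX; rw [h0, Subgroup.card_bot] at this; exact hp.one_lt.ne this
    obtain ⟨x, hx, hx1⟩ := (Subgroup.nontrivial_iff_exists_ne_one _).1
      ((Subgroup.nontrivial_iff_ne_bot _).2 hne)
    exact ⟨x, ⟨hx1, (hgen X hX x hx hx1).symm ▸ hX⟩, hgen X hX x hx hx1⟩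
  have hcz : ∀ x y : G, Commute x y → ∀ a ∈ Subgroup.zpowers x, ∀ b ∈ Subgroup.zpowers y, a * b = b * a := by
    rintro x y h _ ⟨i, rfl⟩ _ ⟨j, rfl⟩
    exact (h.zpow_zpow i j).eq
  have hord : ∀ x ∈ D, orderOf x = p := fun x hx => by rw [← Nat.card_zpowers, hK _ hx.2]
  have H : Hyp p D := by
    refine ⟨hord, fun x hx g => ⟨by simpa using hx.1, ?_⟩, fun x hx y hy h z hz hz1 => ⟨hz1, ?_⟩,
      fun x hx y hy h hyx w hw => ?_⟩
    · have := hKc _ hx.2 g
      rw [MonoidHom.map_zpowers] at this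
      exact this
    · by_cases hxy : Subgroup.zpowers x = Subgroup.zpowers y
      · rw [← hxy, sup_idem] at hz
        rw [hgen _ hx.2 z hz hz1]; exact hx.2
      · refine ha _ hx.2 _ hy.2 hxy (hcz x y h) _ (by simpa using hz) ?_
        rw [Nat.card_zpowers]
        apply orderOf_eq_prime _ hz1
        obtain ⟨i, j, rfl⟩ := mem_sup h hz
        rw [(h.zpow_zpow i j).mul_pow, ← zpow_natCast, ← zpow_natCast, ← zpow_mul, ← zpow_mul, mul_comm i,
          mul_comm j, zpow_mul, zpow_mul, zpow_natCast, zpow_natCast]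
        nth_rewrite 1 [← hord x hx]
        rw [← hord y hy, pow_orderOf_eq_one, pow_orderOf_eq_one]
        simp
    · have hne : Subgroup.zpowers x ≠ Subgroup.zpowers y := fun h0 => hyx (h0 ▸ Subgroup.mem_zpowers y)
      obtain ⟨z, hz, hz1⟩ := (Subgroup.nontrivial_iff_exists_ne_one _).1
        ((Subgroup.nontrivial_iff_ne_bot _).2 (hb _ hx.2 _ hy.2 hne (hcz x y h) _ hw.2))
      exact ⟨z, hz.1, hz1, (Subgroup.mem_centralizer_iff.1 hz.2 w (Subgroup.mem_zpowers w)).symm⟩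
  obtain ⟨X, hX, Y, hY, hXY, hc⟩ := hex
  obtain ⟨x, hx, rfl⟩ := hex' X hX
  obtain ⟨y, hy, rfl⟩ := hex' Y hY
  have hyx : y ∉ Subgroup.zpowers x := fun h => hXY (hgen _ hX y h hy.1).symm
  obtain ⟨v, hv, hvc⟩ := H.main hx hy (hc x (Subgroup.mem_zpowers x) y (Subgroup.mem_zpowers y)) hyx
  have hcore : v ∈ pCore p G := by
    apply baerSuzuki
    intro g
    have h1 := hvc _ (H.conj v hv g)
    have hcomm : IsMulCommutative (Subgroup.closure ({v, g * v * g⁻¹} : Set G)) := by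
      apply Subgroup.isMulCommutative_closure
      rintro a (rfl | rfl) b (rfl | rfl)
      · rfl
      · exact h1.eq
      · exact h1.eq.symm
      · rfl
    apply pg_isPGroup_of_pow_eq_one
    intro a ha
    refine pg_pow_eq_one_of_mem_closure_of_comm hcomm Subgroup.subset_closure ?_ ha
    rintro b (rfl | rfl)
    · rw [← hord b hv, pow_orderOf_eq_one]
    · rw [← hord _ (H.conj v hv g), pow_orderOf_eq_one]
  refine ⟨⟨Subgroup.zpowers v, hv.2, fun W hW => ?_, by simpa using hcore⟩, fun hs => ?_⟩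
  · obtain ⟨w, hw, rfl⟩ := hex' W hW
    exact hcz v w (hvc w hw)
  · have h1 : pCore p G = ⊤ := by
      refine (hs.eq_bot_or_eq_top_of_normal _ inferInstance).resolve_left (fun h => hv.1 ?_)
      rwa [h, Subgroup.mem_bot] at hcore
    have hG : IsPGroup p G := pCore_eq_top_iff.1 h1
    have h2 : Subgroup.center G = ⊤ :=
      (hs.eq_bot_or_eq_top_of_normal _ inferInstance).resolve_left hG.bot_lt_center.ne'
    have h3 : (Subgroup.zpowers x).Normal := ⟨fun a ha g => by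
      rw [Subgroup.mem_center_iff.1 (h2 ▸ Subgroup.mem_top a) g]; simpa using ha⟩
    rcases hs.eq_bot_or_eq_top_of_normal _ h3 with h | h
    · exact hx.1 (by simpa using h)
    · exact hyx (h ▸ Subgroup.mem_top y)

end Cfsg.Agent.S3196
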