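import Cfsg.Statements.S3197
import Mathlib
import Cfsg.Agent.Lib.SC.Build

set_option autoImplicit false
open Cfsg

namespace Cfsg.Agent.S3197

open Subgroup Cfsg.Lib

/-- Let G be a finite group whose Sylow 2-subgroups are isomorphic to those of the alternating group of degree 8, with exactly three conjugacy classes of involutions, and containing an elementary abelian subgroup A of order 16 whose normalizer N satisfies: A·O(N) is normal in N with quotient N/(A·O(N)) isomorphic to the alternating group of degree 5, O(N) being the largest normal subgroup of odd order of N. Then A·O(G) is a normal subgroup of G. -/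
theorem result {G : Type*} [Group G] [Finite G]
    (S : Sylow 2 G) (P : Sylow 2 ↥(alternatingGroup (Fin 8)))
    (hS : Nonempty (↥(S : Subgroup G) ≃* ↥(P : Subgroup ↥(alternatingGroup (Fin 8)))))
    (h3 : Nat.card {c : ConjClasses G // ∃ x ∈ c.carrier, orderOf x = 2} = 3)
    (A : Subgroup G) (hA : Cfsg.IsElementaryAbelian 2 A) (hA16 : Nat.card ↥A = 16)
    (N : Subgroup G) (hN : N = Subgroup.normalizer (A : Set G))
    (hNA : ∃ (_ : (A.subgroupOf N ⊔ Cfsg.oddCore ↥N).Normal),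
      Nonempty (↥N ⧸ (A.subgroupOf N ⊔ Cfsg.oddCore ↥N) ≃* ↥(alternatingGroup (Fin 5)))) :
    (A ⊔ Cfsg.oddCore G).Normal := by
  subst hN
  open Cfsg.Lib.FT Cfsg.Lib.FT.O4 in
  obtain ⟨hn, ⟨e⟩⟩ := hNA
  obtain ⟨eS⟩ := hS
  set K := A.subgroupOf N[A] ⊔ oddCore N[A] with hKdef
  let φ : N[A] →* alternatingGroup (Fin 5) := e.toMonoidHom.comp (QuotientGroup.mk' K)
  have hφ : Function.Surjective φ := e.surjective.comp (QuotientGroup.mk'_surjective K)
  let ψ : N[A] →* S5 := (alternatingGroup (Fin 5)).subtype.comp φ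
  have hψ1 : ∀ n, ψ n = 1 ↔ φ n = 1 := fun n => OneMemClass.coe_eq_one
  have hφ1 : ∀ n, φ n = 1 ↔ n ∈ K := fun n => by
    simp only [φ, MonoidHom.comp_apply, MulEquiv.coe_toMonoidHom, map_eq_one_iff e e.injective,
      QuotientGroup.mk'_apply, QuotientGroup.eq_one_iff]
  have h2 : IsPGroup 2 A := elemAb_isPGroup hA
  have h2' : IsPGroup 2 (A.subgroupOf N[A]) := h2.comap_subtype
  have hodd : ¬ 2 ∣ Nat.card (oddCore N[A]) := (odd_card_oddCore (G := N[A])).not_two_dvd_nat
  have hsK : IsSylowIn 2 (A.subgroupOf N[A]) K :=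
    isSylowIn_sup_of_odd h2' hodd (by rw [normalizer_eq_top (oddCore N[A])]; exact le_top)
  have hmap : (A.subgroupOf N[A]).map N[A].subtype = A := map_subgroupOf_eq_of_le Subgroup.le_normalizer
  have hKC : K ≤ C[A].subgroupOf N[A] := by
    have h1 : oddCore N[A] ≤ C[A.subgroupOf N[A]] := by
      rw [← commutator_eq_bot_iff_le_centralizer, eq_bot_iff]
      refine (commutator_le_inf _ _).trans (disjoint_of_coprime_natCard ?_).le_bot
      obtain ⟨k, hk⟩ := h2'.exists_card_eq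
      rw [hk]
      exact Nat.Coprime.pow_right _ ((Nat.prime_two.coprime_iff_not_dvd).2 hodd).symm
    refine sup_le (fun x hx => elemAb_le_centralizer hA hx) fun x hx a ha => ?_
    exact congrArg Subtype.val (h1 hx ⟨a, Subgroup.le_normalizer ha⟩ ha)
  have hker : ∀ n, ψ n = 1 → (n : G) ∈ C[A] := fun n hn => hKC ((hφ1 n).1 ((hψ1 n).1 hn))
  have hev : ∀ n, ev (ψ n) := fun n => Equiv.Perm.mem_alternatingGroup.1 (φ n).2
  have hsur : ∀ σ, ev σ → ∃ n, ψ n = σ := fun σ hσ => by
    obtain ⟨n, hn⟩ := hφ ⟨σ, Equiv.Perm.mem_alternatingGroup.2 hσ⟩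
    exact ⟨n, congrArg Subtype.val hn⟩
  have hK : ∀ n : N[A], (n : G) ∈ C[A] → ψ n = 1 ∨ N[A] ≤ C[A] := fun n hn => by
    have h1 : (C[A].subgroupOf N[A]).Normal := normal_subgroupOf_centralizer_normalizer (A : Set G)
    rcases (h1.map φ hφ).eq_bot_or_eq_top with h | h
    · left
      rw [hψ1]
      exact (eq_bot_iff_forall _).1 h _ (mem_map_of_mem φ hn)
    · right
      intro m hm
      obtain ⟨c, hc, e1⟩ : φ ⟨m, hm⟩ ∈ (C[A].subgroupOf N[A]).map φ := h ▸ mem_top _
      have := hKC ((hφ1 (c⁻¹ * ⟨m, hm⟩)).1 (by rw [map_mul, map_inv, e1, inv_mul_cancel]))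
      exact (mul_mem_cancel_left (inv_mem hc)).1 this
  have hsyl : (∀ n : N[A], (n : G) ∈ C[A] → ψ n = 1) → IsSylowIn 2 A C[A] := fun h => by
    have h1 := hsK.map N[A].subtype
    rw [hmap] at h1
    have h4 : K.map N[A].subtype = C[A] := by
      refine le_antisymm (map_le_iff_le_comap.2 hKC) fun c hc => ?_
      have hc' := centralizer_le_normalizer (A : Set G) hc
      exact ⟨⟨c, hc'⟩, (hφ1 _).1 ((hψ1 _).1 (h _ hc)), rfl⟩
    rwa [h4] at h1
  obtain ⟨T, hT, hAT⟩ := exists_isSylowIn_ge (K := V4s.comap ψ) h2' fun x hx => by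
    rw [mem_comap, (hψ1 x).2 ((hφ1 x).2 (mem_sup_left hx))]
    exact one_mem _
  have hV : IsPGroup 2 V4s := IsPGroup.of_card (n := 2) card_V4s
  have hTψ : T.map ψ = V4s := by
    have h1 := hT.map ψ
    rw [map_comap_eq_self (H := V4s) fun σ hσ => hsur σ (show v4 σ from hσ).1] at h1
    exact (h1.maximal _ hV le_rfl h1.le).symm
  have hc : Nat.card (T.map N[A].subtype) = 64 := by
    have h1 := pg_card_map_mul_card_ker ψ T
    have h4 : T ⊓ ψ.ker = A.subgroupOf N[A] :=
      hsK.maximal _ (hT.isPGroup.to_le inf_le_left) (fun x hx => (hφ1 x).1 ((hψ1 x).1 hx.2))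
        (le_inf hAT fun x hx => (hψ1 x).2 ((hφ1 x).2 (mem_sup_left hx)))
    rw [hTψ, h4, card_V4s, ← card_map_of_injective N[A].subtype_injective, hmap, hA16] at h1
    rw [card_map_of_injective N[A].subtype_injective, ← h1]
  have hS0 : IsSylowIn 2 (S : Subgroup G) ⊤ := IsSylowIn.of_sylow_top S
  have hS1 : IsSylowIn 2 (T.map N[A].subtype) ⊤ := hS0.of_card_ge (hT.isPGroup.map _) le_top (by
    rw [hc, Nat.card_congr eS.toEquiv, card_sylow_a8])
  obtain ⟨S', hS'⟩ := hS1.exists_sylow_top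
  have hU : UniqCen (T.map N[A].subtype) := by
    rw [← hS']
    exact (uniqCen_sylow_a8 P).of_equiv ((Sylow.equiv S' S).trans eS)
  obtain ⟨w, hw⟩ := exists_mod_aux hA hA16 ψ hev hsur hker hK hsyl hS1 (hmap.ge.trans (map_mono hAT)) (map_subtype_le _)
    (fun n hn => by
      obtain ⟨m, hm, e1⟩ := hn
      obtain rfl : m = n := Subtype.ext e1
      exact hT.le hm)
    (fun σ hσ => by
      obtain ⟨n, hn, e1⟩ : σ ∈ T.map ψ := hTψ ▸ hσ
      exact ⟨n, mem_map_of_mem _ hn, e1⟩) hc hU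
  exact hw.normal h3

end Cfsg.Agent.S3197
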