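import Cfsg.Statements.S3200
import Mathlib
import Cfsg.Agent.Lib.Solv.Two
import Cfsg.Agent.Lib.Char.Burnside
import Cfsg.Agent.Lib.Coprime.Hall

set_option autoImplicit false
open Cfsg

namespace Cfsg.Agent.S3200

open Subgroup Cfsg.Lib

universe u

theorem solv_aux (n : ℕ) : ∀ (G : Type u) [Group G] [Finite G] (C : Subgroup G),
    IsMulCommutative C → (∃ k, C.index ∣ 2 ^ k) → Nat.card G = n → Group.IsSolvable G := by
  induction n using Nat.strong_induction_on with
  | _ n ih =>
  intro G _ _ C hC ⟨k, hk⟩ hn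
  by_cases hs : ∃ N : Subgroup G, N.Normal ∧ N ≠ ⊥ ∧ N ≠ ⊤
  · obtain ⟨N, hN, h1, h2⟩ := hs
    refine isSolvable_of_normal_quotient N
      (ih _ (hn ▸ pg_card_subgroup_lt h2) N (C.subgroupOf N) ?_ ⟨k, ?_⟩ rfl)
      (ih _ (hn ▸ pg_card_quotient_lt N h1) _ (C.map (QuotientGroup.mk' N)) inferInstance
        ⟨k, (index_map_dvd _ (QuotientGroup.mk'_surjective N)).trans hk⟩ rfl)
    · infer_instance
    · refine dvd_trans ?_ hk
      rw [← C.relIndex_top_right]
      exact relIndex_dvd_relIndex_of_le_normalizer (N := N) le_top le_top le_normalizer_of_normal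
  rcases subsingleton_or_nontrivial G with h | h
  · infer_instance
  have : IsSimpleGroup G := ⟨fun N hN => by
    by_contra h'
    push Not at h'
    exact hs ⟨N, hN, h'.1, h'.2⟩⟩
  by_cases hb : C = ⊥
  · rw [hb, index_bot] at hk
    obtain ⟨j, -, hj⟩ := (Nat.dvd_prime_pow Nat.prime_two).mp hk
    exact isSolvable_of_isPGroup (IsPGroup.of_card (p := 2) hj)
  obtain ⟨⟨c, hc⟩, hc1⟩ := ne_bot_iff_exists_ne_one.mp hb
  obtain ⟨j, -, hj⟩ := (Nat.dvd_prime_pow Nat.prime_two).mp
    ((index_dvd_of_le (le_centralizer_singleton_of_comm hC hc)).trans hk)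
  have h1 := mem_center_of_simple_of_index_prime_pow Nat.prime_two hj
  rcases (inferInstance : (center G).Normal).eq_bot_or_eq_top with h2 | h2
  · rw [h2] at h1
    exact absurd (Subtype.ext (mem_bot.mp h1)) hc1
  · exact Group.isSolvable_of_comm fun a b => (mem_center_iff.mp (h2 ▸ mem_top b) a)

/-- Let H be a finite group in which a Sylow 2-subgroup has an abelian complement (an abelian subgroup meeting it trivially whose product with it is all of H). Then H is solvable, and every subgroup and every quotient group of H again has a Sylow 2-subgroup with an abelian complement. -/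
theorem result {H : Type*} [Group H] [Finite H]
    (S : Sylow 2 H) (C : Subgroup H) (hC : IsMulCommutative ↥C) (hSC : Subgroup.IsComplement' (S : Subgroup H) C) :
    Group.IsSolvable H ∧
    (∀ L : Subgroup H, ∃ (P : Sylow 2 ↥L) (D : Subgroup ↥L), IsMulCommutative ↥D ∧ Subgroup.IsComplement' (P : Subgroup ↥L) D) ∧
    (∀ (N : Subgroup H) [N.Normal], ∃ (P : Sylow 2 (H ⧸ N)) (D : Subgroup (H ⧸ N)),
      IsMulCommutative ↥D ∧ Subgroup.IsComplement' (P : Subgroup (H ⧸ N)) D) := by
  obtain ⟨k, hk⟩ := IsPGroup.iff_card.mp S.isPGroup'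
  have hi : C.index = 2 ^ k := hSC.index_eq_card.trans hk
  have ho : ¬ 2 ∣ Nat.card C := by rw [← hSC.symm.index_eq_card]; exact S.not_dvd_index
  have hs := solv_aux _ H C hC ⟨k, hi.dvd⟩ rfl
  refine ⟨hs, fun L => ?_, fun N _ => ?_⟩
  · obtain ⟨P⟩ : Nonempty (Sylow 2 L) := inferInstance
    obtain ⟨D, hD⟩ := exists_piHallOf {q | q ≠ 2} (K := L) inferInstance
    have hCH : IsPiHallOf {q | q ≠ 2} C ⊤ := ⟨le_top, fun q _ hd h => ho (h ▸ hd), fun q hq h hd => by
      rw [relIndex_top_right, hi] at hd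
      exact h ((Nat.prime_dvd_prime_iff_eq hq Nat.prime_two).mp (hq.dvd_of_dvd_pow hd))⟩
    obtain ⟨g, -, hg⟩ := piHallOf_exists_conj_le inferInstance hCH le_top hD.2.1
    have hDc : IsMulCommutative D := isMulCommutative_of_forall fun a ha b hb =>
      (MulAut.conj g).injective (by
        rw [map_mul, map_mul]
        exact comm_of_isMulCommutative hC (hg ⟨a, ha, rfl⟩) (hg ⟨b, hb, rfl⟩))
    obtain ⟨j, hj⟩ : ∃ j, D.relIndex L = 2 ^ j := ⟨_, Nat.eq_prime_pow_of_unique_prime_dvd
      index_ne_zero_of_finite (fun {q} hq hd => by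
        by_contra h
        exact hD.2.2 q hq h hd)⟩
    exact ⟨P, D.subgroupOf L, inferInstance, isComplement'_sylow_of_index P
      (by rw [card_subgroupOf_of_le hD.1]; exact fun h => hD.2.1 2 Nat.prime_two h rfl) hj⟩
  · obtain ⟨P⟩ : Nonempty (Sylow 2 (H ⧸ N)) := inferInstance
    obtain ⟨j, -, hj⟩ := (Nat.dvd_prime_pow Nat.prime_two).mp
      ((index_map_dvd C (QuotientGroup.mk'_surjective N)).trans hi.dvd)
    exact ⟨P, C.map (QuotientGroup.mk' N), inferInstance, isComplement'_sylow_of_index P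
      (fun h => ho (h.trans (card_map_dvd _ _))) hj⟩

end Cfsg.Agent.S3200
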