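import Cfsg.Statements.S3202
import Mathlib
import Cfsg.Agent.Lib.Misc.Basic
import Cfsg.Agent.Lib.PGroup.CyclicIndex

set_option autoImplicit false
open Cfsg

namespace Cfsg.Agent.S3202

open Cfsg.Lib

/-- Lifting the generators of a generalized quaternion quotient by a central subgroup. -/
theorem lift {S : Type*} [Group S] [Finite S] (hS : IsPGroup 2 S) (D : Subgroup S) [D.Normal]
    (hna : ¬ IsMulCommutative (S ⧸ D)) (hu : ∃! x : S ⧸ D, orderOf x = 2) :
    ∃ (m : ℕ) (a b : S), 1 ≤ m ∧ orderOf (a : S ⧸ D) = 2 ^ (m + 1) ∧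
      (b : S ⧸ D) ∉ Subgroup.zpowers (a : S ⧸ D) ∧ (b : S ⧸ D) ^ 2 = (a : S ⧸ D) ^ 2 ^ m ∧
      (b : S ⧸ D) * a * (b : S ⧸ D)⁻¹ = (a : S ⧸ D)⁻¹ ∧
      ∀ x : S, (∃ i : ℤ, ∃ d ∈ D, x = a ^ i * d) ∨ (∃ i : ℤ, ∃ d ∈ D, x = a ^ i * b * d) := by
  rcases pg_two_group_unique_involution (hS.to_quotient D) (fun x y hx hy => hu.unique hx hy) with h | h
  · exact absurd h.isMulCommutative hna
  obtain ⟨m, a, b, hm, -, ha, hi, hb, hb2, hab⟩ := h
  obtain ⟨a, rfl⟩ := QuotientGroup.mk_surjective a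
  obtain ⟨b, rfl⟩ := QuotientGroup.mk_surjective b
  refine ⟨m, a, b, hm, ha, hb, hb2, hab, fun x => ?_⟩
  have key : ∀ y : S, (y : S ⧸ D) ∈ Subgroup.zpowers (a : S ⧸ D) → ∃ i : ℤ, ∃ d ∈ D, y = a ^ i * d := by
    rintro y ⟨i, hi⟩
    refine ⟨i, (a ^ i)⁻¹ * y, ?_, by group⟩
    rw [← QuotientGroup.eq]
    exact hi
  by_cases hx : (x : S ⧸ D) ∈ Subgroup.zpowers (a : S ⧸ D)
  · exact Or.inl (key x hx)
  · right
    have h1 : ((x * b⁻¹ : S) : S ⧸ D) ∈ Subgroup.zpowers (a : S ⧸ D) := by
      rw [QuotientGroup.mk_mul, QuotientGroup.mk_inv, Subgroup.mul_mem_iff_of_index_two hi,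
        Subgroup.inv_mem_iff]
      tauto
    obtain ⟨i, d, hd, h2⟩ := key _ h1
    refine ⟨i, b⁻¹ * d * b⁻¹⁻¹, ‹D.Normal›.conj_mem d hd _, ?_⟩
    calc x = (x * b⁻¹) * b := by group
      _ = _ := by rw [h2]; group


/-- Let S be a finite 2-group of 2-rank exactly 2 and D a maximal subgroup of the centre of S such that S/D is a non-abelian group with exactly one involution (a generalized quaternion group). Then S has a nontrivial cyclic characteristic subgroup. -/
theorem result {S : Type*} [Group S]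
    [Finite S] (hS : IsPGroup 2 S) (hr2 : Cfsg.PRankLE 2 2 S) (hr1 : ¬ Cfsg.PRankLE 2 1 S)
    (D : Subgroup ↥(Subgroup.center S)) (hD : IsCoatom D)
    (hq : ∃ (_ : (D.map (Subgroup.center S).subtype).Normal),
      ¬ IsMulCommutative (S ⧸ D.map (Subgroup.center S).subtype) ∧
      ∃! x : S ⧸ D.map (Subgroup.center S).subtype, orderOf x = 2) :
    ∃ C : Subgroup S, C ≠ ⊥ ∧ IsCyclic ↥C ∧ C.Characteristic := by
  obtain ⟨hn, hna, hu⟩ := hq
  obtain ⟨m, a, b, -, -, -, -, hab, hall⟩ := lift hS _ hna hu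
  have hDZ : D.map (Subgroup.center S).subtype ≤ Subgroup.center S := Subgroup.map_subtype_le _
  generalize D.map (Subgroup.center S).subtype = E at *
  have hcen : ∀ d ∈ E, ∀ x : S, x * d = d * x := fun d hd x => Subgroup.mem_center_iff.1 (hDZ hd) x
  obtain ⟨d, hd, hbd⟩ : ∃ d ∈ E, b * a * b⁻¹ = a⁻¹ * d := by
    refine ⟨a * (b * a * b⁻¹), ?_, by group⟩
    have : (a⁻¹)⁻¹ * (b * a * b⁻¹) ∈ E := by
      rw [← QuotientGroup.eq]
      simp only [QuotientGroup.mk_mul, QuotientGroup.mk_inv]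
      exact hab.symm
    simpa using this
  set c := a⁻¹ * a⁻¹ * d with hc
  have had : Commute a d := hcen d hd a
  have hac : Commute a c := ((Commute.refl a).inv_right.mul_right (Commute.refl a).inv_right).mul_right had
  have hbc : b * c * b⁻¹ = c⁻¹ := by
    have h1 : b * a⁻¹ * b⁻¹ = d⁻¹ * a := by
      have := congrArg (·⁻¹) hbd
      simpa [mul_assoc] using this
    calc b * c * b⁻¹ = (b * a⁻¹ * b⁻¹) * (b * a⁻¹ * b⁻¹) * (b * d * b⁻¹) := by rw [hc]; group
      _ = d⁻¹ * a * d⁻¹ * (a * d) := by rw [h1, hcen d hd b]; group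
      _ = d⁻¹ * a * a := by rw [hcen d hd a]; group
      _ = _ := by rw [hc]; simp [mul_assoc]
  have hCn : (Subgroup.zpowers c).Normal := by
    have h1 : ∀ x : S, x ∈ Subgroup.normalizer (Subgroup.zpowers c : Set S) := by
      have ha : a ∈ Subgroup.normalizer (Subgroup.zpowers c : Set S) := by
        apply h9_mem_normalizer_of_conj_mem
        rintro _ ⟨n, rfl⟩
        simp only
        rw [(hac.zpow_right n).eq, mul_inv_cancel_right]; exact ⟨n, rfl⟩
      have hb : b ∈ Subgroup.normalizer (Subgroup.zpowers c : Set S) := by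
        apply h9_mem_normalizer_of_conj_mem
        rintro _ ⟨n, rfl⟩
        simp only
        rw [← conj_zpow, hbc]; exact Subgroup.zpow_mem _ (Subgroup.inv_mem _ (Subgroup.mem_zpowers c)) n
      have he : ∀ e ∈ E, e ∈ Subgroup.normalizer (Subgroup.zpowers c : Set S) := by
        intro e he
        apply h9_mem_normalizer_of_conj_mem
        intro y hy
        rw [← hcen e he y, mul_inv_cancel_right]; exact hy
      intro x
      rcases hall x with ⟨i, e, he', rfl⟩ | ⟨i, e, he', rfl⟩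
      · exact Subgroup.mul_mem _ (Subgroup.zpow_mem _ ha i) (he e he')
      · exact Subgroup.mul_mem _ (Subgroup.mul_mem _ (Subgroup.zpow_mem _ ha i) hb) (he e he')
    exact ⟨fun y hy x => h9_conj_mem_of_mem_normalizer (h1 x) hy⟩
  have hle : commutator S ≤ Subgroup.zpowers c := by
    rw [← Subgroup.Normal.quotient_commutative_iff_commutator_le]
    let π := QuotientGroup.mk' (Subgroup.zpowers c)
    have h1 : Commute (π a) (π b) := by
      have h2 : π (b * a * b⁻¹) = π a := by
        rw [hbd]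
        have : a⁻¹ * d = a * c := by rw [hc]; group
        rw [this, map_mul, (QuotientGroup.eq_one_iff c).2 (Subgroup.mem_zpowers c) |> (show π c = 1 from ·),
          mul_one]
      rw [map_mul, map_mul, map_inv, mul_inv_eq_iff_eq_mul] at h2
      exact h2.symm
    have h3 : ∀ e ∈ E, ∀ x : S, Commute (π x) (π e) := fun e he x => (show Commute x e from hcen e he x).map π
    have h4 : ∀ y : S, Commute (π a) (π y) ∧ Commute (π b) (π y) := by
      intro y
      rcases hall y with ⟨i, e, he', rfl⟩ | ⟨i, e, he', rfl⟩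
      · simp only [map_mul, map_zpow]
        exact ⟨((Commute.refl _).zpow_right i).mul_right (h3 e he' a),
          (h1.symm.zpow_right i).mul_right (h3 e he' b)⟩
      · simp only [map_mul, map_zpow]
        exact ⟨(((Commute.refl _).zpow_right i).mul_right h1).mul_right (h3 e he' a),
          ((h1.symm.zpow_right i).mul_right (Commute.refl _)).mul_right (h3 e he' b)⟩
    refine ⟨⟨fun x y => ?_⟩⟩
    obtain ⟨x, rfl⟩ := QuotientGroup.mk'_surjective _ x
    obtain ⟨y, rfl⟩ := QuotientGroup.mk'_surjective _ y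
    rcases hall x with ⟨i, e, he', rfl⟩ | ⟨i, e, he', rfl⟩
    · simp only [map_mul, map_zpow]
      exact (((h4 y).1.zpow_left i).mul_left (h3 e he' y).symm).eq
    · simp only [map_mul, map_zpow]
      exact ((((h4 y).1.zpow_left i).mul_left (h4 y).2).mul_left (h3 e he' y).symm).eq
  refine ⟨commutator S, fun h0 => hna ?_, Subgroup.isCyclic_of_le hle, inferInstance⟩
  rw [Subgroup.Normal.quotient_commutative_iff_commutator_le, h0]
  exact bot_le

end Cfsg.Agent.S3202
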