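import Cfsg.Statements.S3201
import Mathlib
import Cfsg.Agent.S3202
import Cfsg.Agent.Lib.Misc.Invol

set_option autoImplicit false
open Cfsg

namespace Cfsg.Agent.S3201

open Cfsg.Lib


/-- Let S be a finite 2-group whose centre Z(S) has n ≥ 2 distinct maximal subgroups C₁, …, Cₙ with trivial intersection such that each quotient S/Cᵢ is a non-abelian group with exactly one involution (a generalized quaternion group). Then S is the internal direct product of an elementary abelian subgroup and a non-abelian subgroup with exactly one involution. -/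
theorem result {S : Type*} [Group S] [Finite S]
    (hS : IsPGroup 2 S) (n : ℕ) (hn : 2 ≤ n) (C : Fin n → Subgroup ↥(Subgroup.center S))
    (hCmax : ∀ i, IsCoatom (C i)) (hCinj : Function.Injective C) (hCint : ⨅ i, C i = ⊥)
    (hCq : ∀ i, ∃ (_ : ((C i).map (Subgroup.center S).subtype).Normal),
      ¬ IsMulCommutative (S ⧸ (C i).map (Subgroup.center S).subtype) ∧
      ∃! x : S ⧸ (C i).map (Subgroup.center S).subtype, orderOf x = 2) :
    ∃ E Q : Subgroup S, Cfsg.IsInternalDirectProduct E Q ⊤ ∧ Cfsg.IsElementaryAbelian 2 E ∧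
      ¬ IsMulCommutative ↥Q ∧ ∃! x : ↥Q, orderOf x = 2 := by
  let Z := Subgroup.center S
  let E : Fin n → Subgroup S := fun i => (C i).map Z.subtype
  have hEZ : ∀ i, E i ≤ Z := fun i => Subgroup.map_subtype_le _
  have hmem : ∀ i (z : Z), (z : S) ∈ E i ↔ z ∈ C i := fun i z =>
    Subgroup.mem_map_iff_mem Z.subtype_injective
  have hidx : ∀ i, (C i).index = 2 := fun i => pg_index_of_isCoatom (hS.to_subgroup Z) (hCmax i)
  have hint : ∀ z ∈ Z, (∀ i, z ∈ E i) → z = 1 := by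
    intro z hz h
    have : (⟨z, hz⟩ : Z) ∈ ⨅ i, C i := Subgroup.mem_iInf.2 (fun i => (hmem i ⟨z, hz⟩).1 (h i))
    rw [hCint, Subgroup.mem_bot] at this
    exact congrArg Subtype.val this
  have hZ2 : ∀ z ∈ Z, z * z = 1 := fun z hz => hint _ (Z.mul_mem hz hz) (fun i =>
    (hmem i (⟨z, hz⟩ * ⟨z, hz⟩)).2 (Subgroup.mul_self_mem_of_index_two (hidx i) _))
  have huniq : ∀ z ∈ Z, ∀ w ∈ Z, (∀ i, z ∉ E i) → (∀ i, w ∉ E i) → z = w := by
    intro z hz w hw h1 h2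
    have : z * w = 1 := hint _ (Z.mul_mem hz hw) (fun i => (hmem i (⟨z, hz⟩ * ⟨w, hw⟩)).2 (by
      rw [Subgroup.mul_mem_iff_of_index_two (hidx i), ← hmem, ← hmem]
      exact iff_of_false (h1 i) (h2 i)))
    exact mul_right_cancel (this.trans (hZ2 w hw).symm)
  have hsq : ∀ i, ∀ x : S, x * x ∈ E i → x ∈ Z := by
    intro i x hx
    obtain ⟨hn, -, hu⟩ := hCq i
    obtain ⟨z, hz⟩ : ∃ z : Z, z ∉ C i := by
      by_contra hcon
      push Not at hcon
      exact (hCmax i).1 (eq_top_iff.2 (fun z _ => hcon z))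
    by_cases hxE : x ∈ E i
    · exact hEZ i hxE
    have h1 : ((x : S ⧸ E i)) = ((z : S) : S ⧸ E i) := by
      apply hu.unique
      · rw [h9_orderOf_eq_two_iff]
        exact ⟨fun h => hxE ((QuotientGroup.eq_one_iff x).1 h), (QuotientGroup.eq_one_iff (x * x)).2 hx⟩
      · rw [h9_orderOf_eq_two_iff]
        refine ⟨fun h => hz ((hmem i z).1 ((QuotientGroup.eq_one_iff _).1 h)), ?_⟩
        rw [← QuotientGroup.mk_mul, hZ2 z z.2]; rfl
    have h2 := hEZ i (QuotientGroup.eq.1 h1)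
    simpa using Z.inv_mem (Z.mul_mem h2 (Z.inv_mem z.2))
  have hsame : ∀ x y : S, x ∉ Z → y ∉ Z → x * x ∈ Z → y * y ∈ Z → x * x = y * y := fun x y h1 h2 h3 h4 =>
    huniq _ h3 _ h4 (fun i h => h1 (hsq i x h)) (fun i h => h2 (hsq i y h))
  let i₀ : Fin n := ⟨0, by omega⟩
  obtain ⟨hn, hna, hu⟩ := hCq i₀
  obtain ⟨m, a, b, hm, ha, hb, hb2, hab, hall⟩ := S3202.lift hS (E i₀) hna hu
  obtain ⟨m, rfl⟩ : ∃ k, m = k + 1 := ⟨m - 1, by omega⟩
  have hpowa : ∀ k : ℕ, a ^ k ∈ E i₀ ↔ 2 ^ (m + 1 + 1) ∣ k := by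
    intro k
    rw [← ha, orderOf_dvd_iff_pow_eq_one, ← QuotientGroup.mk_pow, QuotientGroup.eq_one_iff]
  have hlt : ∀ k, 0 < k → k < 2 ^ (m + 1 + 1) → a ^ k ∉ E i₀ := fun k h1 h2 h =>
    absurd (Nat.le_of_dvd h1 ((hpowa k).1 h)) (by omega)
  have hpos : 1 ≤ 2 ^ m := Nat.one_le_two_pow
  have hnc : ∀ x : S, (x : S ⧸ E i₀) * a * (x : S ⧸ E i₀)⁻¹ = (a : S ⧸ E i₀)⁻¹ → x ∉ Z := by
    intro x hx hxZ
    rw [← QuotientGroup.mk_mul, ← Subgroup.mem_center_iff.1 hxZ a, QuotientGroup.mk_mul,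
      mul_inv_cancel_right, eq_inv_iff_mul_eq_one, ← QuotientGroup.mk_mul, QuotientGroup.eq_one_iff,
      ← pow_two] at hx
    exact hlt 2 (by norm_num) (by rw [pow_succ, pow_succ]; omega) hx
  have hu1 : a ^ 2 ^ (m + 1) ∈ Z := by
    apply hsq i₀
    rw [← pow_add, ← two_mul, ← pow_succ', hpowa]
  have hb3 : b * b ∈ Z := by
    have h1 : (a ^ 2 ^ (m + 1))⁻¹ * (b * b) ∈ E i₀ := by
      rw [← QuotientGroup.eq, ← pow_two, QuotientGroup.mk_pow, QuotientGroup.mk_pow, hb2]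
    simpa using Z.mul_mem hu1 (hEZ i₀ h1)
  have hab3 : a * b * (a * b) ∈ Z := by
    have h1 : (b * b)⁻¹ * (a * b * (a * b)) ∈ E i₀ := by
      rw [← QuotientGroup.eq]
      simp only [QuotientGroup.mk_mul]
      calc (b : S ⧸ E i₀) * b = a * (a : S ⧸ E i₀)⁻¹ * (b * b) := by group
        _ = _ := by rw [← hab]; group
    have h2 := Z.mul_mem hb3 (hEZ i₀ h1)
    rwa [mul_inv_cancel_left] at h2
  have e1 : a * b * (a * b) = b * b := hsame _ _ (hnc _ (by
    rw [QuotientGroup.mk_mul]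
    calc (a : S ⧸ E i₀) * b * a * ((a : S ⧸ E i₀) * b)⁻¹ = a * (b * a * (b : S ⧸ E i₀)⁻¹) * (a : S ⧸ E i₀)⁻¹ := by group
      _ = _ := by rw [hab]; group)) (hnc b hab) hab3 hb3
  have hab' : b * a * b⁻¹ = a⁻¹ := by
    calc b * a * b⁻¹ = a⁻¹ * (a * b * (a * b)) * (b * b)⁻¹ := by group
      _ = _ := by rw [e1]; group
  have e3 : a ^ 2 ^ m * a ^ 2 ^ m = a ^ 2 ^ (m + 1) := by rw [← pow_add, ← two_mul, ← pow_succ']
  have e2 : a ^ 2 ^ (m + 1) = b * b := by
    rw [← e3]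
    refine hsame _ _ (fun h => ?_) (hnc b hab) (e3 ▸ hu1) hb3
    have := hZ2 _ h
    rw [e3] at this
    exact hlt (2 ^ (m + 1)) (by positivity) (by rw [pow_succ 2 (m + 1)]; omega) (this ▸ (E i₀).one_mem)
  have huE : a ^ 2 ^ (m + 1) ∉ E i₀ := hlt _ (by positivity) (by rw [pow_succ 2 (m + 1)]; omega)
  have hoa : orderOf a = 2 ^ (m + 1 + 1) := by
    apply orderOf_eq_prime_pow
    · intro h; exact huE (h ▸ (E i₀).one_mem)
    · rw [pow_succ 2 (m + 1), pow_mul, pow_two, hZ2 _ hu1]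
  have hN : Subgroup.zpowers b ≤ Subgroup.normalizer (Subgroup.zpowers a : Set S) := by
    rw [Subgroup.zpowers_le]
    apply h9_mem_normalizer_of_conj_mem
    rintro _ ⟨n, rfl⟩
    rw [h9_conj_zpow_of_inv hab']
    exact Subgroup.inv_mem _ ⟨n, rfl⟩
  have hinv : ∀ x ∈ Subgroup.zpowers a ⊔ Subgroup.zpowers b, x * x = 1 → x = 1 ∨ x = a ^ 2 ^ (m + 1) := by
    intro x hx hx2
    obtain ⟨y, hy, _, ⟨j, rfl⟩, rfl⟩ := (pg_mem_sup_of_le_normalizer_left hN).1 hx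
    have hb4 : ∀ k : ℤ, b ^ (2 * k) ∈ Subgroup.zpowers a := fun k => by
      rw [zpow_mul, zpow_two, ← e2]
      exact Subgroup.zpow_mem _ (Subgroup.pow_mem _ (Subgroup.mem_zpowers a) _) k
    rcases Int.even_or_odd' j with ⟨k, rfl | rfl⟩
    · exact pg_mem_order_two_of_sq_eq_one hoa (Subgroup.mul_mem _ hy (hb4 k)) (by rw [pow_two]; exact hx2)
    · exfalso
      obtain ⟨l, hl⟩ := Subgroup.mul_mem _ hy (hb4 k)
      simp only at hl hx2
      rw [zpow_add_one, ← mul_assoc y, ← hl] at hx2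
      apply huE
      have : b * b = 1 := by
        calc b * b = a ^ l * (a ^ l)⁻¹ * (b * b) := by group
          _ = a ^ l * b * (a ^ l * b) := by rw [← h9_conj_zpow_of_inv hab' l]; group
          _ = 1 := hx2
      rw [e2, this]; exact (E i₀).one_mem
  refine ⟨E i₀, Subgroup.zpowers a ⊔ Subgroup.zpowers b, ⟨le_top, le_top, fun x hx y _ =>
    (Subgroup.mem_center_iff.1 (hEZ i₀ hx) y).symm, ?_, ?_⟩, ⟨pg_isMulCommutative_of_commute (fun x hx y _ =>
    (Subgroup.mem_center_iff.1 (hEZ i₀ hx) y).symm), fun x hx => by rw [pow_two, hZ2 x (hEZ i₀ hx)]⟩, ?_, ?_⟩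
  · rw [eq_bot_iff]
    rintro x ⟨h1, h2⟩
    rcases hinv x h2 (hZ2 x (hEZ i₀ h1)) with h | h
    · exact h
    · exact absurd (h ▸ h1) huE
  · rw [eq_top_iff]
    intro x _
    have ha' : a ∈ E i₀ ⊔ (Subgroup.zpowers a ⊔ Subgroup.zpowers b) :=
      Subgroup.mem_sup_right (Subgroup.mem_sup_left (Subgroup.mem_zpowers a))
    have hb' : b ∈ E i₀ ⊔ (Subgroup.zpowers a ⊔ Subgroup.zpowers b) :=
      Subgroup.mem_sup_right (Subgroup.mem_sup_right (Subgroup.mem_zpowers b))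
    rcases hall x with ⟨i, e, he', rfl⟩ | ⟨i, e, he', rfl⟩
    · exact Subgroup.mul_mem _ (Subgroup.zpow_mem _ ha' i) (Subgroup.mem_sup_left he')
    · exact Subgroup.mul_mem _ (Subgroup.mul_mem _ (Subgroup.zpow_mem _ ha' i) hb') (Subgroup.mem_sup_left he')
  · intro h
    have h1 := (pg_commute_of_isMulCommutative h (Subgroup.mem_sup_right (Subgroup.mem_zpowers b))
      (Subgroup.mem_sup_left (Subgroup.mem_zpowers a))).eq
    rw [h1, mul_inv_cancel_right, eq_inv_iff_mul_eq_one, ← pow_two] at hab'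
    exact hlt 2 (by norm_num) (by rw [pow_succ, pow_succ]; omega) (hab' ▸ (E i₀).one_mem)
  · refine ⟨⟨a ^ 2 ^ (m + 1), Subgroup.mem_sup_left (Subgroup.pow_mem _ (Subgroup.mem_zpowers a) _)⟩, ?_, ?_⟩
    · simp only [Subgroup.orderOf_mk]
      exact h9_orderOf_eq_two_iff.2 ⟨fun h => huE (h ▸ (E i₀).one_mem), hZ2 _ hu1⟩
    · intro y hy
      rw [← Subgroup.orderOf_coe, h9_orderOf_eq_two_iff] at hy
      exact Subtype.ext ((hinv y y.2 hy.2).resolve_left hy.1)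

end Cfsg.Agent.S3201
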