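import Cfsg.Statements.S3206
import Mathlib
import Cfsg.Agent.Lib.PGroup.AbelSylow

set_option autoImplicit false
open Cfsg

namespace Cfsg.Agent.S3206

open Subgroup Cfsg.Lib

/-- Let G be a non-abelian finite simple group with abelian Sylow 2-subgroups, and let t be an involution of G whose centralizer is a maximal subgroup of G and is the direct product of the subgroup generated by t with a subgroup E having a normal subgroup isomorphic to PSL(2, q), q odd and greater than 3, with trivial centralizer in E. Then every finite perfect group having a central 2-subgroup with quotient isomorphic to G has that central subgroup trivial (G has no nontrivial perfect central extension by a 2-group), and every automorphism of G of 2-power order that fixes every element of some Sylow 2-subgroup of G is inner. -/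
theorem result {G : Type*} [Group G] [Finite G] [IsSimpleGroup G]
    (hG : ¬ IsMulCommutative G) (hab : ∀ S : Sylow 2 G, IsMulCommutative ↥(S : Subgroup G))
    (t : G) (ht : orderOf t = 2) (hmax : IsCoatom (Subgroup.centralizer ({t} : Set G)))
    (E : Subgroup G) (hE : Cfsg.IsInternalDirectProduct (Subgroup.zpowers t) E (Subgroup.centralizer ({t} : Set G)))
    {F : Type*} [Field F] [Fintype F] (hFo : Odd (Fintype.card F)) (hF3 : 3 < Fintype.card F)
    (N : Subgroup ↥E) [N.Normal] (hN : Nonempty (↥N ≃* Matrix.ProjectiveSpecialLinearGroup (Fin 2) F))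
    (hNc : Subgroup.centralizer (N : Set ↥E) = ⊥) :
    (∀ (L : Type) (_ : Group L) (_ : Finite L) (Z : Subgroup L) (_ : Z.Normal), commutator L = ⊤ → Z ≤ Subgroup.center L →
        IsPGroup 2 ↥Z → Nonempty (L ⧸ Z ≃* G) → Z = ⊥) ∧
    (∀ (φ : G ≃* G) (k : ℕ), φ ^ (2 ^ k) = 1 → (∃ S : Sylow 2 G, ∀ s ∈ (S : Subgroup G), φ s = s) →
        ∃ g : G, ∀ x : G, φ x = g * x * g⁻¹) := by
  haveI : Fact (Nat.Prime 2) := ⟨Nat.prime_two⟩
  have h2G : 2 ∣ Nat.card G := ht.symm.dvd.trans (_root_.orderOf_dvd_natCard _)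
  refine ⟨?_, ?_⟩
  swap
  · rintro φ k hk ⟨S, hS⟩
    exact pg_inner_of_fixes_abelian_sylow hG h2G S (hab S) φ hk hS
  obtain ⟨ht1, htt⟩ := h9_orderOf_eq_two_iff.1 ht
  obtain ⟨S, hS⟩ := (pg_isPGroup_zpowers_invol htt).exists_le_sylow
  have htS : t ∈ (S : Subgroup G) := hS (mem_zpowers t)
  obtain ⟨h1, h2, h3, h4, h5⟩ := hE
  have hSC : (S : Subgroup G) ≤ centralizer ({t} : Set G) :=
    le_centralizer_singleton_of_comm (hab S) htS
  have hcomm : ⁅zpowers t, E⁆ = ⊥ := commutator_eq_bot_iff_forall.2 h3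
  have hCE : centralizer ({t} : Set G) ≤ normalizer (E : Set G) := by
    rw [← h5]; exact sup_le (le_normalizer_of_commutator_eq_bot hcomm) le_normalizer
  have hT : IsSylowIn 2 ((S : Subgroup G) ⊓ E) E :=
    (IsSylowIn.of_sylow_le S hSC).inf_of_le_normalizer h2 hCE
  have hS8 : Nat.card (S : Subgroup G) = 2 * Nat.card ↥((S : Subgroup G) ⊓ E) := by
    have e1 : zpowers t ⊔ ((S : Subgroup G) ⊓ E) = S := by
      rw [inf_comm, ← sup_inf_assoc_of_le_normalizer (le_normalizer_of_commutator_eq_bot hcomm) hS,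
        h5, inf_eq_right.2 hSC]
    have e2 := pg_card_sup_mul_card_inf (H := zpowers t) (N := (S : Subgroup G) ⊓ E)
      (le_normalizer_of_commutator_eq_bot (commutator_eq_bot_of_le le_rfl inf_le_right hcomm))
    have e3 : zpowers t ⊓ ((S : Subgroup G) ⊓ E) = ⊥ :=
      le_bot_iff.1 (h4 ▸ inf_le_inf_left _ inf_le_right)
    rw [e1, e3, card_bot, mul_one, Nat.card_zpowers, ht] at e2
    exact e2
  obtain ⟨T, hT'⟩ := hT.exists_sylow'
  obtain ⟨e⟩ := hN
  have hF4 : 4 ≤ Nat.card F := by rw [Nat.card_eq_fintype_card]; omega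
  haveI := Matrix.ProjectiveSpecialLinearGroup.rank_two_simple hF4
  have hTc : IsMulCommutative (T : Subgroup E) := by
    rw [hT']
    exact isMulCommutative_of_forall fun a ha b hb =>
      Subtype.ext (comm_of_isMulCommutative (hab S) (mem_inf.1 ha).1 (mem_inf.1 hb).1)
  have hTN : (T : Subgroup E) ≤ N := by
    apply pg_sylow_le_of_abelian hTc (by rw [normalizer_eq_top]; exact le_top)
      (IsSylowIn.of_sylow_le T le_sup_right) (by rw [hNc, inf_bot_eq])
    exact (pPrimeCore_eq_bot_congr e).2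
      (pg_pPrimeCore_eq_bot_of_simple (pg_two_dvd_card_psl2 hFo))
  have hT4 : Nat.card ↥((S : Subgroup G) ⊓ E) = 4 := by
    let T2 := (T.subtype hTN).mapSurjective (f := e.toMonoidHom) e.surjective
    have hc : IsMulCommutative (T2 : Subgroup (Matrix.ProjectiveSpecialLinearGroup (Fin 2) F)) := by
      apply isMulCommutative_of_forall
      rintro _ ⟨a, ha, rfl⟩ _ ⟨b, hb, rfl⟩
      rw [← map_mul, ← map_mul]
      congr 1
      exact Subtype.ext (comm_of_isMulCommutative hTc ha hb)
    have e0 : (T2 : Subgroup (Matrix.ProjectiveSpecialLinearGroup (Fin 2) F)) =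
      ((T : Subgroup E).subgroupOf N).map e.toMonoidHom := rfl
    rw [← pg_card_abelian_sylow_psl2 hFo hF3 T2 hc, e0,
      card_map_of_injective e.injective,
      Nat.card_congr (subgroupOfEquivOfLe hTN).toEquiv, hT',
      Nat.card_congr (subgroupOfEquivOfLe inf_le_right).toEquiv]
  intro L _ _ Z _ hL hZc hZ ⟨e'⟩
  by_contra hne
  obtain ⟨Z0, hZ0, hi⟩ := exists_relIndex_eq_prime hZ hne
  haveI : Z0.Normal := ⟨fun x hx g => by
    rw [Subgroup.mem_center_iff.1 (hZc (hZ0 hx)) g, mul_inv_cancel_right]; exact hx⟩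
  let π : L ⧸ Z0 →* G := e'.toMonoidHom.comp (QuotientGroup.map Z0 Z (MonoidHom.id L) hZ0)
  have hker : π.ker = Z.map (QuotientGroup.mk' Z0) := by
    ext q
    obtain ⟨x, rfl⟩ := QuotientGroup.mk'_surjective Z0 q
    rw [MonoidHom.mem_ker]
    change e' (x : L ⧸ Z) = 1 ↔ x ∈ (Z.map _).comap _
    rw [comap_map_eq, QuotientGroup.ker_mk', sup_eq_left.2 hZ0, map_eq_one_iff _ e'.injective,
      QuotientGroup.eq_one_iff]
  refine pg_no_double_cover (L := L ⧸ Z0) ?_ π ?_ ?_ ?_ S (hab S) (by omega)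
  · rw [_root_.commutator_def, ← map_top_of_surjective _ (QuotientGroup.mk'_surjective Z0),
      ← map_commutator, ← _root_.commutator_def, hL]
  · intro g
    obtain ⟨q, rfl⟩ := e'.surjective g
    obtain ⟨x, rfl⟩ := QuotientGroup.mk'_surjective Z q
    exact ⟨x, rfl⟩
  · rw [hker]
    rintro _ ⟨x, hx, rfl⟩
    rw [Subgroup.mem_center_iff]
    intro q
    obtain ⟨y, rfl⟩ := QuotientGroup.mk'_surjective Z0 q
    rw [← map_mul, ← map_mul, Subgroup.mem_center_iff.1 (hZc hx) y]
  · rw [hker]
    have h6 := pg_card_map_mul_card_ker (QuotientGroup.mk' Z0) Z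
    rw [QuotientGroup.ker_mk', inf_eq_right.2 hZ0, ← relIndex_mul_card hZ0, hi] at h6
    exact Nat.eq_of_mul_eq_mul_right Nat.card_pos h6

end Cfsg.Agent.S3206
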