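import Cfsg.Statements.S3208
import Mathlib
import Cfsg.Agent.Lib.Misc.Basic
import Cfsg.Agent.Lib.Coprime.Sylow

set_option autoImplicit false
open Cfsg

namespace Cfsg.Agent.S3208

open Cfsg.Lib


/-- Let j be an involution of a finite group G, H a subgroup of G, and T a Sylow 2-subgroup of H ∩ C_G(j) containing j such that ⟨j⟩ is a characteristic subgroup of T. Then T is a Sylow 2-subgroup of H. -/
theorem result {G : Type*} [Group G] [Finite G]
    (j : G) (hj : orderOf j = 2) (H T : Subgroup G) (hT : T ≤ H ⊓ Subgroup.centralizer ({j} : Set G)) (h2 : IsPGroup 2 ↥T)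
    (hSyl : ¬ 2 ∣ T.relIndex (H ⊓ Subgroup.centralizer ({j} : Set G))) (hjT : j ∈ T)
    (hchar : ((Subgroup.zpowers j).subgroupOf T).Characteristic) :
    ¬ 2 ∣ T.relIndex H := by
  have hS : IsSylowIn 2 T (H ⊓ Subgroup.centralizer ({j} : Set G)) :=
    IsSylowIn.of_not_dvd_relIndex hT h2 hSyl
  obtain ⟨R, hR, hle⟩ := exists_isSylowIn_ge (K := H) h2 (hT.trans inf_le_left)
  by_cases hTR : T = R
  · rw [hTR]; exact hR.not_dvd_relIndex
  exfalso
  obtain ⟨x, hxR, hxT, hxN, hx2⟩ := h9_exists_normalizer_not_mem_pow_mem hR.isPGroup hle hTR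
  have hj2 := h9_orderOf_eq_two_iff.1 hj
  have hxj : x * j * x⁻¹ = j := by
    have h1 := (Subgroup.characteristic_iff_map_le.1 hchar) (T.normalizerMonoidHom ⟨x, hxN⟩)
      ⟨⟨j, hjT⟩, Subgroup.mem_zpowers j, rfl⟩
    have h3 : x * j * x⁻¹ ∈ Subgroup.zpowers j := h1
    rcases (h9_mem_zpowers_two hj2.2).1 h3 with h | h
    · exact absurd (by simpa using h) hj2.1
    · exact h
  have hxC : x ∈ Subgroup.centralizer ({j} : Set G) := by
    rw [Subgroup.mem_centralizer_singleton_iff]
    calc x * j = (x * j * x⁻¹) * x := by group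
      _ = _ := by rw [hxj]
  apply hxT
  refine hS.le_of_le_normalizer (R := Subgroup.zpowers x) (hR.isPGroup.to_le ?_) ?_ ?_
    (Subgroup.mem_zpowers x)
  · simpa using hxR
  · simpa using ⟨hR.le hxR, hxC⟩
  · simpa using hxN

end Cfsg.Agent.S3208
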