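import Cfsg.Statements.S3209
import Mathlib
import Cfsg.Agent.Lib.Misc.SL2Odd
import Cfsg.Agent.Lib.Core.Comm

set_option autoImplicit false
open Cfsg

namespace Cfsg.Agent.S3209

open Cfsg.Lib


/-- Let L₁ ≅ SL₂(q₁) and L₂ ≅ SL₂(q₂), q₁ and q₂ odd, be elementwise-commuting subgroups of a finite group meeting in ⟨j⟩ for an involution j. Then L₁L₂ has exactly two conjugacy classes of involutions: the central involution j, and one further class (there is an involution x ≠ j in L₁L₂, and every involution of L₁L₂ other than j is conjugate to x by an element of L₁L₂). -/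
theorem result {G : Type*} [Group G] [Finite G]
    {F₁ : Type*} [Field F₁] [Fintype F₁] {F₂ : Type*} [Field F₂] [Fintype F₂]
    (hF₁ : Odd (Fintype.card F₁)) (hF₂ : Odd (Fintype.card F₂)) (L₁ L₂ : Subgroup G)
    (e₁ : ↥L₁ ≃* Matrix.SpecialLinearGroup (Fin 2) F₁) (e₂ : ↥L₂ ≃* Matrix.SpecialLinearGroup (Fin 2) F₂)
    (hc : ∀ x ∈ L₁, ∀ y ∈ L₂, x * y = y * x) (j : G) (hj : orderOf j = 2) (hm : L₁ ⊓ L₂ = Subgroup.zpowers j) :
    ∃ x ∈ L₁ ⊔ L₂, orderOf x = 2 ∧ x ≠ j ∧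
      ∀ y ∈ L₁ ⊔ L₂, orderOf y = 2 → y = j ∨ ∃ g ∈ L₁ ⊔ L₂, g * x * g⁻¹ = y := by
  have hj' := h9_orderOf_eq_two_iff.1 hj
  have hjm : j ∈ L₁ ⊓ L₂ := hm ▸ Subgroup.mem_zpowers j
  obtain ⟨a1, ⟨x1, hx1, hx1'⟩, a3, -⟩ := h9_sl2_subgroup_facts hF₁ e₁ hj hjm.1
  obtain ⟨b1, ⟨x2, hx2, hx2'⟩, b3, -⟩ := h9_sl2_subgroup_facts hF₂ e₂ hj hjm.2
  have hint : ∀ x ∈ L₁, x ∈ L₂ → x = 1 ∨ x = j := fun x h1 h2 =>
    (h9_mem_zpowers_two hj'.2).1 (hm ▸ ⟨h1, h2⟩)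
  have hmem : ∀ x, x ∈ L₁ ⊔ L₂ ↔ ∃ a ∈ L₁, ∃ b ∈ L₂, a * b = x := fun x =>
    mem_sup_of_le_normalizer_right fun a ha => Subgroup.mem_normalizer_iff.2 fun b =>
      ⟨fun hb => by rw [hc a ha b hb]; simpa using hb, fun hb => by
        have := hc a⁻¹ (L₁.inv_mem ha) _ hb
        have e : b = a * b * a⁻¹ := by
          calc b = a⁻¹ * (a * b * a⁻¹) * a := by group
            _ = _ := by rw [this]; group
        rw [e]; exact hb⟩
  have hsq : ∀ a ∈ L₁, ∀ b ∈ L₂, a * b * (a * b) = a * a * (b * b) := fun a ha b hb => by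
    rw [mul_assoc, ← mul_assoc b, ← hc a ha b hb]; group
  have hx : ∀ k, k = 1 ∨ k = j → x1 * x2 ≠ k := by
    intro k hk h
    have h1 : x1 ∈ L₂ := by
      rw [eq_mul_inv_of_mul_eq h]
      rcases hk with rfl | rfl
      · simpa using hx2
      · exact L₂.mul_mem hjm.2 (L₂.inv_mem hx2)
    rcases hint x1 hx1 h1 with h2 | h2 <;> rw [h2] at hx1'
    · exact hj'.1 (by simpa using hx1'.symm)
    · exact hj'.1 (hx1'.symm.trans hj'.2)
  refine ⟨x1 * x2, Subgroup.mul_mem_sup hx1 hx2, h9_orderOf_eq_two_iff.2 ⟨hx 1 (Or.inl rfl), by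
    rw [hsq _ hx1 _ hx2, hx1', hx2', hj'.2]⟩, hx j (Or.inr rfl), fun y hy hyo => ?_⟩
  obtain ⟨a, ha, b, hb, rfl⟩ := (hmem y).1 hy
  obtain ⟨hy1, hy2⟩ := h9_orderOf_eq_two_iff.1 hyo
  rw [hsq _ ha _ hb] at hy2
  rcases hint (a * a) (L₁.mul_mem ha ha) (by
    rw [eq_inv_of_mul_eq_one_left hy2]; exact L₂.inv_mem (L₂.mul_mem hb hb)) with h | h
  · left
    rw [h, one_mul] at hy2
    rcases a1 a ha h with rfl | rfl <;> rcases b1 b hb hy2 with rfl | rfl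
    · simp at hy1
    · simp
    · simp
    · exact absurd hj'.2 hy1
  · right
    rw [h, ← hj'.2, mul_right_inj] at hy2
    obtain ⟨g1, hg1, e1⟩ := a3 x1 hx1 a ha hx1' h
    obtain ⟨g2, hg2, e2⟩ := b3 x2 hx2 b hb hx2' hy2
    refine ⟨g1 * g2, Subgroup.mul_mem_sup hg1 hg2, ?_⟩
    calc g1 * g2 * (x1 * x2) * (g1 * g2)⁻¹ = g1 * (g2 * x1) * g2⁻¹ * (g2 * x2 * g2⁻¹) * g1⁻¹ := by group
      _ = g1 * x1 * (b * g1⁻¹) := by rw [e2, ← hc x1 hx1 g2 hg2]; group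
      _ = _ := by rw [← hc _ (L₁.inv_mem hg1) b hb, ← e1]; group

end Cfsg.Agent.S3209
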