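import Cfsg.Statements.S3210
import Mathlib
import Cfsg.Agent.Lib.Misc.SL2Odd
import Cfsg.Agent.Lib.Core.Comm

set_option autoImplicit false
open Cfsg

namespace Cfsg.Agent.S3210

open Cfsg.Lib

theorem aux {G : Type*} [Group G] [Finite G] {L₁ L₂ A B : Subgroup G} {j n : G}
    (hc : ∀ x ∈ L₁, ∀ y ∈ L₂, x * y = y * x) (hc' : ∀ x ∈ A, ∀ y ∈ B, x * y = y * x) (hjB : j ∈ B)
    (hmem : ∀ x ∈ L₂, ∃ a ∈ A, ∃ b ∈ B, a * b = n * x * n⁻¹)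
    (hA : ∀ x ∈ A, (∀ y ∈ A, y * y = j → x * y = y * x) → x = 1 ∨ x = j)
    (h : ∀ y ∈ A, y * y = j → n⁻¹ * y * n ∈ L₁) : L₂.map (MulAut.conj n).toMonoidHom ≤ B := by
  rintro _ ⟨x, hx, rfl⟩
  obtain ⟨a, ha, b, hb, e⟩ := hmem x hx
  show n * x * n⁻¹ ∈ B
  rw [← e]
  rcases hA a ha (fun y hy hy2 => by
    have h1 := hc _ (h y hy hy2) x hx
    apply mul_right_cancel (b := b)
    calc a * y * b = a * b * y := by rw [mul_assoc, hc' y hy b hb, mul_assoc]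
      _ = n * (x * (n⁻¹ * y * n)) * n⁻¹ := by rw [e]; group
      _ = y * (n * x * n⁻¹) := by rw [← h1]; group
      _ = _ := by rw [← e, mul_assoc]) with rfl | rfl
  · simpa using hb
  · exact B.mul_mem hjB hb

theorem aux2 {G : Type*} [Group G] [Finite G] {L₁ L₂ : Subgroup G} {j : G} (hj : j * j = 1)
    (hc : ∀ x ∈ L₁, ∀ y ∈ L₂, x * y = y * x) (hj1 : j ∈ L₁) (hj2 : j ∈ L₂)
    (hint : ∀ x ∈ L₁, x ∈ L₂ → x = 1 ∨ x = j)
    (a1 : ∀ x ∈ L₁, x * x = 1 → x = 1 ∨ x = j) (b1 : ∀ x ∈ L₂, x * x = 1 → x = 1 ∨ x = j)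
    {a b : G} (ha : a ∈ L₁) (hb : b ∈ L₂) (h : a * b * (a * b) = j) : a * b ∈ L₁ ∨ a * b ∈ L₂ := by
  have h1 : a * a * (b * b) = j := by
    rw [← h, mul_assoc a b, ← mul_assoc b, ← hc a ha b hb]; group
  rcases hint (a * a) (L₁.mul_mem ha ha) (by
    rw [eq_mul_inv_of_mul_eq h1]; exact L₂.mul_mem hj2 (L₂.inv_mem (L₂.mul_mem hb hb))) with h2 | h2
  · right
    rcases a1 a ha h2 with rfl | rfl
    · simpa using hb
    · exact L₂.mul_mem hj2 hb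
  · left
    rw [h2, mul_eq_left] at h1
    rcases b1 b hb h1 with rfl | rfl
    · simpa using ha
    · exact L₁.mul_mem ha hj1

/-- Let G be a finite group with subgroups L₁ ≅ SL₂(q₁) and L₂ ≅ SL₂(q₂), q₁ and q₂ odd prime powers, which commute elementwise and meet in ⟨j⟩ for an involution j, and suppose L₁L₂ has index 2 in C_G(j). Then every element n of C_G(j) outside L₁L₂ either normalizes both L₁ and L₂, or conjugates L₁ onto L₂; in the second case q₁ = q₂ and there is an element n′ of C_G(j) outside L₁L₂ conjugating L₁ onto L₂ with n′² ∈ ⟨j⟩. -/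
theorem result {G : Type*} [Group G] [Finite G]
    {F₁ : Type*} [Field F₁] [Fintype F₁] {F₂ : Type*} [Field F₂] [Fintype F₂]
    (hF₁ : Odd (Fintype.card F₁)) (hF₂ : Odd (Fintype.card F₂)) (L₁ L₂ : Subgroup G)
    (e₁ : ↥L₁ ≃* Matrix.SpecialLinearGroup (Fin 2) F₁) (e₂ : ↥L₂ ≃* Matrix.SpecialLinearGroup (Fin 2) F₂)
    (hc : ∀ x ∈ L₁, ∀ y ∈ L₂, x * y = y * x) (j : G) (hj : orderOf j = 2) (hm : L₁ ⊓ L₂ = Subgroup.zpowers j)
    (hle : L₁ ⊔ L₂ ≤ Subgroup.centralizer ({j} : Set G)) (hi : (L₁ ⊔ L₂).relIndex (Subgroup.centralizer ({j} : Set G)) = 2) (n : G) (hn : n ∈ Subgroup.centralizer ({j} : Set G)) (hn' : n ∉ L₁ ⊔ L₂) :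
    (L₁.map (MulAut.conj n).toMonoidHom = L₁ ∧ L₂.map (MulAut.conj n).toMonoidHom = L₂) ∨
      (L₁.map (MulAut.conj n).toMonoidHom = L₂ ∧ Fintype.card F₁ = Fintype.card F₂ ∧
        ∃ n' ∈ Subgroup.centralizer ({j} : Set G), n' ∉ L₁ ⊔ L₂ ∧ L₁.map (MulAut.conj n').toMonoidHom = L₂ ∧ n' ^ 2 ∈ Subgroup.zpowers j) := by
  have hj' := h9_orderOf_eq_two_iff.1 hj
  have hjm : j ∈ L₁ ⊓ L₂ := hm ▸ Subgroup.mem_zpowers j
  obtain ⟨a1, ⟨x1, hx1, hx1'⟩, a3, a4⟩ := h9_sl2_subgroup_facts hF₁ e₁ hj hjm.1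
  obtain ⟨b1, ⟨x2, hx2, hx2'⟩, b3, b4⟩ := h9_sl2_subgroup_facts hF₂ e₂ hj hjm.2
  have hc' : ∀ x ∈ L₂, ∀ y ∈ L₁, x * y = y * x := fun x hx y hy => (hc y hy x hx).symm
  have hint : ∀ x ∈ L₁, x ∈ L₂ → x = 1 ∨ x = j := fun x h1 h2 =>
    (h9_mem_zpowers_two hj'.2).1 (hm ▸ ⟨h1, h2⟩)
  have hmem : ∀ x, x ∈ L₁ ⊔ L₂ ↔ ∃ a ∈ L₁, ∃ b ∈ L₂, a * b = x := fun x =>
    mem_sup_of_le_normalizer_right fun a ha => h9_mem_normalizer_of_conj_mem fun b hb => by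
      rw [hc a ha b hb]; simpa using hb
  have hnorm : ∀ m ∈ Subgroup.centralizer ({j} : Set G), ∀ x ∈ L₁ ⊔ L₂, m * x * m⁻¹ ∈ L₁ ⊔ L₂ := by
    intro m hm x hx
    exact (Subgroup.normal_of_index_eq_two (H := (L₁ ⊔ L₂).subgroupOf _) hi).conj_mem ⟨x, hle hx⟩ hx ⟨m, hm⟩
  have hmem1 : ∀ m ∈ Subgroup.centralizer ({j} : Set G), ∀ x ∈ L₁ ⊔ L₂,
      ∃ a ∈ L₁, ∃ b ∈ L₂, a * b = m * x * m⁻¹ := fun m hm x hx => (hmem _).1 (hnorm m hm x hx)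
  have hmem2 : ∀ m ∈ Subgroup.centralizer ({j} : Set G), ∀ x ∈ L₁ ⊔ L₂,
      ∃ a ∈ L₂, ∃ b ∈ L₁, a * b = m * x * m⁻¹ := fun m hm x hx => by
    obtain ⟨a, ha, b, hb, e⟩ := hmem1 m hm x hx
    exact ⟨b, hb, a, ha, by rw [← hc a ha b hb, e]⟩
  have hsqj : ∀ m ∈ Subgroup.centralizer ({j} : Set G), ∀ y, y * y = j → m * y * m⁻¹ * (m * y * m⁻¹) = j := by
    intro m hm y hy
    rw [show m * y * m⁻¹ * (m * y * m⁻¹) = m * (y * y) * m⁻¹ by group, hy,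
      Subgroup.mem_centralizer_singleton_iff.1 hm]; group
  have hcase : ∀ m ∈ Subgroup.centralizer ({j} : Set G), ∀ y ∈ L₁ ⊔ L₂, y * y = j →
      m * y * m⁻¹ ∈ L₁ ∨ m * y * m⁻¹ ∈ L₂ := by
    intro m hm y hy hy2
    obtain ⟨a, ha, b, hb, e⟩ := hmem1 m hm y hy
    rw [← e]
    exact aux2 hj'.2 hc hjm.1 hjm.2 hint a1 b1 ha hb (by rw [e]; exact hsqj m hm y hy2)
  have hn1 : ∀ {A : Subgroup G}, (A = L₁ ∨ A = L₂) → ∀ g ∈ L₁ ⊔ L₂, ∀ x ∈ A, g * x * g⁻¹ ∈ A := by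
    intro A hA g hg x hx
    obtain ⟨a, ha, b, hb, rfl⟩ := (hmem g).1 hg
    rcases hA with rfl | rfl
    · rw [show a * b * x * (a * b)⁻¹ = a * (b * x) * b⁻¹ * a⁻¹ by group, ← hc x hx b hb]
      simpa [mul_assoc] using A.mul_mem ha (A.mul_mem hx (A.inv_mem ha))
    · rw [show a * b * x * (a * b)⁻¹ = a * (b * x * b⁻¹) * a⁻¹ by group,
        hc a ha _ (A.mul_mem (A.mul_mem hb hx) (A.inv_mem hb))]
      simpa [mul_assoc] using A.mul_mem hb (A.mul_mem hx (A.inv_mem hb))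
  -- the class of `x` is mapped into `A` as soon as `x` is
  have hcl : ∀ {A B : Subgroup G}, (A = L₁ ∨ A = L₂) → B ≤ L₁ ⊔ L₂ →
      (∀ x ∈ B, ∀ y ∈ B, x * x = j → y * y = j → ∃ g ∈ B, g * x * g⁻¹ = y) →
      ∀ m ∈ Subgroup.centralizer ({j} : Set G), ∀ x ∈ B, x * x = j → m⁻¹ * x * m ∈ A →
      ∀ y ∈ B, y * y = j → m⁻¹ * y * m ∈ A := by
    intro A B hA hB h3 m hm x hx hx2 hxA y hy hy2
    obtain ⟨g, hg, rfl⟩ := h3 x hx y hy hx2 hy2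
    have := hn1 hA _ (hnorm _ (Subgroup.inv_mem _ hm) g (hB hg)) _ hxA
    rwa [show m⁻¹ * g * m⁻¹⁻¹ * (m⁻¹ * x * m) * (m⁻¹ * g * m⁻¹⁻¹)⁻¹ = m⁻¹ * (g * x * g⁻¹) * m by group] at this
  have hnot : ∀ m ∈ Subgroup.centralizer ({j} : Set G), ∀ {A : Subgroup G},
      (∀ x ∈ A, ∀ y ∈ A, x * x = j → y * y = j → ∃ g ∈ A, g * x * g⁻¹ = y) → A ≤ L₁ ⊔ L₂ →
      m⁻¹ * x1 * m ∈ A → m⁻¹ * x2 * m ∈ A → False := by
    intro m hm A h3 hA h1 h2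
    have hm' := Subgroup.inv_mem _ hm
    obtain ⟨g, hg, e⟩ := h3 _ h1 _ h2 (by simpa using hsqj _ hm' x1 hx1') (by simpa using hsqj _ hm' x2 hx2')
    have h4 := hn1 (Or.inl rfl) _ (hnorm m hm g (hA hg)) x1 hx1
    rw [show m * g * m⁻¹ * x1 * (m * g * m⁻¹)⁻¹ = m * (g * (m⁻¹ * x1 * m) * g⁻¹) * m⁻¹ by group, e,
      show m * (m⁻¹ * x2 * m) * m⁻¹ = x2 by group] at h4
    rcases hint x2 h4 hx2 with h | h <;> rw [h] at hx2'
    · exact hj'.1 (by simpa using hx2'.symm)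
    · exact hj'.1 (hx2'.symm.trans hj'.2)
  have hn'' := Subgroup.inv_mem _ hn
  have c1 := hcase _ hn'' x1 (Subgroup.mem_sup_left hx1) hx1'
  have c2 := hcase _ hn'' x2 (Subgroup.mem_sup_right hx2) hx2'
  rw [inv_inv] at c1 c2
  rcases c1 with c1 | c1 <;> rcases c2 with c2 | c2
  · exact (hnot n hn a3 le_sup_left c1 c2).elim
  · left
    constructor
    · exact Subgroup.eq_of_le_of_card_ge (aux hc' hc' hjm.1 (fun x hx => hmem2 n hn x (Subgroup.mem_sup_left hx))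
        b4 (hcl (Or.inr rfl) le_sup_right b3 n hn x2 hx2 hx2' c2)) (h9_card_conj _ _).ge
    · exact Subgroup.eq_of_le_of_card_ge (aux hc hc hjm.2 (fun x hx => hmem1 n hn x (Subgroup.mem_sup_right hx))
        a4 (hcl (Or.inl rfl) le_sup_left a3 n hn x1 hx1 hx1' c1)) (h9_card_conj _ _).ge
  · right
    have h1 := aux hc' hc hjm.2 (fun x hx => hmem1 n hn x (Subgroup.mem_sup_left hx))
        a4 (hcl (Or.inr rfl) le_sup_left a3 n hn x1 hx1 hx1' c1)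
    have h2 := aux hc hc' hjm.1 (fun x hx => hmem2 n hn x (Subgroup.mem_sup_right hx))
        b4 (hcl (Or.inl rfl) le_sup_right b3 n hn x2 hx2 hx2' c2)
    have h3 := Subgroup.card_le_of_le h1
    have h4 := Subgroup.card_le_of_le h2
    rw [h9_card_conj] at h3 h4
    have h5 : L₁.map (MulAut.conj n).toMonoidHom = L₂ :=
      Subgroup.eq_of_le_of_card_ge h1 (by rw [h9_card_conj]; exact h4)
    refine ⟨h5, h9_card_eq_of_card_sl2 (by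
      rw [← Nat.card_congr e₁.toEquiv, ← Nat.card_congr e₂.toEquiv]; omega), ?_⟩
    obtain ⟨a, ha, b, hb, e⟩ := (hmem (n * n)).1
      (Subgroup.mul_self_mem_of_index_two (H := (L₁ ⊔ L₂).subgroupOf _) hi ⟨n, hn⟩)
    have haM : a⁻¹ ∈ L₁ ⊔ L₂ := Subgroup.mem_sup_left (L₁.inv_mem ha)
    refine ⟨n * a⁻¹, Subgroup.mul_mem _ hn (hle haM), fun h => hn' ((Subgroup.mul_mem_cancel_right _ haM).1 h), ?_, ?_⟩
    · rw [← h9_conj_conj, (h9_conj_eq_iff_mem_normalizer L₁ a⁻¹).2 (Subgroup.le_normalizer (L₁.inv_mem ha)), h5]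
    · rw [← hm]
      have h6 : n * a * n⁻¹ ∈ L₂ := h1 (h9_conj_mem_conj n ha)
      have h7 : n * b * n⁻¹ ∈ L₁ := h2 (h9_conj_mem_conj n hb)
      have e1 : (n * a⁻¹) ^ 2 = (n * a * n⁻¹)⁻¹ * b := by
        calc (n * a⁻¹) ^ 2 = (n * a * n⁻¹)⁻¹ * (n * n) * a⁻¹ := by rw [pow_two]; group
          _ = _ := by rw [← e, hc a ha b hb]; group
      have e2 : (n * a⁻¹) ^ 2 = (n * b * n⁻¹) * a⁻¹ := by
        calc (n * a⁻¹) ^ 2 = n * (a⁻¹ * (n * n)) * n⁻¹ * a⁻¹ := by rw [pow_two]; group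
          _ = _ := by rw [← e]; group
      exact ⟨e2 ▸ L₁.mul_mem h7 (L₁.inv_mem ha), e1 ▸ L₂.mul_mem (L₂.inv_mem h6) hb⟩
  · exact (hnot n hn b3 le_sup_right c1 c2).elim

end Cfsg.Agent.S3210
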