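import Cfsg.Statements.S3211
import Mathlib
import Cfsg.Agent.Lib.PGroup.ZStarCor
import Cfsg.Agent.S3209

set_option autoImplicit false
open Cfsg

namespace Cfsg.Agent.S3211

open Subgroup Cfsg.Lib

open scoped MatrixGroups in
theorem sl2_aux {F : Type*} [Field F] (h2 : (2 : F) ≠ 0) {x c : SL(2, F)}
    (h : c * x = x * (-1) * c) : c * c = -1 := by
  have ht : Matrix.trace (c : Matrix (Fin 2) (Fin 2) F) = 0 := by
    have e1 : c = x⁻¹ * (-c) * x := by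
      have : x⁻¹ * (-c) * x = x⁻¹ * (-(c * x)) := by simp [mul_assoc]
      rw [this, h]
      simp [mul_assoc]
    have e2 : Matrix.trace (c : Matrix (Fin 2) (Fin 2) F) =
        - Matrix.trace (c : Matrix (Fin 2) (Fin 2) F) := by
      conv_lhs => rw [e1]
      rw [Matrix.SpecialLinearGroup.coe_mul, Matrix.SpecialLinearGroup.coe_mul,
        Matrix.trace_mul_cycle, ← Matrix.SpecialLinearGroup.coe_mul, mul_inv_cancel]
      simp
    have e3 : 2 * Matrix.trace (c : Matrix (Fin 2) (Fin 2) F) = 0 := by linear_combination e2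
    exact (mul_eq_zero.1 e3).resolve_left h2
  rw [Matrix.trace_fin_two] at ht
  have hd := h9_sl2_det c
  have e : c 1 1 = - c 0 0 := by linear_combination ht
  apply h9_sl2_ext <;> rw [h9_sl2_mul_apply] <;> simp
  · rw [e] at hd; linear_combination -hd
  · rw [e]; ring
  · rw [e]; ring
  · rw [e] at hd ⊢; linear_combination -hd

open scoped MatrixGroups in
theorem sub_aux {G : Type*} [Group G] {F : Type*} [Field F] [Fintype F] (hF : Odd (Fintype.card F))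
    {L : Subgroup G} (e : L ≃* SL(2, F)) {j : G} (hj : orderOf j = 2) (hjL : j ∈ L) {x c : G}
    (hx : x ∈ L) (hc : c ∈ L) (h : c * x = x * j * c) : c * c = j := by
  have h2 := h9_two_ne_zero_of_odd_card hF
  obtain ⟨hj1, hj2⟩ := h9_orderOf_eq_two_iff.1 hj
  have hej : e ⟨j, hjL⟩ = -1 := (h9_sl2_sq_eq_one h2 (by
    rw [← map_mul, ← map_one e]; congr 1; exact Subtype.ext hj2)).resolve_left (by
    rw [map_eq_one_iff _ e.injective]; exact fun h => hj1 (congrArg Subtype.val h))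
  have h3 : e ⟨c, hc⟩ * e ⟨x, hx⟩ = e ⟨x, hx⟩ * (-1) * e ⟨c, hc⟩ := by
    rw [← hej, ← map_mul, ← map_mul, ← map_mul]
    congr 1
    exact Subtype.ext h
  have h4 := sl2_aux h2 h3
  rw [← hej, ← map_mul] at h4
  exact congrArg Subtype.val (e.injective h4)

/-- Let G be a finite group with subgroups L₁ ≅ SL₂(q₁) and L₂ ≅ SL₂(q₂), q₁ and q₂ odd prime powers, which commute elementwise and meet in ⟨j⟩ for an involution j, and suppose L₁L₂ has index 2 in C_G(j). If some n ∈ C_G(j) with n² = j interchanges L₁ and L₂ under conjugation (so that C_G(j) = L₁L₂⟨n⟩), then G = C_G(j)O(G). -/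
theorem result {G : Type*} [Group G] [Finite G]
    {F₁ : Type*} [Field F₁] [Fintype F₁] {F₂ : Type*} [Field F₂] [Fintype F₂]
    (hF₁ : Odd (Fintype.card F₁)) (hF₂ : Odd (Fintype.card F₂)) (L₁ L₂ : Subgroup G)
    (e₁ : ↥L₁ ≃* Matrix.SpecialLinearGroup (Fin 2) F₁) (e₂ : ↥L₂ ≃* Matrix.SpecialLinearGroup (Fin 2) F₂)
    (hc : ∀ x ∈ L₁, ∀ y ∈ L₂, x * y = y * x) (j : G) (hj : orderOf j = 2) (hm : L₁ ⊓ L₂ = Subgroup.zpowers j)
    (hle : L₁ ⊔ L₂ ≤ Subgroup.centralizer ({j} : Set G)) (hi : (L₁ ⊔ L₂).relIndex (Subgroup.centralizer ({j} : Set G)) = 2) (n : G) (hn : n ∈ Subgroup.centralizer ({j} : Set G))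
    (hn2 : n ^ 2 = j) (hswap : L₁.map (MulAut.conj n).toMonoidHom = L₂) :
    Subgroup.centralizer ({j} : Set G) ⊔ Cfsg.oddCore G = ⊤ := by
  obtain ⟨hj1, hj2⟩ := h9_orderOf_eq_two_iff.1 hj
  apply pg_centralizer_sup_of_isIsolated hj2
  intro g hcomm
  by_contra hne
  set t := g * j * g⁻¹ with htdef
  have hjm : j ∈ L₁ ⊓ L₂ := hm ▸ Subgroup.mem_zpowers j
  have hjL1 := (mem_inf.1 hjm).1
  have hjL2 := (mem_inf.1 hjm).2
  obtain ⟨a1, -, a3, -⟩ := h9_sl2_subgroup_facts hF₁ e₁ hj hjL1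
  obtain ⟨b1, -, b3, -⟩ := h9_sl2_subgroup_facts hF₂ e₂ hj hjL2
  have hint : ∀ x ∈ L₁, x ∈ L₂ → x = 1 ∨ x = j := fun x h1 h2 =>
    (h9_mem_zpowers_two hj2).1 (hm ▸ mem_inf.2 ⟨h1, h2⟩)
  have hmem : ∀ x, x ∈ L₁ ⊔ L₂ ↔ ∃ a ∈ L₁, ∃ b ∈ L₂, a * b = x := fun x =>
    mem_sup_of_commutator_eq_bot (commutator_eq_bot_iff_forall.2 hc)
  have hcj : ∀ x ∈ L₁ ⊔ L₂, j * x = x * j := fun x hx => pg_mem_centralizer_singleton.1 (hle hx)
  have hnj : j * n = n * j := pg_mem_centralizer_singleton.1 hn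
  have hn12 : ∀ a ∈ L₁, n * a * n⁻¹ ∈ L₂ := fun a ha => hswap ▸ h9_conj_mem_conj n ha
  have hnn : ∀ x ∈ L₁ ⊔ L₂, n * (n * x * n⁻¹) * n⁻¹ = x := by
    intro x hx
    calc n * (n * x * n⁻¹) * n⁻¹ = n ^ 2 * x * (n ^ 2)⁻¹ := by rw [pow_two]; group
      _ = x := by rw [hn2, hcj x hx]; group
  have hn21 : ∀ b ∈ L₂, n * b * n⁻¹ ∈ L₁ := by
    intro b hb
    rw [← hswap] at hb
    obtain ⟨a, ha, rfl⟩ := hb
    change n * (n * a * n⁻¹) * n⁻¹ ∈ L₁
    rw [hnn a (mem_sup_left ha)]; exact ha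
  have hnL : n ∉ L₁ ⊔ L₂ := by
    intro h
    obtain ⟨a, ha, b, hb, rfl⟩ := (hmem n).1 h
    obtain ⟨-, ⟨x, hx, hxx⟩, -, -⟩ := h9_sl2_subgroup_facts hF₁ e₁ hj hjL1
    have h1 : a * b * x * (a * b)⁻¹ = a * x * a⁻¹ := by
      calc a * b * x * (a * b)⁻¹ = a * (b * x) * b⁻¹ * a⁻¹ := by group
        _ = a * x * a⁻¹ := by rw [← hc x hx b hb]; group
    have h2 := hn12 x hx
    rw [h1] at h2
    have h3 : a * x * a⁻¹ * (a * x * a⁻¹) = j := by
      calc a * x * a⁻¹ * (a * x * a⁻¹) = a * (x * x) * a⁻¹ := by group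
        _ = j := by rw [hxx, ← hcj a (mem_sup_left ha)]; group
    rcases hint _ (mul_mem (mul_mem ha hx) (inv_mem ha)) h2 with h4 | h4 <;> rw [h4] at h3
    · exact hj1 (by simpa using h3.symm)
    · exact hj1 (h3.symm.trans hj2)
  have hinv : ∀ y, j * y = y * j → y * y = 1 → y ∈ L₁ ⊔ L₂ := by
    intro y hy hyy
    by_contra hyL
    have h1 : n⁻¹ * y ∈ L₁ ⊔ L₂ := by
      have hy' : y ∈ centralizer ({j} : Set G) := pg_mem_centralizer_singleton.2 hy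
      have := (Subgroup.mul_mem_iff_of_index_two hi (a := ⟨n, hn⟩⁻¹) (b := ⟨y, hy'⟩)).2 (by
        simp only [mem_subgroupOf, inv_mem_iff]
        exact iff_of_false hnL hyL)
      exact this
    obtain ⟨a, ha, b, hb, hab⟩ := (hmem _).1 h1
    have hy2 : y = n * (a * b) := by rw [hab]; group
    set a' := n * a * n⁻¹ with ha'
    set b' := n * b * n⁻¹ with hb'
    have ha'2 : a' ∈ L₂ := hn12 a ha
    have hb'1 : b' ∈ L₁ := hn21 b hb
    have h2 : b' * a * (a' * b) = j := by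
      have h3 : a' * b' * j * (a * b) = 1 := by
        rw [← hyy, hy2, ← hn2, ha', hb']; group
      calc b' * a * (a' * b) = b' * (a * a') * b := by group
        _ = (b' * a') * (a * b) := by rw [hc a ha a' ha'2]; group
        _ = (a' * b') * (j * j) * (a * b) := by rw [hc b' hb'1 a' ha'2, hj2]; group
        _ = (a' * b' * j) * (j * (a * b)) := by group
        _ = (a' * b' * j * (a * b)) * j := by
          rw [hcj _ (mul_mem_sup ha hb)]; group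
        _ = j := by rw [h3, one_mul]
    have h4 : n * (b' * a) * n⁻¹ = b * a' := by
      have := hnn b (mem_sup_right hb)
      rw [← hb'] at this
      rw [← this, ha']; group
    have h5 : b' * a ∈ L₂ := by
      rw [eq_mul_inv_of_mul_eq h2]
      exact mul_mem hjL2 (inv_mem (mul_mem ha'2 hb))
    rcases hint _ (mul_mem hb'1 ha) h5 with h6 | h6
    · rw [h6] at h2 h4
      have h7 : a' = b⁻¹ := by
        rw [mul_one, mul_inv_cancel] at h4
        exact (inv_eq_of_mul_eq_one_right h4.symm).symm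
      rw [h7] at h2
      exact hj1 (by simpa using h2.symm)
    · rw [h6] at h2 h4
      have h7 : a' = b⁻¹ := eq_inv_of_mul_eq_one_left (left_eq_mul.1 h2.symm)
      rw [h7, ← hnj] at h4
      exact hj1 (by simpa using h4)
  have hconj2 : ∀ (h u : G), u * u = 1 → h * u * h⁻¹ * (h * u * h⁻¹) = 1 := by
    intro h u hu
    calc h * u * h⁻¹ * (h * u * h⁻¹) = h * (u * u) * h⁻¹ := by group
      _ = 1 := by rw [hu]; simp
  have htt : t * t = 1 := hconj2 g j hj2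
  have ht2 : orderOf t = 2 := by rw [htdef, ← hj]; exact (MulAut.conj g).orderOf_eq j
  have htL : t ∈ L₁ ⊔ L₂ := hinv t hcomm.eq htt
  -- an element interchanging j and t
  have hswapjt : ∃ h : G, h * t * h⁻¹ = j ∧ h * j * h⁻¹ = t := by
    obtain ⟨x, hx, -, -, hall⟩ := S3209.result hF₁ hF₂ L₁ L₂ e₁ e₂ hc j hj hm
    have h1 : j * (g⁻¹ * j * g) = g⁻¹ * j * g * j := by
      calc j * (g⁻¹ * j * g) = g⁻¹ * (t * j) * g := by rw [htdef]; group
        _ = g⁻¹ * (j * t) * g := by rw [hcomm.eq]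
        _ = g⁻¹ * j * g * j := by rw [htdef]; group
    have h2 : g⁻¹ * j * g ∈ L₁ ⊔ L₂ := hinv _ h1 (by simpa using hconj2 g⁻¹ j hj2)
    have h3 : orderOf (g⁻¹ * j * g) = 2 := by
      rw [← hj]; simpa using (MulAut.conj g⁻¹).orderOf_eq j
    obtain ⟨u, hu, hu'⟩ := (hall t htL ht2).resolve_left hne
    obtain ⟨v, hv, hv'⟩ := (hall _ h2 h3).resolve_left (fun h => hne (by
      rw [htdef]; conv_lhs => rw [← h]
      group))
    refine ⟨g * (v * u⁻¹), ?_, ?_⟩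
    · rw [← hu']
      calc g * (v * u⁻¹) * (u * x * u⁻¹) * (g * (v * u⁻¹))⁻¹ = g * (v * x * v⁻¹) * g⁻¹ := by group
        _ = j := by rw [hv']; group
    · calc g * (v * u⁻¹) * j * (g * (v * u⁻¹))⁻¹ = g * ((v * u⁻¹) * j) * (g * (v * u⁻¹))⁻¹ := by
            group
        _ = t := by rw [← hcj _ (mul_mem hv (inv_mem hu)), htdef]; group
  obtain ⟨h, hh1, hh2⟩ := hswapjt
  obtain ⟨x₁, hx₁, x₂, hx₂, hx⟩ := (hmem t).1 htL
  have hpow : ∀ a ∈ L₁, ∀ b ∈ L₂, ∀ k : ℕ, (a * b) ^ k = a ^ k * b ^ k := fun a ha b hb k =>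
    Commute.mul_pow (hc a ha b hb) k
  have hxx : x₁ * x₁ = j ∧ x₂ * x₂ = j := by
    have h1 : x₁ * x₁ * (x₂ * x₂) = 1 := by
      rw [← pow_two, ← pow_two, ← hpow x₁ hx₁ x₂ hx₂, hx, pow_two, htt]
    rcases hint (x₁ * x₁) (mul_mem hx₁ hx₁) (by
      rw [eq_inv_of_mul_eq_one_left h1]; exact inv_mem (mul_mem hx₂ hx₂)) with h2 | h2
    · exfalso
      rw [h2, one_mul] at h1
      have ht1 : t ≠ 1 := (h9_orderOf_eq_two_iff.1 ht2).1
      rcases a1 x₁ hx₁ h2 with e1 | e1 <;> rcases b1 x₂ hx₂ h1 with e2 | e2 <;>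
        rw [e1, e2] at hx
      · exact ht1 (by simpa using hx.symm)
      · exact hne (by simpa using hx.symm)
      · exact hne (by simpa using hx.symm)
      · exact ht1 (hx.symm.trans hj2)
    · refine ⟨h2, ?_⟩
      rw [h2] at h1
      exact (inv_eq_of_mul_eq_one_right h1).symm.trans (inv_eq_of_mul_eq_one_right hj2)
  have hxj : ∀ x ∈ L₁ ⊔ L₂, x * x = j → x * j * (x * j) = j := by
    intro x hxL hxj
    calc x * j * (x * j) = x * (j * x) * j := by group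
      _ = x * x * (j * j) := by rw [hcj x hxL]; group
      _ = j := by rw [hxj, hj2, mul_one]
  obtain ⟨c₁, hc₁, hc₁'⟩ := a3 x₁ hx₁ (x₁ * j) (mul_mem hx₁ hjL1) hxx.1
    (hxj _ (mem_sup_left hx₁) hxx.1)
  obtain ⟨c₂, hc₂, hc₂'⟩ := b3 x₂ hx₂ (x₂ * j) (mul_mem hx₂ hjL2) hxx.2
    (hxj _ (mem_sup_right hx₂) hxx.2)
  have hc₂'' : c₂ * x₂ = x₂ * j * c₂ := by rw [← hc₂']; group
  have hK : ∀ c ∈ L₁, c * x₁ = x₁ * j * c → (c * c₂) * (c * c₂) = 1 ∧ j * (c * c₂) = c * c₂ * j ∧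
      t * (c * c₂) = c * c₂ * t := by
    intro c hcL hcx
    refine ⟨?_, hcj _ (mul_mem_sup hcL hc₂), ?_⟩
    · rw [← pow_two, hpow c hcL c₂ hc₂, pow_two, pow_two, sub_aux hF₁ e₁ hj hjL1 hx₁ hcL hcx,
        sub_aux hF₂ e₂ hj hjL2 hx₂ hc₂ hc₂'', hj2]
    · rw [← hx]
      calc x₁ * x₂ * (c * c₂) = x₁ * (x₂ * c) * c₂ := by group
        _ = x₁ * (j * j) * c * x₂ * c₂ := by rw [← hc c hcL x₂ hx₂, hj2]; group
        _ = (x₁ * j) * (j * (c * x₂)) * c₂ := by group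
        _ = (x₁ * j * c) * (x₂ * j * c₂) := by rw [hcj _ (mul_mem_sup hcL hx₂)]; group
        _ = c * (x₁ * c₂) * x₂ := by rw [← hcx, ← hc₂'']; group
        _ = c * c₂ * (x₁ * x₂) := by rw [hc x₁ hx₁ c₂ hc₂]; group
  have key : ∀ m : ℕ, ∃ s₁ s₂ : G, (s₁ * s₁ = 1 ∧ j * s₁ = s₁ * j ∧ t * s₁ = s₁ * t) ∧
      (s₂ * s₂ = 1 ∧ j * s₂ = s₂ * j ∧ t * s₂ = s₂ * t) ∧ (s₁ * s₂) ^ 2 ^ m = t := by
    intro m
    induction m with
    | zero => exact ⟨t, 1, ⟨htt, hcomm.eq, rfl⟩, by simp, by simp⟩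
    | succ m ih =>
      obtain ⟨s₁, s₂, h1, h2, h3⟩ := ih
      obtain ⟨a, ha, b, hb, hab⟩ := (hmem _).1
        (mul_mem (hinv s₁ h1.2.1 h1.1) (hinv s₂ h2.2.1 h2.1))
      rw [← hab, hpow a ha b hb, ← hx] at h3
      have h4 : x₁⁻¹ * a ^ 2 ^ m ∈ L₂ := by
        have : x₁⁻¹ * a ^ 2 ^ m = x₂ * (b ^ 2 ^ m)⁻¹ := by
          rw [eq_mul_inv_iff_mul_eq, mul_assoc, h3]; group
        rw [this]; exact mul_mem hx₂ (inv_mem (pow_mem hb _))
      have h5 : a ^ 2 ^ (m + 1) = j ∧ a * x₁ = x₁ * a := by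
        rcases hint _ (mul_mem (inv_mem hx₁) (pow_mem ha _)) h4 with h6 | h6
        · have h7 : a ^ 2 ^ m = x₁ := (inv_mul_eq_one.1 h6).symm
          refine ⟨by rw [pow_succ, pow_mul, h7, pow_two, hxx.1], ?_⟩
          rw [← h7]; exact ((Commute.refl a).pow_right _).eq
        · have h7 : a ^ 2 ^ m = x₁ * j := by rw [← h6]; group
          refine ⟨by rw [pow_succ, pow_mul, h7, pow_two, hxj _ (mem_sup_left hx₁) hxx.1], ?_⟩
          have h8 : a * (x₁ * j) = x₁ * j * a := by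
            rw [← h7]; exact ((Commute.refl a).pow_right _).eq
          rw [mul_assoc x₁, hcj a (mem_sup_left ha), ← mul_assoc, ← mul_assoc] at h8
          exact mul_right_cancel h8
      have hc₁'' : c₁ * x₁ = x₁ * j * c₁ := by rw [← hc₁']; group
      have k1 := hK (a * c₁) (mul_mem ha hc₁) (by
        rw [mul_assoc, hc₁'', ← mul_assoc, ← mul_assoc, h5.2, mul_assoc x₁ a,
          ← hcj a (mem_sup_left ha)]; group)
      have k2 := hK c₁ hc₁ hc₁''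
      have hsym : ∀ s : G, (s * s = 1 ∧ j * s = s * j ∧ t * s = s * t) →
          (h * s * h⁻¹ * (h * s * h⁻¹) = 1 ∧ j * (h * s * h⁻¹) = h * s * h⁻¹ * j ∧
            t * (h * s * h⁻¹) = h * s * h⁻¹ * t) := by
        intro s hs
        refine ⟨hconj2 h s hs.1, ?_, ?_⟩
        · rw [← hh1]
          calc h * t * h⁻¹ * (h * s * h⁻¹) = h * (t * s) * h⁻¹ := by group
            _ = h * s * h⁻¹ * (h * t * h⁻¹) := by rw [hs.2.2]; group
        · rw [← hh2]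
          calc h * j * h⁻¹ * (h * s * h⁻¹) = h * (j * s) * h⁻¹ := by group
            _ = h * s * h⁻¹ * (h * j * h⁻¹) := by rw [hs.2.1]; group
      refine ⟨_, _, hsym _ k1, hsym _ k2, ?_⟩
      have h6 : h * (a * c₁ * c₂) * h⁻¹ * (h * (c₁ * c₂) * h⁻¹) = h * a * h⁻¹ := by
        calc h * (a * c₁ * c₂) * h⁻¹ * (h * (c₁ * c₂) * h⁻¹)
            = h * a * (c₁ * c₂ * (c₁ * c₂)) * h⁻¹ := by group
          _ = h * a * h⁻¹ := by rw [k2.1, mul_one]
      rw [h6, conj_pow, h5.1, hh2]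
  obtain ⟨s₁, s₂, -, -, h3⟩ := key (Nat.card G)
  have h4 := orderOf_pow' (s₁ * s₂) (n := 2 ^ Nat.card G) (by positivity)
  rw [h3, ht2] at h4
  set d := orderOf (s₁ * s₂) with hd
  have hd0 : d ≠ 0 := (orderOf_pos _).ne'
  have h5 : d = 2 * d.gcd (2 ^ Nat.card G) := by
    have := Nat.div_mul_cancel (Nat.gcd_dvd_left d (2 ^ Nat.card G))
    rw [← h4] at this
    exact this.symm
  obtain ⟨i, hi1, hi2⟩ := (Nat.dvd_prime_pow Nat.prime_two).1 (Nat.gcd_dvd_right d (2 ^ Nat.card G))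
  have h6 : d = 2 ^ (i + 1) := by rw [h5, hi2, pow_succ']
  have h7 : d ≤ Nat.card G := Nat.le_of_dvd Nat.card_pos (orderOf_dvd_natCard _)
  have h8 : i + 1 ≤ Nat.card G := by
    have := Nat.lt_two_pow_self (n := i + 1)
    omega
  have h9 : d.gcd (2 ^ Nat.card G) = d := Nat.gcd_eq_left (h6 ▸ pow_dvd_pow 2 h8)
  omega

end Cfsg.Agent.S3211
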