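import Cfsg.Statements.S3213
import Mathlib
import Cfsg.Agent.Lib.Misc.SL2Odd
import Cfsg.Agent.Lib.Small.Basic

set_option autoImplicit false
open Cfsg

namespace Cfsg.Agent.S3213

open Cfsg.Lib

open Module
open scoped MatrixGroups

theorem ker_comp_le {F V : Type*} [Field F] [AddCommGroup V] [Module F V] [FiniteDimensional F V]
    (f g : V →ₗ[F] V) : finrank F (LinearMap.ker (f ∘ₗ g)) ≤ finrank F (LinearMap.ker f) + finrank F (LinearMap.ker g) := by
  have h := LinearMap.finrank_range_add_finrank_ker (g.domRestrict (LinearMap.ker (f ∘ₗ g)))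
  have h1 : finrank F (LinearMap.range (g.domRestrict (LinearMap.ker (f ∘ₗ g)))) ≤ finrank F (LinearMap.ker f) :=
    Submodule.finrank_mono (by rintro _ ⟨v, rfl⟩; exact v.2)
  have h2 : finrank F (LinearMap.ker (g.domRestrict (LinearMap.ker (f ∘ₗ g)))) ≤ finrank F (LinearMap.ker g) := by
    rw [← Submodule.finrank_map_subtype_eq]
    exact Submodule.finrank_mono (by rintro _ ⟨v, hv, rfl⟩; exact hv)
  omega

theorem five {F V : Type*} [Field F] [Fintype F] (hF : Fintype.card F = 3) [AddCommGroup V] [Module F V]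
    [FiniteDimensional F V] (hV : finrank F V ≤ 3) (T : Module.End F V) (hT : T ^ 5 = 1) : T = 1 := by
  classical
  haveI : Finite V := Module.finite_of_finite F
  haveI := Fintype.ofFinite V
  haveI : Fact (Nat.Prime 5) := ⟨by norm_num⟩
  have h := Equiv.Perm.card_fixedPoints_modEq (f := (T : V → V)) (p := 5) (n := 1) (by
    funext v
    have := DFunLike.congr_fun hT v
    rw [Module.End.pow_apply] at this
    exact this)
  have h1 : Fintype.card (Function.fixedPoints (T : V → V)) = Nat.card (LinearMap.ker (T - 1)) := by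
    rw [← Nat.card_eq_fintype_card]
    exact Nat.card_congr (Equiv.subtypeEquivRight fun v => by
      simp [Function.IsFixedPt, sub_eq_zero])
  rw [h1, ← Nat.card_eq_fintype_card, Module.natCard_eq_pow_finrank (K := F) (V := V),
    Module.natCard_eq_pow_finrank (K := F) (V := LinearMap.ker (T - 1)), Nat.card_eq_fintype_card, hF] at h
  have h2 := Submodule.finrank_le (LinearMap.ker (T - 1))
  have h3 : finrank F (LinearMap.ker (T - 1)) = finrank F V := by
    generalize finrank F (LinearMap.ker (T - 1)) = i at *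
    generalize finrank F V = k at *
    interval_cases k <;> interval_cases i <;> first | rfl | exact absurd h (by decide)
  rw [← sub_eq_zero, ← LinearMap.ker_eq_top]
  exact Submodule.eq_top_of_finrank_eq h3

theorem neg_one_eq {F V : Type*} [Field F] [Fintype F] (hF : Fintype.card F = 3) [AddCommGroup V] [Module F V]
    [FiniteDimensional F V] (hV : finrank F V = 4) (j T : Module.End F V) (hj : j * j = 1) (hj1 : j ≠ 1)
    (hT : T ^ 5 = 1) (hT1 : T ≠ 1) (hc : j * T = T * j) : j = -1 := by
  have h2 : (2 : F) ≠ 0 := h9_two_ne_zero_of_odd_card (by rw [hF]; decide)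
  by_contra hj2
  have key : ∀ ε : F, j ≠ ε • 1 → ∀ v, j v = ε • v → T v = v := by
    intro ε hε v hv
    have hm : ∀ w ∈ LinearMap.ker (j - ε • 1), T w ∈ LinearMap.ker (j - ε • 1) := by
      intro w hw
      simp only [LinearMap.mem_ker, LinearMap.sub_apply, LinearMap.smul_apply, Module.End.one_apply,
        sub_eq_zero] at hw ⊢
      rw [← Module.End.mul_apply, hc, Module.End.mul_apply, hw, map_smul]
    have hlt : finrank F (LinearMap.ker (j - ε • 1)) ≤ 3 := by
      have := Submodule.finrank_lt (s := LinearMap.ker (j - ε • 1)) (fun h => hε (by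
        rwa [LinearMap.ker_eq_top, sub_eq_zero] at h))
      omega
    have := five hF hlt (T.restrict hm) (by
      rw [Module.End.pow_restrict]
      ext w; simp [hT])
    exact congrArg Subtype.val (DFunLike.congr_fun this ⟨v, by simpa [sub_eq_zero] using hv⟩)
  apply hT1
  ext v
  have hjj : j (j v) = v := DFunLike.congr_fun hj v
  have h3 := key 1 (by simpa using hj1) (v + j v) (by simp [hjj, add_comm])
  have h4 := key (-1) (by simpa using hj2) (v - j v) (by simp [hjj])
  apply smul_right_injective V h2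
  simp only [map_add, map_sub] at h3 h4
  simp only [two_smul, Module.End.one_apply]
  linear_combination (norm := module) h3 + h4

theorem sl_facts {K : Type*} [Field K] [Fintype K] (hK : Fintype.card K = 5) (x : SL(2, K)) (hx : orderOf x = 3) :
    ∃ g h : SL(2, K), ∃ a ∈ Subgroup.zpowers (g * x * g⁻¹), ∃ b ∈ Subgroup.zpowers (h * x * h⁻¹),
      a * b * (a * b) = -1 := by
  haveI : Fact (Nat.Prime 3) := ⟨Nat.prime_three⟩
  have h5 : (5 : K) = 0 := by
    have := FiniteField.cast_card_eq_zero K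
    rw [hK] at this; exact_mod_cast this
  have hc : Nat.card SL(2, K) = 120 := by rw [h9_card_sl2, hK]; rfl
  have key : ∀ y : SL(2, K), orderOf y = 3 → ∃ g : SL(2, K), y ∈ Subgroup.zpowers (g * x * g⁻¹) := by
    intro y hy
    obtain ⟨P⟩ : Nonempty (Sylow 3 SL(2, K)) := inferInstance
    have hP := sm_card_sylow_eq_prime (by rw [hc]; norm_num) (by rw [hc]; norm_num) P
    obtain ⟨Q, hQ⟩ := sm_exists_sylow_eq_zpowers hP hx
    obtain ⟨R, hR⟩ := sm_exists_sylow_eq_zpowers hP hy
    obtain ⟨g, rfl⟩ := MulAction.exists_smul_eq SL(2, K) Q R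
    refine ⟨g, ?_⟩
    have : y ∈ ((g • Q : Sylow 3 SL(2, K)) : Subgroup SL(2, K)) := hR ▸ Subgroup.mem_zpowers y
    rwa [sm_coe_sylow_smul, hQ, MonoidHom.map_zpowers] at this
  obtain ⟨g, hg⟩ := key (h9_mk 0 (-1) 1 (-1) (by ring)) (orderOf_eq_prime (by
    rw [pow_succ, pow_two, h9_sl2_ext_iff]; simp only [h9_sl2_mul_apply]; simp) (by
    rw [Ne, h9_sl2_ext_iff]; simp))
  obtain ⟨h, hh⟩ := key (h9_mk (-1) 2 2 0 (by linear_combination -h5)) (orderOf_eq_prime (by
    rw [pow_succ, pow_two, h9_sl2_ext_iff]; simp only [h9_sl2_mul_apply]; simp [-mul_eq_zero]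
    refine ⟨?_, ?_, ?_, ?_⟩
    · linear_combination -2 * h5
    · linear_combination 2 * h5
    · linear_combination 2 * h5
    · linear_combination -h5) (by
    rw [Ne, h9_sl2_ext_iff]; simp))
  refine ⟨g, h, _, hg, _, hh, ?_⟩
  rw [h9_sl2_ext_iff]; simp only [h9_sl2_mul_apply]; simp
  refine ⟨?_, ?_, ?_⟩
  · linear_combination h5
  · ring
  · linear_combination h5

/-- Let F be the field with 3 elements and K the field with 5 elements. For every injective homomorphism φ from SL₂(K) into the symplectic group Sp₄(F) (4 × 4 matrices g with g J gᵀ = J for the standard alternating matrix J) and every element x of order 3 of SL₂(K), the vectors of F⁴ fixed by φ(x) form a 2-dimensional subspace that is totally isotropic for the alternating form defined by J. -/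
theorem result {F : Type*} [Field F] [Fintype F] (hF : Fintype.card F = 3)
    {K : Type*} [Field K] [Fintype K] (hK : Fintype.card K = 5)
    (φ : Matrix.SpecialLinearGroup (Fin 2) K →* ↥(Matrix.symplecticGroup (Fin 2) F)) (hφ : Function.Injective φ)
    (x : Matrix.SpecialLinearGroup (Fin 2) K) (hx : orderOf x = 3) :
    Module.finrank F ↥(LinearMap.ker (Matrix.toLin' ((φ x : Matrix (Fin 2 ⊕ Fin 2) (Fin 2 ⊕ Fin 2) F)) - LinearMap.id)) = 2 ∧
      ∀ v w : Fin 2 ⊕ Fin 2 → F, (φ x : Matrix (Fin 2 ⊕ Fin 2) (Fin 2 ⊕ Fin 2) F).mulVec v = v →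
        (φ x : Matrix (Fin 2 ⊕ Fin 2) (Fin 2 ⊕ Fin 2) F).mulVec w = w →
          dotProduct v ((Matrix.J (Fin 2) F).mulVec w) = 0 := by
  have h3 : (3 : F) = 0 := by
    have := FiniteField.cast_card_eq_zero F
    rw [hF] at this; exact_mod_cast this
  have h2 : (2 : F) ≠ 0 := h9_two_ne_zero_of_odd_card (by rw [hF]; decide)
  have h2K : (2 : K) ≠ 0 := h9_two_ne_zero_of_odd_card (by rw [hK]; decide)
  have hV : finrank F (Fin 2 ⊕ Fin 2 → F) = 4 := by simp
  let ρ : SL(2, K) →* Module.End F (Fin 2 ⊕ Fin 2 → F) :=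
    (Matrix.toLinAlgEquiv' (R := F) (n := Fin 2 ⊕ Fin 2)).toMonoidHom.comp
      ((Matrix.symplecticGroup (Fin 2) F).subtype.comp φ)
  have hρ : Function.Injective ρ :=
    (Matrix.toLinAlgEquiv' (R := F) (n := Fin 2 ⊕ Fin 2)).injective.comp (Subtype.val_injective.comp hφ)
  have hρ' : ∀ g v, ρ g v = (φ g : Matrix (Fin 2 ⊕ Fin 2) (Fin 2 ⊕ Fin 2) F).mulVec v := fun g v => rfl
  haveI : Fact (Nat.Prime 5) := ⟨by norm_num⟩
  obtain ⟨f, hf⟩ := exists_prime_orderOf_dvd_card' (G := SL(2, K)) 5 (by rw [h9_card_sl2, hK]; norm_num)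
  have hj : ρ (-1) = -1 := neg_one_eq hF hV _ (ρ f) (by rw [← map_mul]; simp)
    (fun h => h9_sl2_neg_one_ne_one h2K (hρ (by rw [h, map_one])))
    (by rw [← map_pow, ← hf, pow_orderOf_eq_one, map_one])
    (fun h => by rw [hρ (h.trans (map_one ρ).symm), orderOf_one] at hf; omega)
    (by rw [← map_mul, ← map_mul]; simp)
  have hδ : (ρ x - 1) ^ 3 = 0 := by
    have h1 : ρ x ^ 3 = 1 := by rw [← map_pow, ← hx, pow_orderOf_eq_one, map_one]
    have h4 : (3 : Module.End F (Fin 2 ⊕ Fin 2 → F)) = 0 := by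
      rw [← map_ofNat (algebraMap F (Module.End F (Fin 2 ⊕ Fin 2 → F))) 3, h3, map_zero]
    calc (ρ x - 1) ^ 3 = ρ x ^ 3 - 1 - 3 * (ρ x * ρ x - ρ x) := by
          generalize ρ x = T
          rw [show (3 : Module.End F (Fin 2 ⊕ Fin 2 → F)) = 1 + 1 + 1 by norm_num]
          simp only [pow_succ, pow_zero, one_mul, mul_sub, sub_mul, mul_one, add_mul]; abel
      _ = 0 := by rw [h1, h4]; simp
  have hx1 : ρ x - 1 ≠ 0 := fun h => by
    rw [sub_eq_zero] at h
    rw [hρ (h.trans (map_one ρ).symm), orderOf_one] at hx; omega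
  have hdim : finrank F (LinearMap.ker (ρ x - 1)) = 2 := by
    apply le_antisymm
    · obtain ⟨g, h, a, ha, b, hb, hab⟩ := sl_facts hK x hx
      have hfix : ∀ g : SL(2, K), ∀ a ∈ Subgroup.zpowers (g * x * g⁻¹),
          finrank F (LinearMap.ker (ρ x - 1)) ≤ finrank F (LinearMap.ker (ρ a - 1)) := by
        intro g a ha
        obtain ⟨k, rfl⟩ := mem_powers_iff_mem_zpowers.2 ha
        refine LinearMap.finrank_le_finrank_of_injective (f := (ρ g).restrict (p := LinearMap.ker (ρ x - 1))
          (q := LinearMap.ker (ρ ((g * x * g⁻¹) ^ k) - 1)) fun v hv => ?_) fun v w e => ?_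
        · simp only [LinearMap.mem_ker, LinearMap.sub_apply, Module.End.one_apply, sub_eq_zero] at hv ⊢
          rw [conj_pow, ← Module.End.mul_apply, ← map_mul, inv_mul_cancel_right, map_mul, map_pow,
            Module.End.mul_apply, Module.End.pow_apply, Function.iterate_fixed hv]
        · have := congrArg (fun u => ρ g⁻¹ u.1) e
          simp only [LinearMap.coe_restrict_apply, ← Module.End.mul_apply, ← map_mul, inv_mul_cancel, map_one,
            Module.End.one_apply] at this
          exact Subtype.ext this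
      have h4 := Submodule.finrank_add_finrank_le_of_disjoint (s := LinearMap.ker (ρ a - 1))
        (t := LinearMap.ker (ρ b - 1)) (Submodule.disjoint_def.2 fun v h1 h2' => by
          simp only [LinearMap.mem_ker, LinearMap.sub_apply, Module.End.one_apply, sub_eq_zero] at h1 h2'
          have := DFunLike.congr_fun hj v
          rw [← hab] at this
          simp only [map_mul, Module.End.mul_apply, h1, h2', LinearMap.neg_apply, Module.End.one_apply] at this
          apply smul_right_injective _ h2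
          simp only [two_smul, add_zero]
          exact add_eq_zero_iff_eq_neg.2 this)
      have := hfix g a ha
      have := hfix h b hb
      omega
    · have a1 := ker_comp_le (ρ x - 1) (ρ x - 1)
      have a2 := ker_comp_le ((ρ x - 1) ∘ₗ (ρ x - 1)) (ρ x - 1)
      have a3 : ((ρ x - 1) ∘ₗ (ρ x - 1)) ∘ₗ (ρ x - 1) = 0 := by rw [← hδ, pow_succ, pow_two]; rfl
      rw [a3, LinearMap.ker_zero, finrank_top, hV] at a2
      omega
  refine ⟨hdim, fun v w hv hw => ?_⟩
  let B : (Fin 2 ⊕ Fin 2 → F) → (Fin 2 ⊕ Fin 2 → F) → F := fun v w => dotProduct v ((Matrix.J (Fin 2) F).mulVec w)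
  have hB : ∀ v w, B (ρ x v) (ρ x w) = B v w := by
    intro v w
    simp only [B, hρ']
    rw [Matrix.mulVec_mulVec, Matrix.dotProduct_mulVec, Matrix.vecMul_mulVec, ← Matrix.mul_assoc,
      SymplecticGroup.mem_iff'.1 (φ x).2, ← Matrix.dotProduct_mulVec]
  have hB' : ∀ v w, B v w = v (Sum.inr 0) * w (Sum.inl 0) + v (Sum.inr 1) * w (Sum.inl 1) -
      v (Sum.inl 0) * w (Sum.inr 0) - v (Sum.inl 1) * w (Sum.inr 1) := by
    intro v w
    simp [B, Matrix.J, dotProduct, Matrix.mulVec, Fintype.sum_sum_type, Fin.sum_univ_two, Matrix.one_apply]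
    ring
  obtain ⟨u, hu0, hu1, hu2⟩ : ∃ u, u ≠ 0 ∧ ρ x u = u ∧ ∀ w, ρ x w = w → B u w = 0 := by
    obtain ⟨y, hy, hy2⟩ : ∃ y, (ρ x - 1) y ≠ 0 ∧ (ρ x - 1) ((ρ x - 1) y) = 0 := by
      obtain ⟨y, hy⟩ := DFunLike.ne_iff.1 hx1
      by_cases h : (ρ x - 1) ((ρ x - 1) y) = 0
      · exact ⟨y, hy, h⟩
      · exact ⟨_, h, by simpa [pow_succ] using DFunLike.congr_fun hδ y⟩
    refine ⟨_, hy, by simpa [sub_eq_zero] using hy2, fun w hw => ?_⟩
    have := hB y w
    rw [hw] at this
    simp only [LinearMap.sub_apply, Module.End.one_apply]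
    simp only [hB', Pi.sub_apply] at this ⊢
    linear_combination this
  by_contra hne
  have hmem : ∀ v, ρ x v = v → v ∈ LinearMap.ker (ρ x - 1) := fun v hv => by simpa [sub_eq_zero] using hv
  have hli : LinearIndependent F ![(⟨u, hmem u hu1⟩ : LinearMap.ker (ρ x - 1)), ⟨v, hmem v hv⟩, ⟨w, hmem w hw⟩] := by
    rw [Fintype.linearIndependent_iff]
    intro c hc
    have h4 : c 0 • u + c 1 • v + c 2 • w = 0 := by
      simpa [Fin.sum_univ_three] using congrArg Subtype.val hc
    have h5 : ∀ i, c 0 * u i + c 1 * v i + c 2 * w i = 0 := fun i => by simpa using congrFun h4 i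
    have h6 := hu2 v hv
    have h7 := hu2 w hw
    have hne' : B v w ≠ 0 := hne
    have c1 : c 1 = 0 := by
      apply mul_right_cancel₀ hne'
      simp only [hB'] at h7 ⊢
      linear_combination w (Sum.inl 0) * h5 (Sum.inr 0) + w (Sum.inl 1) * h5 (Sum.inr 1) -
        w (Sum.inr 0) * h5 (Sum.inl 0) - w (Sum.inr 1) * h5 (Sum.inl 1) - c 0 * h7
    have c2 : c 2 = 0 := by
      apply mul_right_cancel₀ hne'
      simp only [hB'] at h6 ⊢
      linear_combination -(v (Sum.inl 0) * h5 (Sum.inr 0) + v (Sum.inl 1) * h5 (Sum.inr 1) -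
        v (Sum.inr 0) * h5 (Sum.inl 0) - v (Sum.inr 1) * h5 (Sum.inl 1)) + c 0 * h6
    rw [c1, c2] at h4
    have c0 : c 0 = 0 := by simpa [hu0] using h4
    intro i; fin_cases i <;> assumption
  have := hli.fintype_card_le_finrank
  rw [hdim] at this
  simp at this

end Cfsg.Agent.S3213
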