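import Cfsg.Statements.S3215
import Mathlib
import Cfsg.Agent.Lib.Solv.Two
import Cfsg.Agent.Lib.Coprime.Hall

set_option autoImplicit false
open Cfsg

namespace Cfsg.Agent.S3215

open Subgroup Cfsg.Lib
open scoped commutatorElement

/-- Let H be a finite solvable group with no nontrivial normal subgroup of odd order in which the centralizer of every involution has a normal 2-complement. Let X be a Hall 2'-subgroup of H (odd order, index a power of 2) and Y = O₂(H). Then no non-identity element of X commutes with a non-identity element of Y (so for X ≠ 1 the group XY is a Frobenius group with kernel Y), every Sylow subgroup of X is cyclic, XY is normal in H, and H/XY is a cyclic 2-group. -/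
theorem result {H : Type*} [Group H] [Finite H] (hsol : Group.IsSolvable H)
    (hO : Cfsg.oddCore H = ⊥)
    (hI : ∀ t : H, orderOf t = 2 → Cfsg.HasNormalPComplement 2 ↥(Subgroup.centralizer ({t} : Set H)))
    (X : Subgroup H) (hXodd : Odd (Nat.card X)) (hXidx : ∃ k : ℕ, X.index = 2 ^ k) :
    (∀ x ∈ X, x ≠ 1 → ∀ y ∈ Cfsg.pCore 2 H, y ≠ 1 → x * y ≠ y * x) ∧
      (∀ (p : ℕ) [Fact p.Prime] (P : Sylow p ↥X), IsCyclic ↥(P : Subgroup ↥X)) ∧
      (X ⊔ Cfsg.pCore 2 H).Normal ∧
      ∀ hN : (X ⊔ Cfsg.pCore 2 H).Normal, IsCyclic (H ⧸ (X ⊔ Cfsg.pCore 2 H)) ∧ IsPGroup 2 (H ⧸ (X ⊔ Cfsg.pCore 2 H)) := by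
  set Y := pCore 2 H with hY
  have hchar : centralizer (Y : Set H) ≤ Y := centralizer_pCore_le_of_isSolvable hsol hO
  have key : ∀ c x : H, 2 ∣ orderOf c → (orderOf x).Coprime 2 → x * c = c * x → x = 1 := by
    intro c x hc hx hcx
    obtain ⟨⟨t, ht⟩, ht2⟩ := exists_prime_orderOf_dvd_card' (G := zpowers c) 2
      (by rwa [Nat.card_zpowers])
    rw [orderOf_mk] at ht2
    have h1 := hI t ht2
    rw [← centralizer_zpowers] at h1
    have h2 := pPrimeCoreOf_centralizer_le_of_isPConstrained (p := 2)
      (isPConstrained_of_isSolvable hsol) (P := zpowers t)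
      (IsPGroup.of_card (n := 1) (by rw [Nat.card_zpowers, ht2, pow_one]))
    have hxt : x ∈ centralizer (zpowers t : Set H) :=
      centralizer_mono (zpowers_le.mpr ht) (by
        rw [centralizer_zpowers, mem_centralizer_singleton_iff]; exact hcx)
    have h3 := le_pPrimeCore (p := 2) inferInstance ((Nat.Prime.coprime_iff_not_dvd Nat.prime_two).mpr
      (hasNormalPComplement_iff_not_dvd.mp h1)).symm
      (mem_pResidual_of_coprime (g := (⟨x, hxt⟩ : centralizer (zpowers t : Set H)))
        (by rwa [orderOf_mk]))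
    have h4 := h2 ⟨_, h3, rfl⟩
    rw [show pPrimeCore 2 H = ⊥ from hO] at h4
    exact h4
  have hXo : ∀ x ∈ X, (orderOf x).Coprime 2 := fun x hx =>
    (Nat.coprime_two_right.mpr hXodd).coprime_dvd_left (Subgroup.orderOf_dvd_natCard X hx)
  have two_dvd : ∀ {K : Type _} [Group K] [Finite K] {P : Subgroup K}, IsPGroup 2 P → ∀ y ∈ P, y ≠ 1 →
      2 ∣ orderOf y := fun hP y hy hy1 => by
    by_contra h
    exact hy1 (eq_one_of_mem_of_coprime hP hy
      ((Nat.Prime.coprime_iff_not_dvd Nat.prime_two).mpr h).symm)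
  have ha : ∀ x ∈ X, x ≠ 1 → ∀ y ∈ Y, y ≠ 1 → x * y ≠ y * x := fun x hx hx1 y hy hy1 h =>
    hx1 (key y x (two_dvd isPGroup_pCore y hy hy1) (hXo x hx) h)
  have hb : ∀ (p : ℕ) [Fact p.Prime] (P : Sylow p X), IsCyclic (P : Subgroup X) := by
    intro p hp P
    by_cases hp2 : p = 2
    · subst hp2
      have : (P : Subgroup X) = ⊥ := eq_bot_of_isPGroup_of_coprime P.isPGroup'
        ((Nat.coprime_two_right.mpr hXodd).coprime_dvd_left (card_subgroup_dvd_card _))
      rw [this]
      infer_instance
    refine pg_isCyclic_of_rank_one hp2 P.isPGroup' fun A hA hc => ?_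
    set B := (A.map (P : Subgroup X).subtype).map X.subtype
    have hB : IsElementaryAbelian p B := Quad.ea_map _ (Quad.ea_map _ hA)
    have hBc : Nat.card B = p ^ 2 := by
      rw [card_map_of_injective X.subtype_injective,
        card_map_of_injective (P : Subgroup X).subtype_injective, hc]
    have hact : CoprimeAct B Y := CoprimeAct.of_isPGroup_right isPGroup_pCore (fun h =>
      (Nat.not_even_iff_odd.mpr hXodd) (even_iff_two_dvd.mpr
        (h.trans (card_dvd_of_le (map_subtype_le _))))) le_normalizer_of_normal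
    have h1 : Y ≤ ⊥ := hact.le_of_elemAb hB hBc.ge fun a haB ha1 y hy => by
      by_contra hy1
      exact ha a (map_subtype_le _ haB) ha1 y (mem_inf.mp hy).1 hy1
        (mem_centralizer_singleton_iff.mp (mem_inf.mp hy).2).symm
    have h2 : B ≤ ⊥ := by
      refine le_trans (le_trans ?_ hchar) h1
      rw [le_bot_iff.mp h1]
      exact le_centralizer_iff.mp bot_le
    exact ne_bot_of_pow_le_card hBc.ge (le_bot_iff.mp h2)
  set f := QuotientGroup.mk' Y with hf
  have hfs : Function.Surjective f := QuotientGroup.mk'_surjective Y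
  set F := fittingSubgroup (H ⧸ Y) with hF
  obtain ⟨k, hk⟩ := hXidx
  have hXH : IsPiHallOf {q | q ≠ 2} X ⊤ := ⟨le_top, fun q _ hd h =>
      (Nat.not_even_iff_odd.mpr hXodd) (even_iff_two_dvd.mpr (h ▸ hd)), fun q hq h hd => by
    rw [relIndex_top_right, hk] at hd
    exact h ((Nat.prime_dvd_prime_iff_eq hq Nat.prime_two).mp (hq.dvd_of_dvd_pow hd))⟩
  have hFo : ¬ 2 ∣ Nat.card F := by
    have h1 : F ≤ pPrimeCore 2 (H ⧸ Y) := by
      have := fitting_le_pCore_sup_pPrimeCore (G := H ⧸ Y) 2
      rwa [pCore_quotient_pCore, bot_sup_eq] at this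
    exact fun h => not_dvd_card_pPrimeCore (h.trans (card_dvd_of_le h1))
  have hFX : F ≤ X.map f := le_piHallOf_of_le_normalizer (piHallOf_map hXH f)
    (by rw [map_top_of_surjective f hfs]; exact le_top) le_normalizer_of_normal
    (fun q _ hd h => hFo (h ▸ hd))
  have hFc : IsCyclic F := by
    have : IsZGroup X := ⟨fun p hp P => by have := Fact.mk hp; exact hb p P⟩
    have : IsZGroup (X.map f) := IsZGroup.of_surjective (f.subgroupMap_surjective X)
    have : IsZGroup F := IsZGroup.of_injective (inclusion_injective hFX)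
    infer_instance
  have hCF : centralizer (F : Set (H ⧸ Y)) ≤ F := centralizer_fitting_le_of_solvable inferInstance
  have hcomm : ∀ g h : H ⧸ Y, ⁅g, h⁆ ∈ F := fun g h =>
    hCF (commutatorElement_mem_centralizer_of_isCyclic hFc (le_normalizer_of_normal (mem_top g))
      (le_normalizer_of_normal (mem_top h)))
  have hM : X ⊔ Y = (X.map f).comap f := by rw [comap_map_eq, QuotientGroup.ker_mk']
  have hN : (X ⊔ Y).Normal := by
    rw [hM]
    refine Normal.comap (pg_normal_of_commutator_le ?_) f
    exact commutator_le.mpr fun g _ h _ => hFX (hcomm g h)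
  have hidx : (X ⊔ Y).index ∣ 2 ^ k := hk ▸ index_dvd_of_le le_sup_left
  refine ⟨ha, hb, hN, fun _ => ⟨?_, ?_⟩⟩
  swap
  · obtain ⟨j, -, hj⟩ := (Nat.dvd_prime_pow Nat.prime_two).mp hidx
    exact IsPGroup.of_card hj
  obtain ⟨S⟩ : Nonempty (Sylow 2 H) := inferInstance
  have hS : IsPGroup 2 ((S : Subgroup H).map f) := S.isPGroup'.map f
  have hSc : IsCyclic ((S : Subgroup H).map f) := by
    by_contra hnc
    have hSa : IsMulCommutative ((S : Subgroup H).map f) := isMulCommutative_of_forall
      fun a ha b hb => by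
        have : ⁅a, b⁆ ∈ (S : Subgroup H).map f ⊓ F :=
          mem_inf.mpr ⟨mul_mem (mul_mem (mul_mem ha hb) (inv_mem ha)) (inv_mem hb), hcomm a b⟩
        rw [inf_eq_bot_of_isPGroup_of_coprime hS
          ((Nat.Prime.coprime_iff_not_dvd Nat.prime_two).mpr hFo).symm] at this
        exact commutatorElement_eq_one_iff_mul_comm.mp this
    have h1 : F ≤ ⊥ := (CoprimeAct.of_isPGroup hS hFo le_normalizer_of_normal).le_of_centralizer_singleton
      hSa hnc fun a haS ha1 z hz => by
        obtain ⟨x, hx, rfl⟩ := hFX (mem_inf.mp hz).1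
        have hact : CoprimeAct (zpowers x) Y := CoprimeAct.of_isPGroup_right isPGroup_pCore
          (by rw [Nat.card_zpowers]
              exact (Nat.Prime.coprime_iff_not_dvd Nat.prime_two).mp (hXo x hx).symm)
          le_normalizer_of_normal
        have h2 : a ∈ centralizer ((zpowers x).map f : Set (H ⧸ Y)) := by
          rw [MonoidHom.map_zpowers, centralizer_zpowers, mem_centralizer_singleton_iff]
          exact (mem_centralizer_singleton_iff.mp (mem_inf.mp hz).2).symm
        rw [hact.centralizer_map_mk'] at h2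
        obtain ⟨c, hc, rfl⟩ := h2
        rw [key c x ((two_dvd hS _ haS ha1).trans (orderOf_map_dvd _ c)) (hXo x hx)
          (hc x (mem_zpowers x)), map_one]
        exact one_mem _
    apply hnc
    have h2 : (S : Subgroup H).map f ≤ ⊥ := by
      refine le_trans (le_trans ?_ hCF) h1
      rw [le_bot_iff.mp h1]
      exact le_centralizer_iff.mp bot_le
    rw [le_bot_iff.mp h2]
    infer_instance
  obtain ⟨x, -, hx⟩ := pg_exists_le_zpowers_sup_of_isCyclic_map Y S hSc
  refine pg_isCyclic_quotient_of_zpowers_sup _ (x := x) (eq_top_of_forall_not_dvd_index fun q hq hd => ?_)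
  have h1 := hq.dvd_of_dvd_pow ((hd.trans (index_dvd_of_le le_sup_right)).trans hidx)
  rw [(Nat.prime_dvd_prime_iff_eq hq Nat.prime_two).mp h1] at hd
  exact not_dvd_index_of_sylow_le S (hx.trans (sup_le_sup_left le_sup_right _)) hd

end Cfsg.Agent.S3215
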