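import Cfsg.Statements.S3228
import Cfsg.Agent.Lib.J3.Main
import Cfsg.Agent.Lib.J3.End

set_option autoImplicit false
open Cfsg

namespace Cfsg.Agent.S3228

/-- Let G be a non-abelian simple group of order 50232960. Then the centre of a Sylow 2-subgroup S of G is cyclic, and if z is the involution of Z(S), the centralizer C_G(z) has a normal subgroup E of order 32 with C_G(z)/E ≅ A₅. -/
theorem result {G : Type*} [Group G] [Finite G] [IsSimpleGroup G]
    (hG : ¬ IsMulCommutative G) (hcard : Nat.card G = 50232960) (S : Sylow 2 G) :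
    IsCyclic ↥(Subgroup.center ↥(S : Subgroup G)) ∧
      ∀ z : G, z ∈ (S : Subgroup G) → (∀ s ∈ (S : Subgroup G), s * z = z * s) → orderOf z = 2 →
        ∃ (E : Subgroup ↥(Subgroup.centralizer ({z} : Set G))) (hE : E.Normal), Nat.card ↥E = 32 ∧
          Nonempty ((↥(Subgroup.centralizer ({z} : Set G)) ⧸ E) ≃* ↥(alternatingGroup (Fin 5))) := by
-----
  exact Cfsg.Lib.OC.J3.endgame hcard (fun _ => Cfsg.Lib.OC.J3.five hcard)
    (fun _ => Cfsg.Lib.OC.J3.central hcard) S

end Cfsg.Agent.S3228
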