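import Cfsg.Statements.S3241
import Mathlib
import Cfsg.Agent.Lib.Hay.Final

set_option autoImplicit false
open Cfsg

namespace Cfsg.Agent.S3241
open Cfsg.Lib

open Cfsg.Lib.Hay Subgroup

/-- Let m > 1 be odd, F the field with 3^m elements, and 𝒞 the centralizer in PSp₄(3^m) = PSp₄(F) of an element of order 3 lying in the centre of a Sylow 3-subgroup. Let G be a finite group with an element α of order 3 such that C_G(α) ≅ 𝒞, such that C_G(z) = C_G(α) for every non-identity element z of the centre of C_G(α), and such that the elements of order 3 of G lying in the centre of some Sylow 3-subgroup of G are not all conjugate in G. Then C_G(α) is normal in G, or G is isomorphic to PSp₄(3^m). -/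
theorem result {G : Type*} [Group G] [Finite G]
    {F : Type*} [Field F] [Fintype F] (m : ℕ) (hm : Odd m) (hm1 : 1 < m) (hF : Fintype.card F = 3 ^ m)
    (U : Sylow 3 (Cfsg.PSp 2 F)) (x : Cfsg.PSp 2 F) (hx : orderOf x = 3) (hxU : x ∈ (U : Subgroup (Cfsg.PSp 2 F)))
    (hxc : ∀ u ∈ (U : Subgroup (Cfsg.PSp 2 F)), u * x = x * u)
    (α : G) (hα : orderOf α = 3) (e : ↥(Subgroup.centralizer ({α} : Set G)) ≃* ↥(Subgroup.centralizer ({x} : Set (Cfsg.PSp 2 F))))
    (hb : ∀ z : G, z ≠ 1 → z ∈ Subgroup.centralizer ({α} : Set G) → (∀ c ∈ Subgroup.centralizer ({α} : Set G), c * z = z * c) →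
      Subgroup.centralizer ({z} : Set G) = Subgroup.centralizer ({α} : Set G))
    (hc : ∃ (P Q : Sylow 3 G) (a b : G), orderOf a = 3 ∧ orderOf b = 3 ∧ a ∈ (P : Subgroup G) ∧ b ∈ (Q : Subgroup G) ∧
      (∀ p ∈ (P : Subgroup G), p * a = a * p) ∧ (∀ q ∈ (Q : Subgroup G), q * b = b * q) ∧ ¬ IsConj a b) :
    (Subgroup.centralizer ({α} : Set G)).Normal ∨ Nonempty (G ≃* Cfsg.PSp 2 F) := by
  obtain ⟨A, hA⟩ := exists_amb hm hm1 hF U hx hxc e hb
  by_cases hB : normalizer (A.M : Set G) ≤ normalizer (A.P : Set G)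
  · exact Or.inl (hA ▸ A.range_normal hB)
  · obtain ⟨B⟩ := A.exists_amb2 hc hB
    exact Or.inr B.equiv

end Cfsg.Agent.S3241
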