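import Cfsg.Statements.S3244
import Mathlib
import Cfsg.Agent.Lib.PGroup.CharTwo

set_option autoImplicit false
open Cfsg

namespace Cfsg.Agent.S3244

open Subgroup Cfsg.Lib

/-- Say that a finite group G is of characteristic 2 type in the early sense when a Sylow 2-subgroup S of G has a self-centralizing normal subgroup of rank at least 3, S normalizes no nontrivial subgroup of odd order, and every 2-local subgroup of G is 2-constrained. If G is a non-abelian simple group of characteristic 2 type in this sense, then for some maximal 2-local subgroup M of G the centre of O₂(M) is not cyclic. -/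
theorem result {G : Type*} [Group G] [Finite G] [IsSimpleGroup G]
    (hG : ¬ IsMulCommutative G) (S : Sylow 2 G) (A : Subgroup G) (hA : Cfsg.IsSCN (S : Subgroup G) A) (hA3 : ¬ Cfsg.PRankLE 2 2 ↥A)
    (hinv : ∀ X : Subgroup G, Odd (Nat.card ↥X) → (S : Subgroup G) ≤ Subgroup.normalizer (X : Set G) → X = ⊥)
    (hcon : ∀ T : Subgroup G, IsPGroup 2 ↥T → T ≠ ⊥ → Cfsg.IsPConstrained 2 ↥(Subgroup.normalizer (T : Set G))) :
    ∃ M : Subgroup G, Cfsg.IsMaximalTwoLocal M ∧ ¬ IsCyclic ↥(Subgroup.center ↥(Cfsg.pCore 2 ↥M)) := by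
  haveI : Fact (Nat.Prime 2) := ⟨Nat.prime_two⟩
  by_contra hno
  push Not at hno
  obtain ⟨hAS, hSA, hCA⟩ := hA
  have hAc : IsMulCommutative A := by
    apply isMulCommutative_of_forall
    intro a ha b hb
    have : b ∈ (S : Subgroup G) ⊓ centralizer (A : Set G) := hCA.symm ▸ hb
    exact mem_centralizer_iff.1 (mem_inf.1 this).2 a ha
  set E := omegaOne 2 A with hEdef
  have hE : IsElementaryAbelian 2 E := pg_isElementaryAbelian_omegaOne_of_comm hAc
  have h8 : 2 ^ 3 ≤ Nat.card E := by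
    obtain ⟨F, hFA, hF, hF8⟩ := not_pRankLE_subgroup_iff.1 hA3
    refine hF8.trans (card_le_of_le ?_)
    intro x hx
    exact pg_mem_omegaOne (hFA hx) (hF.2 x hx)
  have hES : E ≤ S := pg_omegaOne_le.trans hAS
  have hSE : (S : Subgroup G) ≤ normalizer (E : Set G) := pg_le_normalizer_omegaOne hSA
  have hEne : E ≠ ⊥ := ne_bot_of_pow_le_card (p := 2) (n := 2) h8
  obtain ⟨z, hzE, hz2, hzS⟩ := pg_exists_fixed_of_order_p (elemAb_isPGroup hE) S.isPGroup' hSE hEne
  obtain ⟨hz1, hzz⟩ := h9_orderOf_eq_two_iff.1 hz2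
  have hzS' : (S : Subgroup G) ≤ centralizer ({z} : Set G) := by
    intro s hs
    exact pg_mem_centralizer_singleton.2 (mem_centralizer_iff.1 hzS s hs).symm
  have hcon' : ∀ t : G, t ≠ 1 → t * t = 1 → IsPConstrained 2 (centralizer ({t} : Set G)) := by
    intro t h1 ht
    rw [← pg_normalizer_zpowers_invol ht]
    exact hcon _ (pg_isPGroup_zpowers_invol ht) (by simpa using h1)
  have hθE := pgTheta_eq_bot_of_rank_three hE h8 hSE hzE hz1 hzS' hinv hcon'
  have hθ : ∀ t : G, t ≠ 1 → t * t = 1 → pgTheta t = ⊥ := by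
    intro t h1 ht
    obtain ⟨k, -, hk⟩ := (IsSylowIn.of_sylow_top S).exists_conj_le (pg_isPGroup_zpowers_invol ht) le_top
    have h2 : k * t * k⁻¹ ∈ (S : Subgroup G) := hk (h9_conj_mem_conj k (mem_zpowers t))
    have h3 : k * t * k⁻¹ * (k * t * k⁻¹) = 1 := by
      calc k * t * k⁻¹ * (k * t * k⁻¹) = k * (t * t) * k⁻¹ := by group
        _ = 1 := by rw [ht]; simp
    have h4 := pgTheta_eq_bot_of_normalizes hE h8 hθE hcon' h3 (hSE h2)
    rw [← pgTheta_map_conj, map_eq_bot_iff_of_injective _ (MulAut.conj k).injective] at h4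
    exact h4
  have hall : ∀ M : Subgroup G, IsMaximalTwoLocal M → ∃ u : G, u ≠ 1 ∧ u * u = 1 ∧
      M = centralizer ({u} : Set G) ∧ ∀ T, IsSylowIn 2 T M → IsSylowIn 2 T ⊤ ∧
        ∀ w ∈ T, w ≠ 1 → w * w = 1 → T ≤ centralizer ({w} : Set G) → w = u := by
    intro M hM
    refine pg_maxTwoLocal_of_cyclic_center hM ?_ (hno M hM)
    obtain ⟨T, hT, hne, rfl⟩ := hM.1
    exact centralizer_pCore_le_of_isPConstrained (hcon T hT hne)
      (pg_pPrimeCore_normalizer_eq_bot hθ hcon' hT hne)
  obtain ⟨M, hM, hzM⟩ := pg_exists_maximalTwoLocal_ge (pg_isTwoLocal_centralizer hz1 hzz)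
  obtain ⟨u, hu1, huu, hMu, hu⟩ := hall M hM
  have hSM : IsSylowIn 2 (S : Subgroup G) M := IsSylowIn.of_sylow_le S (hzS'.trans hzM)
  have hzu : z = u := (hu _ hSM).2 z (hES hzE) hz1 hzz hzS'
  subst hzu
  obtain ⟨t, htE, htz⟩ := exists_mem_not_mem_of_card_lt (A := E) (B := zpowers z)
    (by rw [Nat.card_zpowers, hz2]; omega)
  have ht1 : t ≠ 1 := fun h => htz (h ▸ one_mem _)
  have htz' : t ≠ z := fun h => htz (h ▸ mem_zpowers _)
  have htop := pg_eq_top_of_invol_centralizers hz1 hzz ?_ ?_ (hzS' (hES htE)) ht1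
    (by rw [← pow_two]; exact hE.2 t htE) htz'
  · have hzc : z ∈ center G := by
      rw [Subgroup.mem_center_iff]
      intro g
      exact (pg_mem_centralizer_singleton.1 (htop ▸ mem_top g)).symm
    rcases (inferInstance : (center G).Normal).eq_bot_or_eq_top with h | h
    · rw [h, mem_bot] at hzc
      exact hz1 hzc
    · apply hG
      refine ⟨⟨fun a b => ?_⟩⟩
      exact (Subgroup.mem_center_iff.1 (h ▸ mem_top b) a)
  · intro v hv hv1 hvv
    obtain ⟨L, hL, hvL⟩ := pg_exists_maximalTwoLocal_ge (pg_isTwoLocal_centralizer hv1 hvv)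
    have : M = L := by
      refine pg_maxTwoLocal_eq_of_invol hall hM hL (pg_isPGroup_zpowers_invol hvv)
        (by simpa using hv1) ?_ ?_
      · rw [zpowers_le, hMu]; exact hv
      · rw [zpowers_le]; exact hvL (pg_mem_centralizer_singleton.2 rfl)
    rw [← hMu, this]; exact hvL
  · intro v hv hv1 hvv hc
    refine (hu _ hSM).2 v ?_ hv1 hvv (hzS'.trans hc)
    have : zpowers v ≤ (S : Subgroup G) := by
      refine hSM.le_of_le_normalizer (pg_isPGroup_zpowers_invol hvv) ?_ ?_
      · rw [zpowers_le, hMu]; exact hv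
      · rw [zpowers_le]
        apply centralizer_le_normalizer
        rw [mem_centralizer_iff]
        intro s hs
        exact (pg_mem_centralizer_singleton.1 (hc (hzS' hs))).symm
    exact this (mem_zpowers v)

end Cfsg.Agent.S3244
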