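import Cfsg.Statements.S3245
import Cfsg.Agent.Lib.Big.Bender
import Cfsg.Agent.Lib.PGroup.CharTwo

set_option autoImplicit false
open Cfsg

namespace Cfsg.Agent.S3245

open Subgroup Cfsg.Lib Cfsg.Lib.FT

theorem key {G : Type*} [Group G] [Finite G] (h1 : ∀ M M' : Subgroup G, IsMaximalTwoLocal M →
    IsMaximalTwoLocal M' → ∃ g : G, M' = g •ᶜ M) (P : Subgroup G) : IsPGroup 2 P → P ≠ ⊥ →
    ∀ M, IsMaximalTwoLocal M → ∀ g : G, P ≤ M → P ≤ g •ᶜ M → g ∈ M := by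
  induction P using WellFoundedGT.induction with | _ P ih => ?_
  intro hP hne M hM g h2 h3
  obtain ⟨N, hN, h4⟩ := pg_exists_maximalTwoLocal_ge ⟨P, hP, hne, rfl⟩
  have sub : ∀ a : G, P ≤ a •ᶜ N → a ∈ N := fun a ha => by
    obtain ⟨S, hS, h5⟩ := exists_isSylowIn_ge hP ha
    rcases h5.eq_or_lt with rfl | h5
    · obtain ⟨T, hT, h6⟩ := exists_isSylowIn_ge hP (le_normalizer.trans h4)
      obtain rfl := eq_of_le_of_card_ge h6 (by
        rw [← (hT.map_conj a).card_eq_card hS, card_map_of_injective (MulAut.conj a).injective])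
      obtain ⟨_, ⟨k, hk, rfl⟩, e⟩ := (hT.map_conj a).exists_conj hS
      rw [← map_conj_mul] at e
      simpa using mul_mem (h4 (mem_normalizer_of_map_conj_eq e)) (inv_mem hk)
    · have h6 := pg_lt_inf_normalizer hS.isPGroup h5
      exact ih _ h6 hS.isPGroup.to_inf_left (ne_bot_of_gt h6) N hN a (inf_le_right.trans h4)
        (inf_le_left.trans hS.le)
  obtain ⟨a, rfl⟩ := h1 N M hN hM
  rw [conj_eq_of_mem (sub a h2)] at h3 ⊢
  exact sub g h3

/-- A finite non-abelian simple group in which all maximal 2-local subgroups are conjugate is isomorphic to L₂(2ⁿ), Sz(2ⁿ) or U₃(2ⁿ) for some n ≥ 2. -/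
theorem result {G : Type*} [Group G] [Finite G] [IsSimpleGroup G] (hG : ¬ IsMulCommutative G)
    (h1 : ∀ M M' : Subgroup G, Cfsg.IsMaximalTwoLocal M → Cfsg.IsMaximalTwoLocal M' → ∃ g : G, M' = M.map (MulAut.conj g).toMonoidHom) :
    (∃ (F : Type) (_ : Field F) (_ : Fintype F) (n : ℕ), 2 ≤ n ∧ Fintype.card F = 2 ^ n ∧
        Nonempty (G ≃* Matrix.ProjectiveSpecialLinearGroup (Fin 2) F)) ∨
      Cfsg.Lie.IsoSuzuki G ∨
      (∃ (F : Type) (_ : Field F) (_ : Fintype F) (n : ℕ), 2 ≤ n ∧ Fintype.card F = (2 ^ n) ^ 2 ∧ Nonempty (G ≃* Cfsg.PSU 3 F (2 ^ n))) := by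
  have he : Even (Nat.card G) := by
    by_contra ho
    have := odd_order_solvable (Nat.not_even_iff_odd.1 ho)
    exact hG ⟨⟨IsSimpleGroup.comm_iff_isSolvable.2 this⟩⟩
  obtain ⟨S, hS, -⟩ := exists_isSylowIn_ge (q := 2) (U := (⊥ : Subgroup G)) IsPGroup.of_bot le_top
  have h2 := hS.ne_bot (card_top (G := G) ▸ even_iff_two_dvd.1 he)
  obtain ⟨M, hM, h3⟩ := pg_exists_maximalTwoLocal_ge ⟨S, hS.isPGroup, h2, rfl⟩
  have := Big.bender_suzuki hG (M := M) ⟨fun e => ?_, ?_, fun g hg => ?_⟩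
  · rcases this with ⟨n, hn, F, _, _, e⟩ | ⟨m, hm, F, _, _, e⟩ | ⟨n, hn, F, _, _, e⟩
    · exact Or.inl ⟨F, _, _, n, hn, e⟩
    · exact Or.inr (Or.inl ⟨F, _, _, m, hm, e⟩)
    · exact Or.inr (Or.inr ⟨F, _, _, n, hn, e⟩)
  · obtain ⟨T, hT, h4, h5⟩ := hM.1
    have h6 := (normalizer_eq_top_iff.1 (h5.symm.trans e)).eq_bot_or_eq_top.resolve_left h4
    subst h6
    have := isSolvable_of_isPGroup hT
    exact hG ⟨⟨IsSimpleGroup.comm_iff_isSolvable.2 (solvable_of_surjective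
      (f := (⊤ : Subgroup G).subtype) fun x => ⟨⟨x, mem_top x⟩, rfl⟩)⟩⟩
  · exact even_iff_two_dvd.2 ((hS.dvd_card (card_top (G := G) ▸ even_iff_two_dvd.1 he)).trans
      (card_dvd_of_le (le_normalizer.trans h3)))
  · by_contra ho
    obtain ⟨P, hP, -⟩ := exists_isSylowIn_ge (q := 2) (K := M ⊓ g •ᶜ M) IsPGroup.of_bot bot_le
    exact hg (key h1 P hP.isPGroup (hP.ne_bot (even_iff_two_dvd.1 (Nat.not_odd_iff_even.1 ho))) M hM g
      (hP.le.trans inf_le_left) (hP.le.trans inf_le_right))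

end Cfsg.Agent.S3245
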