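import Cfsg.Statements.S3246
import Mathlib
import Cfsg.Agent.Lib.Core.Cover
import Cfsg.Agent.Lib.PGroup.Small
import Cfsg.Agent.Lib.PGroup.Omega

set_option autoImplicit false
open Cfsg

namespace Cfsg.Agent.S3246
open Cfsg.Lib

open Subgroup
open scoped commutatorElement

theorem comm_le {G : Type*} [Group G] [Finite G] {Q C A : Subgroup G}
    (hQ : A ≤ normalizer (Q : Set G)) (hC : A ≤ normalizer (C : Set G)) (hi : C.relIndex Q ≤ 2) :
    ⁅Q, A⁆ ≤ C := by
  have h0 : C.relIndex Q ≠ 0 := index_ne_zero_of_finite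
  rcases (by omega : C.relIndex Q = 1 ∨ C.relIndex Q = 2) with h | h
  · exact (le_normalizer_iff_commutator_le_left.mp hQ).trans (relIndex_eq_one.mp h)
  · rw [Subgroup.commutator_le]
    intro q hq a ha
    have h1 : a * q⁻¹ * a⁻¹ ∈ Q := conj_mem_of_le_normalizer hQ ha (inv_mem hq)
    have h2 := (mul_mem_iff_of_index_two h (a := (⟨q, hq⟩ : Q)) (b := ⟨_, h1⟩)).mpr (by
      simp only [mem_subgroupOf]
      rw [← (mem_normalizer_iff.mp (hC ha) q⁻¹), inv_mem_iff])
    simpa [mem_subgroupOf, commutatorElement_def, mul_assoc] using h2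


/-- Let G be a finite group whose Sylow 2-subgroup S has a self-centralizing normal subgroup of rank at least 3. Suppose that either every maximal 2-local subgroup of G is 2-constrained with no nontrivial normal subgroup of odd order, or the centralizer of every involution of G is 2-constrained with no nontrivial normal subgroup of odd order. Then S normalizes no nontrivial subgroup of G of odd order and every 2-local subgroup of G is 2-constrained. -/
theorem result {G : Type*} [Group G] [Finite G]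
    (S : Sylow 2 G) (A : Subgroup G) (hA : Cfsg.IsSCN (S : Subgroup G) A) (hA3 : ¬ Cfsg.PRankLE 2 2 ↥A)
    (h : (∀ M : Subgroup G, Cfsg.IsMaximalTwoLocal M → Cfsg.IsPConstrained 2 ↥M ∧ Cfsg.oddCore ↥M = ⊥) ∨
      (∀ t : G, orderOf t = 2 → Cfsg.IsPConstrained 2 ↥(Subgroup.centralizer ({t} : Set G)) ∧
        Cfsg.oddCore ↥(Subgroup.centralizer ({t} : Set G)) = ⊥)) :
    (∀ X : Subgroup G, Odd (Nat.card ↥X) → (S : Subgroup G) ≤ Subgroup.normalizer (X : Set G) → X = ⊥) ∧
      (∀ T : Subgroup G, IsPGroup 2 ↥T → T ≠ ⊥ → Cfsg.IsPConstrained 2 ↥(Subgroup.normalizer (T : Set G))) := by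
  have hS := S.isPGroup'
  have hb : ∀ t : G, orderOf t = 2 → generalizedFittingSubgroup (centralizer ({t} : Set G)) =
      pCore 2 (centralizer ({t} : Set G)) := by
    intro t ht
    rcases h with h | h
    · have hne : zpowers t ≠ ⊥ := by
        rw [Ne, zpowers_eq_bot]
        rintro rfl
        simp at ht
      obtain ⟨M, hle, hM⟩ := exists_maximal_ge_of_wellFoundedGT (fun M : Subgroup G => IsTwoLocal M)
        (normalizer (zpowers t : Set G)) ⟨_, isPGroup_zpowers_of_orderOf ht, hne, rfl⟩
      have := h M ⟨hM.prop, fun N h1 h3 => le_antisymm (hM.le_of_ge h1 h3) h3⟩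
      rw [centralizer_singleton_eq_zpowers]
      exact fstar_eq_pCore_centralizer_of_le (isPGroup_zpowers_of_orderOf ht)
        (le_normalizer.trans hle) ((centralizer_le_normalizer _).trans hle)
        (fstar_eq_pCore_iff_pLayer.mpr ⟨isPConstrained_iff_pLayer_eq_bot.mp this.1, this.2⟩)
    · exact fstar_eq_pCore_iff_pLayer.mpr ⟨isPConstrained_iff_pLayer_eq_bot.mp (h t ht).1, (h t ht).2⟩
  refine ⟨fun X hX hSX => ?_, fun T hT hT1 => ?_⟩
  swap
  · obtain ⟨t, ht, ho, hc⟩ := exists_orderOf_eq_mem_inf_centralizer hT hT1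
    exact isPConstrained_iff_pLayer_eq_bot.mpr (fstar_eq_pCore_iff_pLayer.mp
      (fstar_eq_pCore_normalizer_of_le hT hc (centralizer_le_singleton ht) (hb t ho))).1
  have hX2 : ¬ 2 ∣ Nat.card X := by
    rw [← even_iff_two_dvd, Nat.not_even_iff_odd]; exact hX
  have hAc : IsMulCommutative A :=
    isMulCommutative_of_forall fun a ha b hb => (hA.2.2.ge hb).2 a ha
  have hE := pg_isElementaryAbelian_omegaOne_of_comm (p := 2) hAc
  have hEc : 2 ^ 2 ≤ Nat.card (omegaOne 2 A) := by
    by_contra hlt
    apply hA3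
    intro B _ hB
    refine le_trans ?_ (not_le.mp hlt).le
    rw [← card_map_subtype]
    refine card_le_of_le ?_
    rintro _ ⟨b, hb, rfl⟩
    exact pg_mem_omegaOne b.2 (congrArg Subtype.val (hB b hb))
  obtain ⟨U, -, hUE, hUc, -, hSU⟩ := pg_exists_invariant_card_eq (K := ⊥) (elemAb_isPGroup hE) hS
    (pg_le_normalizer_omegaOne hA.2.1) bot_le le_normalizer_of_normal le_normalizer_of_normal 2
    (by simpa using hEc)
  rw [card_bot, mul_one] at hUc
  have hUS : U ≤ S := hUE.trans (pg_omegaOne_le.trans hA.1)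
  have hU := elemAb_mono hE hUE
  have hi : (centralizer (U : Set G)).relIndex S ≤ 2 := by
    have := normal_subgroupOf_of_le_normalizer hSU
    have := pg_index_centralizer_le_of_card_eq_sq hS (E := U.subgroupOf S)
      (by rw [card_subgroupOf_of_le hUS, hUc])
    rwa [centralizer_subgroupOf hUS] at this
  refine le_bot_iff.mp ((CoprimeAct.of_isPGroup (elemAb_isPGroup hU) hX2 (hUS.trans hSX)).le_of_elemAb
    hU hUc.ge fun u hu hu1 => ?_)
  set C := centralizer ({u} : Set G) with hC
  set Y := X ⊓ C with hY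
  set Q := (pCore 2 C).map C.subtype with hQ
  set T := (S : Subgroup G) ⊓ centralizer (U : Set G) with hT
  have hQp : IsPGroup 2 Q := isPGroup_pCoreOf C
  have hYQ : Y ≤ normalizer (Q : Set G) := inf_le_right.trans (le_normalizer_pCoreOf C)
  have hTC : T ≤ C := inf_le_right.trans (centralizer_le_singleton hu)
  obtain ⟨R, hR, hTR⟩ := exists_isSylowIn_ge (hS.to_le inf_le_left : IsPGroup 2 T) hTC
  have hQR : Q ≤ R := hR.le_of_normalizes hQp (map_subtype_le _) (hR.le.trans (le_normalizer_pCoreOf C))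
  have h1 : T.relIndex R ≤ 2 := by
    have e1 := relIndex_mul_card hTR
    have e2 := relIndex_mul_card (H := T) (inf_le_left : T ≤ S)
    rw [show T.relIndex S = (centralizer (U : Set G)).relIndex S from inf_relIndex_left _ _] at e2
    have e3 : Nat.card R ≤ Nat.card S :=
      Nat.le_of_dvd Nat.card_pos ((IsSylowIn.of_sylow_top S).card_dvd hR.isPGroup le_top)
    have e4 : T.relIndex R * Nat.card T ≤ 2 * Nat.card T := by
      rw [e1]; refine e3.trans ?_; rw [← e2]; exact Nat.mul_le_mul_right _ hi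
    exact Nat.le_of_mul_le_mul_right e4 Nat.card_pos
  have hY2 : ¬ 2 ∣ Nat.card Y := fun h => hX2 (h.trans (card_dvd_of_le inf_le_left))
  have h2 : ⁅Q ⊓ T, Y⁆ = ⊥ := by
    rw [eq_bot_iff, ← inf_eq_bot_of_isPGroup_of_coprime hQp (Q := X)
      ((Nat.prime_two.coprime_iff_not_dvd.mpr hX2).symm)]
    refine le_inf ((commutator_mono inf_le_left le_rfl).trans
      (le_normalizer_iff_commutator_le_left.mp hYQ))
      ((commutator_mono (inf_le_right.trans inf_le_left) inf_le_left).trans
      (le_normalizer_iff_commutator_le_right.mp hSX))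
  have h3 : ⁅Q, Y⁆ ≤ Q ⊓ T := by
    refine comm_le hYQ (le_normalizer_of_commutator_eq_bot' h2) ?_
    rw [inf_relIndex_left]
    exact (relIndex_le_of_le_right hQR index_ne_zero_of_finite).trans h1
  have h4 := (CoprimeAct.of_isPGroup_right hQp hY2 hYQ).le_centralizer_of_commutator_le_centralizer
    (h3.trans (le_centralizer_of_commutator_eq_bot h2))
  have h5 := (fstar_eq_pCore_iff_centralizer_le 2).mp (hb u (elemAb_orderOf hU hu hu1))
  have h6 : Y ≤ Q := by
    refine le_trans (le_inf inf_le_right (le_centralizer_iff.mp h4)) ?_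
    rw [← map_subtype_centralizer]
    exact map_mono h5
  rw [← inf_eq_bot_of_isPGroup_of_coprime hQp (Q := X)
      ((Nat.prime_two.coprime_iff_not_dvd.mpr hX2).symm)]
  exact le_inf h6 inf_le_left

end Cfsg.Agent.S3246
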