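import Cfsg.Statements.S3260
import Mathlib
import Cfsg.Agent.Lib.Flav.ZJ
import Cfsg.Agent.Lib.Golay.ProjPerm

set_option autoImplicit false
open Cfsg

namespace Cfsg.Agent.S3260

/-- Let p ≥ 5 be a prime, G a finite p-constrained group with Sylow p-subgroup S, and A a group of automorphisms of G of order coprime to |G| whose fixed-point subgroup has no section isomorphic to PSL₂(p). Then G = O_{p'}(G) · N_G(Z(J(S))), where J(S) is the subgroup generated by the abelian subgroups of S of largest order. -/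
theorem result {G : Type*} [Group G] [Finite G] (p : ℕ) [hp : Fact p.Prime] (hp5 : 5 ≤ p)
    (hG : Cfsg.IsPConstrained p G) (S : Sylow p G) (A : Subgroup (MulAut G)) (hA : (Nat.card ↥A).Coprime (Nat.card G))
    (C : Subgroup G) (hC : ∀ g : G, g ∈ C ↔ ∀ a ∈ A, a g = g)
    {F : Type*} [Field F] [Fintype F] (hF : Fintype.card F = p)
    (hfix : ¬ Cfsg.Involves (Matrix.ProjectiveSpecialLinearGroup (Fin 2) F) ↥C) :
    Cfsg.pPrimeCore p G ⊔ Subgroup.normalizer (Cfsg.centerThompsonAOf (S : Subgroup G) : Set G) = ⊤ := by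
  rw [Lib.pg_centerThompsonAOf_eq]
  refine Lib.Flav.zj_equivariant hp5 hG S A hA C hC fun ⟨K, θ, hθ⟩ => hfix ?_
  obtain ⟨e⟩ := Lib.PC.nonempty_psl_congr_of_card (ι := Fin 2) ((ZMod.card p).trans hF.symm)
  exact Lib.PgHasSection.exists_quotient ⟨K, e.toMonoidHom.comp θ, e.surjective.comp hθ⟩

end Cfsg.Agent.S3260
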