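import Cfsg.Statements.S3261
import Mathlib
import Cfsg.Agent.Lib.BSW.D8

set_option autoImplicit false
open Cfsg

namespace Cfsg.Agent.S3261

/-- Let α̃ be an involution of the alternating group A₆ that is a product of two disjoint transpositions (it lies in the centre of a Sylow 2-subgroup of A₆; its centralizer is dihedral of order 8). Let G be a finite group that has no subgroup of index 2 and contains an involution α, central in some Sylow 2-subgroup of G, with C_G(α) ≅ C_{A₆}(α̃). Then G is isomorphic to A₆ or to PSL₂(7). -/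
theorem result {G : Type*} [Group G] [Finite G]
    (hG : ∀ H : Subgroup G, H.index ≠ 2)
    (αt : ↥(alternatingGroup (Fin 6))) (hαt : orderOf αt = 2) (hsupp : (αt : Equiv.Perm (Fin 6)).support.card = 4)
    (α : G) (hα : orderOf α = 2) (S : Sylow 2 G) (hαS : α ∈ (S : Subgroup G)) (hαc : ∀ s ∈ (S : Subgroup G), s * α = α * s)
    (e : ↥(Subgroup.centralizer ({α} : Set G)) ≃* ↥(Subgroup.centralizer ({αt} : Set ↥(alternatingGroup (Fin 6))))) :
    Nonempty (G ≃* ↥(alternatingGroup (Fin 6))) ∨
      (∃ (F : Type) (_ : Field F) (_ : Fintype F), Fintype.card F = 7 ∧ Nonempty (G ≃* Matrix.ProjectiveSpecialLinearGroup (Fin 2) F)) := by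
  have hle : (S : Subgroup G) ≤ Subgroup.centralizer ({α} : Set G) := fun s hs =>
    Subgroup.mem_centralizer_singleton_iff.2 (hαc s hs)
  have hodd : Odd (Subgroup.centralizer ({α} : Set G)).index := by
    have h1 : ¬ 2 ∣ (S : Subgroup G).index := S.not_dvd_index
    rw [← Nat.not_even_iff_odd, even_iff_two_dvd]
    exact fun h => h1 (h.trans (Subgroup.index_dvd_of_le hle))
  refine (Cfsg.Lib.BSW.a6_or_psl27 hG hα ((Cfsg.Lib.BSW.isD8_of_a6 αt hαt hsupp).of_equiv e)
    hodd).imp_right (fun h => ?_)
  have : Fact (Nat.Prime 7) := ⟨by norm_num⟩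
  exact ⟨ZMod 7, inferInstance, inferInstance, ZMod.card 7, h.2 _ (ZMod.card 7)⟩

end Cfsg.Agent.S3261
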