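import Cfsg.Statements.S3265
import Cfsg.Agent.Lib.Misc.OddGraph

set_option autoImplicit false
open Cfsg

namespace Cfsg.Agent.S3265

open Finset Cfsg.Lib

section

variable {Ω : Type*} [DecidableEq Ω]

/-- `x` is an involution of `S` -/
def Inv (S : Finset Ω) (x : Ω → Ω) : Prop := ∀ t ∈ S, x t ∈ S ∧ x (x t) = t

/-- `-1` is not an eigenvalue of `x z` on `S` -/
def Od (S : Finset Ω) (x z : Ω → Ω) : Prop :=
  ∀ f : Ω → ℤ, (∀ t ∈ S, f (x t) + f (z t) = 0) → ∀ t ∈ S, f t = 0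

theorem od_self {S : Finset Ω} {x y : Ω → Ω} (hx : Inv S x) (h : ∀ t ∈ S, y t = x t) : Od S y x :=
  fun f hf t ht => by
    have := hf _ (hx t ht).1
    rw [h _ (hx t ht).1, (hx t ht).2] at this
    omega

theorem phi {S S' : Finset Ω} {x : Ω → Ω} (hx : Inv S x) {u v : Ω} (hu : u ∈ S) (hv : v ∈ S) (xv : x v = v)
    (xu : x u ≠ u) (hS : ∀ t, t ∈ S' ↔ t ∈ S ∧ t ≠ u ∧ t ≠ v) : ∃ x', Inv S' x' ∧
      #{t ∈ S' | x' t = t} = #{t ∈ S | x t = t} ∧
      ∀ z z' : Ω → Ω, z u = v → z v = u → (∀ t ∈ S', z t = z' t) → Od S' x' z' → Od S x z := by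
  have hu' := hx u hu
  have pS : x u ∈ S' := by grind
  refine ⟨fun t => if t = x u then t else x t, fun t ht => ?_, ?_, fun z z' zu zv zz h f hf t ht => ?_⟩
  · have := hx t ((hS t).1 ht).1
    grind
  · rw [show {t ∈ S' | (if t = x u then t else x t) = t} = insert (x u) ({t ∈ S | x t = t}.erase v) by
      ext t; grind, card_insert_of_notMem (by grind), card_erase_add_one (by grind)]
  · have h1 := hf u hu
    have h2 := hf v hv
    have h3 := hf _ hu'.1
    have := h f fun t ht => by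
      have := hf t ((hS t).1 ht).1
      grind
    grind

theorem beta {S S' : Finset Ω} {x : Ω → Ω} (hx : Inv S x) (fx : ∀ t ∈ S, x t ≠ t) {a b c d : Ω} (ha : a ∈ S)
    (hb : b ∈ S) (hd : d ∈ S) (ad : a ≠ d) (e : x b = c) (pS : x a ∈ S') (qS : x d ∈ S')
    (hS : ∀ t, t ∈ S' ↔ t ∈ S ∧ t ≠ a ∧ t ≠ b ∧ t ≠ c ∧ t ≠ d) : ∃ x', Inv S' x' ∧ (∀ t ∈ S', x' t ≠ t) ∧
      x' (x a) = x d ∧ x' (x d) = x a ∧ (∀ t, t ≠ x a → t ≠ x d → x' t = x t) ∧
      ∀ z z' : Ω → Ω, z a = b → z b = a → z c = d → z d = c → (∀ t ∈ S', z t = z' t) → Od S' x' z' →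
        Od S x z := by
  have ha' := hx a ha
  have hb' := hx b hb
  have hd' := hx d hd
  refine ⟨fun t => if t = x a then x d else if t = x d then x a else x t, fun t ht => ?_, fun t ht => ?_,
    by simp, by grind, by grind, fun z z' za zb zc zd zz h f hf t ht => ?_⟩
  · have := hx t ((hS t).1 ht).1
    grind
  · have := fx t ((hS t).1 ht).1
    grind
  · have h1 := hf a ha
    have h2 := hf b hb
    have h3 := hf _ hb'.1
    have h4 := hf d hd
    have h5 := hf _ ha'.1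
    have h6 := hf _ hd'.1
    have := h f fun t ht => by
      have := hf t ((hS t).1 ht).1
      grind
    grind

theorem P1 (n : ℕ) : ∀ (S : Finset Ω) (x y : Ω → Ω), #S ≤ n → Inv S x → Inv S y →
    #{t ∈ S | x t = t} = #{t ∈ S | y t = t} → 0 < #{t ∈ S | x t = t} → ∃ z, Inv S z ∧ Od S x z ∧ Od S y z := by
  induction n with
  | zero => intro S x y h _ _ _ h'; have := card_filter_le S fun t => x t = t; omega
  | succ n ih =>
    intro S x y hn hx hy hc h0
    by_cases h : ∀ t ∈ S, y t = x t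
    · exact ⟨x, hx, od_self hx fun _ _ => rfl, od_self hx h⟩
    obtain ⟨u, hu, v, hv, xv, xu, h⟩ : ∃ u ∈ S, ∃ v ∈ S, x v = v ∧ x u ≠ u ∧
        (y v = v ∧ y u ≠ u ∨ y u = u ∧ y v ≠ v) := by
      by_cases h1 : {t ∈ S | x t = t} = {t ∈ S | y t = t}
      · obtain ⟨v, hv⟩ := card_pos.1 h0
        push Not at h
        obtain ⟨u, hu, h⟩ := h
        have := Finset.ext_iff.1 h1 u
        have := Finset.ext_iff.1 h1 v
        exact ⟨u, hu, v, by grind, by grind, by grind, by grind⟩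
      · obtain ⟨v, hv, hv'⟩ := not_subset.1 (mt (eq_of_subset_of_card_le · hc.ge) h1)
        obtain ⟨u, hu, hu'⟩ := not_subset.1 (mt (eq_of_subset_of_card_le · hc.le) (Ne.symm h1))
        exact ⟨u, by grind, v, by grind, by grind, by grind, by grind⟩
    have hS : ∀ t, t ∈ (S.erase u).erase v ↔ t ∈ S ∧ t ≠ u ∧ t ≠ v := by grind
    obtain ⟨x', x1, x2, x3⟩ := phi hx hu hv xv xu hS
    obtain ⟨y', y1, y2, y3⟩ : ∃ y', Inv ((S.erase u).erase v) y' ∧
        #{t ∈ (S.erase u).erase v | y' t = t} = #{t ∈ S | y t = t} ∧ ∀ z z' : Ω → Ω, z u = v → z v = u →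
          (∀ t ∈ (S.erase u).erase v, z t = z' t) → Od ((S.erase u).erase v) y' z' → Od S y z := by
      rcases h with h | h
      · exact phi hy hu hv h.1 h.2 hS
      · obtain ⟨y', y1, y2, y3⟩ := phi hy hv hu h.1 h.2 fun t => (hS t).trans (by tauto)
        exact ⟨y', y1, y2, fun z z' a b => y3 z z' b a⟩
    obtain ⟨z', z1, z2, z3⟩ := ih _ x' y' (by
      have := card_erase_le (s := S.erase u) (a := v)
      have := card_erase_add_one hu
      omega) x1 y1 (by omega) (by omega)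
    refine ⟨fun t => if t = u then v else if t = v then u else z' t, fun t ht => ?_,
      x3 _ z' (by simp) (by grind) (by grind) z2, y3 _ z' (by simp) (by grind) (by grind) z3⟩
    have := z1 t
    grind

omit [DecidableEq Ω] in
theorem pick {S : Finset Ω} {x y : Ω → Ω} (hx : Inv S x) (hy : Inv S y) (fx : ∀ t ∈ S, x t ≠ t)
    (fy : ∀ t ∈ S, y t ≠ t) (h0 : 4 < #S ∨ ∃ t ∈ S, x t = y t) {p : Ω} (m1 : p ∈ S) (h : y p ≠ x p) :
    ∃ a ∈ S, ∃ b ∈ S, ∃ d ∈ S, ∃ a' b' d', (a ≠ b ∧ a ≠ x b ∧ a ≠ d ∧ b ≠ d ∧ x b ≠ d) ∧ x a ≠ d ∧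
      (a' = a ∧ b' = b ∨ a' = b ∧ b' = a) ∧ (d' = d ∧ y b' = x b ∨ d' = x b ∧ y b' = d) ∧ y a' ≠ d' ∧
      (x a = y a' ∧ x d = y d' ∨ x a = y d' ∧ x d = y a' ∨ y (x a) = x d ∧ x a ≠ y a' ∧ x a ≠ y d' ∨
        x (y a') = y d' ∧ y a' ≠ x a ∧ y a' ≠ x d) := by
  classical
  obtain ⟨m2, e2⟩ := hx p m1
  obtain ⟨m3, e3⟩ := hy _ m2
  obtain ⟨m4, e4⟩ := hx _ m3
  obtain ⟨m5, e5⟩ := hy _ m4
  obtain ⟨m6, e6⟩ := hx _ m5
  obtain ⟨m7, e7⟩ := hy _ m6
  obtain ⟨m0, e0⟩ := hy _ m1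
  have f1 := fx _ m1
  have f2 := fx _ m3
  have f3 := fx _ m5
  have f4 := fy _ m1
  have f5 := fy _ m2
  have f6 := fy _ m4
  have f7 := fy _ m6
  by_cases c4 : y (x (y (x p))) = p
  · obtain ⟨a, ha, h1⟩ : ∃ a ∈ S, a ≠ p ∧ a ≠ x p ∧ a ≠ y (x p) ∧ a ≠ x (y (x p)) := by
      rcases h0 with h0 | ⟨t, ht, h0⟩
      · simpa using exists_mem_notMem_of_card_lt_card
          ((card_le_four (a := p) (b := x p) (c := y (x p)) (d := x (y (x p)))).trans_lt h0)
      · exact ⟨t, ht, by clear hx hy fx fy; grind⟩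
    have := (hx a ha).2
    obtain ⟨ma, ea⟩ := hy a ha
    have := fx a ha
    have := fy a ha
    have := (hx _ ma).2
    clear hx hy fx fy h0
    by_cases h2 : x a = y a
    · exact ⟨p, m1, a, ha, _, m3, p, a, y (x p), by grind, by grind, by grind, by grind, by grind, by grind⟩
    · exact ⟨a, ha, p, m1, _, ma, p, a, x p, by grind, by grind, by grind, by grind, by grind, by grind⟩
  clear hx hy fx fy h0
  by_cases c6 : y (x (y (x (y (x p))))) = p
  · exact ⟨_, m5, _, m2, _, m3, y (x (y (x p))), x p, p, by grind, by grind, by grind, by grind, by grind,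
      by grind⟩
  · exact ⟨_, m6, _, m2, _, m3, x (y (x (y (x p)))), x p, p, by grind, by grind, by grind, by grind, by grind,
      by grind⟩

theorem P2 (n : ℕ) : ∀ (S : Finset Ω) (x y : Ω → Ω), #S ≤ n → Inv S x → Inv S y → (∀ t ∈ S, x t ≠ t) →
    (∀ t ∈ S, y t ≠ t) → (4 < #S ∨ ∃ t ∈ S, x t = y t) → ∃ z, Inv S z ∧ Od S x z ∧ Od S y z := by
  induction n with
  | zero => intro S x y h _ _ _ _ h'; obtain rfl := card_eq_zero.1 (Nat.le_zero.1 h); simp at h'
  | succ n ih =>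
    intro S x y hn hx hy fx fy h0
    by_cases h : ∀ t ∈ S, y t = x t
    · exact ⟨x, hx, od_self hx fun _ _ => rfl, od_self hx h⟩
    push Not at h
    obtain ⟨p, m1, h⟩ := h
    obtain ⟨a, ha, b, hb, d, hd, a', b', d', h1, h2, h4, h5, h6, h8⟩ := pick hx hy fx fy h0 m1 h
    obtain ⟨S', hS, cS⟩ : ∃ S' : Finset Ω, (∀ t, t ∈ S' ↔ t ∈ S ∧ t ≠ a ∧ t ≠ b ∧ t ≠ x b ∧ t ≠ d) ∧
        #S' ≤ n := ⟨S \ {a, b, x b, d}, by simp, by
      have : #(S \ {a, b, x b, d}) < #S := card_lt_card ⟨sdiff_subset, fun h => by simpa using h ha⟩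
      omega⟩
    replace ih := ih S'
    revert ih
    clear h0 h m1 hn
    have hc := hx b hb
    have fb := fx b hb
    have ha' : a' ∈ S := by grind
    have hb' : b' ∈ S := by grind
    have hd' : d' ∈ S := by grind
    have := hy b' hb'
    have := fy b' hb'
    have m1 : x a ∈ S' := by have := hx a ha; have := fx a ha; grind
    have m2 : y a' ∈ S' := by have := hy a' ha'; have := fy a' ha'; grind
    obtain ⟨x', x1, x2, x3, x4, x5, x6⟩ := beta hx fx ha hb hd (by grind) rfl m1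
      (by have := hx d hd; have := fx d hd; grind) hS
    obtain ⟨y', y1, y2, y3, y4, y5, y6⟩ := beta (S' := S') hy fy ha' hb' hd' (by grind) rfl m2
      (by have := hy d' hd'; have := fy d' hd'; grind) fun t => by grind
    have hD : ∃ t ∈ S', x' t = y' t := by
      rcases h8 with h8 | h8 | h8 | h8
      · exact ⟨_, m1, by grind⟩
      · exact ⟨_, m1, by grind⟩
      · exact ⟨_, m1, by grind⟩
      · exact ⟨_, m2, by grind⟩
    intro ih
    obtain ⟨z', z1, z2, z3⟩ := ih x' y' cS x1 y1 x2 y2 (.inr hD)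
    obtain ⟨z, e1, e2, e3, e4, e5⟩ : ∃ z : Ω → Ω, z a = b ∧ z b = a ∧ z (x b) = d ∧ z d = x b ∧
        ∀ t ∈ S', z t = z' t := ⟨fun t => if t = a then b else if t = b then a else if t = x b then d else
      if t = d then x b else z' t, by clear * - h1 hS fb; grind⟩
    refine ⟨z, fun t ht => ?_, x6 _ z' e1 e2 e3 e4 e5 z2,
      y6 _ z' (by grind) (by grind) (by grind) (by grind) e5 z3⟩
    have := z1 t
    have := e5 t
    have := e5 (z' t)
    have := hS t
    have := hS (z' t)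
    clear hS x6 y6 x5 y5 hD h8 h4 h5 fx fy e5
    grind

theorem odd_of_od [Fintype Ω] {x z : Equiv.Perm Ω} (hz : z * z = 1) (h : Od univ x z) :
    Odd (orderOf (x * z)) := by
  classical
  obtain ⟨r, hr⟩ : ∃ r, r = x * z := ⟨_, rfl⟩
  rw [← hr]
  by_contra he
  obtain ⟨k, hk⟩ := Nat.not_odd_iff_even.1 he
  have h0 := orderOf_pos r
  obtain ⟨a, ha⟩ := not_forall.1 (mt Equiv.Perm.ext (pow_ne_one_of_lt_orderOf (x := r) (n := k) (by omega)
    (by omega)))
  have rk : r ^ (2 * k : ℤ) = 1 := by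
    rw [← pow_orderOf_eq_one r, hk, ← zpow_natCast]; congr 1; push_cast; ring
  have A : ∀ b, (∃ i : ℤ, (r ^ (2 * i)) a = r b) ↔ ∃ i : ℤ, (r ^ (2 * i + 1)) a = b := fun b =>
    ⟨fun ⟨i, e⟩ => ⟨i - 1, r.injective (by rw [← e, ← Equiv.Perm.mul_apply, ← zpow_one_add]; ring_nf)⟩,
      fun ⟨i, e⟩ => ⟨i + 1, by rw [← e, ← Equiv.Perm.mul_apply, ← zpow_one_add]; ring_nf⟩⟩
  have B : ∀ b, (∃ i : ℤ, (r ^ (2 * i + 1)) a = r b) ↔ ∃ i : ℤ, (r ^ (2 * i)) a = b := fun b =>
    exists_congr fun i => by rw [add_comm, zpow_one_add, Equiv.Perm.mul_apply, r.injective.eq_iff]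
  have C : ∀ b, (∃ i : ℤ, (r ^ (2 * i)) a = b) → ¬ ∃ i : ℤ, (r ^ (2 * i + 1)) a = b := by
    rintro _ ⟨i, rfl⟩ ⟨j, e⟩
    have e1 : (r ^ (2 * (j - i) + 1)) a = a := by
      rw [show 2 * (j - i) + 1 = -(2 * i) + (2 * j + 1) by ring, zpow_add, Equiv.Perm.mul_apply, e, zpow_neg,
        Equiv.Perm.inv_eq_iff_eq]
    have e2 := Equiv.Perm.zpow_apply_eq_self_of_apply_eq_self e1 k
    rw [← zpow_mul, show (2 * (j - i) + 1) * k = 2 * k * (j - i) + k by ring, zpow_add, zpow_mul, rk] at e2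
    exact ha (by simpa using e2)
  have := h (fun b => (if ∃ i : ℤ, (r ^ (2 * i)) a = b then 1 else 0) -
    if ∃ i : ℤ, (r ^ (2 * i + 1)) a = b then 1 else 0) (fun t _ => by
      rw [show x t = r (z t) by rw [hr, ← Equiv.Perm.mul_apply, mul_assoc, hz, mul_one]]
      simp only [A, B]; ring) a (mem_univ a)
  have h1 : ∃ i : ℤ, (r ^ (2 * i)) a = a := ⟨0, by simp⟩
  simp [h1, C a h1] at this

end


/-- Let n ≥ 5 and let X be a conjugacy class of involutions of the symmetric group of degree n. The graph on X joining two distinct involutions whose product has odd order is connected and has diameter exactly 2. -/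
theorem result (n : ℕ) (hn : 5 ≤ n) (t : Equiv.Perm (Fin n)) (ht : orderOf t = 2) :
    (SimpleGraph.fromRel fun x y : {x : Equiv.Perm (Fin n) // IsConj t x} =>
        Odd (orderOf (x.1 * y.1))).Connected ∧
      (SimpleGraph.fromRel fun x y : {x : Equiv.Perm (Fin n) // IsConj t x} =>
        Odd (orderOf (x.1 * y.1))).diam = 2 := by
  have t2 := (h9_orderOf_eq_two_iff.1 ht).2
  have o : ∀ x, IsConj t x → x * x = 1 ∧ #x.support = #t.support := fun x hx => by
    obtain ⟨c, rfl⟩ := isConj_iff.1 hx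
    exact ⟨by rw [conj_mul, t2, mul_one, mul_inv_cancel], Equiv.Perm.card_support_conj⟩
  have I : ∀ x : Equiv.Perm (Fin n), x * x = 1 → ∀ a, x (x a) = a := fun x hx a => by
    rw [← Equiv.Perm.mul_apply, hx, Equiv.Perm.one_apply]
  have cf : ∀ x : Equiv.Perm (Fin n), #{a ∈ univ | x a = a} + #x.support = n := fun x =>
    (card_filter_add_card_filter_not (s := univ) fun a => x a = a).trans (by simp)
  obtain ⟨g, hg, hg'⟩ : ∃ g : Equiv.Perm (Fin n), (∀ a, t (g (t (g⁻¹ a))) = g (t (g⁻¹ (t a)))) ∧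
      ∃ a, t a ≠ g (t (g⁻¹ a)) := by
    obtain ⟨a, ha⟩ := not_forall.1 (mt Equiv.Perm.ext (h9_orderOf_eq_two_iff.1 ht).1)
    have := I t t2
    by_cases h : ∃ c, c ≠ a ∧ c ≠ t a ∧ t c ≠ c
    · obtain ⟨c, h⟩ := h
      refine ⟨Equiv.swap (t a) c, fun b => ?_, a, ?_⟩ <;>
        simp only [Equiv.swap_inv, Equiv.swap_apply_def, Equiv.Perm.one_apply] at * <;> grind
    · obtain ⟨c, -, hc⟩ := exists_mem_notMem_of_card_lt_card (s := {a, t a}) (t := univ)
        (card_le_two.trans_lt (by simp; omega))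
      obtain ⟨d, -, hd⟩ := exists_mem_notMem_of_card_lt_card (s := {a, t a, c}) (t := univ)
        (card_le_three.trans_lt (by simp; omega))
      push Not at h
      refine ⟨Equiv.swap a c * Equiv.swap (t a) d, fun b => ?_, a, ?_⟩ <;>
        simp only [mul_inv_rev, Equiv.swap_inv, Equiv.swap_apply_def, Equiv.Perm.one_apply,
          Equiv.Perm.mul_apply] at * <;> grind
  have hv : IsConj t (g * t * g⁻¹) := isConj_iff.2 ⟨g, rfl⟩
  have hc : t * (g * t * g⁻¹) = g * t * g⁻¹ * t := Equiv.Perm.ext hg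
  have ne : t ≠ g * t * g⁻¹ := fun e => hg'.elim fun a h => h (Equiv.Perm.ext_iff.1 e a)
  have h2 : orderOf (t * (g * t * g⁻¹)) = 2 := h9_orderOf_eq_two_iff.2 ⟨fun e => ne (by
    rw [← inv_eq_of_mul_eq_one_right e, inv_eq_of_mul_eq_one_right t2]), by
    rw [(show Commute _ _ from hc).symm.mul_mul_mul_comm, t2, (o _ hv).1, mul_one]⟩
  refine odd_graph (fun x y hx hy => ?_) (IsConj.refl t) hv h2 (hc ▸ h2) ne
  obtain ⟨x2, sx⟩ := o x hx
  obtain ⟨y2, sy⟩ := o y hy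
  have ix : Inv univ x := fun a _ => ⟨mem_univ _, I x x2 a⟩
  have iy : Inv univ y := fun a _ => ⟨mem_univ _, I y y2 a⟩
  have cx := cf x
  have cy := cf y
  obtain ⟨z, z1, z2, z3⟩ : ∃ z, Inv univ z ∧ Od univ x z ∧ Od univ y z := by
    rcases Nat.eq_zero_or_pos #{a ∈ univ | x a = a} with h | h
    · exact P2 _ _ x y le_rfl ix iy (filter_eq_empty_iff.1 (card_eq_zero.1 h))
        (filter_eq_empty_iff.1 (card_eq_zero.1 (by omega))) (.inl (by simp; omega))
    · exact P1 _ _ x y le_rfl ix iy (by omega) h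
  have zi : Function.Involutive z := fun a => (z1 a (mem_univ a)).2
  have zz : zi.toPerm z * zi.toPerm z = 1 := Equiv.Perm.ext zi
  refine ⟨zi.toPerm z, hx.trans (h9_isConj_of_odd x2 zz (odd_of_od zz z2)), odd_of_od zz z2, ?_⟩
  rw [← orderOf_inv, mul_inv_rev, inv_eq_of_mul_eq_one_right y2, inv_eq_of_mul_eq_one_right zz]
  exact odd_of_od zz z3

end Cfsg.Agent.S3265
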