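import Cfsg.Statements.S3269
import Cfsg.Agent.Lib.Quad.ZStarUse

set_option autoImplicit false
open Cfsg

namespace Cfsg.Agent.S3269

/-- Let G be a finite group whose Sylow 2-subgroup S is an internal direct product Q × R with Q generalized quaternion (of order at least 8) and R a subgroup all of whose involutions are central in R. Then G is not simple. In particular no finite simple group has a Sylow 2-subgroup that is a direct product of one or more generalized quaternion groups. -/
theorem result {G : Type*} [Group G] [Finite G]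
    (S : Sylow 2 G) (Q R : Subgroup G) (hQR : Cfsg.IsInternalDirectProduct Q R (S : Subgroup G))
    (n : ℕ) (hn : 1 ≤ n) (eQ : ↥Q ≃* QuaternionGroup (2 ^ n))
    (hR : ∀ r ∈ R, orderOf r = 2 → ∀ s ∈ R, r * s = s * r) :
    ¬ IsSimpleGroup G := by
  intro hs
  have : NeZero (2 ^ n) := ⟨by positivity⟩
  obtain ⟨x, y, hxy⟩ := Cfsg.Lib.Quad.quaternion_not_comm (m := 2 ^ n)
    (le_trans (by norm_num) (Nat.pow_le_pow_right (by norm_num) hn))
  have hna : (eQ.symm x : G) * eQ.symm y ≠ eQ.symm y * eQ.symm x := fun h => hxy (by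
    apply eQ.symm.injective
    rw [map_mul, map_mul]; exact Subtype.ext h)
  obtain ⟨w, hw⟩ := Cfsg.Lib.Quad.exists_isolated_of_factor S hQR (by
      intro a ha b hb ha2 hb2 ha1 hb1
      have key : ∀ c (hc : c ∈ Q), c * c = 1 → c ≠ 1 → eQ ⟨c, hc⟩ = QuaternionGroup.a (2 ^ n : ℕ) :=
        fun c hc h2 h1 => Cfsg.Lib.Quad.quaternion_invol_unique
          (by rw [← map_mul, ← map_one eQ]; exact congrArg eQ (Subtype.ext h2))
          (fun h => h1 (congrArg Subtype.val ((map_eq_one_iff _ eQ.injective).mp h)))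
      exact congrArg Subtype.val (eQ.injective ((key a ha ha2 ha1).trans (key b hb hb2 hb1).symm)))
    ⟨_, (eQ.symm x).2, _, (eQ.symm y).2, hna⟩ (by
      intro r hr h2 s hs
      by_cases h1 : r = 1
      · simp [h1]
      · exact hR r hr (Cfsg.Lib.h9_orderOf_eq_two_iff.mpr ⟨h1, h2⟩) s hs)
  refine Cfsg.Lib.Quad.not_isolated_of_simple ?_ w hw
  refine ((inferInstance : (Subgroup.center G).Normal).eq_bot_or_eq_top).resolve_right fun h => hna ?_
  exact Subgroup.mem_center_iff.mp (h ▸ Subgroup.mem_top _) _

end Cfsg.Agent.S3269
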