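import Cfsg.Statements.S3278
import Mathlib
import Cfsg.Agent.Lib.Core.B0
import Cfsg.Agent.Lib.Misc.Invol
import Cfsg.Agent.Lib.Small.Order24
import Cfsg.Agent.S3276
import Cfsg.Agent.Lib.Coprime.Sylow

set_option autoImplicit false
open Cfsg

namespace Cfsg.Agent.S3278
open Cfsg.Lib

open Subgroup

section
variable {G : Type*} [Group G] [Finite G] {x : G} {V : Subgroup G}

theorem mem_of_two_elt (hle : V ≤ centralizer ({x} : Set G)) (hK : IsKleinFour V)
    (hodd : ¬ 2 ∣ V.relIndex (centralizer ({x} : Set G)))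
    (hn : (V.subgroupOf (centralizer ({x} : Set G))).Normal) {R : Subgroup G} (hR : IsPGroup 2 R)
    (hRC : R ≤ centralizer ({x} : Set G)) : R ≤ V := by
  have hP : IsPGroup 2 V := IsPGroup.of_card (n := 2) hK.card_four
  exact (IsSylowIn.of_not_dvd_relIndex hle hP hodd).le_of_le_normalizer hR hRC
    (hRC.trans ((normal_subgroupOf_iff_le_normalizer hle).1 hn))

theorem cent_eq (hx : orderOf x = 2) (hle : V ≤ centralizer ({x} : Set G)) (hK : IsKleinFour V)
    (hodd : ¬ 2 ∣ V.relIndex (centralizer ({x} : Set G)))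
    (hn : (V.subgroupOf (centralizer ({x} : Set G))).Normal) :
    centralizer (V : Set G) = centralizer ({x} : Set G) := by
  obtain ⟨hx1, hx2⟩ := h9_orderOf_eq_two_iff.1 hx
  have hxV : x ∈ V := mem_of_two_elt hle hK hodd hn (R := zpowers x)
    (IsPGroup.of_card (n := 1) (by rw [Nat.card_zpowers, hx]; rfl))
    (zpowers_le.2 (mem_centralizer_singleton_iff.2 rfl)) (mem_zpowers x)
  refine le_antisymm (fun c hc => mem_centralizer_singleton_iff.2 (hc x hxV).symm) ?_
  have hN := (normal_subgroupOf_iff_le_normalizer hle).1 hn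
  intro c hc
  obtain ⟨u, w, rfl, -, ⟨k, hk⟩, hw, hu', hw'⟩ := exists_pPart (p := 2) c
  have huV : u ∈ V := mem_of_two_elt hle hK hodd hn (R := zpowers u)
    (isPGroup_zpowers_of_pow hk) (zpowers_le.2 (zpowers_le.2 hc hu')) (mem_zpowers u)
  refine mul_mem (fun v hv => sm_klein_comm hK hv huV) ?_
  have hwC : w ∈ centralizer ({x} : Set G) := zpowers_le.2 hc hw'
  have hwx : w * x * w⁻¹ = x := by
    rw [mem_centralizer_singleton_iff.1 hwC]; group
  intro v hv
  by_cases hv1 : v = 1
  · simp [hv1]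
  by_cases hvx : x = v
  · rw [← hvx]; exact (mem_centralizer_singleton_iff.1 hwC).symm
  have hmem : ∀ u ∈ V, u = 1 ∨ u = x ∨ u = v ∨ u = x * v := fun u hu => by
    rwa [sm_klein_eq_kleinOf hK hxV hv hx1 hv1 hvx, mem_kleinOf] at hu
  refine (h9_commute_of_odd_of_sq (Nat.odd_iff.2 (Nat.two_dvd_ne_zero.1 hw)) ?_).symm.eq
  rcases hmem _ (h9_conj_mem_of_mem_normalizer (hN hwC) hv) with h | h | h | h
  · rw [mul_inv_eq_one, mul_eq_left] at h; exact absurd h hv1
  · exact absurd (by simpa using h.trans hwx.symm : v = x).symm hvx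
  · have : Commute w v := mul_inv_eq_iff_eq_mul.1 h
    exact this.mul_left this
  · have : w * w * v * (w * w)⁻¹ = v := by
      calc w * w * v * (w * w)⁻¹ = w * (w * v * w⁻¹) * w⁻¹ := by group
        _ = w * (x * v) * w⁻¹ := by rw [h]
        _ = (w * x * w⁻¹) * (w * v * w⁻¹) := by group
        _ = v := by rw [hwx, h, ← mul_assoc, hx2, one_mul]
    exact mul_inv_eq_iff_eq_mul.1 this

theorem cent_conj (hC : centralizer (V : Set G) = centralizer ({x} : Set G)) {v : G} (hv : v ∈ V)
    (hc : IsConj x v) : centralizer ({v} : Set G) = centralizer ({x} : Set G) := by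
  symm
  apply Subgroup.eq_of_le_of_card_ge
  · intro a ha
    rw [← hC] at ha
    exact mem_centralizer_singleton_iff.2 (ha v hv).symm
  · rw [sm_card_centralizer_of_isConj hc]

theorem sylow_eq [IsSimpleGroup G] (hx : orderOf x = 2) (hle : V ≤ centralizer ({x} : Set G))
    (hK : IsKleinFour V) (hodd : ¬ 2 ∣ V.relIndex (centralizer ({x} : Set G)))
    (hn : (V.subgroupOf (centralizer ({x} : Set G))).Normal) :
    ∃ S : Sylow 2 G, (S : Subgroup G) = V := by
  obtain ⟨hx1, hx2⟩ := h9_orderOf_eq_two_iff.1 hx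
  have hC := cent_eq hx hle hK hodd hn
  have hinv : ∀ u : G, u ^ 2 = 1 → u * x = x * u → u ∈ V := fun u hu hux =>
    mem_of_two_elt hle hK hodd hn (R := zpowers u)
      (isPGroup_zpowers_of_pow (k := 1) (by simpa using hu))
      (zpowers_le.2 (mem_centralizer_singleton_iff.2 hux)) (mem_zpowers u)
  have hxV : x ∈ V := hinv x (by rw [sq, hx2]) rfl
  have hP : IsPGroup 2 V := IsPGroup.of_card (n := 2) hK.card_four
  obtain ⟨S, hS⟩ := hP.exists_le_sylow
  refine ⟨S, ?_⟩
  by_contra hSV
  obtain ⟨y, hyS, hyV, hyN⟩ := h9_exists_normalizer_not_mem S.isPGroup' hS (Ne.symm hSV)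
  obtain ⟨z, hzS, hz1, hz2, hzc⟩ := h9_exists_central_mem S.isPGroup' (fun h => hx1 (by
    have := hS hxV; rwa [h, mem_bot] at this))
  have hzV : z ∈ V := hinv z hz2 (hzc x (hS hxV))
  have hyC : y ∉ centralizer ({x} : Set G) := fun h => hyV
    (mem_of_two_elt hle hK hodd hn (R := zpowers y) (S.isPGroup'.to_le (zpowers_le.2 hyS))
      (zpowers_le.2 h) (mem_zpowers y))
  have hnc : ¬ IsConj x z := fun h => hyC (by
    rw [← cent_conj hC hzV h]; exact mem_centralizer_singleton_iff.2 (hzc y hyS).symm)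
  have hxz : x ≠ z := fun h => hnc (h ▸ IsConj.refl x)
  have hmem : ∀ u ∈ V, u = 1 ∨ u = x ∨ u = z ∨ u = x * z := fun u hu => by
    rwa [sm_klein_eq_kleinOf hK hxV hzV hx1 hz1 hxz, mem_kleinOf] at hu
  have hy : y * x * y⁻¹ = x * z := by
    rcases hmem _ (h9_conj_mem_of_mem_normalizer hyN hxV) with h | h | h | h
    · rw [mul_inv_eq_one, mul_eq_left] at h; exact absurd h hx1
    · exact absurd (mem_centralizer_singleton_iff.2 (mul_inv_eq_iff_eq_mul.1 h)) hyC
    · exact absurd (isConj_iff.2 ⟨y, h⟩) hnc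
    · exact h
  have hzo : orderOf z = 2 := orderOf_eq_prime hz2 hz1
  obtain ⟨h1, -, -⟩ := Cfsg.Agent.S3276.result x z hx hzo (hzc x (hS hxV)).symm hnc (by
    intro u hu hux g hg
    have hsq : (g * z * g⁻¹) ^ 2 = 1 := by rw [conj_pow, hz2]; simp
    have huV : u ∈ V := hinv u (hu ▸ pow_orderOf_eq_one u) hux
    rcases hmem u huV with h | h | h | h
    · rw [h, orderOf_one] at hu; omega
    · exact sm_klein_comm hK (hinv _ hsq (h ▸ hg)) hzV
    · exact h ▸ hg
    · refine sm_klein_comm hK (hinv _ hsq ?_) hzV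
      rw [← mem_centralizer_singleton_iff,
        ← cent_conj hC huV (isConj_iff.2 ⟨y, hy.trans h.symm⟩)]
      exact mem_centralizer_singleton_iff.2 hg)
  rcases (normalClosure_normal (s := ({z} : Set G))).eq_bot_or_eq_top with h | h
  · have : z ∈ normalClosure ({z} : Set G) := subset_normalClosure rfl
    rw [h, mem_bot] at this
    exact hz1 this
  · exact h1 h

end

/-- Let G be a finite simple group with an involution x such that a Sylow 2-subgroup of C_G(x) is a Klein four-group which is normal in C_G(x). Then G is isomorphic to the alternating group of degree 5 (that is, to PSL(2, 5)). -/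
theorem result {G : Type*} [Group G] [Finite G] [IsSimpleGroup G] (x : G) (hx : orderOf x = 2)
    (S₀ : Subgroup G) (hle : S₀ ≤ Subgroup.centralizer ({x} : Set G)) (hK : IsKleinFour ↥S₀)
    (hodd : ¬ 2 ∣ S₀.relIndex (Subgroup.centralizer ({x} : Set G))) (hn : (S₀.subgroupOf (Subgroup.centralizer ({x} : Set G))).Normal) :
    Nonempty (G ≃* ↥(alternatingGroup (Fin 5))) := by
  classical
  haveI : Fact (Nat.Prime 3) := ⟨Nat.prime_three⟩
  obtain ⟨hx1, hx2⟩ := h9_orderOf_eq_two_iff.1 hx
  have hx2' : x ^ 2 = 1 := by rw [sq, hx2]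
  set V := S₀
  have hCV := cent_eq hx hle hK hodd hn
  obtain ⟨S, hS⟩ := sylow_eq hx hle hK hodd hn
  set C := centralizer ({x} : Set G) with hCdef
  have hinv : ∀ u : G, u ^ 2 = 1 → u * x = x * u → u ∈ V := fun u hu hux =>
    mem_of_two_elt hle hK hodd hn (R := zpowers u)
      (isPGroup_zpowers_of_pow (k := 1) (by simpa using hu))
      (zpowers_le.2 (mem_centralizer_singleton_iff.2 hux)) (mem_zpowers u)
  have hxV : x ∈ V := hinv x hx2' rfl
  have h4 : 4 ∣ Nat.card G := hK.card_four ▸ V.card_subgroup_dvd_card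
  have hG : ¬ IsMulCommutative G := sm_not_comm_of_not_prime (fun h => by
    have := (Nat.prime_dvd_prime_iff_eq Nat.prime_two h).1 (Dvd.dvd.trans (by norm_num) h4)
    rw [← this] at h4; omega)
  have hnc := sm_not_hasNormalPComplement (p := 2) hG (Dvd.dvd.trans (by norm_num) h4)
  set N := normalizer (V : Set G) with hN
  have hVN : V ≤ N := le_normalizer
  have hCN : C ≤ N := hCV ▸ centralizer_le_normalizer _
  have hSyl : IsSylowIn 2 V ⊤ := hS ▸ IsSylowIn.of_sylow_top S
  have hrel : C.relIndex N = 3 := by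
    have h1 := (sm_relIndex_centralizer_dvd V).trans (sm_card_mulAut_dvd_factorial V)
    rw [hCV, hK.card_four] at h1
    have h2 : ¬ 2 ∣ C.relIndex N := fun h =>
      (hSyl.mono hVN le_top).not_dvd_relIndex (h.trans (relIndex_dvd_of_le_left N hle))
    have h3 : C.relIndex N ≠ 1 := by
      intro h
      apply hnc
      apply hasNormalPComplement_of_normalizer_le_centralizer S
      rw [hS, hCV]; exact relIndex_eq_one.1 h
    have h4 : C.relIndex N ∈ Nat.divisors 6 := Nat.mem_divisors.2 ⟨h1, by norm_num⟩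
    rw [show Nat.divisors 6 = {1, 2, 3, 6} by decide] at h4
    simp only [Finset.mem_insert, Finset.mem_singleton] at h4
    omega
  -- an element of `N` outside `C` whose square is outside `C`
  obtain ⟨p, hpN, hpV, hppV⟩ : ∃ p ∈ N, p ∉ C ∧ p * p ∉ C := by
    have hne : ¬ N ≤ C := fun h => by rw [relIndex_eq_one.2 h] at hrel; omega
    obtain ⟨p, hpN, hpC⟩ := SetLike.not_le_iff_exists.1 hne
    obtain ⟨u, w, rfl, -, ⟨k, hk⟩, hw, hu', hw'⟩ := exists_pPart (p := 2) p
    have huV : u ∈ V := (hSyl.mono hVN le_top).le_of_le_normalizer (isPGroup_zpowers_of_pow hk)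
      (zpowers_le.2 (zpowers_le.2 hpN hu')) (zpowers_le.2 (zpowers_le.2 hpN hu')) (mem_zpowers u)
    have hwC : w ∉ C := fun h => hpC (C.mul_mem (hle huV) h)
    refine ⟨w, zpowers_le.2 hpN hw', hwC, fun h => hwC ?_⟩
    obtain ⟨k, hk⟩ := h9_eq_pow_sq_of_odd (Nat.odd_iff.2 (Nat.two_dvd_ne_zero.1 hw))
    rw [hk]; exact C.pow_mem h k
  have h1 : p * x * p⁻¹ ∈ V := h9_conj_mem_of_mem_normalizer hpN hxV
  have h2 : p * x * p⁻¹ ≠ 1 := fun h => by rw [mul_inv_eq_one, mul_eq_left] at h; exact hx1 h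
  have h3 : x ≠ p * x * p⁻¹ :=
    fun h => hpV (mem_centralizer_singleton_iff.2 (mul_inv_eq_iff_eq_mul.1 h.symm))
  have hmem : ∀ u ∈ V, u = 1 ∨ u = x ∨ u = p * x * p⁻¹ ∨ u = x * (p * x * p⁻¹) := fun u hu => by
    rwa [sm_klein_eq_kleinOf hK hxV h1 hx1 h2 h3, mem_kleinOf] at hu
  have hconjV : ∀ v ∈ V, v ≠ 1 → IsConj x v := by
    intro v hv hv1
    rcases hmem v hv with h | h | h | h
    · exact absurd h hv1
    · exact h ▸ IsConj.refl x
    · exact isConj_iff.2 ⟨p, h.symm⟩
    · refine isConj_iff.2 ⟨p * p, ?_⟩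
      have e : p * p * x * (p * p)⁻¹ = p * (p * x * p⁻¹) * p⁻¹ := by group
      rcases hmem _ (h9_conj_mem_of_mem_normalizer (N.mul_mem hpN hpN) hxV) with h' | h' | h' | h'
      · rw [mul_inv_eq_one, mul_eq_left] at h'; exact absurd h' hx1
      · exact absurd (mem_centralizer_singleton_iff.2 (mul_inv_eq_iff_eq_mul.1 h')) hppV
      · rw [e, mul_left_inj, mul_right_inj] at h'; exact absurd h'.symm h3
      · rw [h', h]
  -- the normal complement in `C`
  obtain ⟨T, hT⟩ := (hSyl.mono hle le_top).exists_sylow'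
  have hnpc : HasNormalPComplement 2 C := by
    apply hasNormalPComplement_of_normalizer_le_centralizer T
    intro c _ t ht
    rw [hT] at ht
    have hc : (c : G) ∈ centralizer (V : Set G) := by rw [hCV]; exact c.2
    exact Subtype.ext (hc t ht)
  have hidx : (pResidual 2 C).index = 4 := by
    rw [(hnpc.isComplement' T).symm.index_eq_card, hT, ← hK.card_four]
    exact Nat.card_congr (subgroupOfEquivOfLe hle).toEquiv
  have hi : ¬ 2 ∣ C.index := fun h => hSyl.not_dvd_relIndex (by
    rw [relIndex_top_right]; exact h.trans (index_dvd_of_le hle))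
  have := Fintype.ofFinite G
  have hb := klein_block_bound (sm_commutator_eq_top hG) hx2' hx1 hi hnpc hidx
  have hcount : (Finset.univ.filter fun i : G => PRel 2 x (i * x * i⁻¹ * x)).card ≤
      Nat.card C * 2 := by
    have e := sm_card_conj_mem x ({p * x * p⁻¹, x * (p * x * p⁻¹)} : Set G)
    have e2 : Nat.card {y : G // IsConj x y ∧ y ∈ ({p * x * p⁻¹, x * (p * x * p⁻¹)} : Set G)} ≤ 2 := by
      refine le_trans (Nat.card_le_card_of_injective
        (fun y => (⟨y.1, y.2.2⟩ : ({p * x * p⁻¹, x * (p * x * p⁻¹)} : Set G)))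
        (fun a b h => Subtype.ext (congrArg (fun t => t.1) h))) ?_
      rw [Nat.card_coe_set_eq]
      exact (Set.ncard_insert_le _ _).trans (by simp)
    refine le_trans ?_ (e.le.trans (Nat.mul_le_mul_left _ e2))
    rw [← Fintype.card_subtype, ← Nat.card_eq_fintype_card]
    refine Nat.card_le_card_of_injective (fun i => ⟨i.1⁻¹, ?_⟩)
      (fun a b h => Subtype.ext (inv_injective (congrArg (fun t => t.1) h)))
    obtain ⟨i, hi⟩ := i
    simp only [inv_inv]
    set s := i * x * i⁻¹ with hs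
    have hs2 : s * s = 1 := by rw [← sq, hs, conj_pow, hx2']; simp
    have hs1 : s ≠ 1 := fun h => by rw [hs, mul_inv_eq_one, mul_eq_left] at h; exact hx1 h
    have hev : Even (orderOf (s * x)) := by
      by_contra ho
      have : PRel 2 x 1 := hi.trans (pRel_one_iff'.2 (fun h => ho (even_iff_two_dvd.2 h)))
      rw [pRel_one_iff', hx] at this
      exact this dvd_rfl
    obtain ⟨m, -, hz, hzs, hzx⟩ := h9_central_invol_of_even hs2 hx2 hev
    set z := (s * x) ^ m
    have hzV : z ∈ V := hinv z (hz ▸ pow_orderOf_eq_one z) hzx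
    have hz1 : z ≠ 1 := (h9_orderOf_eq_two_iff.1 hz).1
    have hsC : s ∈ C := by
      rw [hCdef, ← cent_conj hCV hzV (hconjV z hzV hz1)]
      exact mem_centralizer_singleton_iff.2 hzs.symm.eq
    have hsV : s ∈ V := hinv s (by rw [sq, hs2]) (mem_centralizer_singleton_iff.1 hsC)
    rcases hmem s hsV with h | h | h | h
    · exact absurd h hs1
    · rw [h, hx2, orderOf_one] at hev; exact absurd hev (by decide)
    · exact Or.inl h
    · exact Or.inr h
  have hidx2 : C.index = 3 * N.index := by rw [← relIndex_mul_index hCN, hrel]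
  have hN5 : N.index ≤ 5 := by
    have e := C.index_mul_card
    have hpos : 0 < Nat.card C := Nat.card_pos
    have : C.index * Nat.card C < 16 * Nat.card C := by omega
    have := lt_of_mul_lt_mul_right this (Nat.zero_le _)
    omega
  have hNtop : N ≠ ⊤ := sm_normalizer_pgroup_ne_top (p := 2) hG hSyl.isPGroup (fun h => hx1 (by
    rwa [h, mem_bot] at hxV))
  have hdvd := sm_two_mul_card_dvd_factorial hG hNtop
  have h12 : 12 * N.index ∣ Nat.card G := by
    rw [← C.index_mul_card, hidx2, show 12 * N.index = 3 * N.index * 4 by ring]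
    exact Nat.mul_dvd_mul_left _ (hK.card_four ▸ card_dvd_of_le hle)
  have hN1 : N.index ≠ 1 := fun h => hNtop (index_eq_one.1 h)
  have hN0 : N.index ≠ 0 := FiniteIndex.index_ne_zero
  have h24 : 24 * N.index ∣ N.index.factorial :=
    Dvd.dvd.trans (by rw [show 24 * N.index = 2 * (12 * N.index) by ring]; gcongr) hdvd
  have hN5' : N.index = 5 := by
    generalize N.index = m at *
    interval_cases m <;> simp_all [Nat.factorial]
  obtain ⟨f, hf⟩ := sm_embeds_alternating hG N hNtop
  revert f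
  rw [hN5'] at h12 hdvd ⊢
  intro f hf
  refine ⟨MulEquiv.ofBijective f ((Nat.bijective_iff_injective_and_card f).2 ⟨hf, ?_⟩)⟩
  have e := nat_card_alternatingGroup (α := Fin 5)
  rw [e]
  have h60 : Nat.card G ∣ 60 := by
    have : 2 * Nat.card G ∣ 2 * 60 := hdvd
    exact Nat.dvd_of_mul_dvd_mul_left (by norm_num) this
  have := Nat.dvd_antisymm h60 h12
  rw [this]; simp [Nat.factorial]

end Cfsg.Agent.S3278
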