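import Cfsg.Statements.S3279
import Cfsg.Agent.Lib.Quad.ZStarUse

set_option autoImplicit false
open Cfsg

namespace Cfsg.Agent.S3279

/-- Let G be a finite simple group and x an involution of G whose centralizer contains at most three involutions. Then C_G(x) contains a Sylow 2-subgroup of G, and all involutions of G are conjugate. -/
theorem result {G : Type*} [Group G] [Finite G] [IsSimpleGroup G] (x : G) (hx : orderOf x = 2)
    (h3 : Nat.card {u : ↥(Subgroup.centralizer ({x} : Set G)) // orderOf u = 2} ≤ 3) :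
    (∃ S : Sylow 2 G, (S : Subgroup G) ≤ Subgroup.centralizer ({x} : Set G)) ∧
      ∀ u v : G, orderOf u = 2 → orderOf v = 2 → IsConj u v := by
  rcases (inferInstance : (Subgroup.center G).Normal).eq_bot_or_eq_top with hZ | hZ
  · obtain ⟨S, hS⟩ := Cfsg.Lib.Quad.three_invol_sylow hZ hx h3
    have key := fun u hu => Cfsg.Lib.Quad.three_invol_conj hx h3 S hS
      (Cfsg.Lib.Quad.not_isolated_of_simple hZ) (u := u) hu
    exact ⟨⟨S, hS⟩, fun u v hu hv => (key u hu).trans (key v hv).symm⟩
  · have hc : ∀ a b : G, a * b = b * a := fun a b =>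
      Subgroup.mem_center_iff.mp (hZ ▸ Subgroup.mem_top b) a
    refine ⟨⟨default, fun s _ => Subgroup.mem_centralizer_singleton_iff.mpr (hc _ _)⟩, ?_⟩
    have key : ∀ u : G, orderOf u = 2 → u = x := by
      intro u hu
      have hn : (Subgroup.zpowers x).Normal := ⟨fun a ha g => by rw [hc g a]; simpa using ha⟩
      have ht : Subgroup.zpowers x = ⊤ := hn.eq_bot_or_eq_top.resolve_left fun h =>
        Cfsg.Lib.Quad.iso_ne_one_of_orderOf hx (Subgroup.zpowers_eq_bot.mp h)
      have := (Cfsg.Lib.h9_mem_zpowers_two (Cfsg.Lib.Quad.iso_sq_of_orderOf hx)).mp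
        (ht ▸ Subgroup.mem_top u)
      exact this.resolve_left (Cfsg.Lib.Quad.iso_ne_one_of_orderOf hu)
    intro u v hu hv
    rw [key u hu, key v hv]

end Cfsg.Agent.S3279
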