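import Cfsg.Statements.S3282
import Mathlib
import Cfsg.Agent.Lib.BSW.Final

set_option autoImplicit false
open Cfsg

namespace Cfsg.Agent.S3282

/-- The abstract form of the Brauer–Suzuki–Wall Theorem. Let G be a finite group with an involution t and an abelian subgroup K of H = C_G(t) containing t, such that H = K⟨s⟩ for an involution s ∉ K with C_K(s) = ⟨t⟩ and s inverting every element of K, K ∩ K^g = 1 for every g outside H, and all involutions of G conjugate. Then G has a subgroup Q, of order q say, with |G| = q(q+1)(q−1)/2, C_G(x) = Q for every non-identity x ∈ Q, N_G(Q) = QD for an abelian subgroup D of order (q−1)/2 meeting Q trivially, and for every nontrivial subgroup X of D, N_G(X) = N_G(D) = D⟨u⟩ for some involution u ∉ D inverting D. -/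
theorem result {G : Type*} [Group G] [Finite G] (t : G) (ht : orderOf t = 2)
    (K : Subgroup G) (hKab : IsMulCommutative ↥K) (hKH : K ≤ Subgroup.centralizer ({t} : Set G)) (htK : t ∈ K)
    (s : G) (hs : orderOf s = 2) (hsH : s ∈ Subgroup.centralizer ({t} : Set G)) (hsK : s ∉ K)
    (hH : K ⊔ Subgroup.zpowers s = Subgroup.centralizer ({t} : Set G)) (hCK : K ⊓ Subgroup.centralizer ({s} : Set G) = Subgroup.zpowers t)
    (hinv : ∀ x ∈ K, s * x * s⁻¹ = x⁻¹)
    (hTI : ∀ g : G, g ∉ Subgroup.centralizer ({t} : Set G) → K ⊓ K.map (MulAut.conj g).toMonoidHom = ⊥)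
    (hconj : ∀ x y : G, orderOf x = 2 → orderOf y = 2 → IsConj x y) :
    ∃ Q D : Subgroup G, 2 * Nat.card G = Nat.card ↥Q * (Nat.card ↥Q + 1) * (Nat.card ↥Q - 1) ∧
      (∀ x ∈ Q, x ≠ 1 → Subgroup.centralizer ({x} : Set G) = Q) ∧
      IsMulCommutative ↥D ∧ 2 * Nat.card ↥D + 1 = Nat.card ↥Q ∧ Q ⊓ D = ⊥ ∧
      Subgroup.normalizer (Q : Set G) = Q ⊔ D ∧
      ∀ X : Subgroup G, X ≤ D → X ≠ ⊥ →
        Subgroup.normalizer (X : Set G) = Subgroup.normalizer (D : Set G) ∧
        ∃ u : G, orderOf u = 2 ∧ u ∉ D ∧ (∀ d ∈ D, u * d * u⁻¹ = d⁻¹) ∧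
          Subgroup.normalizer (D : Set G) = D ⊔ Subgroup.zpowers u := by
  classical
  have hc : ∀ a ∈ K, ∀ b ∈ K, a * b = b * a := fun a ha b hb => setLike_mul_comm ha hb
  have hss := Cfsg.Lib.BSW.mul_self_of_orderOf_two hs
  have h : Cfsg.Lib.BSW.Hyp t s K :=
    { ht := ht, hs := hs, comm := hc, tK := htK, sK := hsK, inv := hinv
      cent := by
        intro g hg
        have hg' : g ∈ K ⊔ Subgroup.zpowers s := by
          rw [hH]; exact Subgroup.mem_centralizer_singleton_iff.2 hg
        rw [Cfsg.Lib.pg_mem_sup_of_le_normalizer_left (Subgroup.zpowers_le.2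
          (Cfsg.Lib.h9_mem_normalizer_of_conj_mem (fun x hx => by
            rw [hinv x hx]; exact inv_mem hx)))] at hg'
        obtain ⟨a, ha, b, hb, rfl⟩ := hg'
        rw [mem_zpowers_iff_mem_range_orderOf, hs] at hb
        simp only [Finset.mem_image, Finset.mem_range] at hb
        obtain ⟨i, hi, rfl⟩ := hb
        interval_cases i
        · left; simpa using ha
        · right; rw [pow_one, mul_assoc, hss, mul_one]; exact ha
      uniq := by
        intro x hx hxx
        have h1 : x ∈ Subgroup.zpowers t := by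
          rw [← hCK]
          refine ⟨hx, Subgroup.mem_centralizer_singleton_iff.2 ?_⟩
          have := hinv x hx
          rw [inv_eq_of_mul_eq_one_right hxx, mul_inv_eq_iff_eq_mul] at this
          exact this.symm
        rw [mem_zpowers_iff_mem_range_orderOf, ht] at h1
        simp only [Finset.mem_image, Finset.mem_range] at h1
        obtain ⟨i, hi, rfl⟩ := h1
        interval_cases i
        · left; simp
        · right; simp
      ti := by
        intro g x hx hx1 hg
        by_contra hne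
        have h1 := hTI g (fun e => hne (Subgroup.mem_centralizer_singleton_iff.1 e))
        have h2 : g * x * g⁻¹ ∈ K ⊓ K.map (MulAut.conj g).toMonoidHom :=
          ⟨hg, Cfsg.Lib.h9_conj_mem_conj g hx⟩
        rw [h1, Subgroup.mem_bot] at h2
        exact hx1 (by simpa [mul_inv_eq_iff_eq_mul] using h2)
      conj := fun x hx => hconj t x ht hx }
  obtain ⟨Q, D, u, hz, -⟩ := h.exists_zass
  refine ⟨Q, D, hz.card, hz.sc, ⟨⟨fun a b => Subtype.ext (hz.comm a a.2 b b.2)⟩⟩, hz.cardD, hz.inf,
    hz.norm, fun X hX hX1 => ?_⟩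
  have hD : D ≠ ⊥ := fun e => hX1 (le_bot_iff.1 (e ▸ hX))
  exact ⟨by rw [hz.normX X hX hX1, hz.normX D le_rfl hD], u, hz.hu, hz.uD, hz.uinv,
    hz.normX D le_rfl hD⟩

end Cfsg.Agent.S3282
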