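import Cfsg.Statements.S3283
import Mathlib
import Cfsg.Agent.Lib.X18.Main
import Cfsg.Agent.Lib.Small.Basic

set_option autoImplicit false
open Cfsg

namespace Cfsg.Agent.S3283

open Subgroup Cfsg.Lib

/-- Let G be a finite group with an involution z whose centralizer M has Q = O₂(M) extraspecial of order 2⁹ with C_M(Q) ≤ Q, and M/Q isomorphic to S₃ × A₆ or to S₃ × S₆. Then G is not simple. -/
theorem result {G : Type*} [Group G] [Finite G] (z : G) (hz : orderOf z = 2)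
    (hQ : Cfsg.IsExtraspecial 2 ↥(Cfsg.pCore 2 ↥(Subgroup.centralizer ({z} : Set G)))) (hQ9 : Nat.card ↥(Cfsg.pCore 2 ↥(Subgroup.centralizer ({z} : Set G))) = 2 ^ 9)
    (hCQ : Subgroup.centralizer ((Cfsg.pCore 2 ↥(Subgroup.centralizer ({z} : Set G))) : Set ↥(Subgroup.centralizer ({z} : Set G))) ≤ Cfsg.pCore 2 ↥(Subgroup.centralizer ({z} : Set G)))
    (hMQ : Nonempty (↥(Subgroup.centralizer ({z} : Set G)) ⧸ Cfsg.pCore 2 ↥(Subgroup.centralizer ({z} : Set G)) ≃* (Equiv.Perm (Fin 3) × ↥(alternatingGroup (Fin 6)))) ∨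
      Nonempty (↥(Subgroup.centralizer ({z} : Set G)) ⧸ Cfsg.pCore 2 ↥(Subgroup.centralizer ({z} : Set G)) ≃* (Equiv.Perm (Fin 3) × Equiv.Perm (Fin 6)))) :
    ¬ IsSimpleGroup G := by
  intro hs
  have hG : ¬ IsMulCommutative G := fun hc => by
    rcases hMQ with ⟨⟨e⟩⟩ | ⟨⟨e⟩⟩
    all_goals
      obtain ⟨a, ha⟩ := e.surjective (Equiv.swap 0 1, 1)
      obtain ⟨b, hb⟩ := e.surjective (Equiv.swap 1 2, 1)
      obtain ⟨a, rfl⟩ := QuotientGroup.mk_surjective a
      obtain ⟨b, rfl⟩ := QuotientGroup.mk_surjective b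
      have h := congrArg (fun x => (e (QuotientGroup.mk' _ x)).1)
        (show a * b = b * a from Subtype.ext (hc.is_comm.comm _ _))
      simp only [map_mul, QuotientGroup.mk'_apply, ha, hb, Prod.fst_mul] at h
      exact absurd h (by decide)
  rcases hMQ with ⟨⟨e⟩⟩ | ⟨⟨e⟩⟩
  · refine X18.no_group (sm_pResidual_eq_top hG) hz _ rfl hQ hQ9 hCQ
      (f := (MonoidHom.fst _ _).comp e.toMonoidHom)
      (ψ := (alternatingGroup (Fin 6)).subtype.comp ((MonoidHom.snd _ _).comp e.toMonoidHom))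
      ⟨fun g h1 h2 => e.injective (by rw [map_one]; exact Prod.ext h1 (Subtype.ext h2)),
        fun a b _ hb => ⟨e.symm (a, ⟨b, hb⟩), by simp, by simp⟩⟩ ⟨e.symm (Equiv.swap 0 1, 1), by simp⟩
  · refine X18.no_group (sm_pResidual_eq_top hG) hz _ rfl hQ hQ9 hCQ
      (f := (MonoidHom.fst _ _).comp e.toMonoidHom) (ψ := (MonoidHom.snd _ _).comp e.toMonoidHom)
      ⟨fun g h1 h2 => e.injective (by rw [map_one]; exact Prod.ext h1 h2),
        fun a b _ _ => ⟨e.symm (a, b), by simp, by simp⟩⟩ ⟨e.symm (Equiv.swap 0 1, 1), by simp⟩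

end Cfsg.Agent.S3283
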