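import Cfsg.Statements.S3284
import Mathlib
import Cfsg.Agent.Lib.X18.Main
import Cfsg.Agent.Lib.Small.Basic
import Cfsg.Agent.Lib.Core.FStar

set_option autoImplicit false
open Cfsg

namespace Cfsg.Agent.S3284

open Subgroup Cfsg.Lib

/-- There is no non-abelian finite simple group with an involution z whose centralizer M has generalized Fitting subgroup Q = F*(M) extraspecial of order 2⁹ and M/Q isomorphic to the subgroup of S₃ × S₆ consisting of the pairs of permutations with equal sign (a group (3 × A₆)·2 in which an involution outside 3 × A₆ induces S₃ on the first factor and S₆ on the second). -/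
theorem result {G : Type*} [Group G] [Finite G] [IsSimpleGroup G] (hG : ¬ IsMulCommutative G) (z : G) (hz : orderOf z = 2)
    [hn : (Cfsg.generalizedFittingSubgroup ↥(Subgroup.centralizer ({z} : Set G))).Normal]
    (hQ : Cfsg.IsExtraspecial 2 ↥(Cfsg.generalizedFittingSubgroup ↥(Subgroup.centralizer ({z} : Set G)))) (hQ9 : Nat.card ↥(Cfsg.generalizedFittingSubgroup ↥(Subgroup.centralizer ({z} : Set G))) = 2 ^ 9)
    (e : (↥(Subgroup.centralizer ({z} : Set G)) ⧸ Cfsg.generalizedFittingSubgroup ↥(Subgroup.centralizer ({z} : Set G))) ≃*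
      ↥(MonoidHom.ker (Equiv.Perm.sign.comp (MonoidHom.fst (Equiv.Perm (Fin 3)) (Equiv.Perm (Fin 6))) *
          Equiv.Perm.sign.comp (MonoidHom.snd (Equiv.Perm (Fin 3)) (Equiv.Perm (Fin 6)))))) :
    False := by
  have : Fact (Nat.Prime 2) := ⟨Nat.prime_two⟩
  refine X18.no_group (sm_pResidual_eq_top hG) hz _
    ((fstar_eq_pCore_iff_isPGroup 2).2 (IsPGroup.of_card hQ9)) hQ hQ9 centralizer_fstar_le
    (f := (MonoidHom.fst _ _).comp ((Subgroup.subtype _).comp e.toMonoidHom))
    (ψ := (MonoidHom.snd _ _).comp ((Subgroup.subtype _).comp e.toMonoidHom))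
    ⟨fun g h1 h2 => e.injective (by rw [map_one]; exact Subtype.ext (Prod.ext h1 h2)),
      fun a b ha hb => ⟨e.symm ⟨(a, b), by simp [ha, hb]⟩, by simp, by simp⟩⟩
    ⟨e.symm ⟨(Equiv.swap 0 1, Equiv.swap 0 1), by simp⟩, by simp⟩

end Cfsg.Agent.S3284
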