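import Cfsg.Statements.S3285
import Cfsg.Agent.Lib.J1.Alt

set_option autoImplicit false
open Cfsg

namespace Cfsg.Agent.S3285

/-- Let G be a finite non-solvable group with no normal subgroup of index 2, and J an involution lying in the centre of a Sylow 2-subgroup of G whose centralizer is the internal direct product of ⟨J⟩ with a subgroup isomorphic to the alternating group of degree m. Then either m = 4 and G is isomorphic to the automorphism group PΓL(2, 8) of PSL(2, 8), or m = 5 and G is isomorphic to the first Janko group. -/
theorem result {G : Type*} [Group G] [Finite G] (hns : ¬ Group.IsSolvable G) (h2 : ∀ N : Subgroup G, N.Normal → N.index ≠ 2)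
    (J : G) (hJ : Cfsg.IsTwoCentralInvolution J) (m : ℕ) (T : Subgroup G)
    (hT : Nonempty (↥T ≃* ↥(alternatingGroup (Fin m))))
    (hd : Cfsg.IsInternalDirectProduct (Subgroup.zpowers J) T (Subgroup.centralizer ({J} : Set G))) :
    (m = 4 ∧ ∃ (F : Type) (_ : Field F) (_ : Fintype F), Fintype.card F = 8 ∧
        Nonempty (G ≃* MulAut (Matrix.ProjectiveSpecialLinearGroup (Fin 2) F))) ∨
      (m = 5 ∧ Cfsg.Spor.IsoJ1 G) := by
  exact Cfsg.Lib.J1.two_times_alt hns h2 J hJ m T hT hd

end Cfsg.Agent.S3285
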