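import Cfsg.Statements.S3299
import Mathlib
import Cfsg.Agent.Lib.Misc.ExTransfer

set_option autoImplicit false
open Cfsg

namespace Cfsg.Agent.S3299

open Cfsg.Lib


/-- Let G be a finite group with no nontrivial 2-group quotient (O^2(G) = G), z an involution of G with H = C_G(z), and suppose E = O_2(H) is extraspecial with C_G(E) ≤ E and of order 2^(2n+1) with n ≥ 2. Then E is contained in every normal subgroup of H of index 2. -/
theorem result {G : Type*} [Group G] [Finite G] (hres : Cfsg.pResidual 2 G = ⊤) (z : G) (hz : orderOf z = 2)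
    (E : Subgroup G) (hE : E = (Cfsg.pCore 2 ↥(Subgroup.centralizer ({z} : Set G))).map (Subgroup.centralizer ({z} : Set G)).subtype)
    (hext : Cfsg.IsExtraspecial 2 ↥E) (hcent : Subgroup.centralizer (E : Set G) ≤ E) (n : ℕ) (hn : 2 ≤ n) (hcard : Nat.card ↥E = 2 ^ (2 * n + 1))
    (K : Subgroup G) (hKH : K ≤ Subgroup.centralizer ({z} : Set G))
    (hKn : ∀ h ∈ Subgroup.centralizer ({z} : Set G), K.map (MulAut.conj h).toMonoidHom = K)
    (hKi : K.relIndex (Subgroup.centralizer ({z} : Set G)) = 2) : E ≤ K := by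
  obtain ⟨hX, h1, h2, h3⟩ := h9_large_setup hz hE hext hcent
  refine h9_extraspecial_transfer hres hKi hX hX.isPGroup le_rfl h1 Subgroup.le_normalizer le_rfl
    (Or.inr le_rfl) fun t ht htz => Or.inr ?_
  obtain ⟨k, hk, hk1, -, hk3⟩ := h3 t ht htz
  rw [hk]
  by_cases h : t⁻¹ * z * t ∈ K
  · exact Or.inl ⟨h, Nat.pow_le_pow_right (n := 2) (by norm_num) hk1⟩
  · right
    have h4 := hk3 K hKi h
    rw [hcard, ← pow_mul, ← pow_succ', Nat.pow_le_pow_iff_right (by norm_num)] at h4
    exact Nat.pow_le_pow_right (n := 2) (i := 2) (by norm_num) (by omega)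

end Cfsg.Agent.S3299
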