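import Cfsg.Statements.S3301
import Mathlib
import Cfsg.Agent.Lib.Misc.ExTransfer
import Cfsg.Agent.S1774

set_option autoImplicit false
open Cfsg

namespace Cfsg.Agent.S3301

open Cfsg.Lib

theorem exists_K {H : Type*} [Group H] [Finite H] (q : Abelianization H) (k : ℕ) (hk : orderOf q = 2 ^ k)
    (hq : q ^ 2 ≠ 1) : ∃ (lam : H →* ℂˣ) (K : Subgroup H), K.index = 2 ∧ ∀ h, lam (h * h) = 1 → h ∈ K := by
  haveI : Fact (Nat.Prime 2) := ⟨Nat.prime_two⟩
  obtain ⟨φ, hφ⟩ := CommGroup.exists_apply_ne_one_of_hasEnoughRootsOfUnity (Abelianization H) ℂ hq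
  haveI : Finite φ.range := Finite.of_surjective _ φ.rangeRestrict_surjective
  obtain ⟨γ, hγ⟩ := Monoid.exists_orderOf_eq_exponent (G := φ.range) Monoid.ExponentExists.of_finite
  obtain ⟨j, -, hj⟩ := (Nat.dvd_prime_pow Nat.prime_two).1 (hk ▸ orderOf_map_dvd φ.rangeRestrict q)
  have hj2 : 2 ≤ j := by
    by_contra h
    apply hφ
    have : orderOf (φ.rangeRestrict q) ∣ 2 := by
      rw [hj]; exact (Nat.pow_dvd_pow 2 (by omega : j ≤ 1))
    rw [map_pow]
    exact congrArg Subtype.val (orderOf_dvd_iff_pow_eq_one.1 this)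
  obtain ⟨m, hm⟩ : 4 ∣ Monoid.exponent φ.range :=
    (Nat.pow_dvd_pow 2 hj2).trans (hj ▸ Monoid.order_dvd_exponent _)
  have hm0 : m ≠ 0 := by
    rintro rfl
    exact Monoid.exponent_ne_zero_of_finite hm
  let lam : H →* ℂˣ := φ.comp Abelianization.of
  let μ : H →* ℂˣ := (powMonoidHom (2 * m)).comp lam
  have hμ : ∀ h, μ h = 1 ∨ μ h = -1 := by
    intro h
    have h1 : μ h * μ h = 1 := by
      show lam h ^ (2 * m) * lam h ^ (2 * m) = 1
      rw [← pow_add, show 2 * m + 2 * m = 4 * m by ring, ← hm]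
      exact congrArg Subtype.val (Monoid.pow_exponent_eq_one (φ.rangeRestrict (Abelianization.of h)))
    rcases mul_self_eq_one_iff.1 (congrArg Units.val h1) with h2 | h2
    · exact Or.inl (Units.ext h2)
    · exact Or.inr (Units.ext h2)
  obtain ⟨γ, g, rfl⟩ := γ
  obtain ⟨g, rfl⟩ := QuotientGroup.mk_surjective g
  have hg : μ g = -1 := (hμ g).resolve_left fun h => by
    have := orderOf_dvd_iff_pow_eq_one.2 (show (⟨φ (QuotientGroup.mk g), QuotientGroup.mk g, rfl⟩ : φ.range) ^ (2 * m) = 1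
      from Subtype.ext h)
    rw [hγ, hm] at this
    have := Nat.le_of_dvd (by omega) this
    omega
  have hne : (-1 : ℂˣ) ≠ 1 := fun h => by
    have := congrArg Units.val h
    norm_num at this
  refine ⟨lam, μ.ker, ?_, fun h hh => ?_⟩
  · rw [Subgroup.index_eq_two_iff]
    refine ⟨g, fun b => ?_⟩
    simp only [MonoidHom.mem_ker, map_mul, hg]
    rcases hμ b with h | h <;> rw [h] <;> simp [Xor, hne]
  · show lam h ^ (2 * m) = 1
    rw [pow_mul, pow_two, ← map_mul, hh, one_pow]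

theorem sq_ker {G : Type*} [Group G] [Finite G] {E H : Subgroup G} {z : G} (hX : XS E z) (h1 : E ≤ H)
    (h2 : H ≤ Subgroup.normalizer (E : Set G)) (lam : H →* ℂˣ) (d : H) (hd : (d : G) * d ∈ E) :
    lam (d * d) = 1 := by
  by_contra hne
  have hz : lam ⟨z, h1 hX.mem⟩ = 1 := by
    obtain ⟨a, ha, b, hb, hab⟩ := hX.nonab
    have e : (⟨a, h1 ha⟩ : H) * ⟨b, h1 hb⟩ = ⟨b, h1 hb⟩ * ⟨a, h1 ha⟩ * ⟨z, h1 hX.mem⟩ :=
      Subtype.ext (hX.toXC.of_ne ha hb hab)
    have := congrArg lam e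
    rw [map_mul, map_mul, map_mul, mul_comm (lam ⟨b, _⟩), left_eq_mul] at this
    exact this
  have hval : ∀ a : H, (a : G) ∈ E → lam a = 1 ∨ lam a = -1 := by
    intro a ha
    have h3 : lam a * lam a = 1 := by
      rw [← map_mul]
      rcases hX.sq_mem a ha with e | e
      · rw [show a * a = 1 from Subtype.ext e, map_one]
      · rw [show a * a = ⟨z, h1 hX.mem⟩ from Subtype.ext e, hz]
    rcases mul_self_eq_one_iff.1 (congrArg Units.val h3) with h2 | h2
    · exact Or.inl (Units.ext h2)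
    · exact Or.inr (Units.ext h2)
  have hneg : (-1 : ℂˣ) ≠ 1 := fun h => by
    have := congrArg Units.val h
    norm_num at this
  have hmem : ∀ a : H, (a : G) ∈ lam.ker.map H.subtype ↔ lam a = 1 := fun a =>
    Subgroup.mem_map_iff_mem H.subtype_injective
  obtain ⟨y, hy, h3⟩ := hX.exists_centralizer (M := lam.ker.map H.subtype) (by
    rw [Subgroup.relIndex_eq_two_iff]
    refine ⟨d * d, hd, fun b hb => ?_⟩
    have e1 := hmem (⟨b, h1 hb⟩ * (d * d))
    have e2 := hmem ⟨b, h1 hb⟩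
    rw [map_mul, (hval (d * d) hd).resolve_left hne] at e1
    simp only [Subgroup.coe_mul] at e1 e2
    rw [e1, e2]
    rcases hval ⟨b, h1 hb⟩ hb with h | h <;> rw [h] <;> simp [Xor, hneg])
  have hdy : (d : G) * y * (d : G)⁻¹ ∈ E := h9_conj_mem_of_mem_normalizer (h2 d.2) hy
  have h4 := hX.center _ (E.mul_mem (E.inv_mem hy) hdy) fun b hb => by
    rw [eq_comm, hX.toXC.comm_mul hb (E.inv_mem hy) hdy]
    have e1 : b * y⁻¹ = y⁻¹ * b ↔ y * b = b * y :=
      ⟨fun h => (Commute.inv_right_iff.1 h : Commute b y).symm, fun h => (Commute.inv_right h.symm : Commute b y⁻¹)⟩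
    have e2 : b * (d * y * (d : G)⁻¹) = d * y * (d : G)⁻¹ * b ↔
        y * ((d : G)⁻¹ * b * d) = (d : G)⁻¹ * b * d * y := by
      constructor
      · intro h
        calc y * ((d : G)⁻¹ * b * d) = (d : G)⁻¹ * (d * y * (d : G)⁻¹ * b) * d := by group
          _ = _ := by rw [← h]; group
      · intro h
        calc b * (d * y * (d : G)⁻¹) = d * ((d : G)⁻¹ * b * d * y) * (d : G)⁻¹ := by group
          _ = _ := by rw [← h]; group
    rw [e1, e2, h3 b hb, h3 _ (h9_conj_mem_of_mem_normalizer' (h2 d.2) hb), hmem ⟨b, h1 hb⟩]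
    refine Iff.trans ?_ (hmem (d⁻¹ * ⟨b, h1 hb⟩ * d)).symm
    simp [mul_right_comm]
  apply hne
  rw [← hmem, Subgroup.coe_mul, ← h3 _ hd, eq_comm, ← mul_inv_eq_iff_eq_mul]
  have e : (d : G) * d * y * ((d : G) * d)⁻¹ = d * (d * y * (d : G)⁻¹) * (d : G)⁻¹ := by group
  rw [e]
  rcases h4 with h4 | h4
  · rw [inv_mul_eq_one] at h4
    rw [← h4, ← h4]
  · rw [inv_mul_eq_iff_eq_mul] at h4
    rw [h4, show (d : G) * (y * z) * (d : G)⁻¹ = d * y * (d : G)⁻¹ * (d * z * (d : G)⁻¹) by group, h4,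
      hX.conj_eq (h2 d.2), mul_assoc, hX.sq, mul_one]

/-- Let G be a finite group with no nontrivial 2-group quotient (O^2(G) = G), z an involution of G with H = C_G(z), and suppose E = O_2(H) is extraspecial with C_G(E) ≤ E. Then the Sylow 2-subgroups of H/[H, H] are elementary abelian: every element of 2-power order of the abelianization of H has order at most 2. -/
theorem result {G : Type*} [Group G] [Finite G] (hres : Cfsg.pResidual 2 G = ⊤) (z : G) (hz : orderOf z = 2)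
    (E : Subgroup G) (hE : E = (Cfsg.pCore 2 ↥(Subgroup.centralizer ({z} : Set G))).map (Subgroup.centralizer ({z} : Set G)).subtype)
    (hext : Cfsg.IsExtraspecial 2 ↥E) (hcent : Subgroup.centralizer (E : Set G) ≤ E) :
    ∀ q : Abelianization ↥(Subgroup.centralizer ({z} : Set G)), (∃ k : ℕ, orderOf q = 2 ^ k) → q ^ 2 = 1 := by
  rintro q ⟨k, hk⟩
  by_contra hq
  obtain ⟨hX, h1, h2, h3⟩ := h9_large_setup hz hE hext hcent
  obtain ⟨lam, K, hK, hK2⟩ := exists_K q k hk hq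
  have hKi : (K.map (Subgroup.centralizer ({z} : Set G)).subtype).relIndex (Subgroup.centralizer ({z} : Set G)) = 2 := by
    rw [Subgroup.relIndex, Subgroup.subgroupOf, Subgroup.comap_map_eq_self_of_injective (Subgroup.subtype_injective _)]
    exact hK
  obtain ⟨P, hP⟩ := exists_isSylowIn 2 (Subgroup.centralizer ({z} : Set G))
  refine h9_not_sylow_le hP hKi (h9_extraspecial_transfer hres hKi hX hP.isPGroup
    (hP.le_of_normalizes hX.isPGroup h1 (hP.le.trans h2)) hP.le (hP.le.trans h2) (r := 2) (by norm_num)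
    (Or.inl le_rfl) fun t ht htz => ?_)
  obtain ⟨k, hk, hk1, hk2, -⟩ := h3 t ht htz
  rw [hk]
  have hsq : ∀ e : G, e * e = 1 → t⁻¹ * e * t * (t⁻¹ * e * t) = 1 := fun e he => by
    rw [show t⁻¹ * e * t * (t⁻¹ * e * t) = t⁻¹ * (e * e) * t by group, he]; group
  rcases hk1.eq_or_lt with rfl | hk1
  · left
    refine ⟨fun e he heH => ⟨⟨_, heH⟩, hK2 _ (sq_ker hX h1 h2 lam _ ?_), rfl⟩, le_rfl⟩
    show t⁻¹ * e * t * (t⁻¹ * e * t) ∈ E
    rcases hX.sq_mem e he with h | h
    · rw [hsq e h]; exact E.one_mem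
    · rw [show t⁻¹ * e * t * (t⁻¹ * e * t) = t⁻¹ * (e * e) * t by group, h, ← h9_mem_conj_iff]
      exact (Cfsg.Agent.S1774.aux hX.toXC hX.isPGroup
        (fun c hc => h2 (Subgroup.mem_centralizer_singleton_iff.2 hc))
        (fun x _ hx => hcent fun a ha => (hx a ha).symm) (fun x hx hc _ => hX.center x hx hc) t
        (fun h => ht (Subgroup.mem_centralizer_singleton_iff.2 (mul_inv_eq_iff_eq_mul.1 h))) (hk2 rfl)).1
  · right; left
    refine ⟨⟨⟨_, htz⟩, hK2 _ ?_, rfl⟩, Nat.pow_le_pow_right (n := 2) (i := 2) (by norm_num) hk1⟩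
    rw [show (⟨_, htz⟩ : Subgroup.centralizer ({z} : Set G)) * ⟨_, htz⟩ = 1 from Subtype.ext (hsq z hX.sq), map_one]

end Cfsg.Agent.S3301
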