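import Cfsg.Statements.S3302
import Mathlib
import Cfsg.Agent.Lib.Hay.Closed

set_option autoImplicit false
open Cfsg

namespace Cfsg.Agent.S3302
open Cfsg.Lib

open Cfsg.Lib.Hay Subgroup

/-- Let m > 1 be odd, F the field with 3^m elements, and 𝒞 the centralizer in PSp₄(F) of an element of order 3 lying in the centre of a Sylow 3-subgroup. Let G be a finite group with an element α of order 3 such that C_G(α) ≅ 𝒞 and C_G(z) = C_G(α) for every non-identity element z of the centre of C_G(α). Let P be a Sylow 3-subgroup of G and M ≤ P an elementary abelian subgroup of order 3^{3m}, and suppose that N_G(M) normalizes P (so that P is a normal Sylow 3-subgroup of N_G(M)). Then G = C_G(Z)·N_G(M), where Z is the centre of C_G(α): every element of G is a product of an element centralizing Z and an element of N_G(M); and C_G(α) is a normal subgroup of G. -/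
theorem result {G : Type*} [Group G] [Finite G] {F : Type*} [Field F] [Fintype F] (m : ℕ) (hm : Odd m) (hm1 : 1 < m) (hF : Fintype.card F = 3 ^ m) (U : Sylow 3 (Cfsg.PSp 2 F)) (x : Cfsg.PSp 2 F) (hx : orderOf x = 3) (hxU : x ∈ (U : Subgroup (Cfsg.PSp 2 F))) (hxc : ∀ u ∈ (U : Subgroup (Cfsg.PSp 2 F)), u * x = x * u) (α : G) (hα : orderOf α = 3) (e : ↥(Subgroup.centralizer ({α} : Set G)) ≃* ↥(Subgroup.centralizer ({x} : Set (Cfsg.PSp 2 F)))) (hb : ∀ z : G, z ≠ 1 → z ∈ Subgroup.centralizer ({α} : Set G) → (∀ c ∈ Subgroup.centralizer ({α} : Set G), c * z = z * c) → Subgroup.centralizer ({z} : Set G) = Subgroup.centralizer ({α} : Set G)) (P : Sylow 3 G) (M : Subgroup G) (hMP : M ≤ (P : Subgroup G)) (hMel : Cfsg.IsElementaryAbelian 3 M) (hMcard : Nat.card M = 3 ^ (3 * m)) (hB : Subgroup.normalizer (M : Set G) ≤ Subgroup.normalizer ((P : Subgroup G) : Set G)) : (∀ g : G, ∃ c k : G, c ∈ Subgroup.centralizer {z : G | z ∈ Subgroup.centralizer ({α} : Set G) ∧ ∀ c'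 ∈ Subgroup.centralizer ({α} : Set G), c' * z = z * c'} ∧ k ∈ Subgroup.normalizer (M : Set G) ∧ g = c * k) ∧ (Subgroup.centralizer ({α} : Set G)).Normal := by
  haveI : Fact (Nat.Prime 3) := ⟨Nat.prime_three⟩
  obtain ⟨A0, hA0⟩ := exists_amb hm hm1 hF U hx hxc e hb
  obtain ⟨g, hg⟩ := A0.exists_conj P
  have hq : Nat.card M = Nat.card F ^ 3 := by
    rw [hMcard, Nat.card_eq_fintype_card, hF, ← pow_mul, mul_comm]
  have hcomm : ∀ a ∈ M, ∀ b ∈ M, a * b = b * a := fun a ha b hb =>
    congrArg Subtype.val (hMel.1.is_comm.comm (⟨a, ha⟩ : M) ⟨b, hb⟩)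
  have hM : M = (A0.conj g).M := (A0.conj g).eq_M (hg ▸ hMP) hcomm hq
  have hN := (A0.conj g).range_normal (by rw [← hM, hg]; exact hB)
  have hr : (A0.conj g).j.range = centralizer {α} := by
    rw [← hA0]
    ext y
    constructor
    · intro hy
      obtain ⟨d, hd⟩ := hN.conj_mem _ hy g
      exact ⟨_, (MulAut.conj g).injective hd⟩
    · rintro ⟨c, rfl⟩
      have := hN.conj_mem _ (⟨c, rfl⟩ : (A0.conj g).j c ∈ (A0.conj g).j.range) g⁻¹
      change g⁻¹ * (g * A0.j c * g⁻¹) * g⁻¹⁻¹ ∈ _ at this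
      rwa [show g⁻¹ * (g * A0.j c * g⁻¹) * g⁻¹⁻¹ = A0.j c by group] at this
  rw [hr] at hN
  refine ⟨fun y => ?_, hN⟩
  have hPC : (P : Subgroup G) ≤ centralizer {α} := by
    rw [← hg, ← hr]; exact map_le_range _ _
  have hF := Sylow.normalizer_sup_eq_top' P hPC
  have hy : y ∈ centralizer {α} ⊔ normalizer ((P : Subgroup G) : Set G) := by
    rw [sup_comm]; exact hF.ge (mem_top y)
  rw [← SetLike.mem_coe, normal_mul] at hy
  obtain ⟨c, hc, k, hk, rfl⟩ := hy
  refine ⟨c, k, fun z hz => (hz.2 c hc).symm, ?_, rfl⟩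
  have := (A0.conj g).eq_M (B := M.map (MulAut.conj k).toMonoidHom) (by
    rintro _ ⟨x, hx, rfl⟩
    rw [hg]
    exact (mem_normalizer_iff.1 hk x).1 (hMP hx)) (by
    rintro _ ⟨x, hx, rfl⟩ _ ⟨y, hy, rfl⟩
    simp only [← map_mul, hcomm x hx y hy]) (by
    rw [card_map_of_injective (MulAut.conj k).injective, hq])
  rw [← hM] at this
  exact mem_normalizer_fintype fun x hx => this.le ⟨x, hx, rfl⟩

end Cfsg.Agent.S3302
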