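import Cfsg.Statements.S3303
import Mathlib
import Cfsg.Agent.Lib.Solv.Two
import Cfsg.Agent.S3305

set_option autoImplicit false
open Cfsg

namespace Cfsg.Agent.S3303

open Subgroup Cfsg.Lib

/-- Let G be a finite solvable group in which the intersection of any two distinct Sylow 2-subgroups is cyclic. Then G/O(G) has a normal Sylow 2-subgroup, where O(G) is the largest normal subgroup of odd order. -/
theorem result {G : Type*} [Group G] [Finite G] (hs : Group.IsSolvable G)
    (hC : ∀ S T : Sylow 2 G, S ≠ T → IsCyclic ↥((S : Subgroup G) ⊓ (T : Subgroup G))) :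
    ∃ P : Sylow 2 (G ⧸ Cfsg.oddCore G), (P : Subgroup (G ⧸ Cfsg.oddCore G)).Normal := by
  obtain ⟨S⟩ : Nonempty (Sylow 2 (G ⧸ oddCore G)) := inferInstance
  refine ⟨S, ?_⟩
  by_contra hn
  obtain ⟨T, hT⟩ := exists_sylow_ne_of_not_normal S hn
  have h1 := Cfsg.Agent.S3305.result hC (oddCore G) S T hT
  have h2 : IsCyclic (pCore 2 (G ⧸ oddCore G)) :=
    Subgroup.isCyclic_of_le (le_inf (pCore_le_sylow S) (pCore_le_sylow T))
  have h3 : IsPGroup 2 (G ⧸ oddCore G) := isPGroup_of_charP_of_forall
    (centralizer_pCore_le_of_isSolvable inferInstance pPrimeCore_quotient_pPrimeCore)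
    fun g hg => mem_centralizer_of_odd_of_isCyclic isPGroup_pCore h2
      (le_normalizer_of_normal (mem_top g)) hg
  exact hn ((S.is_maximal' (h3.to_subgroup ⊤) le_top) ▸ inferInstance)

end Cfsg.Agent.S3303
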