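import Cfsg.Statements.S3306
import Mathlib
import Cfsg.Agent.Lib.CI.Main

set_option autoImplicit false
open Cfsg

namespace Cfsg.Agent.S3306

open Subgroup Cfsg.Lib

/-- Let G be a finite nonsolvable group in which any two distinct Sylow 2-subgroups intersect in a cyclic group, and let N be a solvable normal subgroup of G. Then the image of N in G/O(G) is a cyclic 2-group contained in the centre of G/O(G) (O(G) the largest normal subgroup of odd order). In other words the solvable radical of G is V·O(G) with V a cyclic 2-group central modulo O(G). -/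
theorem result {G : Type*} [Group G] [Finite G] (hns : ¬ Group.IsSolvable G)
    (hC : ∀ S T : Sylow 2 G, S ≠ T → IsCyclic ↥((S : Subgroup G) ⊓ (T : Subgroup G)))
    (N : Subgroup G) [N.Normal] (hN : Group.IsSolvable ↥N) :
    IsCyclic ↥(N.map (QuotientGroup.mk' (Cfsg.oddCore G))) ∧ IsPGroup 2 ↥(N.map (QuotientGroup.mk' (Cfsg.oddCore G))) ∧
      N.map (QuotientGroup.mk' (Cfsg.oddCore G)) ≤ Subgroup.center (G ⧸ Cfsg.oddCore G) := by
  have hf := QuotientGroup.mk'_surjective (oddCore G)
  have hC' : Cfsg.Lib.FT.CycInt (G ⧸ oddCore G) := (Cfsg.Lib.FT.cycInt_of_sylow hC).of_surjective hf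
  have hO : pPrimeCore 2 (G ⧸ oddCore G) = ⊥ := pPrimeCore_quotient_pPrimeCore
  have hns' : ¬ Group.IsSolvable (G ⧸ oddCore G) := fun h => by
    have : Group.IsSolvable (oddCore G) := Cfsg.Lib.FT.odd_order_solvable odd_card_oddCore
    exact hns (Group.isSolvable_of_ker_le_range (oddCore G).subtype (QuotientGroup.mk' (oddCore G)) (by simp))
  have hV := hC'.isCyclic_pCore hns'
  have hn : (N.map (QuotientGroup.mk' (oddCore G))).Normal := Normal.map inferInstance _ hf
  have h1 : N.map (QuotientGroup.mk' (oddCore G)) ≤ pCore 2 _ := Cfsg.Lib.FT.le_pCore_of_isCyclic hO hV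
    (Group.isSolvable_of_surjective ((QuotientGroup.mk' (oddCore G)).subgroupMap_surjective N))
  exact ⟨Cfsg.Lib.FT.isCyclic_of_le hV h1, isPGroup_pCore.to_le h1, h1.trans (hC'.pCore_le_center hO hns')⟩

end Cfsg.Agent.S3306
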