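import Cfsg.Statements.S3309
import Mathlib
import Cfsg.Agent.Lib.Misc.Invol
import Cfsg.Agent.Lib.Small.Basic
import Cfsg.Agent.Lib.Transfer.Thompson

set_option autoImplicit false
open Cfsg

namespace Cfsg.Agent.S3309

open Cfsg.Lib

open Subgroup

abbrev P := Multiplicative (ZMod 2) × DihedralGroup 4

def chi (α β : ZMod 2) : DihedralGroup 4 → ZMod 2
  | .r i => α * (i.val : ZMod 2)
  | .sr i => α * (i.val : ZMod 2) + β

def M (α β : ZMod 2) : Subgroup P where
  carrier := {x | Multiplicative.toAdd x.1 = chi α β x.2}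
  one_mem' := by revert α β; decide
  mul_mem' := by
    intro a b
    simp only [Set.mem_ofPred_eq]
    revert α β a b; decide
  inv_mem' := by
    intro a
    simp only [Set.mem_ofPred_eq]
    revert α β a; decide

theorem mem_M (α β : ZMod 2) (x : P) : x ∈ M α β ↔ Multiplicative.toAdd x.1 = chi α β x.2 := Iff.rfl

def tt : P := (Multiplicative.ofAdd 1, 1)
def zz : P := (1, .r 2)
def bb (ε : ZMod 2) (δ : ZMod 4) : P := (Multiplicative.ofAdd ε, .sr δ)

theorem index_M (α β : ZMod 2) : (M α β).index = 2 := by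
  rw [index_eq_two_iff]
  refine ⟨tt, ?_⟩
  simp only [mem_M, Xor]
  revert α β; decide

theorem invol_M : ∀ α β : ZMod 2, ∀ y : P, Multiplicative.toAdd y.1 = chi α β y.2 → y * y = 1 →
    y = 1 ∨ y = zz ∨ (∃ k, k * y * k⁻¹ = bb β 0) ∨ ∃ k, k * y * k⁻¹ = bb (α + β) 1 := by decide

theorem invol_P : ∀ y : P, y * y = 1 → y = 1 ∨ y = zz ∨ y = tt ∨ y = tt * zz ∨
    ((∃ k, k * y * k⁻¹ = y * zz) ∧ ∃ ε, (∃ k, k * y * k⁻¹ = bb ε 0) ∨ ∃ k, k * y * k⁻¹ = bb ε 1) := by decide

theorem central_P : ∀ y : P, (∀ k, k * y = y * k) → y = 1 ∨ y = zz ∨ y = tt ∨ y = tt * zz := by decide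

theorem tt_comm : ∀ y : P, y * tt = tt * y := by decide

theorem sq_P : ∀ y : P, y * y = 1 ∨ y * y = zz := by decide

theorem aux {G : Type*} [Group G] [Finite G] (S : Sylow 2 G) (φ : P →* G) (hφ : Function.Injective φ)
    (hr : φ.range = S) (hG : ∀ N : Subgroup G, N.index ≠ 2) : False := by
  have hS : ∀ y, φ y ∈ (S : Subgroup G) := fun y => hr ▸ ⟨y, rfl⟩
  have hS' : ∀ x ∈ (S : Subgroup G), ∃ y, φ y = x := fun x hx => by rwa [← hr] at hx
  have hc : ∀ {x y k : P}, k * x * k⁻¹ = y → IsConj (φ x) (φ y) := fun {x y k} h =>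
    isConj_iff.2 ⟨φ k, by rw [← h, map_mul, map_mul, map_inv]⟩
  -- extremal conjugation
  have hext : ∀ (u : P), (∀ k, k * u = u * k) → ∀ (U : Subgroup G), U ≤ S → ∀ b ∈ U, (∀ v ∈ U, v * b = b * v) →
      IsConj b (φ u) → ∃ g, g * b * g⁻¹ = φ u ∧ ∀ v ∈ U, g * v * g⁻¹ ∈ (S : Subgroup G) := by
    intro u hu U hU b hb hbU h
    obtain ⟨g, hg⟩ := isConj_iff.1 h
    obtain ⟨k, hk, hk'⟩ := (IsSylowIn.of_sylow_le S (K := centralizer ({φ u} : Set G)) (fun x hx => by
      obtain ⟨y, rfl⟩ := hS' x hx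
      rw [mem_centralizer_singleton_iff, ← map_mul, hu, map_mul])).exists_conj_le
      (U := U.map (MulAut.conj g).toMonoidHom) ((S.isPGroup'.to_le hU).map _) (by
        rintro _ ⟨v, hv, rfl⟩
        rw [mem_centralizer_singleton_iff, ← hg]
        exact (Commute.map (hbU v hv) (MulAut.conj g)))
    refine ⟨k * g, ?_, fun v hv => ?_⟩
    · rw [show k * g * b * (k * g)⁻¹ = k * (g * b * g⁻¹) * k⁻¹ by group, hg]
      exact mul_inv_eq_iff_eq_mul.2 (mem_centralizer_singleton_iff.1 hk)
    · rw [show k * g * v * (k * g)⁻¹ = k * (g * v * g⁻¹) * k⁻¹ by group]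
      exact hk' (h9_conj_mem_conj k (h9_conj_mem_conj g hv))
  have hzfix : ∀ g : G, (∀ v ∈ (S : Subgroup G), g * v * g⁻¹ ∈ (S : Subgroup G)) → g * φ zz * g⁻¹ = φ zz := by
    intro g hg
    obtain ⟨y, hy⟩ := hS' _ (hg _ (hS (1, .r 1)))
    have e : g * φ zz * g⁻¹ = φ (y * y) := by
      rw [map_mul, hy, show zz = ((1, .r 1) : P) * (1, .r 1) by decide, map_mul]; group
    rcases sq_P y with h | h
    · rw [h, map_one, mul_inv_eq_one, mul_eq_left, map_eq_one_iff _ hφ] at e
      exact absurd e (by decide)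
    · rw [e, h]
  have hcen : ∀ u v : P, (∀ k, k * u = u * k) → (∀ k, k * v = v * k) → IsConj (φ u) (φ v) → u = v := by
    intro u v hu hv h
    obtain ⟨g, hg, hg'⟩ := hext v hv S le_rfl (φ u) (hS u) (fun x hx => by
      obtain ⟨y, rfl⟩ := hS' x hx
      rw [← map_mul, hu, map_mul]) h
    have hz := hzfix g hg'
    have hgN : g ∈ normalizer ((S : Subgroup G) : Set G) := h9_mem_normalizer_of_conj_mem hg'
    have ht : g * φ tt * g⁻¹ = φ tt := by
      obtain ⟨y, hy⟩ := hS' _ (hg' _ (hS tt))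
      have hyc : ∀ k, k * y = y * k := by
        intro k
        apply hφ
        obtain ⟨k', hk'⟩ := hS' _ (h9_conj_mem_of_mem_normalizer' hgN (hS k))
        rw [map_mul, map_mul, hy]
        calc φ k * (g * φ tt * g⁻¹) = g * (g⁻¹ * φ k * g * φ tt) * g⁻¹ := by group
          _ = g * (φ tt * (g⁻¹ * φ k * g)) * g⁻¹ := by
            rw [← hk', ← map_mul, ← map_mul, tt_comm]
          _ = _ := by group
      rcases central_P y hyc with rfl | rfl | rfl | rfl
      · rw [map_one, eq_comm, mul_inv_eq_one, mul_eq_left, map_eq_one_iff _ hφ] at hy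
        exact absurd hy (by decide)
      · rw [← hz, mul_left_inj, mul_right_inj] at hy
        exact absurd (hφ hy) (by decide)
      · exact hy.symm
      · have h2 : Commute (g * g) (φ tt) := by
          rw [Commute, SemiconjBy, ← mul_inv_eq_iff_eq_mul]
          calc g * g * φ tt * (g * g)⁻¹ = g * (g * φ tt * g⁻¹) * g⁻¹ := by group
            _ = g * φ (tt * zz) * g⁻¹ := by rw [← hy]
            _ = (g * φ tt * g⁻¹) * (g * φ zz * g⁻¹) := by rw [map_mul]; group
            _ = _ := by rw [← hy, hz, ← map_mul]; congr 1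
        haveI : ((S : Subgroup G).subgroupOf (normalizer ((S : Subgroup G) : Set G))).Normal :=
          normal_in_normalizer
        have h3 : g ^ (S : Subgroup G).relIndex (normalizer ((S : Subgroup G) : Set G)) ∈ (S : Subgroup G) :=
          pow_index_mem ((S : Subgroup G).subgroupOf (normalizer ((S : Subgroup G) : Set G))) ⟨g, hgN⟩
        have h4 := (IsSylowIn.of_sylow_le S (K := normalizer ((S : Subgroup G) : Set G)) le_normalizer).not_dvd_relIndex
        obtain ⟨k, hk⟩ := Nat.odd_iff.2 (Nat.two_dvd_ne_zero.1 h4)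
        rw [hk] at h3
        obtain ⟨w, hw⟩ := hS' _ h3
        have h5 : Commute (g ^ (2 * k + 1)) (φ tt) := by
          rw [← hw]; exact Commute.map (tt_comm w) φ
        have h6 : Commute g (φ tt) := by
          have e : g = ((g * g) ^ k)⁻¹ * g ^ (2 * k + 1) := by rw [← pow_two, ← pow_mul]; group
          rw [e]; exact (h2.pow_left k).inv_left.mul_left h5
        exact mul_inv_eq_iff_eq_mul.2 h6
    apply hφ
    rw [← hg]
    rcases central_P u hu with rfl | rfl | rfl | rfl
    · simp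
    · exact hz.symm
    · exact ht.symm
    · rw [map_mul, show g * (φ tt * φ zz) * g⁻¹ = (g * φ tt * g⁻¹) * (g * φ zz * g⁻¹) by group, ht, hz]
  have hth : ∀ u : P, (∀ k, k * u = u * k) → u * u = 1 → u ≠ 1 → u ≠ zz → ∀ α β : ZMod 2,
      IsConj (φ u) (φ (bb β 0)) ∨ IsConj (φ u) (φ (bb (α + β) 1)) := by
    intro u hu hu2 hu1 huz α β
    obtain ⟨g, y, hy, hg⟩ := thompson_transfer' hG S (M := (M α β).map φ) (t := φ u) (by
      rw [← hr, MonoidHom.range_eq_map, relIndex_map_map_of_injective _ _ hφ, relIndex_top_right, index_M])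
      (by rw [pow_two, ← map_mul, hu2, map_one])
    have h1 : IsConj (φ u) (φ y) := isConj_iff.2 ⟨g, hg.symm⟩
    rcases invol_M α β y hy (hφ (by
      rw [map_mul, hg, map_one, show g * φ u * g⁻¹ * (g * φ u * g⁻¹) = g * (φ u * φ u) * g⁻¹ by group,
        ← map_mul, hu2]; simp)) with rfl | rfl | ⟨k, hk⟩ | ⟨k, hk⟩
    · exact absurd (hcen _ _ hu (by decide) h1) hu1
    · exact absurd (hcen _ _ hu (by decide) h1) huz
    · exact Or.inl (h1.trans (hc hk))
    · exact Or.inr (h1.trans (hc hk))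
  have h1 := hth tt (by decide) (by decide) (by decide) (by decide)
  have h2 := hth (tt * zz) (by decide) (by decide) (by decide) (by decide)
  have h3 : ∀ y, IsConj (φ tt) y → IsConj (φ (tt * zz)) y → False := fun y ha hb =>
    absurd (hcen _ _ (by decide) (by decide) (ha.trans hb.symm)) (by decide)
  have h4 : ∀ ε : ZMod 2, (IsConj (φ tt) (φ (bb ε 0)) ∨ IsConj (φ (tt * zz)) (φ (bb ε 0))) ∧
      (IsConj (φ tt) (φ (bb ε 1)) ∨ IsConj (φ (tt * zz)) (φ (bb ε 1))) := by
    intro ε
    have a1 := h1 0 ε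
    have a2 := h2 0 ε
    rw [zero_add] at a1 a2
    have a3 := h3 (φ (bb ε 0))
    have a4 := h3 (φ (bb ε 1))
    tauto
  have h5 : ∀ y : P, IsConj (φ y) (φ zz) → y * y = 1 → y = zz := by
    intro y hy hy2
    rcases invol_P y hy2 with rfl | rfl | rfl | rfl | ⟨-, ε, ⟨k, hk⟩ | ⟨k, hk⟩⟩
    · exact hcen _ _ (by decide) (by decide) hy
    · rfl
    · exact hcen _ _ (by decide) (by decide) hy
    · exact hcen _ _ (by decide) (by decide) hy
    · rcases (h4 ε).1 with h | h
      · exact absurd (hcen _ _ (by decide) (by decide) (h.trans ((hc hk).symm.trans hy))) (by decide)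
      · exact absurd (hcen _ _ (by decide) (by decide) (h.trans ((hc hk).symm.trans hy))) (by decide)
    · rcases (h4 ε).2 with h | h
      · exact absurd (hcen _ _ (by decide) (by decide) (h.trans ((hc hk).symm.trans hy))) (by decide)
      · exact absurd (hcen _ _ (by decide) (by decide) (h.trans ((hc hk).symm.trans hy))) (by decide)
  have h6 : ∀ u : P, (u = tt ∨ u = tt * zz) → ¬ IsConj (φ u) (φ (bb 0 0)) := by
    intro u hu h
    have hu1 : ∀ k, k * u = u * k := by rcases hu with rfl | rfl <;> decide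
    obtain ⟨g, hg, hg'⟩ := hext u hu1 ((centralizer ({bb 0 0} : Set P)).map φ) (by
      rintro _ ⟨y, -, rfl⟩; exact hS y) (φ (bb 0 0)) ⟨_, mem_centralizer_singleton_iff.2 rfl, rfl⟩ (by
      rintro _ ⟨y, hy, rfl⟩
      rw [← map_mul, mem_centralizer_singleton_iff.1 hy, map_mul]) h.symm
    obtain ⟨y, hy⟩ := hS' _ (hg' _ ⟨zz, mem_centralizer_singleton_iff.2 (by decide), rfl⟩)
    obtain ⟨w, hw⟩ := hS' _ (hg' _ ⟨u, mem_centralizer_singleton_iff.2 (hu1 _).symm, rfl⟩)
    have hsq : ∀ a b : P, φ b = g * φ a * g⁻¹ → a * a = 1 → b * b = 1 := fun a b h1 h2 => hφ (by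
      rw [map_mul, h1, map_one, show g * φ a * g⁻¹ * (g * φ a * g⁻¹) = g * (φ a * φ a) * g⁻¹ by group,
        ← map_mul, h2]; simp)
    obtain rfl := h5 y (isConj_iff.2 ⟨g, hy.symm⟩).symm (hsq _ _ hy (by decide))
    have hwu : IsConj (φ u) (φ w) := isConj_iff.2 ⟨g, hw.symm⟩
    have hwu' : w ≠ u := by
      rintro rfl
      have h8 := hg.trans hw
      rw [mul_left_inj, mul_right_inj] at h8
      have := hφ h8
      rcases hu with rfl | rfl <;> exact absurd this (by decide)
    rcases invol_P w (hsq _ _ hw (by rcases hu with rfl | rfl <;> decide)) with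
      rfl | rfl | rfl | rfl | ⟨⟨k, hk⟩, -⟩
    · exact hwu' (hcen _ _ hu1 (by decide) hwu).symm
    · exact hwu' (hcen _ _ hu1 (by decide) hwu).symm
    · exact hwu' (hcen _ _ hu1 (by decide) hwu).symm
    · exact hwu' (hcen _ _ hu1 (by decide) hwu).symm
    · have h7 : IsConj (φ (u * zz)) (φ (w * zz)) := isConj_iff.2 ⟨g, by
        rw [map_mul, map_mul, hw, show g * (φ u * φ zz) * g⁻¹ = (g * φ u * g⁻¹) * (g * φ zz * g⁻¹) by group,
          ← hy]⟩
      have := hcen _ _ hu1 (by rcases hu with rfl | rfl <;> decide) (hwu.trans ((hc hk).trans h7.symm))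
      rcases hu with rfl | rfl <;> exact absurd this (by decide)
  rcases (h4 0).1 with h | h
  · exact h6 _ (Or.inl rfl) h
  · exact h6 _ (Or.inr rfl) h

/-- A finite group whose Sylow 2-subgroups are isomorphic to the direct product of a group of order 2 and the dihedral group of order 8 is not a non-abelian simple group. -/
theorem result {G : Type*} [Group G] [Finite G] (S : Sylow 2 G) (hS : Nonempty (↥(S : Subgroup G) ≃* Multiplicative (ZMod 2) × DihedralGroup 4))
    [IsSimpleGroup G] (hG : ¬ IsMulCommutative G) : False := by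
  obtain ⟨e⟩ := hS
  refine aux S ((S : Subgroup G).subtype.comp e.symm.toMonoidHom)
    ((S : Subgroup G).subtype_injective.comp e.symm.injective) ?_ (sm_index_ne_two hG)
  rw [MonoidHom.range_comp, MonoidHom.range_eq_top.2 e.symm.surjective, ← MonoidHom.range_eq_map,
    range_subtype]

end Cfsg.Agent.S3309
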