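import Cfsg.Statements.S3313
import Mathlib
import Cfsg.Agent.Lib.Misc.ExForm
import Cfsg.Agent.Lib.Misc.OrderFormula
import Cfsg.Agent.Lib.Core.FStar
import Cfsg.Agent.Lib.Coprime.Hall

set_option autoImplicit false
open Cfsg

namespace Cfsg.Agent.S3313

open Cfsg.Lib

open Cfsg.Lib.PC

theorem a5_inv : ∀ k : alternatingGroup (Fin 5), k * k = 1 → k ≠ 1 →
    ∃ f : alternatingGroup (Fin 5), f ^ 5 = 1 ∧ f ≠ 1 ∧ k * f * k⁻¹ = f⁻¹ := by
  decide +kernel

theorem a5_cnt : (Finset.univ.filter fun k : alternatingGroup (Fin 5) =>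
    k ≠ 1 ∧ k * k = 1).card = 15 := by
  decide +kernel

theorem a5_cnt2 : ∀ u : alternatingGroup (Fin 5), u ≠ 1 → u * u = 1 →
    (Finset.univ.filter fun k : alternatingGroup (Fin 5) =>
      k ≠ 1 ∧ k * k = 1 ∧ (u * k = k * u → u = k)).card = 13 := by
  decide +kernel

theorem a5_ord : ∀ g : alternatingGroup (Fin 5), g * g = 1 ∨ g ^ 3 = 1 ∨ g ^ 5 = 1 := by
  decide +kernel

theorem a5_card : Nat.card (alternatingGroup (Fin 5)) = 60 := by
  rw [nat_card_alternatingGroup]; simp [Nat.factorial]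

theorem ncard_transfer {G A : Type*} [Group G] [Group A] [Fintype A] {K : Subgroup G} (e : K ≃* A)
    (P : G → Prop) (p : A → Prop) [DecidablePred p] (h : ∀ k : K, P k ↔ p (e k)) :
    {k | k ∈ K ∧ P k}.ncard = (Finset.univ.filter p).card := by
  rw [← Set.ncard_coe_finset]
  refine Set.ncard_congr (fun k hk => e ⟨k, hk.1⟩) ?_ ?_ ?_
  · intro k hk
    simpa using (h ⟨k, hk.1⟩).1 hk.2
  · intro a b ha hb hab
    exact congrArg Subtype.val (e.injective hab)
  · intro a ha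
    refine ⟨e.symm a, ⟨(e.symm a).2, (h _).2 (by simpa using ha)⟩, by simp⟩

theorem ncard_fiber {α β : Type*} [Finite α] [Finite β] (S : Set α) (I : Set β) (π : α → β)
    (hπ : ∀ a ∈ S, π a ∈ I) (n : ℕ) (hn : ∀ b ∈ I, {a | a ∈ S ∧ π a = b}.ncard = n) :
    S.ncard = I.ncard * n := by
  classical
  rw [Set.ncard_eq_toFinset_card S, Set.ncard_eq_toFinset_card I,
    Finset.card_eq_sum_card_fiberwise (f := π) (t := I.toFinite.toFinset) (by
      intro a ha
      simpa using hπ a (by simpa using ha)), ← smul_eq_mul, ← Finset.sum_const]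
  refine Finset.sum_congr rfl fun b hb => ?_
  rw [← hn b (by simpa using hb), ← Set.ncard_coe_finset]
  congr 1
  ext a
  simp

theorem coded_ncard_pairs {G : Type*} [Group G] [Finite G] {K : Subgroup G} {N : ℕ} {m : ℕ → ℕ → ℕ}
    {f : ℕ → G} (h : Coded K N m f) (P : G → G → Prop) (p : ℕ → ℕ → Bool)
    (hp : ∀ a < N, ∀ b < N, P (f a) (f b) ↔ p a b = true) :
    Set.ncard {x : G × G | x.1 ∈ K ∧ x.2 ∈ K ∧ P x.1 x.2} =
      ∑ a ∈ Finset.range N, ((Finset.range N).filter fun b => p a b = true).card := by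
  have : {x : G × G | x.1 ∈ K ∧ x.2 ∈ K ∧ P x.1 x.2} = (fun c : ℕ × ℕ => (f c.1, f c.2)) ''
      ((Finset.range N ×ˢ Finset.range N).filter fun c => p c.1 c.2 = true : Finset (ℕ × ℕ)) := by
    ext x
    simp only [Set.mem_ofPred_eq, Finset.coe_filter, Finset.mem_range, Set.mem_image,
      Finset.mem_product]
    constructor
    · rintro ⟨hx, hy, hP⟩
      obtain ⟨a, ha, e1⟩ := h.surj _ hx
      obtain ⟨b, hb, e2⟩ := h.surj _ hy
      exact ⟨(a, b), ⟨⟨ha, hb⟩, (hp a ha b hb).1 (e1 ▸ e2 ▸ hP)⟩, Prod.ext e1.symm e2.symm⟩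
    · rintro ⟨a, ⟨ha, hP⟩, rfl⟩
      exact ⟨h.mem _, h.mem _, (hp _ ha.1 _ ha.2).2 hP⟩
  rw [this, Set.InjOn.ncard_image, Set.ncard_coe_finset, Finset.card_filter, Finset.sum_product]
  · simp only [Finset.card_filter]
  intro a ha b hb hab
  simp only [Finset.coe_filter, Finset.mem_range, Set.mem_ofPred_eq, Finset.mem_product] at ha hb
  simp only [Prod.mk.injEq] at hab
  exact Prod.ext (h.inj _ ha.1.1 _ hb.1.1 hab.1) (h.inj _ ha.1.2 _ hb.1.2 hab.2)

def cert : List (ℕ × List ℕ) := (0,[2,1,8,4,16]) :: h9cQ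
def mm : ℕ → ℕ → ℕ := mulN [2,2,2,2,2,2] cert
def good (w : ℕ) : Bool :=
  force (mm w w) fun w2 => Nat.beq w 32 || Nat.beq w2 32 || Nat.beq (mm w2 w2) 32

theorem cnt64 : ∑ a ∈ Finset.range 64, ((Finset.range 64).filter fun b => (Nat.beq (a % 2) 0 &&
    Nat.beq (b % 2) 1 && !Nat.beq a 0 && Nat.beq (mm a a) 0 && Nat.beq (mm b b) 0 &&
      force (mm a b) good) = true).card = 64 := by decide +kernel

theorem mem_zpowers_iff_of_pow8 {G : Type*} [Group G] [Finite G] {w z : G} (hz : orderOf z = 2)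
    (h8 : (w * w * (w * w)) * (w * w * (w * w)) = 1) :
    z ∈ Subgroup.zpowers w ↔ w = z ∨ w * w = z ∨ w * w * (w * w) = z := by
  have m1 := Subgroup.mem_zpowers w
  have m2 := (Subgroup.zpowers w).mul_mem m1 m1
  have m4 := (Subgroup.zpowers w).mul_mem m2 m2
  constructor
  · intro h
    by_cases h4 : w * w * (w * w) = 1
    · by_cases h2 : w * w = 1
      · left
        rcases (h9_mem_zpowers_two h2).1 h with e | e
        · exact absurd e (h9_orderOf_eq_two_iff.1 hz).1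
        · exact e.symm
      · exact Or.inr (Or.inl (h9_invol_zpowers_unique m2 h (h9_orderOf_eq_two_iff.2 ⟨h2, h4⟩) hz))
    · exact Or.inr (Or.inr (h9_invol_zpowers_unique m4 h (h9_orderOf_eq_two_iff.2 ⟨h4, h8⟩) hz))
  · rintro (e | e | e) <;> rw [← e] <;> assumption

theorem count_coset {G : Type*} [Group G] [Finite G] {Q : Subgroup G} {z f k : G} (h : X5 Q z f)
    (hk : k ∈ Subgroup.normalizer (Q : Set G)) (hkf : k * f * k⁻¹ = f⁻¹) (hk2 : k * k = 1)
    (hkQ : k ∉ Q) : {p : G × G | p.1 ∈ Q ∧ k⁻¹ * p.2 ∈ Q ∧ p.1 ≠ 1 ∧ p.1 * p.1 = 1 ∧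
      p.2 * p.2 = 1 ∧ z ∈ Subgroup.zpowers (p.1 * p.2)}.ncard = 64 := by
  obtain ⟨a, c, A⟩ := h.exists_anti4 hk hkf
  have ki : k⁻¹ = k := inv_eq_of_mul_eq_one_right hk2
  have kz := h.toXS.comm_of_normalizer hk
  obtain ⟨b, hb⟩ : ∃ b, k * a * k⁻¹ = b := ⟨_, rfl⟩
  obtain ⟨d, hd⟩ : ∃ d, k * c * k⁻¹ = d := ⟨_, rfl⟩
  rw [hb, hd] at A
  have C := A.coded h.toXC h.card
  have P : IsPC [(k,2),(a,2),(b,2),(c,2),(d,2),(z,2)] cert := by
    refine ⟨A.isPC h.toXC, by norm_num, by simp [ev, pow_two, hk2], ?_⟩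
    have k1 : ∀ x, k * (k * x) = x := fun x => by rw [← mul_assoc, hk2, one_mul]
    simp [ev, kz, ← hb, ← hd, ki, mul_assoc, hk2, k1]
  have hev : ∀ n, ev [(k,2),(a,2),(b,2),(c,2),(d,2),(z,2)] n =
      k ^ (n % 2) * ev [(a,2),(b,2),(c,2),(d,2),(z,2)] (n / 2) := fun n => rfl
  have hQ : ∀ n, ev [(k,2),(a,2),(b,2),(c,2),(d,2),(z,2)] n ∈ Q ↔ n % 2 = 0 := by
    intro n
    rw [hev, Q.mul_mem_cancel_right (C.mem _)]
    rcases Nat.mod_two_eq_zero_or_one n with e | e <;> simp [e, hkQ]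
  have hQ' : ∀ n, k⁻¹ * ev [(k,2),(a,2),(b,2),(c,2),(d,2),(z,2)] n ∈ Q ↔ n % 2 = 1 := by
    intro n
    rw [hev, ← mul_assoc, Q.mul_mem_cancel_right (C.mem _)]
    rcases Nat.mod_two_eq_zero_or_one n with e | e <;> simp [e, hkQ]
  have D : Coded (gen [(k,2),(a,2),(b,2),(c,2),(d,2),(z,2)]) 64 mm
      (ev [(k,2),(a,2),(b,2),(c,2),(d,2),(z,2)]) := P.coded fun n hn h1 => by
    have h2 := (hQ n).1 (h1 ▸ Q.one_mem)
    rw [hev, h2, pow_zero, one_mul, C.eq_one_iff (by change n < 64 at hn; omega)] at h1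
    omega
  have hle : Q ≤ gen [(k,2),(a,2),(b,2),(c,2),(d,2),(z,2)] := fun x hx => by
    obtain ⟨n, -, rfl⟩ := C.surj x hx
    exact gen_le_gen_cons _ _ (ev_mem_gen _ _)
  have hkm : k ∈ gen [(k,2),(a,2),(b,2),(c,2),(d,2),(z,2)] := mem_gen_of_mem (x := (k, 2)) (by simp)
  have hz : z = ev [(k,2),(a,2),(b,2),(c,2),(d,2),(z,2)] 32 := by simp [ev]
  rw [← cnt64, ← coded_ncard_pairs D (fun u v => u ∈ Q ∧ k⁻¹ * v ∈ Q ∧ u ≠ 1 ∧ u * u = 1 ∧
      v * v = 1 ∧ z ∈ Subgroup.zpowers (u * v))]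
  · congr 1
    ext p
    simp only [Set.mem_ofPred_eq]
    refine ⟨fun hp => ⟨hle hp.1, ?_, hp⟩, fun hp => hp.2.2⟩
    have := Subgroup.mul_mem _ hkm (hle hp.2.1)
    simpa using this
  · intro u hu v hv
    have h8 : ∀ w < 64, mm (mm (mm w w) (mm w w)) (mm (mm w w) (mm w w)) = 0 := by decide +kernel
    rw [hQ, hQ', ne_eq, D.eq_one_iff hu, D.mul_eq_one_iff, D.mul_eq_one_iff, ← D.mul,
      mem_zpowers_iff_of_pow8 h.toXC.orderOf (by
        rw [← D.mul, ← D.mul, D.mul_eq_one_iff]; exact h8 _ (D.lt _ _))]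
    generalize ev [(k,2),(a,2),(b,2),(c,2),(d,2),(z,2)] = F at *
    rw [hz, ← D.mul, ← D.mul, D.eq_iff (D.lt _ _) (by norm_num), D.eq_iff (D.lt _ _) (by norm_num),
      D.eq_iff (D.lt _ _) (by norm_num)]
    have : ¬u = 0 ↔ u.beq 0 = false := by cases u <;> simp [Nat.beq]
    simp [force_eq, good, and_assoc, or_assoc, this]


/-- The order of a simple group with the involution pattern of the Hall–Janko group. Let G be a non-abelian finite simple group with exactly two conjugacy classes of involutions, represented by z and t, such that: F*(C_G(z)) is an extraspecial 2-group; Q = O₂(C_G(z)) has order 32 and C_G(z) is the semidirect product of Q by a subgroup isomorphic to A₅; every involution of Q is conjugate to z and every other involution of C_G(z) is conjugate to t; C_G(t) is an internal direct product V × B with V a four-group containing t and B ≅ A₅; every involution of B is conjugate to z and every other involution of C_G(t) is conjugate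 to t. Then |G| = 604800. -/
theorem result {G : Type*} [Group G] [Finite G]
    [IsSimpleGroup G] (hna : ¬ IsMulCommutative G) (z t : G) (hz : orderOf z = 2) (ht : orderOf t = 2)
    (hzt : ¬ IsConj z t) (hcl : ∀ x : G, orderOf x = 2 → IsConj x z ∨ IsConj x t)
    (hex : Cfsg.IsExtraspecial 2 ↥(Cfsg.generalizedFittingSubgroup ↥(Subgroup.centralizer ({z} : Set G))))
    (hQ : Nat.card ↥(Cfsg.pCore 2 ↥(Subgroup.centralizer ({z} : Set G))) = 32)
    (K : Subgroup G) (hK : Nonempty (↥K ≃* alternatingGroup (Fin 5)))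
    (hKC : K ⊔ (Cfsg.pCore 2 ↥(Subgroup.centralizer ({z} : Set G))).map (Subgroup.centralizer ({z} : Set G)).subtype = Subgroup.centralizer ({z} : Set G))
    (hKQ : K ⊓ (Cfsg.pCore 2 ↥(Subgroup.centralizer ({z} : Set G))).map (Subgroup.centralizer ({z} : Set G)).subtype = ⊥)
    (hQz : ∀ x ∈ (Cfsg.pCore 2 ↥(Subgroup.centralizer ({z} : Set G))).map (Subgroup.centralizer ({z} : Set G)).subtype, orderOf x = 2 → IsConj x z)
    (hCz : ∀ x ∈ Subgroup.centralizer ({z} : Set G), orderOf x = 2 →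
      x ∉ (Cfsg.pCore 2 ↥(Subgroup.centralizer ({z} : Set G))).map (Subgroup.centralizer ({z} : Set G)).subtype → IsConj x t)
    (V B : Subgroup G) (hVB : Cfsg.IsInternalDirectProduct V B (Subgroup.centralizer ({t} : Set G)))
    (hV : Nat.card ↥V = 4) (hV2 : ∀ v ∈ V, v ^ 2 = 1) (htV : t ∈ V) (hB : Nonempty (↥B ≃* alternatingGroup (Fin 5)))
    (hBz : ∀ x ∈ B, orderOf x = 2 → IsConj x z)
    (hCt : ∀ x ∈ Subgroup.centralizer ({t} : Set G), orderOf x = 2 → x ∉ B → IsConj x t) :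
    Nat.card G = 604800 := by
  classical
  set C := Subgroup.centralizer ({z} : Set G) with hC
  set Q := (Cfsg.pCore 2 ↥C).map C.subtype with hQdef
  obtain ⟨eK⟩ := hK
  obtain ⟨eB⟩ := hB
  have hF : Cfsg.generalizedFittingSubgroup C = Cfsg.pCore 2 C :=
    (fstar_eq_pCore_iff_isPGroup 2).2 hex.1.1
  obtain ⟨hzQ, hQC, hCN, hCQ⟩ := h9_fstar_centralizer_facts z
  have hFQ : Subgroup.map (Subgroup.centralizer {z}).subtype
      (generalizedFittingSubgroup ↥(Subgroup.centralizer ({z} : Set G))) = Q :=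
    congrArg (Subgroup.map C.subtype) hF
  rw [hFQ] at hzQ hQC hCN hCQ
  rw [← hC] at hQC hCN hCQ
  obtain ⟨z1, z2⟩ := h9_orderOf_eq_two_iff.1 hz
  obtain ⟨t1, t2⟩ := h9_orderOf_eq_two_iff.1 ht
  have hX : XS Q z := XS.of_isExtraspecial' (h9_isExtraspecial_of_equiv
    ((Cfsg.pCore 2 ↥C).equivMapOfInjective C.subtype C.subtype_injective) (hF ▸ hex)) hzQ z1
    fun a ha => Subgroup.mem_centralizer_singleton_iff.1 (hQC ha)
  have cQ : Nat.card Q = 32 := by rw [hQdef, Subgroup.card_map_of_injective C.subtype_injective, hQ]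
  have hKle : K ≤ C := hKC ▸ le_sup_left
  have hKN := hKle.trans hCN
  have cK : Nat.card K = 60 := by rw [Nat.card_congr eK.toEquiv, a5_card]
  have cB : Nat.card B = 60 := by rw [Nat.card_congr eB.toEquiv, a5_card]
  have cC : Nat.card C = 1920 := by
    have := card_sup_mul_card_inf hKN
    rw [hKC, hKQ, cK, cQ] at this
    simpa using this
  obtain ⟨hV1, hB1, hVB, hVB1, hVB2⟩ := hVB
  have hVN : V ≤ Subgroup.normalizer (B : Set G) := fun v hv =>
    h9_mem_normalizer_of_conj_mem fun b hb => by rw [hVB v hv b hb]; simpa using hb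
  have cT : Nat.card (Subgroup.centralizer ({t} : Set G)) = 240 := by
    have := card_sup_mul_card_inf hVN
    rw [hVB2, hVB1, hV, cB] at this
    simpa using this
  have KQ : ∀ x ∈ K, x ∈ Q → x = 1 := fun x h1 h2 => by
    rw [← Subgroup.mem_bot, ← hKQ]; exact ⟨h1, h2⟩
  have VB : ∀ x ∈ V, x ∈ B → x = 1 := fun x h1 h2 => by
    rw [← Subgroup.mem_bot, ← hVB1]; exact ⟨h1, h2⟩
  have az : (h9TA z t z).ncard = 960 := by
    have hdec : ∀ v ∈ C, ∃ k ∈ K, k⁻¹ * v ∈ Q := fun v hv => by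
      rw [← hKC] at hv
      obtain ⟨k, hk, q, hq, rfl⟩ := (mem_sup_of_le_normalizer_right hKN).1 hv
      exact ⟨k, hk, by simpa using hq⟩
    have huniq : ∀ v k k', k ∈ K → k' ∈ K → k⁻¹ * v ∈ Q → k'⁻¹ * v ∈ Q → k = k' := by
      intro v k k' hk hk' h1 h2
      have := KQ (k⁻¹ * k') (K.mul_mem (K.inv_mem hk) hk') (by
        simpa using Q.mul_mem h1 (Q.inv_mem h2))
      exact inv_mul_eq_one.1 this
    choose! π hπ using hdec
    have hI : {k | k ∈ K ∧ (k ≠ 1 ∧ k * k = 1)}.ncard = 15 := by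
      rw [← a5_cnt]
      refine ncard_transfer eK _ _ fun k => ?_
      rw [← map_mul, ne_eq, ne_eq, eK.map_eq_one_iff, eK.map_eq_one_iff]
      simp only [Subtype.ext_iff, Subgroup.coe_mul, Subgroup.coe_one]
    have hmem : ∀ p ∈ h9TA z t z, p.1 ∈ Q ∧ p.2 ∈ C ∧ p.2 ∉ Q ∧ orderOf p.1 = 2 ∧
        orderOf p.2 = 2 := by
      intro p hp
      have hc := h9TA_comm hz ht hz hp
      have o1 := (h9_orderOf_of_isConj hp.1).trans hz
      have o2 := (h9_orderOf_of_isConj hp.2.1).trans ht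
      refine ⟨?_, Subgroup.mem_centralizer_singleton_iff.2 hc.2, fun h2 => ?_, o1, o2⟩
      · by_contra h1
        exact hzt (hp.1.trans (hCz _ (Subgroup.mem_centralizer_singleton_iff.2 hc.1) o1 h1))
      · exact hzt ((hQz _ h2 o2).symm.trans hp.2.1.symm)
    rw [ncard_fiber (h9TA z t z) {k | k ∈ K ∧ (k ≠ 1 ∧ k * k = 1)} (fun p => π p.2) ?_ 64 ?_, hI]
    · intro p hp
      obtain ⟨-, h2, h3, -, h5⟩ := hmem p hp
      obtain ⟨h6, h7⟩ := hπ _ h2
      refine ⟨h6, fun e => h3 (by simpa [e] using h7), KQ _ (K.mul_mem h6 h6) ?_⟩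
      have h8 := Q.mul_mem (h9_conj_mem_of_mem_normalizer (hKN h6) h7) h7
      have h9 := (h9_orderOf_eq_two_iff.1 h5).2
      rw [show π p.2 * ((π p.2)⁻¹ * p.2) * (π p.2)⁻¹ * ((π p.2)⁻¹ * p.2) =
        p.2 * (π p.2 * π p.2)⁻¹ * p.2 by group] at h8
      have h10 := h9_conj_mem_of_mem_normalizer (hCN h2) h8
      rw [show p.2 * (p.2 * (π p.2 * π p.2)⁻¹ * p.2) * p.2⁻¹ = (p.2 * p.2) * (π p.2 * π p.2)⁻¹ by
        group, h9, one_mul] at h10
      simpa using Q.inv_mem h10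
    · rintro k ⟨hk, hk1, hk2⟩
      obtain ⟨f, f5, f1, hf⟩ := a5_inv (eK ⟨k, hk⟩) (by
        rw [← map_mul, eK.map_eq_one_iff]; exact Subtype.ext hk2) (by
        rw [ne_eq, eK.map_eq_one_iff]; exact fun e => hk1 (congrArg Subtype.val e))
      obtain ⟨f, rfl⟩ := eK.surjective f
      rw [← map_pow, eK.map_eq_one_iff] at f5
      rw [← map_inv, ← map_inv, ← map_mul, ← map_mul, eK.apply_eq_iff_eq] at hf
      have h5 : X5 Q z (f : G) := ⟨hX, cQ, congrArg Subtype.val f5, hKN f.2, by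
        by_contra hcon
        push Not at hcon
        exact f1 (by rw [show f = 1 from Subtype.ext (KQ _ f.2 (hCQ _ (hKle f.2) hcon)), map_one])⟩
      have hkQ : k ∉ Q := fun e => hk1 (KQ _ hk e)
      rw [← count_coset h5 (hKN hk) (congrArg Subtype.val hf) hk2 hkQ]
      congr 1
      ext p
      simp only [Set.mem_ofPred_eq]
      constructor
      · rintro ⟨hp, rfl⟩
        obtain ⟨h1, h2, h3, h4, h5⟩ := hmem p hp
        rw [h9_orderOf_eq_two_iff] at h4 h5
        exact ⟨h1, (hπ _ h2).2, h4.1, h4.2, h5.2, hp.2.2⟩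
      · rintro ⟨h1, h2, h3, h4, h6, h7⟩
        have hv : p.2 ∈ C := by simpa using C.mul_mem (hKle hk) (hQC h2)
        have hv' : p.2 ∉ Q := fun e => hkQ (by simpa using Q.mul_mem e (Q.inv_mem h2))
        refine ⟨⟨(hQz _ h1 (h9_orderOf_eq_two_iff.2 ⟨h3, h4⟩)).symm, (hCz _ hv
          (h9_orderOf_eq_two_iff.2 ⟨fun e => hv' (e ▸ Q.one_mem), h6⟩) hv').symm, h7⟩, ?_⟩
        exact huniq _ _ _ (hπ _ hv).1 hk (hπ _ hv).2 h2
  have hat : (h9TA z t t).ncard = 195 := by
    have hI : {k | k ∈ B ∧ (k ≠ 1 ∧ k * k = 1)}.ncard = 15 := by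
      rw [← a5_cnt]
      refine ncard_transfer eB _ _ fun k => ?_
      rw [← map_mul, ne_eq, ne_eq, eB.map_eq_one_iff, eB.map_eq_one_iff]
      simp only [Subtype.ext_iff, Subgroup.coe_mul, Subgroup.coe_one]
    have tB : t ∉ B := fun e => t1 (VB _ htV e)
    have hmem : ∀ p ∈ h9TA z t t, p.1 ∈ B ∧ p.2 ∈ Subgroup.centralizer ({t} : Set G) ∧ p.2 ∉ B ∧
        orderOf p.1 = 2 ∧ orderOf p.2 = 2 := by
      intro p hp
      have hc := h9TA_comm hz ht ht hp
      have o1 := (h9_orderOf_of_isConj hp.1).trans hz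
      have o2 := (h9_orderOf_of_isConj hp.2.1).trans ht
      refine ⟨?_, Subgroup.mem_centralizer_singleton_iff.2 hc.2, fun h2 => ?_, o1, o2⟩
      · by_contra h1
        exact hzt (hp.1.trans (hCt _ (Subgroup.mem_centralizer_singleton_iff.2 hc.1) o1 h1))
      · exact hzt ((hBz _ h2 o2).symm.trans hp.2.1.symm)
    rw [ncard_fiber (h9TA z t t) {k | k ∈ B ∧ (k ≠ 1 ∧ k * k = 1)} (fun p => p.1) ?_ 13 ?_, hI]
    · intro p hp
      obtain ⟨h1, -, -, h4, -⟩ := hmem p hp
      exact ⟨h1, h9_orderOf_eq_two_iff.1 h4⟩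
    · rintro u ⟨hu, hu1, hu2⟩
      rw [← a5_cnt2 (eB ⟨u, hu⟩) (by
        rw [ne_eq, eB.map_eq_one_iff]; exact fun e => hu1 (congrArg Subtype.val e)) (by
        rw [← map_mul, eB.map_eq_one_iff]; exact Subtype.ext hu2),
        ← ncard_transfer eB (fun k => k ≠ 1 ∧ k * k = 1 ∧ (u * k = k * u → u = k)) _ (fun k => by
          rw [← map_mul, ← map_mul, ← map_mul, ne_eq, ne_eq, eB.map_eq_one_iff, eB.map_eq_one_iff,
            eB.apply_eq_iff_eq, eB.apply_eq_iff_eq]
          simp only [Subtype.ext_iff, Subgroup.coe_mul, Subgroup.coe_one, ne_eq])]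
      symm
      refine Set.ncard_congr (fun b _ => (u, t * b)) ?_ ?_ ?_
      · rintro b ⟨hb, hb1, hb2, hb3⟩
        have tb := hVB t htV b hb
        have tu := hVB t htV u hu
        have htb : t * b ∉ B := fun e => tB (by simpa using B.mul_mem e (B.inv_mem hb))
        refine ⟨⟨(hBz u hu (h9_orderOf_eq_two_iff.2 ⟨hu1, hu2⟩)).symm, (hCt _ ?_
          (h9_orderOf_eq_two_iff.2 ⟨fun e : t * b = 1 => htb (by rw [e]; exact B.one_mem), ?_⟩) htb).symm, ?_⟩, rfl⟩
        · rw [Subgroup.mem_centralizer_singleton_iff, mul_assoc, ← tb]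
        · rw [mul_assoc, ← mul_assoc b, ← tb, mul_assoc, hb2, mul_one, t2]
        · have h15 : (u * b) ^ 15 = 1 := by
            rcases a5_ord (eB ⟨u * b, B.mul_mem hu hb⟩) with e | e | e
            · rw [← map_mul, eB.map_eq_one_iff] at e
              rw [← hb3 (h9_comm_of_sq hu2 hb2 (congrArg Subtype.val e)), hu2, one_pow]
            · rw [← map_pow, eB.map_eq_one_iff] at e
              have : (u * b) ^ 3 = 1 := congrArg Subtype.val e
              rw [show 15 = 3 * 5 from rfl, pow_mul, this, one_pow]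
            · rw [← map_pow, eB.map_eq_one_iff] at e
              have : (u * b) ^ 5 = 1 := congrArg Subtype.val e
              rw [show 15 = 5 * 3 from rfl, pow_mul, this, one_pow]
          have hc : Commute t (u * b) := hVB t htV _ (B.mul_mem hu hb)
          refine ⟨(15 : ℕ), ?_⟩
          simp only [zpow_natCast]
          rw [← mul_assoc, ← tu, mul_assoc, hc.mul_pow, h15, mul_one,
            show 15 = 2 * 7 + 1 from rfl, pow_succ, pow_mul, pow_two, t2, one_pow, one_mul]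
      · intro a b _ _ hab
        simpa using hab
      · rintro p ⟨hp, rfl⟩
        obtain ⟨h1, h2, h3, h4, h5⟩ := hmem p hp
        rw [← hVB2] at h2
        obtain ⟨w, hw, b, hb, e⟩ := (mem_sup_of_le_normalizer_right hVN).1 h2
        have wb := hVB w hw b hb
        have w2 : w * w = 1 := by rw [← pow_two, hV2 w hw]
        have b2 : b * b = 1 := by
          have := (h9_orderOf_eq_two_iff.1 h5).2
          rwa [← e, mul_assoc, ← mul_assoc b, ← wb, mul_assoc, ← mul_assoc, w2, one_mul] at this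
        obtain ⟨n, hn⟩ := mem_powers_iff_mem_zpowers.2 hp.2.2
        have hc : Commute w (p.1 * b) := hVB w hw _ (B.mul_mem h1 hb)
        simp only at hn
        rw [← e, ← mul_assoc, ← hVB w hw _ h1, mul_assoc, hc.mul_pow] at hn
        have h6 : (p.1 * b) ^ n = 1 := VB _ (by
          rw [eq_inv_mul_of_mul_eq hn]
          exact V.mul_mem (V.inv_mem (V.pow_mem hw n)) htV) (B.pow_mem (B.mul_mem h1 hb) n)
        rw [h6, mul_one] at hn
        have hodd : Odd n := by
          rcases Nat.even_or_odd n with ⟨m, rfl⟩ | h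
          · rw [← two_mul, pow_mul, pow_two, w2, one_pow] at hn; exact absurd hn.symm t1
          · exact h
        have wt : w = t := by
          obtain ⟨m, rfl⟩ := hodd
          rwa [pow_succ, pow_mul, pow_two, w2, one_pow, one_mul] at hn
        have ho : Odd (orderOf (p.1 * b)) := Odd.of_dvd_nat hodd (orderOf_dvd_of_pow_eq_one h6)
        refine ⟨b, ⟨hb, ?_, b2, fun hcm => ?_⟩, Prod.ext rfl (by rw [← wt]; exact e)⟩
        · rintro rfl
          rw [mul_one, h4] at ho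
          exact absurd ho (by decide)
        · have := h9_eq_one_of_odd_of_sq ho (by
            rw [mul_assoc, ← mul_assoc b, ← hcm, mul_assoc, b2, mul_one, hu2])
          rw [eq_inv_of_mul_eq_one_left this, inv_eq_of_mul_eq_one_right b2]
  rw [h9_thompson_order hz ht hzt (fun x hx => (hcl x hx).imp IsConj.symm IsConj.symm), az, hat,
    cT, cC]

end Cfsg.Agent.S3313
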