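import Cfsg.Statements.S3315
import Mathlib
import Cfsg.Agent.Lib.Misc.U3Syl

set_option autoImplicit false
open Cfsg

namespace Cfsg.Agent.S3315

open Cfsg.Lib


/-- Let S be a Sylow 2-subgroup of SU₃(2ⁿ), n ≥ 2 (realised over the field with 4ⁿ elements). If a finite 2-group R contains a subgroup S' of index 2 isomorphic to S, then the centre of S' is contained in the centre of R. -/
theorem result {R : Type*} [Group R] [Finite R]
    (hR : IsPGroup 2 R) (n : ℕ) (hn : 2 ≤ n) {F : Type*} [Field F] [Fintype F] (hF : Fintype.card F = 4 ^ n)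
    (P : Sylow 2 ↥(Cfsg.SU 3 F (2 ^ n))) (S' : Subgroup R) (hS : Nonempty (↥S' ≃* ↥(P : Subgroup ↥(Cfsg.SU 3 F (2 ^ n)))))
    (hidx : S'.index = 2) :
    (Subgroup.center ↥S').map S'.subtype ≤ Subgroup.center R := by
  obtain ⟨h2, τ, hq, hτ, hω, hσ⟩ := h9_u3_field hF
  haveI : Fact (Function.Involutive τ) := ⟨hτ⟩
  obtain ⟨e1⟩ := hS
  obtain ⟨e2⟩ := h9_u3_sylow_equiv h2 hq hω P
  let e := e1.trans e2
  haveI := Subgroup.normal_of_index_eq_two hidx
  rintro _ ⟨z, hz, rfl⟩
  refine Subgroup.mem_center_iff.2 fun r => ?_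
  let θ : MulAut (U3S τ) := e.symm.trans ((MulAut.conjNormal r).trans e)
  have hθ : ∀ s : S', θ (e s) = e (MulAut.conjNormal r s) := fun s => by simp [θ]
  obtain ⟨l, hl, σ, h3, h4⟩ := U3S.aut_struct hω h2 θ
  have h5 : ∀ x, (θ (θ x)).a = x.a := by
    intro x
    obtain ⟨s, rfl⟩ := e.surjective x
    have h6 : MulAut.conjNormal r (MulAut.conjNormal r s) =
        ⟨r * r, Subgroup.mul_self_mem_of_index_two hidx r⟩ * s *
          ⟨r * r, Subgroup.mul_self_mem_of_index_two hidx r⟩⁻¹ := Subtype.ext (by simp [mul_assoc])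
    rw [hθ, hθ, h6, map_mul, map_mul, map_inv]
    simp
  have h6 : ∀ a, l * σ l * σ (σ a) = a := by
    intro a
    obtain ⟨x, rfl⟩ := U3S.exists_a hω h2 a
    have := h5 x
    rwa [h4, h4, map_mul, ← mul_assoc] at this
  have h7 : l * σ l = 1 := by simpa using h6 1
  have h8 : ∀ a, σ (σ a) = a := fun a => by simpa [h7] using h6 a
  have hza : (e z).a = 0 := by
    rw [← U3S.mem_center_iff hω h2, Subgroup.mem_center_iff]
    intro g
    obtain ⟨g, rfl⟩ := e.surjective g
    rw [← map_mul, ← map_mul, Subgroup.mem_center_iff.1 hz]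
  have h9 : θ (e z) = e z := by
    refine U3S.ext (by rw [h4, hza]; simp) ?_
    rw [U3S.aut_center h2 hω h4 h3 hza]
    rcases hσ σ h8 with h | h
    · rw [h] at h7 ⊢
      have : l = 1 := by
        rcases mul_self_eq_one_iff.1 h7 with h | h
        · exact h
        · linear_combination h - h2
      simp [this]
    · rw [h] at h7 ⊢
      rw [h7, one_mul, U3S.fix_of_a h2 hza]
  rw [hθ, e.injective.eq_iff, Subtype.ext_iff] at h9
  exact mul_inv_eq_iff_eq_mul.1 h9

end Cfsg.Agent.S3315
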